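import Mathlib

/-! Permutations agreeing with affine maps on triples: `affine_of_triples`; transitivity of `GL` on
independent families (`exists_linearEquiv_of_li`). -/

set_option autoImplicit false

namespace H29

section
variable {F V : Type*} [Field F] [AddCommGroup V] [Module F V]

theorem exists_linearEquiv_of_li {ι : Type*} [Finite ι] {u v : ι → V} (hu : LinearIndependent F u)
    (hv : LinearIndependent F v) : ∃ A : V ≃ₗ[F] V, ∀ i, A (u i) = v i := by
  have : FiniteDimensional F (Submodule.span F (Set.range u)) :=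
    FiniteDimensional.span_of_finite F (Set.finite_range _)
  obtain ⟨g, hg⟩ := Submodule.exists_linearEquiv_restrict_eq
    (hu.linearCombinationEquiv.symm ≪≫ₗ hv.linearCombinationEquiv)
  refine ⟨g, fun i => ?_⟩
  have h1 : u i = hu.linearCombinationEquiv (Finsupp.single i 1) := by simp
  rw [h1, ← hg]
  simp

theorem affine_of_triples (h2 : (2 : F) ≠ 0) (σ : Equiv.Perm V)
    (h : ∀ t : Fin 3 → V, ∃ (A : V ≃ₗ[F] V) (b : V), ∀ i, σ (t i) = A (t i) + b) :
    ∃ A : V ≃ₗ[F] V, ∀ x, σ x = A x + σ 0 := by
  have h1 : ∀ (x y : V) (c : F), σ ((1 - c) • x + c • y) = (1 - c) • σ x + c • σ y := fun x y c => by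
    obtain ⟨A, b, hA⟩ := h ![x, y, (1 - c) • x + c • y]
    have e0 : σ x = A x + b := hA 0
    have e1 : σ y = A y + b := hA 1
    have e2 : σ ((1 - c) • x + c • y) = A ((1 - c) • x + c • y) + b := hA 2
    rw [e0, e1, e2, map_add, map_smul, map_smul]
    module
  have hs : ∀ (c : F) (y : V), σ (c • y) - σ 0 = c • (σ y - σ 0) := fun c y => by
    have := h1 0 y c
    rw [smul_zero, zero_add] at this
    rw [this]; module
  have ha : ∀ x y : V, σ (x + y) - σ 0 = (σ x - σ 0) + (σ y - σ 0) := fun x y => by
    have e1 : (1 - (2 : F)⁻¹) = 2⁻¹ := by field_simp; norm_num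
    have e2 := h1 x y 2⁻¹
    rw [e1, ← smul_add, ← smul_add] at e2
    have e3 := hs 2⁻¹ (x + y)
    rw [e2] at e3
    have e4 := congrArg (fun v => (2 : F) • v) e3
    simp only [smul_sub, smul_smul, mul_inv_cancel₀ h2, one_smul] at e4
    rw [← e4]; module
  refine ⟨{ toFun := fun x => σ x - σ 0, map_add' := ha, map_smul' := hs,
            invFun := fun y => σ.symm (y + σ 0), left_inv := fun x => by simp,
            right_inv := fun y => by simp }, fun x => by simp⟩

end

end H29
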