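import Cfsg.Agent.H29.Cv2

/-! Small arithmetic facts for the low-dimensional lists of maximal subgroups. -/

set_option autoImplicit false

namespace H29

open Cfsg.Geo

theorem eq_of_pow {n r m p : ℕ} (h : n = r ^ m) (hr : r.Prime) (hp : p.Prime) (hd : p ∣ n) :
    r = p := ((Nat.prime_dvd_prime_iff_eq hp hr).1 (hp.dvd_of_dvd_pow (h ▸ hd))).symm

theorem wr_cases {k t : ℕ} (hk : 3 ≤ k) (ht : 2 ≤ t) (h : k ^ t ≤ 15) : k = 3 ∧ t = 2 := by
  have h1 : k ^ 2 ≤ k ^ t := Nat.pow_le_pow_right (by omega) ht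
  obtain rfl : k = 3 := by nlinarith
  refine ⟨rfl, by_contra fun h2 => ?_⟩
  have : 3 ^ 3 ≤ 3 ^ t := Nat.pow_le_pow_right (by omega) (by omega)
  omega

variable {F : Type*} [Field F] [Fintype F] {p e r : ℕ}

theorem min_one {z : ℕ} (hz : 1 < z) (h : IsMinimalFieldFor z p 1 F) :
    p.Prime ∧ Fintype.card F = p ∧ p % z = 1 :=
  ⟨h.1, by simpa using h.2.2.1, by simpa [Nat.ModEq, Nat.mod_eq_of_lt hz] using min_modEq h⟩

theorem min_odd_three (h : IsMinimalFieldFor 3 p e F) (hp : 3 ≠ p) (he : Odd e) :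
    p.Prime ∧ Fintype.card F = p ∧ p % 3 = 1 := by
  have := min_dvd_pred h Nat.prime_three hp
  have h1 := Nat.le_of_dvd (by norm_num) this
  obtain ⟨k, rfl⟩ := he
  obtain rfl : k = 0 := by omega
  exact min_one (by norm_num) h

theorem min_odd_five (h : IsMinimalFieldFor 5 p e F) (hp : 5 ≠ p) (he : Odd e) :
    p.Prime ∧ Fintype.card F = p ∧ p % 5 = 1 := by
  have := min_dvd_pred h Nat.prime_five hp
  have h1 := Nat.le_of_dvd (by norm_num) this
  obtain ⟨k, rfl⟩ := he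
  obtain rfl : k = 0 := by
    have : k ≤ 1 := by omega
    interval_cases k <;> omega
  exact min_one (by norm_num) h

theorem min_odd_seven (h : IsMinimalFieldFor 7 p e F) (hp : 7 ≠ p) (he : Odd e) :
    p.Prime ∧ CharP F p ∧ ((Fintype.card F = p ∧ p % 7 = 1) ∨
      (Fintype.card F = p ^ 3 ∧ (p % 7 = 2 ∨ p % 7 = 4))) := by
  have := min_dvd_pred h (by norm_num) hp
  have h1 := Nat.le_of_dvd (by norm_num) this
  obtain ⟨k, rfl⟩ := he
  obtain rfl | rfl : k = 0 ∨ k = 1 := by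
    have : k ≤ 2 := by omega
    interval_cases k <;> omega
  · exact ⟨h.1, h.2.1, .inl (min_one (by norm_num) h).2⟩
  · refine ⟨h.1, h.2.1, .inr ⟨h.2.2.1, ?_⟩⟩
    have h2 := min_modEq h
    have h3 := min_ne_one h (by norm_num)
    have h4 := Nat.mod_lt p (by norm_num : 0 < 7)
    rw [Nat.ModEq, Nat.pow_mod] at h2
    interval_cases p % 7 <;> simp_all

theorem min_odd_eleven (h : IsMinimalFieldFor 11 p e F) (hp : 11 ≠ p) (he : Odd e) :
    p.Prime ∧ CharP F p ∧ ((Fintype.card F = p ∧ p % 11 = 1) ∨ (Fintype.card F = p ^ 5 ∧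
      (p % 11 = 3 ∨ p % 11 = 4 ∨ p % 11 = 5 ∨ p % 11 = 9))) := by
  have := min_dvd_pred h (by norm_num) hp
  have h1 := Nat.le_of_dvd (by norm_num) this
  obtain ⟨k, rfl⟩ := he
  obtain rfl | rfl : k = 0 ∨ k = 2 := by
    have : k ≤ 4 := by omega
    interval_cases k <;> omega
  · exact ⟨h.1, h.2.1, .inl (min_one (by norm_num) h).2⟩
  · refine ⟨h.1, h.2.1, .inr ⟨h.2.2.1, ?_⟩⟩
    have h2 := min_modEq h
    have h3 := min_ne_one h (by norm_num)
    have h4 := Nat.mod_lt p (by norm_num : 0 < 11)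
    rw [Nat.ModEq, Nat.pow_mod] at h2
    interval_cases p % 11 <;> simp_all

end H29
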