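import Cfsg.Agent.H29.As3

/-! Aschbacher's theorem, part 4: forms given by Gram matrices (`fm σ G`, `HF σ ε G`), adjoints
`adj σ G`, similarities `Sim σ G`, isometries `Iso σ G`, uniqueness of invariant forms, transport
`gT`, factorisation of the Gram matrix along tensor decompositions and subfield structures. -/

set_option autoImplicit false
set_option linter.unusedSectionVars false

namespace H29

open Matrix Cfsg.Geo Module
open scoped Kronecker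

variable {F : Type*} [Field F] {ι κ μ : Type} [Fintype ι] [DecidableEq ι] [Fintype κ]
  [DecidableEq κ] [Fintype μ] [DecidableEq μ] {σ : F →+* F}

/-- the sesquilinear form with Gram matrix `G` -/
def fm (σ : F →+* F) (G : Matrix ι ι F) : (ι → F) → (ι → F) → F := formOfGram σ G

theorem fm_eq (G : Matrix ι ι F) (x y : ι → F) : fm σ G x y = x ⬝ᵥ G *ᵥ (σ ∘ y) := by
  simp [fm, formOfGram, dotProduct, mulVec, Finset.mul_sum, mul_assoc]

variable {G G' : Matrix ι ι F} {ε : F}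

theorem fm_add_left (x y z : ι → F) : fm σ G (x + y) z = fm σ G x z + fm σ G y z := by
  simp only [fm_eq, add_dotProduct]

theorem fm_smul_left (c : F) (x y : ι → F) : fm σ G (c • x) y = c * fm σ G x y := by
  simp only [fm_eq, smul_dotProduct, smul_eq_mul]

theorem fm_add_right (x y z : ι → F) : fm σ G x (y + z) = fm σ G x y + fm σ G x z := by
  simp only [fm, formOfGram, Pi.add_apply, map_add, mul_add, Finset.sum_add_distrib]

theorem fm_smul_right (c : F) (x y : ι → F) : fm σ G x (c • y) = σ c * fm σ G x y := by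
  simp only [fm, formOfGram, Pi.smul_apply, smul_eq_mul, map_mul, Finset.mul_sum, mul_left_comm]

@[simp] theorem fm_zero_left (y : ι → F) : fm σ G 0 y = 0 := by simp [fm_eq]
@[simp] theorem fm_zero_right (y : ι → F) : fm σ G y 0 = 0 := by simp [fm, formOfGram]

theorem fm_single (a b : ι) : fm σ G (Pi.single a 1) (Pi.single b 1) = G a b := by
  simp [fm, formOfGram, Pi.single_apply, apply_ite σ]

@[simp] theorem gram_fm : gramMatrix (fm σ G) = G := by ext a b; exact fm_single a b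

theorem fm_ext (h : ∀ x y, fm σ G x y = fm σ G' x y) : G = G' := by
  ext a b
  rw [← fm_single (σ := σ) (G := G), h, fm_single]

theorem fm_smul (c : F) (x y : ι → F) : fm σ (c • G) x y = c * fm σ G x y := by
  simp only [fm_eq, smul_mulVec, dotProduct_smul, smul_eq_mul]

theorem fm_add (x y : ι → F) : fm σ (G + G') x y = fm σ G x y + fm σ G' x y := by
  simp only [fm_eq, add_mulVec, dotProduct_add]

theorem comp_mulVec (a : Matrix ι κ F) (y : κ → F) : σ ∘ (a *ᵥ y) = a.map σ *ᵥ (σ ∘ y) := by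
  ext i
  exact RingHom.map_mulVec σ a y i

theorem fm_mulVec (a b : Matrix ι κ F) (x y : κ → F) :
    fm σ G (a *ᵥ x) (b *ᵥ y) = fm σ (aᵀ * G * b.map σ) x y := by
  rw [fm_eq, fm_eq, comp_mulVec, ← vecMul_transpose, ← dotProduct_mulVec, mulVec_mulVec,
    mulVec_mulVec, Matrix.mul_assoc]

theorem fm_mulVec_left (a : Matrix ι ι F) (x y : ι → F) :
    fm σ G (a *ᵥ x) y = fm σ (aᵀ * G) x y := by simpa using fm_mulVec (G := G) a 1 x y

theorem fm_mulVec_right (a : Matrix ι ι F) (x y : ι → F) :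
    fm σ G x (a *ᵥ y) = fm σ (G * a.map σ) x y := by simpa using fm_mulVec (G := G) 1 a x y

theorem fm_swap (hσ : ∀ a, σ (σ a) = a) (x y : ι → F) :
    fm σ (G.map σ)ᵀ x y = σ (fm σ G y x) := by
  simp only [fm, formOfGram, map_sum, map_mul, hσ, transpose_apply, map_apply]
  rw [Finset.sum_comm]
  exact Finset.sum_congr rfl fun _ _ => Finset.sum_congr rfl fun _ _ => by ring

theorem eq_fm {f : (ι → F) → (ι → F) → F} (h1 : ∀ x y v, f (x + y) v = f x v + f y v)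
    (h2 : ∀ (c : F) x v, f (c • x) v = c * f x v) (h3 : ∀ v x y, f v (x + y) = f v x + f v y)
    (h4 : ∀ (c : F) v x, f v (c • x) = σ c * f v x) : f = fm σ (gramMatrix f) := by
  ext x y
  let L : (ι → F) →ₗ[F] (ι → F) →ₛₗ[σ] F := LinearMap.mk₂'ₛₗ (RingHom.id F) σ f h1 h2 h3 h4
  change L x y = _
  conv_lhs => rw [pi_eq_sum_univ' x, pi_eq_sum_univ' y]
  simp only [map_sum, map_smulₛₗ, LinearMap.sum_apply, LinearMap.smul_apply, smul_eq_mul,
    Finset.mul_sum]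
  rw [Finset.sum_comm]
  exact Finset.sum_congr rfl fun _ _ => Finset.sum_congr rfl fun _ _ => by
    simp only [L, LinearMap.mk₂'ₛₗ_apply, RingHom.id_apply, gramMatrix]; ring

theorem map_map_σ (hσ : ∀ a, σ (σ a) = a) (a : Matrix ι κ F) : (a.map σ).map σ = a := by
  ext i j; exact hσ _

theorem map_smul_σ (c : F) (a : Matrix ι κ F) : (c • a).map σ = σ c • a.map σ := by
  ext i j; simp

theorem isUnit_map (h : IsUnit G) : IsUnit (G.map σ) := h.map σ.mapMatrix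

theorem nondeg_left (h : IsUnit G) {x : ι → F} (hσ : ∀ a, σ (σ a) = a) (hx : ∀ y, fm σ G x y = 0) :
    x = 0 := (vecMul_injective_iff_isUnit.2 h) (by
  ext i
  have := hx (Pi.single i 1)
  rw [fm_eq, dotProduct_mulVec, show σ ∘ Pi.single i 1 = Pi.single i (1 : F) by
    ext j; simp [Pi.single_apply, apply_ite σ]] at this
  simpa using this)

theorem isUnit_of_nondeg (h : ∀ x, (∀ y, fm σ G x y = 0) → x = 0) : IsUnit G :=
  vecMul_injective_iff_isUnit.1 fun x y hxy => sub_eq_zero.1 (h _ fun z => by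
    rw [fm_eq, dotProduct_mulVec, sub_vecMul, show x ᵥ* G = y ᵥ* G from hxy]; simp)

/-- non-degenerate `ε`-hermitian Gram matrices -/
structure HF (σ : F →+* F) (ε : F) (G : Matrix ι ι F) : Prop where
  σσ : ∀ a, σ (σ a) = a
  unit : IsUnit G
  herm : Gᵀ = ε • G.map σ

theorem HF.swap (h : HF σ ε G) (x y : ι → F) : fm σ G x y = ε * σ (fm σ G y x) := by
  rw [← fm_swap h.σσ, ← fm_smul, ← transpose_smul, ← h.herm, transpose_transpose]

theorem HF.of_swap (hσ : ∀ a, σ (σ a) = a) (hu : IsUnit G)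
    (h : ∀ x y, fm σ G x y = ε * σ (fm σ G y x)) : HF σ ε G :=
  ⟨hσ, hu, by ext a b; simpa [fm_single] using h (Pi.single b 1) (Pi.single a 1)⟩

theorem HF.left (h : HF σ ε G) {x : ι → F} (hx : ∀ y, fm σ G x y = 0) : x = 0 :=
  nondeg_left h.unit h.σσ hx

theorem HF.right (h : HF σ ε G) {x : ι → F} (hx : ∀ y, fm σ G y x = 0) : x = 0 :=
  h.left fun y => by rw [h.swap, hx, map_zero, mul_zero]

theorem HF.eq_zero_comm (h : HF σ ε G) {x y : ι → F} (h0 : fm σ G x y = 0) : fm σ G y x = 0 := by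
  rw [h.swap, h0, map_zero, mul_zero]

theorem HF.nondeg (h : HF σ ε G) : IsNondegenerateForm (fm σ G) := fun v hv =>
  ⟨not_forall.1 fun h0 => hv (h.right h0), not_forall.1 fun h0 => hv (h.left h0)⟩

theorem HF.norm [Nonempty ι] (h : HF σ ε G) : ε * σ ε = 1 := by
  obtain ⟨i⟩ := ‹Nonempty ι›
  obtain ⟨x, hx⟩ := (h.nondeg (Pi.single i 1) (by simp)).1
  have := h.swap x (Pi.single i 1)
  rw [h.swap _ x, map_mul, h.σσ, ← mul_assoc] at this
  exact (mul_eq_right₀ hx).1 this.symm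

theorem HF.ε_cases [Nonempty ι] (h : HF (RingHom.id F) ε G) : ε = 1 ∨ ε = -1 :=
  mul_self_eq_one_iff.1 h.norm

theorem HF.smul (h : HF σ ε G) {c ε' : F} (hc : c ≠ 0) (he : c * ε = ε' * σ c) :
    HF σ ε' (c • G) :=
  ⟨h.σσ, by rw [Algebra.smul_def]; exact ((IsUnit.mk0 c hc).map _).mul h.unit, by
    rw [transpose_smul, h.herm, map_smul_σ, smul_smul, smul_smul, he]⟩

theorem HF.exists_herm [Nonempty ι] (h : HF σ ε G) (hne : σ ≠ RingHom.id F) :
    ∃ c : F, c ≠ 0 ∧ HF σ 1 (c • G) := by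
  obtain ⟨θ, hθ⟩ : ∃ θ, θ + σ ε * σ θ ≠ 0 := by
    by_contra hc
    push Not at hc
    have h1 := hc 1
    exact hne (RingHom.ext fun θ => by
      rw [map_one] at h1; rw [RingHom.id_apply]; linear_combination σ θ * h1 - hc θ)
  refine ⟨_, hθ, h.smul hθ ?_⟩
  rw [map_add, map_mul, h.σσ, h.σσ]
  linear_combination σ θ * h.norm

/-- the adjoint -/
noncomputable def adj (σ : F →+* F) (G a : Matrix ι ι F) : Matrix ι ι F := (G⁻¹ * aᵀ * G).map σ

theorem mul_adj (hσ : ∀ a, σ (σ a) = a) (hu : IsUnit G) (a : Matrix ι ι F) :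
    G * (adj σ G a).map σ = aᵀ * G := by
  rw [adj, map_map_σ hσ, mul_assoc, mul_nonsing_inv_cancel_left _ _ ((isUnit_iff_isUnit_det G).1 hu)]

theorem HF.fm_adj (h : HF σ ε G) (a : Matrix ι ι F) (x y : ι → F) :
    fm σ G (a *ᵥ x) y = fm σ G x (adj σ G a *ᵥ y) := by
  rw [fm_mulVec_left, fm_mulVec_right, mul_adj h.σσ h.unit]

theorem adj_eq (hσ : ∀ a, σ (σ a) = a) (hu : IsUnit G) {a b : Matrix ι ι F}
    (h : aᵀ * G = G * b.map σ) : adj σ G a = b := by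
  rw [adj, mul_assoc, h, nonsing_inv_mul_cancel_left _ _ ((isUnit_iff_isUnit_det G).1 hu),
    map_map_σ hσ]

theorem HF.adj_eq (h : HF σ ε G) {a b : Matrix ι ι F}
    (H : ∀ x y, fm σ G (a *ᵥ x) y = fm σ G x (b *ᵥ y)) : adj σ G a = b :=
  H29.adj_eq h.σσ h.unit (fm_ext (σ := σ) fun x y => by
    rw [← fm_mulVec_left, H, fm_mulVec_right])

theorem HF.adj_mul (h : HF σ ε G) (a b : Matrix ι ι F) :
    adj σ G (a * b) = adj σ G b * adj σ G a :=
  h.adj_eq fun x y => by rw [← mulVec_mulVec, h.fm_adj, h.fm_adj, mulVec_mulVec]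

theorem adj_add (a b : Matrix ι ι F) : adj σ G (a + b) = adj σ G a + adj σ G b := by
  simp [adj, mul_add, add_mul, Matrix.map_add]

theorem adj_sub (a b : Matrix ι ι F) : adj σ G (a - b) = adj σ G a - adj σ G b := by
  simp [adj, mul_sub, sub_mul, Matrix.map_sub]

theorem adj_smul (c : F) (a : Matrix ι ι F) : adj σ G (c • a) = σ c • adj σ G a := by
  simp [adj, map_smul_σ]

@[simp] theorem adj_zero : adj σ G 0 = 0 := by simp [adj]

theorem HF.adj_one (h : HF σ ε G) : adj σ G 1 = 1 := h.adj_eq fun x y => by simp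

theorem HF.adj_pow (h : HF σ ε G) (a : Matrix ι ι F) (n : ℕ) :
    adj σ G (a ^ n) = adj σ G a ^ n := by
  induction n with
  | zero => simpa using h.adj_one
  | succ n ih => rw [pow_succ, h.adj_mul, ih, pow_succ']

theorem HF.fm_adj' (h : HF σ ε G) (a : Matrix ι ι F) (x y : ι → F) :
    fm σ G (adj σ G a *ᵥ x) y = fm σ G x (a *ᵥ y) := by
  rw [h.swap, ← h.fm_adj, ← h.swap]

theorem HF.adj_adj (h : HF σ ε G) (a : Matrix ι ι F) : adj σ G (adj σ G a) = a :=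
  h.adj_eq (h.fm_adj' a)

theorem adj_smul_left {c : F} (hc : c ≠ 0) (hσ : ∀ a, σ (σ a) = a) (hu : IsUnit G)
    (a : Matrix ι ι F) : adj σ (c • G) a = adj σ G a :=
  adj_eq hσ (by rw [Algebra.smul_def]; exact ((IsUnit.mk0 c hc).map _).mul hu)
    (by rw [Matrix.mul_smul, Matrix.smul_mul, mul_adj hσ hu])

/-- similarities -/
abbrev Sim (σ : F →+* F) (G : Matrix ι ι F) : Subgroup (GL ι F) := similarityGroup (fm σ G)

theorem mem_Sim {g : GL ι F} : g ∈ Sim σ G ↔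
    ∃ c : F, c ≠ 0 ∧ (g : Matrix ι ι F)ᵀ * G * (g : Matrix ι ι F).map σ = c • G :=
  ⟨fun ⟨c, h⟩ => ⟨c, c.ne_zero, fm_ext (σ := σ) fun x y => by rw [← fm_mulVec, h, fm_smul]⟩,
    fun ⟨c, hc, h⟩ => ⟨Units.mk0 c hc, fun x y => by rw [fm_mulVec, h, fm_smul]; rfl⟩⟩

theorem Sim_smul {c : F} (hc : c ≠ 0) : Sim σ (c • G) = Sim σ G := by
  ext g
  simp only [mem_Sim, Matrix.mul_smul, Matrix.smul_mul, smul_comm _ c,
    (smul_right_injective _ hc).eq_iff]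

/-- isometries -/
def Iso (σ : F →+* F) (G : Matrix ι ι F) : Subgroup (GL ι F) where
  carrier := {g | ∀ x y, fm σ G ((g : Matrix ι ι F) *ᵥ x) ((g : Matrix ι ι F) *ᵥ y) = fm σ G x y}
  mul_mem' ha hb x y := by rw [Units.val_mul, ← mulVec_mulVec, ← mulVec_mulVec, ha, hb]
  one_mem' x y := by simp
  inv_mem' {g} h x y := by rw [← h, mulVec_inv_mulVec, mulVec_inv_mulVec]

theorem mem_Iso {g : GL ι F} : g ∈ Iso σ G ↔
    (g : Matrix ι ι F)ᵀ * G * (g : Matrix ι ι F).map σ = G :=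
  ⟨fun h => fm_ext (σ := σ) fun x y => by rw [← fm_mulVec, h], fun h x y => by rw [fm_mulVec, h]⟩

theorem Iso_le_Sim : Iso σ G ≤ Sim σ G := fun _ h => ⟨1, fun x y => by rw [h]; simp⟩

theorem Iso_le_smul (c : F) : Iso σ G ≤ Iso σ (c • G) := fun _ h x y => by rw [fm_smul, fm_smul, h]

theorem scalars_le_Sim : scalars ι F ≤ Sim σ G := fun g hg => by
  obtain ⟨c, hc⟩ := (mem_scalars_iff g).1 hg
  refine ⟨c * Units.map σ.toMonoidHom c, fun x y => ?_⟩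
  rw [hc, smul_mulVec, smul_mulVec, one_mulVec, one_mulVec, fm_smul_left, fm_smul_right,
    ← mul_assoc]
  rfl

theorem HF.adj_sim (h : HF σ ε G) {g : GL ι F} (hg : g ∈ Sim σ G) :
    ∃ c : F, c ≠ 0 ∧ adj σ G g = c • ((g⁻¹ : GL ι F) : Matrix ι ι F) := by
  obtain ⟨c, hc⟩ := hg
  refine ⟨σ c, by simp, h.adj_eq fun x y => ?_⟩
  rw [smul_mulVec, fm_smul_right, h.σσ, ← hc, mulVec_inv_mulVec]

theorem HF.adj_iso (h : HF σ ε G) {g : GL ι F} (hg : g ∈ Iso σ G) :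
    adj σ G g = ((g⁻¹ : GL ι F) : Matrix ι ι F) :=
  h.adj_eq fun x y => by rw [← hg x, mulVec_inv_mulVec]

theorem HF.mem_Sim (h : HF σ ε G) {g : GL ι F} {c : F} (hc : c ≠ 0)
    (hg : adj σ G g * g = c • (1 : Matrix ι ι F)) : g ∈ Sim σ G :=
  ⟨Units.mk0 (σ c) (by simpa), fun x y => by
    rw [h.fm_adj, mulVec_mulVec, hg, smul_mulVec, one_mulVec, fm_smul_right]; rfl⟩

theorem HF.mem_Iso (h : HF σ ε G) {g : GL ι F} (hg : adj σ G g * g = 1) : g ∈ Iso σ G :=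
  fun x y => by rw [h.fm_adj, mulVec_mulVec, hg, one_mulVec]

theorem HF.adj_cjA (h : HF σ ε G) {g : GL ι F} (hg : g ∈ Sim σ G) (a : Matrix ι ι F) :
    adj σ G (cjA g a) = cjA g (adj σ G a) := by
  obtain ⟨c, hc⟩ := hg
  refine h.adj_eq fun x y => ?_
  rw [← mulVec_inv_mulVec g x, ← mulVec_inv_mulVec g y, cjA_mulVec, cjA_mulVec, hc, hc, h.fm_adj]

theorem env_adj {k : Type*} [CommSemiring k] [Algebra k F] {N : Subgroup (GL ι F)}
    (hk : ∀ c : k, ∃ d : k, σ (algebraMap k F c) = algebraMap k F d)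
    (hN : ∀ x ∈ N, adj σ G (x : Matrix ι ι F) ∈ env k N) {a : Matrix ι ι F} (ha : a ∈ env k N) :
    adj σ G a ∈ env k N :=
  env_ind (p := fun a => adj σ G a ∈ env k N) hN (by simp)
    (fun _ _ h h' => by rw [adj_add]; exact add_mem h h')
    (fun c a h => by
      obtain ⟨d, hd⟩ := hk c
      rw [← algebraMap_smul F, adj_smul, hd, algebraMap_smul]
      exact Subalgebra.smul_mem _ h d) ha

theorem HF.env_adj (h : HF σ ε G) {N : Subgroup (GL ι F)} (hN : N ≤ Sim σ G) {a : Matrix ι ι F}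
    (ha : a ∈ env F N) : adj σ G a ∈ env F N :=
  H29.env_adj (fun c => ⟨σ c, rfl⟩) (fun x hx => by
    obtain ⟨c, -, hc⟩ := h.adj_sim (hN hx)
    exact hc ▸ Subalgebra.smul_mem _ (coe_mem_env (N.inv_mem hx)) c) ha

theorem HF.cenA_adj (h : HF σ ε G) {A : Subalgebra F (Matrix ι ι F)}
    (hA : ∀ a ∈ A, adj σ G a ∈ A) : ∀ a ∈ cenA A, adj σ G a ∈ cenA A := fun a ha =>
  mem_cenA.2 ⟨hA a ha.1, fun y hy => by
    rw [← h.adj_adj y, ← h.adj_mul, ← h.adj_mul, (mem_cenA.1 ha).2 _ (hA y hy)]⟩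

theorem gram_unique' (hu : IsUnit G) (S : Set (Matrix ι ι F))
    (hS : ∀ A : Subalgebra F (Matrix ι ι F), S ⊆ A → A = ⊤)
    (h : ∀ a ∈ S, ∃ b, aᵀ * G = G * b ∧ aᵀ * G' = G' * b) : ∃ c : F, G' = c • G := by
  have hd := (isUnit_iff_isUnit_det G).1 hu
  have := hS (Subalgebra.centralizer F {(G' * G⁻¹)ᵀ}) fun a ha y hy => by
    obtain ⟨b, h1, h2⟩ := h a ha
    rw [hy, ← transpose_transpose a, ← transpose_mul, ← transpose_mul, ← mul_assoc, h2,
      ← mul_nonsing_inv_cancel_right _ (G' * G⁻¹ * aᵀ) hd, mul_assoc _ aᵀ, h1, ← mul_assoc,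
      nonsing_inv_mul_cancel_right _ _ hd]
  obtain ⟨c, hc⟩ : Sc (G' * G⁻¹)ᵀ := sc_of_comm fun b =>
    (show b ∈ Subalgebra.centralizer F {(G' * G⁻¹)ᵀ} from this ▸ Algebra.mem_top) _ rfl
  refine ⟨c, ?_⟩
  rw [← nonsing_inv_mul_cancel_right _ G' hd, ← transpose_transpose (G' * G⁻¹), hc]
  simp

theorem iso_mul {g : GL ι F} (hg : g ∈ Iso σ G) :
    (g : Matrix ι ι F)ᵀ * G = G * ((g⁻¹ : GL ι F) : Matrix ι ι F).map σ :=
  fm_ext (σ := σ) fun x y => by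
    rw [← fm_mulVec_left, ← fm_mulVec_right, ← hg x, mulVec_inv_mulVec]

theorem gram_unique {R : Subgroup (GL ι F)} (hR : env F R = ⊤) (hu : IsUnit G)
    (h : R ≤ Iso σ G) (h' : R ≤ Iso σ G') : ∃ c : F, G' = c • G :=
  gram_unique' hu (matrixSet R) (fun _ hA => top_le_iff.1 (hR ▸ Algebra.adjoin_le hA))
    (by rintro _ ⟨x, hx, rfl⟩; exact ⟨_, iso_mul (h hx), iso_mul (h' hx)⟩)

theorem sim_of_nml [Nonempty ι] {H R : Subgroup (GL ι F)} (hR : env F R = ⊤) (hu : IsUnit G)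
    (h : R ≤ Iso σ G) (hn : Nml H R) : H ≤ Sim σ G := fun g hg => by
  obtain ⟨c, hc⟩ := gram_unique (G' := (g : Matrix ι ι F)ᵀ * G * (g : Matrix ι ι F).map σ) hR hu h
    fun x hx u v => by
      rw [← fm_mulVec, ← fm_mulVec, ← cjA_mulVec, ← cjA_mulVec]
      exact h (hn g hg x hx) _ _
  refine mem_Sim.2 ⟨c, fun h0 => ?_, hc⟩
  rw [h0, zero_smul] at hc
  exact ((((isUnit_transpose _).2 g.isUnit).mul hu).mul (isUnit_map g.isUnit)).ne_zero hc

theorem unit_of_inv {R : Subgroup (GL ι F)} (hR : Irr R) (h : R ≤ Sim σ G) (h0 : G ≠ 0) :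
    IsUnit G := by
  let W : Submodule F (ι → F) :=
    { carrier := {x | ∀ y, fm σ G x y = 0}
      add_mem' := fun h h' y => by rw [fm_add_left, h, h', add_zero]
      zero_mem' := fun y => fm_zero_left y
      smul_mem' := fun c x h y => by rw [fm_smul_left, h, mul_zero] }
  rcases hR W (fun g hg x hx y => by
    obtain ⟨c, hc⟩ := h hg
    rw [← mulVec_inv_mulVec g y, hc, hx, mul_zero]) with h1 | h1
  · exact isUnit_of_nondeg (σ := σ) fun x hx => (Submodule.eq_bot_iff W).1 h1 x hx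
  · exact (h0 (fm_ext (σ := σ) fun x y => by
      rw [Submodule.eq_top_iff'.1 h1 x y, fm_eq]; simp)).elim

theorem Iso_swap (hσ : ∀ a, σ (σ a) = a) : Iso σ G ≤ Iso σ (G.map σ)ᵀ := fun _ h x y => by
  rw [fm_swap hσ, fm_swap hσ, h]

theorem exists_HF {R : Subgroup (GL ι F)} (hσ : ∀ a, σ (σ a) = a) (hR : env F R = ⊤)
    (h : R ≤ Iso σ G) (h0 : G ≠ 0) : ∃ ε, HF σ ε G := by
  have hu := unit_of_inv (irr_of_env hR) (h.trans Iso_le_Sim) h0
  obtain ⟨c, hc⟩ := gram_unique hR hu h (h.trans (Iso_swap hσ))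
  refine ⟨σ c, hσ, hu, ?_⟩
  rw [← map_smul_σ, ← hc, ← transpose_map, map_map_σ hσ]

theorem HF.of_adj_adj (hσ : ∀ a, σ (σ a) = a) (hu : IsUnit G)
    (h : ∀ a, adj σ G (adj σ G a) = a) : ∃ ε, HF σ ε G := by
  obtain ⟨c, hc⟩ := gram_unique' (G' := (G.map σ)ᵀ) hu Set.univ (fun _ h => top_le_iff.1 fun _ _ => h trivial)
    fun a _ => ⟨_, (mul_adj hσ hu a).symm, fm_ext (σ := σ) fun x y => by
      rw [← fm_mulVec_left, ← fm_mulVec_right, fm_swap hσ, fm_swap hσ, fm_mulVec_left,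
        ← mul_adj hσ hu, h, fm_mulVec_right]⟩
  refine ⟨σ c, hσ, hu, ?_⟩
  rw [← map_smul_σ, ← hc, ← transpose_map, map_map_σ hσ]

/-- the Gram matrix in new coordinates -/
noncomputable def gT (σ : F →+* F) (G : Matrix ι ι F) (T : (κ → F) ≃ₗ[F] (ι → F)) : Matrix κ κ F :=
  (LinearMap.toMatrix' T.toLinearMap)ᵀ * G * (LinearMap.toMatrix' T.toLinearMap).map σ

theorem fm_gT (T : (κ → F) ≃ₗ[F] (ι → F)) (x y : κ → F) :
    fm σ (gT σ G T) x y = fm σ G (T x) (T y) := by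
  rw [gT, ← fm_mulVec, LinearMap.toMatrix'_mulVec, LinearMap.toMatrix'_mulVec]; rfl

theorem HF.gT (h : HF σ ε G) (T : (κ → F) ≃ₗ[F] (ι → F)) : HF σ ε (gT σ G T) :=
  HF.of_swap h.σσ (isUnit_of_nondeg (σ := σ) fun x hx => T.map_eq_zero_iff.1 (h.left fun y => by
    rw [← T.apply_symm_apply y, ← fm_gT, hx])) fun x y => by rw [fm_gT, fm_gT, h.swap]

theorem HF.adj_Φ (h : HF σ ε G) (T : (κ → F) ≃ₗ[F] (ι → F)) (X : Matrix κ κ F) :
    adj σ G (Φ T X) = Φ T (adj σ (H29.gT σ G T) X) := h.adj_eq fun x y => by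
  rw [← T.apply_symm_apply x, ← T.apply_symm_apply y, Φ_mulVec, Φ_mulVec, ← fm_gT, ← fm_gT,
    (h.gT T).fm_adj]

theorem ΦU_mem_Sim {T : (κ → F) ≃ₗ[F] (ι → F)} {g : GL κ F} :
    ΦU T g ∈ Sim σ G ↔ g ∈ Sim σ (gT σ G T) :=
  exists_congr fun c => ⟨fun h x y => by
    rw [fm_gT, fm_gT, ← Φ_mulVec, ← Φ_mulVec]; exact h _ _, fun h x y => by
    rw [← T.apply_symm_apply x, ← T.apply_symm_apply y, coe_ΦU, Φ_mulVec, Φ_mulVec, ← fm_gT,
      ← fm_gT, h]⟩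

theorem ΦU_mem_Iso {T : (κ → F) ≃ₗ[F] (ι → F)} {g : GL κ F} :
    ΦU T g ∈ Iso σ G ↔ g ∈ Iso σ (gT σ G T) :=
  ⟨fun h x y => by rw [fm_gT, fm_gT, ← Φ_mulVec, ← Φ_mulVec]; exact h _ _, fun h x y => by
    rw [← T.apply_symm_apply x, ← T.apply_symm_apply y, coe_ΦU, Φ_mulVec, Φ_mulVec, ← fm_gT,
      ← fm_gT, h]⟩

theorem gT_symm (T : (κ → F) ≃ₗ[F] (ι → F)) (X : Matrix κ κ F) : gT σ (gT σ X T.symm) T = X :=
  fm_ext (σ := σ) fun x y => by simp [fm_gT]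

theorem Φ_glEquiv (P : GL ι F) (X : Matrix ι ι F) : Φ (H11.glEquiv P) X = cjA P X :=
  (eq_Φ fun x => cjA_mulVec P X x).symm

theorem kron_map (A : Matrix κ κ F) (B : Matrix μ μ F) :
    (A ⊗ₖ B).map σ = A.map σ ⊗ₖ B.map σ := by ext i j; simp

theorem gram_kron [Nonempty κ] [Nonempty μ] {G : Matrix (κ × μ) (κ × μ) F} (h : HF σ ε G)
    (ha : ∀ X : Matrix κ κ F, ∃ Y : Matrix κ κ F,
      adj σ G (X ⊗ₖ (1 : Matrix μ μ F)) = Y ⊗ₖ (1 : Matrix μ μ F)) :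
    ∃ G₁ G₂ ε₁ ε₂, HF σ ε₁ G₁ ∧ HF σ ε₂ G₂ ∧ ε₁ * ε₂ = ε ∧ G = G₁ ⊗ₖ G₂ := by
  obtain ⟨g, rfl⟩ := h.unit
  obtain ⟨a, b, hab⟩ := nml_kron (g := g⁻¹) fun X => by
    obtain ⟨Y, hY⟩ := ha Xᵀ
    refine ⟨Y.map σ, ?_⟩
    have := mul_adj h.σσ h.unit (Xᵀ ⊗ₖ (1 : Matrix μ μ F))
    rw [hY, kron_map, ← kroneckerMap_transpose, transpose_transpose, transpose_one,
      Matrix.map_one _ (map_zero σ) (map_one σ)] at this
    rw [cjA_apply, inv_inv, mul_assoc, ← this, Units.inv_mul_cancel_left]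
  have h1 : (g : Matrix (κ × μ) (κ × μ) F) =
      ((a⁻¹ : GL κ F) : Matrix κ κ F) ⊗ₖ ((b⁻¹ : GL μ F) : Matrix μ μ F) :=
    congrArg Units.val (inv_injective (Units.ext hab : g⁻¹ = (kronU a⁻¹ b⁻¹)⁻¹))
  have h2 := h.herm
  rw [h1, ← kroneckerMap_transpose, kron_map, ← kronecker_smul] at h2
  obtain ⟨c, hc, e1, e2⟩ := kron_unique h2.symm (isUnit_map (a⁻¹).isUnit).ne_zero
    (smul_ne_zero (left_ne_zero_of_mul_eq_one h.norm) (isUnit_map (b⁻¹).isUnit).ne_zero)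
  exact ⟨_, _, c, c⁻¹ * ε, ⟨h.σσ, (a⁻¹).isUnit, e1⟩, ⟨h.σσ, (b⁻¹).isUnit, by rw [e2, smul_smul]⟩,
    mul_inv_cancel_left₀ hc ε, h1⟩

theorem sim_kron {G₁ : Matrix κ κ F} {G₂ : Matrix μ μ F} (h1 : G₁ ≠ 0) (h2 : G₂ ≠ 0) {a : GL κ F}
    {b : GL μ F} (h : kronU a b ∈ Sim σ (G₁ ⊗ₖ G₂)) : a ∈ Sim σ G₁ ∧ b ∈ Sim σ G₂ := by
  obtain ⟨c, hc, h⟩ := mem_Sim.1 h
  change (_ ⊗ₖ _)ᵀ * _ * (_ ⊗ₖ _).map σ = _ at h
  rw [← kroneckerMap_transpose, kron_map, ← mul_kronecker_mul, ← mul_kronecker_mul,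
    ← kronecker_smul] at h
  obtain ⟨d, hd, e1, e2⟩ := kron_unique h.symm h1 (smul_ne_zero hc h2)
  exact ⟨mem_Sim.2 ⟨d, hd, e1⟩, mem_Sim.2 ⟨d⁻¹ * c, by simp [hc, hd], by rw [e2, smul_smul]⟩⟩

theorem kron_mem_Sim {G₁ : Matrix κ κ F} {G₂ : Matrix μ μ F} {a : GL κ F} {b : GL μ F}
    (h1 : a ∈ Sim σ G₁) (h2 : b ∈ Sim σ G₂) : kronU a b ∈ Sim σ (G₁ ⊗ₖ G₂) := by
  obtain ⟨c, hc, h1⟩ := mem_Sim.1 h1
  obtain ⟨d, hd, h2⟩ := mem_Sim.1 h2
  refine mem_Sim.2 ⟨c * d, mul_ne_zero hc hd, ?_⟩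
  change (_ ⊗ₖ _)ᵀ * _ * (_ ⊗ₖ _).map σ = _
  rw [← kroneckerMap_transpose, kron_map, ← mul_kronecker_mul, ← mul_kronecker_mul, h1, h2,
    smul_kronecker, kronecker_smul, smul_smul]

variable {t : ℕ}

theorem ten_transpose (X : Fin t → Matrix κ κ F) : (ten X)ᵀ = ten fun i => (X i)ᵀ := rfl

theorem ten_map (X : Fin t → Matrix κ κ F) : (ten X).map σ = ten fun i => (X i).map σ := by
  ext x y; simp [ten_apply]

theorem ten_unique {X Y : Fin t → Matrix κ κ F} {c : F} (hc : c ≠ 0) (h : ten X = c • ten Y)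
    (hY : ∀ i, Y i ≠ 0) (i : Fin t) : ∃ d : F, d ≠ 0 ∧ X i = d • Y i := by
  have : ∀ i, ∃ a b, Y i a b ≠ 0 := fun i => by
    by_contra hc; push Not at hc; exact hY i (by ext a b; exact hc a b)
  choose x y hxy using this
  have e : ∀ (Z : Fin t → Matrix κ κ F) a b, ten Z (Function.update x i a) (Function.update y i b) =
      Z i a b * ∏ j ∈ Finset.univ.erase i, Z j (x j) (y j) := fun Z a b => by
    rw [ten_apply, ← Finset.mul_prod_erase _ _ (Finset.mem_univ i)]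
    simp only [Function.update_self]
    congr 1
    exact Finset.prod_congr rfl fun j hj => by simp [Finset.ne_of_mem_erase hj]
  have h1 : ∀ a b, X i a b * ∏ j ∈ Finset.univ.erase i, X j (x j) (y j) =
      c * (Y i a b * ∏ j ∈ Finset.univ.erase i, Y j (x j) (y j)) := fun a b => by
    rw [← e, ← e, h]; rfl
  have h2 : ∏ j ∈ Finset.univ.erase i, Y j (x j) (y j) ≠ 0 :=
    Finset.prod_ne_zero_iff.2 fun j _ => hxy j
  have h3 := right_ne_zero_of_mul (h1 _ _ ▸ mul_ne_zero hc (mul_ne_zero (hxy i) h2))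
  refine ⟨_, div_ne_zero (mul_ne_zero hc h2) h3, ?_⟩
  ext a b
  simp only [Matrix.smul_apply, smul_eq_mul]
  field_simp
  linear_combination h1 a b

theorem pm_mem_Iso (G₀ : Matrix κ κ F) (π : Equiv.Perm (Fin t)) :
    pmU F κ π ∈ Iso σ (ten fun _ => G₀) := mem_Iso.2 (by
  have h1 : (pm F κ π).map σ = pm F κ π := by ext x y; simp [pm, apply_ite σ]
  have h2 : (pm F κ π)ᵀ = pm F κ π.symm := by
    ext x y; simp [pm, Equiv.eq_comp_symm, eq_comm]
  change (pm F κ π)ᵀ * _ * (pm F κ π).map σ = _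
  rw [h1, h2, pm_mul_ten, mul_assoc]
  exact (congrArg _ (pmU F κ π).inv_val).trans (mul_one _))

theorem tenU_gram (G₀ : Fin t → Matrix κ κ F) (a : Fin t → GL κ F) :
    ((tenU a : GL (Fin t → κ) F) : Matrix _ _ F)ᵀ * ten G₀ *
      ((tenU a : GL (Fin t → κ) F) : Matrix _ _ F).map σ =
      ten fun i => (a i : Matrix κ κ F)ᵀ * G₀ i * (a i : Matrix κ κ F).map σ := by
  change (ten _)ᵀ * _ * (ten _).map σ = _
  rw [ten_transpose, ten_map, ← ten_mul, ← ten_mul]; rfl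

theorem sim_ten {G₀ : Matrix κ κ F} (h0 : G₀ ≠ 0) {π : Equiv.Perm (Fin t)} {a : Fin t → GL κ F}
    (h : pmU F κ π * tenU a ∈ Sim σ (ten fun _ => G₀)) (i : Fin t) : a i ∈ Sim σ G₀ := by
  obtain ⟨c, hc, h⟩ := mem_Sim.1 ((Subgroup.mul_mem_cancel_left _
    (Iso_le_Sim (pm_mem_Iso G₀ π))).1 h)
  rw [tenU_gram] at h
  exact mem_Sim.2 (ten_unique hc h (fun _ => h0) i)

theorem ten_mem_Sim {G₀ : Matrix κ κ F} (π : Equiv.Perm (Fin t)) {a : Fin t → GL κ F}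
    (h : ∀ i, a i ∈ Sim σ G₀) : pmU F κ π * tenU a ∈ Sim σ (ten fun _ => G₀) := by
  choose c hc h using fun i => mem_Sim.1 (h i)
  refine mul_mem (Iso_le_Sim (pm_mem_Iso G₀ π)) (mem_Sim.2 ⟨∏ i, c i,
    Finset.prod_ne_zero_iff.2 fun i _ => hc i, ?_⟩)
  rw [tenU_gram, ← ten_smul]
  exact congrArg ten (funext h)

theorem HF.ten {G₀ : Matrix κ κ F} (h : HF σ ε G₀) : HF σ (ε ^ t) (ten fun _ : Fin t => G₀) := by
  obtain ⟨g, rfl⟩ := h.unit
  refine ⟨h.σσ, (tenU fun _ => g).isUnit, ?_⟩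
  rw [ten_transpose, ten_map, h.herm, ten_smul]
  simp

theorem eq_top_of_ten [Nonempty κ] {A : Subalgebra F (Matrix (Fin t → κ) (Fin t → κ) F)}
    (h : ∀ i X, ten (Pi.mulSingle i X) ∈ A) : A = ⊤ := by
  have : ∀ X : Fin t → Matrix κ κ F, ten X ∈ A := fun X => by
    have h1 : ∀ s : Finset (Fin t), ten (s.piecewise X 1) ∈ A := fun s => by
      induction s using Finset.induction_on with
      | empty => rw [Finset.piecewise_empty, ten_one]; exact A.one_mem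
      | insert i s hi ih =>
        convert A.mul_mem (h i (X i)) ih
        rw [← ten_mul]
        congr 1
        ext1 j
        by_cases hj : j = i
        · subst hj; simp [hi]
        · simp [Finset.piecewise_insert_of_ne _ _ _ hj, Pi.mulSingle_eq_of_ne hj]
    simpa using h1 Finset.univ
  rw [eq_top_iff]
  intro Y _
  rw [matrix_eq_sum_single Y]
  refine sum_mem fun p _ => sum_mem fun q _ => ?_
  have := A.smul_mem (this fun i => single (p i) (q i) 1) (Y p q)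
  rwa [ten_single, smul_single, smul_eq_mul, mul_one] at this

theorem adj_ten {G₀ : Matrix κ κ F} (h : HF σ ε G₀) (i : Fin t) (X : Matrix κ κ F) :
    adj σ (ten fun _ => G₀) (ten (Pi.mulSingle i X)) = ten (Pi.mulSingle i (adj σ G₀ X)) :=
  adj_eq h.σσ h.ten.unit (by
    rw [ten_transpose, ten_map, ← ten_mul, ← ten_mul]
    congr 1
    ext1 j
    by_cases hj : j = i
    · subst hj; simp [mul_adj h.σσ h.unit]
    · simp [Pi.mulSingle_eq_of_ne hj])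

theorem exists_gram_factor [Nonempty κ] [Nonempty ι] (h : HF σ ε G)
    (φ : Matrix κ κ F →ₐ[F] Matrix ι ι F) (ha : ∀ X, ∃ Y, φ Y = adj σ G (φ X)) :
    ∃ G₀ ε₀, HF σ ε₀ G₀ ∧ ∀ X, adj σ G (φ X) = φ (adj σ G₀ X) := by
  let φ' : Matrix κ κ F →ₐ[F] Matrix ι ι F := AlgHom.ofLinearMap
    { toFun := fun X => adj σ G (φ (X.map σ)ᵀ)
      map_add' := fun X Y => by rw [Matrix.map_add _ (map_add σ), transpose_add, map_add, adj_add]
      map_smul' := fun c X => by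
        rw [map_smul_σ, transpose_smul, map_smul, adj_smul, h.σσ, RingHom.id_apply] }
    (by simp [h.adj_one]) fun X Y => by simp [h.adj_mul]
  obtain ⟨a, e⟩ := exists_inner_of_range φ φ' fun X => ha _
  have hu : IsUnit (((a⁻¹ : GL κ F) : Matrix κ κ F).map σ) := isUnit_map (a⁻¹).isUnit
  have h1 : ∀ X, adj σ G (φ X) = φ (adj σ (((a⁻¹ : GL κ F) : Matrix κ κ F).map σ) X) := fun X => by
    have := e (X.map σ)ᵀ
    change adj σ G (φ (((X.map σ)ᵀ).map σ)ᵀ) = _ at this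
    rw [transpose_map, map_map_σ h.σσ, transpose_transpose] at this
    rw [this]
    congr 1
    refine (adj_eq h.σσ hu ?_).symm
    rw [← Matrix.map_mul, cjA_apply, mul_assoc, Units.inv_mul_cancel_left, Matrix.map_mul,
      transpose_map, map_map_σ h.σσ]
  obtain ⟨ε₀, h0⟩ := HF.of_adj_adj h.σσ hu fun X => φ.toRingHom.injective (by
    change φ _ = φ _
    rw [← h1, ← h1, h.adj_adj])
  exact ⟨_, ε₀, h0, h1⟩

theorem gram_ten [Nonempty κ] {G : Matrix (Fin t → κ) (Fin t → κ) F} (h : HF σ ε G)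
    {G₀ : Matrix κ κ F} {ε₀ : F} (h0 : HF σ ε₀ G₀)
    (ha : ∀ i X, adj σ G (ten (Pi.mulSingle i X)) = ten (Pi.mulSingle i (adj σ G₀ X))) :
    ∃ c : F, c ≠ 0 ∧ G = c • ten fun _ => G₀ := by
  obtain ⟨c, hc⟩ := gram_unique' (G' := G) (h0.ten (t := t)).unit
    {a | ∃ i X, a = ten (Pi.mulSingle i X)} (fun A hA => eq_top_of_ten fun i X => hA ⟨i, X, rfl⟩)
    (by
      rintro _ ⟨i, X, rfl⟩
      exact ⟨_, (mul_adj h.σσ h0.ten.unit _).symm, by rw [adj_ten h0, ← ha, mul_adj h.σσ h.unit]⟩)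
  exact ⟨c, fun h1 => h.unit.ne_zero (by rw [hc, h1, zero_smul]), hc⟩

theorem rat_gram [Nonempty ι] (h : HF σ ε G) {F₀ : Subfield F} (hσ : ∀ c ∈ F₀, σ c ∈ F₀)
    {A : Set (Matrix ι ι F)} {P : GL ι F} (hP : ∀ a, a ∈ A ↔ RatM F₀ (cjA P⁻¹ a))
    (hA : ∀ a ∈ A, adj σ G a ∈ A) :
    ∃ c : F, c ≠ 0 ∧ RatM F₀ (c • gT σ G (H11.glEquiv P)) := by
  obtain ⟨g, hg⟩ := (h.gT (H11.glEquiv P)).unit
  rw [← hg]
  refine scalar_rat' fun X hX i j => ?_
  have h1 := (hP _).1 (hA _ ((hP (cjA P Xᵀ)).2 (by rw [cjA_inv_cjA]; exact fun i j => hX j i)))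
  rw [← Φ_glEquiv P, h.adj_Φ, Φ_glEquiv, cjA_inv_cjA, ← hg] at h1
  have := hσ _ (h1 i j)
  rwa [adj, map_apply, h.σσ, transpose_transpose, ← coe_units_inv] at this

theorem fm_rat {F₀ : Subfield F} (hσ : ∀ c ∈ F₀, σ c ∈ F₀) {c : F} {P : GL ι F}
    (h : RatM F₀ (c • gT σ G (H11.glEquiv P))) : IsFormRationalStructure (fm σ G) F₀ c P :=
  fun u v hu hv => by
    rw [← glEquiv_apply, ← glEquiv_apply, ← fm_gT, ← fm_smul]
    exact sum_mem fun a _ => sum_mem fun b _ => mul_mem (mul_mem (hu a) (h a b)) (hσ _ (hv b))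

end H29
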