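import Cfsg.Agent.H29.As4
import Cfsg.Agent.H21.Pairing

/-! Aschbacher's theorem, part 5: groups of symplectic type. `Xs R` (absolutely irreducible,
abelian modulo scalars): traces, order, invariant forms, `CaseB.exists_R`. -/

set_option autoImplicit false
set_option linter.unusedSectionVars false

namespace H29

open Matrix Cfsg.Geo Module
open scoped commutatorElement

variable {F : Type*} [Field F] {ι : Type} [Fintype ι] [DecidableEq ι] [Nonempty ι]
  {R H : Subgroup (GL ι F)} {σ : F →+* F}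

/-- absolutely irreducible and abelian modulo scalars -/
structure Xs (R : Subgroup (GL ι F)) : Prop where
  top : env F R = ⊤
  comm : ∀ x ∈ R, ∀ y ∈ R, ⁅x, y⁆ ∈ scalars ι F

theorem exists_not_comm (h : env F R = ⊤) {x : GL ι F} (hx : x ∉ scalars ι F) :
    ∃ y ∈ R, ⁅y, x⁆ ≠ 1 := by
  by_contra hc
  push Not at hc
  exact hx (mem_scalars.2 (sc_of_env h fun y hy =>
    congrArg Units.val (commutatorElement_eq_one_iff_mul_comm.1 (hc y hy)).symm))

theorem cjA_of_comm {x y : GL ι F} {c : Fˣ} (h : scU c = ⁅y, x⁆) :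
    cjA y (x : Matrix ι ι F) = (c : F) • (x : Matrix ι ι F) := by
  rw [cjA_coe, show y * x * y⁻¹ = ⁅y, x⁆ * x by rw [commutatorElement_def]; group, ← h,
    Units.val_mul, coe_scU, smul_one_mul]

theorem trace_cjA (g : GL ι F) (a : Matrix ι ι F) : (cjA g a).trace = a.trace :=
  trace_units_conj g a

theorem scU_injective : Function.Injective (scU : Fˣ → GL ι F) := fun a b h => Units.ext (by
  obtain ⟨i⟩ := ‹Nonempty ι›
  simpa using congrArg (fun g : GL ι F => (g : Matrix ι ι F) i i) h)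

omit [Nonempty ι] in
theorem scU_mul (a b : Fˣ) : (scU (a * b) : GL ι F) = scU a * scU b :=
  MonoidHom.map_mul _ a b

omit [Nonempty ι] in
theorem scU_pow (a : Fˣ) (n : ℕ) : (scU (a ^ n) : GL ι F) = scU a ^ n :=
  MonoidHom.map_pow _ a n

omit [Nonempty ι] in
@[simp] theorem scU_one : (scU (1 : Fˣ) : GL ι F) = 1 := MonoidHom.map_one _

theorem Xs.trace_eq_zero (h : Xs R) {x : GL ι F} (hx : x ∈ R) (h0 : x ∉ scalars ι F) :
    (x : Matrix ι ι F).trace = 0 := by
  obtain ⟨y, hy, h1⟩ := exists_not_comm h.top h0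
  obtain ⟨c, hc⟩ := h.comm y hy x hx
  have := trace_cjA y x
  rw [cjA_of_comm hc, trace_smul, smul_eq_mul] at this
  refine (mul_eq_right₀ · |>.1 this |> fun e => h1 ?_) |> by_contra
  rw [← hc, Units.val_eq_one.1 e, map_one]

theorem Xs.card_ne_zero (h : Xs R) : (Fintype.card ι : F) ≠ 0 := fun h0 => by
  obtain ⟨i⟩ := ‹Nonempty ι›
  have := env_ind (k := F) (N := R) (p := fun a => a.trace = 0) (fun x hx => by
    by_cases h1 : x ∈ scalars ι F
    · obtain ⟨c, hc⟩ := mem_scalars.1 h1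
      simp [hc, h0]
    · exact h.trace_eq_zero hx h1) (by simp) (fun a b h h' => by rw [trace_add, h, h', add_zero])
    (fun c a h => by rw [trace_smul, h, smul_zero]) (a := single i i 1) (h.top ▸ Algebra.mem_top)
  simp at this

theorem center_eq (h : env F R = ⊤) : Subgroup.center R = (scalars ι F).subgroupOf R := by
  ext x
  rw [Subgroup.mem_subgroupOf, Subgroup.mem_center_iff]
  exact ⟨fun h' => mem_scalars.2 (sc_of_env h fun y hy =>
    congrArg (fun z : R => ((z : GL ι F) : Matrix ι ι F)) (h' ⟨y, hy⟩).symm),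
    fun h y => Subtype.ext (scalars_comm h y).symm⟩

theorem Xs.card [Finite F] (h : Xs R) :
    Nat.card R = Nat.card (Subgroup.center R) * Fintype.card ι ^ 2 := by
  rw [center_eq h.top, Subgroup.card_eq_card_quotient_mul_card_subgroup
    ((scalars ι F).subgroupOf R), mul_comm]
  congr 1
  haveI := Fintype.ofFinite (R ⧸ (scalars ι F).subgroupOf R)
  let v : R ⧸ (scalars ι F).subgroupOf R → Matrix ι ι F := fun q => ((q.out : R) : GL ι F)
  have h1 : LinearIndependent F v := Fintype.linearIndependent_iff.2 fun c hc q => by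
    have := congrArg (fun a : Matrix ι ι F =>
      (((((q.out : R) : GL ι F)⁻¹ : GL ι F) : Matrix ι ι F) * a).trace) hc
    simp only [Finset.mul_sum, trace_sum, Matrix.mul_smul, trace_smul, mul_zero, trace_zero] at this
    rw [Finset.sum_eq_single q (fun q' _ hq => by
      rw [← Units.val_mul, h.trace_eq_zero (R.mul_mem (R.inv_mem q.out.2) q'.out.2) fun h0 =>
        hq (by rw [← q.out_eq, ← q'.out_eq]; exact (QuotientGroup.eq (a := q.out) (b := q'.out)).2 h0 |>.symm), smul_zero])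
      (by simp), Units.inv_mul, trace_one, smul_eq_mul] at this
    exact (mul_eq_zero.1 this).resolve_right h.card_ne_zero
  have h2 : ⊤ ≤ Submodule.span F (Set.range v) := fun a _ =>
    env_ind (k := F) (N := R) (p := (· ∈ Submodule.span F (Set.range v))) (fun x hx => by
      obtain ⟨z, hz⟩ := QuotientGroup.mk_out_eq_mul ((scalars ι F).subgroupOf R) ⟨x, hx⟩
      obtain ⟨c, hc⟩ := (mem_scalars_iff _).1 ((scalars ι F).inv_mem z.2)
      have : (x : Matrix ι ι F) = (c : F) • v (QuotientGroup.mk ⟨x, hx⟩) := by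
        simp only [v, hz]
        rw [← mul_smul_one, ← hc, ← Units.val_mul]
        simp
      exact this ▸ Submodule.smul_mem _ _ (Submodule.subset_span ⟨_, rfl⟩))
      (zero_mem _) (fun _ _ => add_mem) (fun c _ => Submodule.smul_mem _ c) (h.top ▸ Algebra.mem_top)
  rw [Nat.card_eq_fintype_card, ← finrank_eq_card_basis (Basis.mk h1 h2), finrank_matrix,
    finrank_self, mul_one, sq]

/-- the scalars of a matrix group -/
def ZR (R : Subgroup (GL ι F)) : Subgroup Fˣ :=
  R.comap (Units.map (Matrix.scalar ι : F →+* Matrix ι ι F).toMonoidHom)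

theorem mem_ZR {c : Fˣ} : c ∈ ZR R ↔ scU c ∈ R := Iff.rfl

theorem card_center (h : env F R = ⊤) : Nat.card (Subgroup.center R) = Nat.card (ZR R) := by
  rw [center_eq h]
  refine (Nat.card_congr (Equiv.ofBijective (fun c : ZR R =>
    (⟨⟨scU c, c.2⟩, scU_mem c.1⟩ : (scalars ι F).subgroupOf R)) ⟨fun a b h => Subtype.ext
      (scU_injective (congrArg (fun x => x.1.1) h)), ?_⟩)).symm
  rintro ⟨⟨x, hx⟩, c, hc⟩
  exact ⟨⟨c, mem_ZR.2 ((show scU c = x from hc) ▸ hx)⟩, Subtype.ext (Subtype.ext hc)⟩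

theorem card_of_mem_iff [Fintype F] {A : Subgroup Fˣ} {s : ℕ} (h : ∀ c, c ∈ A ↔ c ^ s = 1) :
    Nat.card A = (Fintype.card F - 1).gcd s := by
  classical
  rw [show A = (powMonoidHom s).ker from Subgroup.ext h, IsCyclic.card_powMonoidHom_ker,
    Nat.card_eq_fintype_card, Fintype.card_units]

theorem isCyclic_of_le_scalars [Finite F] {A : Subgroup R} (h : A.map R.subtype ≤ scalars ι F) :
    IsCyclic A := by
  haveI : IsCyclic (scalars ι F) := isCyclic_of_surjective _ (MonoidHom.rangeRestrict_surjective _)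
  exact isCyclic_of_injective ((Subgroup.inclusion h).comp
    (A.equivMapOfInjective _ R.subtype_injective).toMonoidHom)
    ((Subgroup.inclusion_injective h).comp (MulEquiv.injective _))

theorem env_ne_top (hn : 2 ≤ Fintype.card ι) (h : ∀ x ∈ R, ∀ y ∈ R, x * y = y * x) :
    env F R ≠ ⊤ := fun h1 => (irr_of_env h1).not_le_scalars hn fun x hx =>
  mem_scalars.2 (sc_of_env h1 fun y hy => congrArg Units.val (h x hx y hy))

theorem nml_of_char (hn : Nml H R) (A : Subgroup R) [hA : A.Characteristic] :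
    Nml H (A.map R.subtype) := by
  rintro g hg _ ⟨x, hx, rfl⟩
  exact ⟨R.normalizerMonoidHom ⟨g, nml_iff.1 hn hg⟩ x,
    Subgroup.characteristic_iff_le_comap.1 hA _ hx, rfl⟩

theorem Prim.char_ab (hP : Prim H) (hn : 2 ≤ Fintype.card ι) (h1 : R ≤ H ⊔ scalars ι F)
    (h2 : Nml H R) (A : Subgroup R) (hA : A.Characteristic) (hc : IsMulCommutative A) :
    A.map R.subtype ≤ scalars ι F :=
  (hP.sup ((Subgroup.map_subtype_le A).trans h1) (nml_of_char h2 A)).resolve_right
    (env_ne_top hn (by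
      rintro _ ⟨x, hx, rfl⟩ _ ⟨y, hy, rfl⟩
      exact congrArg (fun z : A => (z : GL ι F)) (hc.1.1 ⟨x, hx⟩ ⟨y, hy⟩)))

theorem sympType [Finite F] (h : env F R = ⊤) (hn : 2 ≤ Fintype.card ι) {r : ℕ} (hr : r.Prime)
    (hs : ∀ x ∈ R, x ^ (r * Nat.gcd 2 r) = 1) (hA : ∀ A : Subgroup R, A.Characteristic →
      IsMulCommutative A → A.map R.subtype ≤ scalars ι F) : IsSymplecticTypeGroup r R := by
  have h1 : Monoid.exponent R ∣ r * Nat.gcd 2 r :=
    Monoid.exponent_dvd_of_forall_pow_eq_one fun x => Subtype.ext (hs x x.2)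
  have h2 : ¬ Monoid.exponent R ∣ 2 := fun h2 => env_ne_top hn (fun x hx y hy => by
    have : ∀ x : R, x ^ 2 = 1 := Monoid.exponent_dvd_iff_forall_pow_eq_one.1 h2
    exact congrArg Subtype.val (Commute.of_orderOf_dvd_two
      (fun x => orderOf_dvd_iff_pow_eq_one.2 (this x)) ⟨x, hx⟩ ⟨y, hy⟩)) h
  refine ⟨hr, fun x => ⟨2, Subtype.ext ?_⟩, fun A h1 h2 => isCyclic_of_le_scalars (hA A h1 h2), ?_⟩
  · obtain ⟨k, hk⟩ := Nat.gcd_dvd_right 2 r
    rw [Subgroup.coe_pow, sq]
    conv_lhs => rw [hk, ← mul_assoc, ← hk, pow_mul, hs x x.2, one_pow]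
    rfl
  · rcases hr.eq_two_or_odd' with rfl | ho
    · obtain ⟨k, hk, e⟩ := (Nat.dvd_prime_pow Nat.prime_two (m := 2)).1 h1
      rw [e] at h2 ⊢
      interval_cases k <;> simp_all
    · rw [(Nat.coprime_two_left.2 ho).gcd_eq_one, mul_one] at h1 ⊢
      exact ((Nat.dvd_prime hr).1 h1).resolve_left fun h => h2 (h ▸ one_dvd 2)

theorem Xs.sc_cond (h : Xs R) {F₀ : Subfield F} (h0 : ∀ c ∈ ZR R, (c : F) ∈ F₀) (c : F)
    (hc : c • (1 : Matrix ι ι F) ∈ env F₀ R) : c ∈ F₀ := by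
  have := env_ind (p := fun a => a.trace ∈ F₀) (fun x hx => by
    by_cases h1 : x ∈ scalars ι F
    · obtain ⟨c, rfl⟩ := h1
      change ((scU c : GL ι F) : Matrix ι ι F).trace ∈ F₀
      rw [coe_scU, trace_smul, trace_one]
      exact mul_mem (h0 c hx) (natCast_mem _ _)
    · rw [h.trace_eq_zero hx h1]; exact zero_mem _) (by simp)
    (fun a b h h' => by rw [trace_add]; exact add_mem h h')
    (fun c a h => by rw [trace_smul]; exact mul_mem c.2 h) hc
  rw [trace_smul, trace_one, smul_eq_mul] at this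
  simpa [h.card_ne_zero] using div_mem this (natCast_mem F₀ (Fintype.card ι))

theorem min_or_sub [Fintype F] (A : Subgroup Fˣ) :
    (∃ p e, IsMinimalFieldFor (Nat.card A) p e F) ∨
      ∃ F₀ : Subfield F, F₀ ≠ ⊤ ∧ ∀ c ∈ A, (c : F) ∈ F₀ := by
  classical
  obtain ⟨p, hc, ⟨e, he0⟩, hp, he⟩ := FiniteField.card' F
  haveI := Fact.mk hp
  refine or_iff_not_imp_right.2 fun h => ⟨p, e, hp, hc, he, ?_, fun d h0 h1 h2 => h
    ⟨(iterateFrobenius F p d).eqLocusField (RingHom.id F), fun h3 => ?_, fun c hc => ?_⟩⟩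
  · have := A.card_subgroup_dvd_card
    rwa [Nat.card_eq_fintype_card (α := Fˣ), Fintype.card_units, he] at this
  · have h4 : 1 < p ^ d := Nat.one_lt_pow h0.ne' hp.one_lt
    have := Nat.le_of_dvd (by omega) ((FiniteField.forall_pow_eq_one_iff F (p ^ d - 1)).1 fun x => by
      have : (x : F) ^ p ^ d = x := (show (x : F) ∈ _ from h3 ▸ Subfield.mem_top _ :
        (x : F) ∈ (iterateFrobenius F p d).eqLocusField (RingHom.id F))
      rw [pow_sub _ h4.le, pow_one, mul_inv_eq_one]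
      exact Units.ext (by simpa using this))
    have h5 := Nat.pow_lt_pow_right hp.one_lt h1
    change Fintype.card F = p ^ e at he
    omega
  · have : c ^ (p ^ d - 1) = 1 := orderOf_dvd_iff_pow_eq_one.1
      ((A.orderOf_dvd_natCard hc).trans h2)
    change (c : F) ^ p ^ d = c
    rw [← Nat.sub_add_cancel (Nat.one_le_pow d p hp.pos), pow_succ, ← Units.val_pow_eq_pow_val,
      this, Units.val_one, one_mul]

theorem card_units_ne_zero [Finite F] (A : Subgroup Fˣ) : (Nat.card A : F) ≠ 0 := fun h => by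
  classical
  haveI := Fintype.ofFinite F
  obtain ⟨k, hk⟩ := A.card_subgroup_dvd_card
  rw [Nat.card_eq_fintype_card (α := Fˣ), Fintype.card_units] at hk
  have := congrArg (Nat.cast : ℕ → F) hk
  rw [Nat.cast_mul, h, Nat.cast_pred Fintype.card_pos, FiniteField.cast_card_eq_zero] at this
  simp at this

theorem Xs.exists_form [Finite F] (h : Xs R) (hσ : ∀ a, σ (σ a) = a)
    (h0 : ∀ c ∈ ZR R, (c : F) * σ c = 1) : ∃ G ε, HF σ ε G ∧ R ≤ Iso σ G := by
  classical
  haveI := Fintype.ofFinite R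
  let P : ι → ι → Matrix ι ι F := fun i j => ∑ x : R,
    ((x : GL ι F) : Matrix ι ι F)ᵀ * single i j 1 * ((x : GL ι F) : Matrix ι ι F).map σ
  have h1 : ∀ i j, R ≤ Iso σ (P i j) := fun i j g hg => mem_Iso.2 (by
    simp only [P, Finset.mul_sum, Finset.sum_mul]
    exact Fintype.sum_equiv (Equiv.mulRight ⟨g, hg⟩) _ _ fun x => by simp [mul_assoc])
  obtain ⟨i, j, h2⟩ : ∃ i j, P i j ≠ 0 := by
    by_contra hc
    push Not at hc
    have e : ∑ i, ∑ j, P i j i j = ∑ x : R, ((x : GL ι F) : Matrix ι ι F).trace *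
        σ ((x : GL ι F) : Matrix ι ι F).trace := by
      simp only [P, Matrix.sum_apply, trace, diag, map_sum, Finset.sum_mul_sum]
      conv_rhs => rw [Finset.sum_comm]
      refine Finset.sum_congr rfl fun i _ => ?_
      rw [Finset.sum_comm]
      refine Finset.sum_congr rfl fun x _ => ?_
      simp [Matrix.mul_apply, single_apply, ite_and]
    have e2 : ∀ x : R, ((x : GL ι F) : Matrix ι ι F).trace * σ ((x : GL ι F) : Matrix ι ι F).trace =
        if x ∈ Subgroup.center R then (Fintype.card ι : F) ^ 2 else 0 := fun x => by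
      split_ifs with h1 <;> rw [center_eq h.top] at h1
      · obtain ⟨c, hc⟩ := h1
        have hc' : scU c = (x : GL ι F) := hc
        rw [← hc', coe_scU, trace_smul, trace_one, smul_eq_mul, map_mul, map_natCast]
        linear_combination (Fintype.card ι : F) ^ 2 * h0 c (mem_ZR.2 (hc' ▸ x.2))
      · rw [h.trace_eq_zero x.2 h1, zero_mul]
    simp only [hc, Matrix.zero_apply, Finset.sum_const_zero, e2, ← Finset.sum_filter,
      Finset.sum_const, nsmul_eq_mul] at e
    rw [← Fintype.card_subtype, ← Nat.card_eq_fintype_card, card_center h.top] at e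
    exact mul_ne_zero (card_units_ne_zero _) (pow_ne_zero 2 h.card_ne_zero) e.symm
  obtain ⟨ε, h3⟩ := exists_HF hσ h.top (h1 i j) h2
  exact ⟨_, ε, h3, h1 i j⟩

theorem comm_sup {M : Subgroup (GL ι F)} (h : ∀ x ∈ M, ∀ y ∈ M, ⁅x, y⁆ ∈ scalars ι F) :
    ∀ x ∈ M ⊔ scalars ι F, ∀ y ∈ M ⊔ scalars ι F, ⁅x, y⁆ ∈ scalars ι F := fun x hx y hy => by
  obtain ⟨a, ha, z, hz, rfl⟩ := Subgroup.mem_sup_of_normal_right.1 hx
  obtain ⟨b, hb, w, hw, rfl⟩ := Subgroup.mem_sup_of_normal_right.1 hy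
  rw [H21.comm_mul_left_of_commute (scalars_comm hz _),
    H21.comm_mul_right_of_commute (scalars_comm hw _)]
  exact h a ha b hb

theorem Xs.of_le {M : Subgroup (GL ι F)} (h : Xs M) (h1 : R ≤ M ⊔ scalars ι F)
    (h2 : M ≤ R ⊔ scalars ι F) : Xs R :=
  ⟨top_le_iff.1 (h.top ▸ env_le fun x hx => by
    obtain ⟨y, hy, z, hz, rfl⟩ := Subgroup.mem_sup_of_normal_right.1 (h2 hx)
    obtain ⟨c, hc⟩ := (mem_scalars_iff z).1 hz
    rw [Units.val_mul, hc, Matrix.mul_smul, mul_one]
    exact Subalgebra.smul_mem _ (coe_mem_env hy) _),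
  fun x hx y hy => comm_sup h.comm x (h1 hx) y (h1 hy)⟩

theorem nml_sup {M : Subgroup (GL ι F)} (h : Nml H M) : Nml H (M ⊔ scalars ι F) :=
  fun g hg x hx => by
    obtain ⟨y, hy, z, hz, rfl⟩ := Subgroup.mem_sup_of_normal_right.1 hx
    rw [show g * (y * z) * g⁻¹ = g * y * g⁻¹ * (g * z * g⁻¹) by group]
    exact Subgroup.mul_mem_sup (h g hg y hy) (scalars_normal.1 z hz g)

theorem CaseB.xs {M : Subgroup (GL ι F)} {r : ℕ} (h : CaseB H M r) : Xs M := ⟨h.top, h.comm⟩

theorem CaseB.pow_sup {M : Subgroup (GL ι F)} {r : ℕ} (h : CaseB H M r) :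
    ∀ x ∈ M ⊔ scalars ι F, x ^ r ∈ scalars ι F := fun x hx => by
  obtain ⟨y, hy, z, hz, rfl⟩ := Subgroup.mem_sup_of_normal_right.1 hx
  rw [(show Commute y z from (scalars_comm hz y).symm).mul_pow]
  exact mul_mem (h.pow y hy) (pow_mem hz r)

theorem CaseB.comm_pow {M : Subgroup (GL ι F)} {r : ℕ} (h : CaseB H M r) :
    ∀ x ∈ M ⊔ scalars ι F, ∀ y ∈ M ⊔ scalars ι F, ⁅x, y⁆ ^ r = 1 := fun x hx y hy => by
  rw [← H21.comm_pow_left (scalars_comm (comm_sup h.comm x hx y hy) x).symm,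
    commutatorElement_eq_one_iff_mul_comm]
  exact scalars_comm (h.pow_sup x hx) y

theorem CaseB.mul_pow {M : Subgroup (GL ι F)} {r : ℕ} (h : CaseB H M r) :
    ∀ x ∈ M ⊔ scalars ι F, ∀ y ∈ M ⊔ scalars ι F,
      (x * y) ^ (r * Nat.gcd 2 r) = x ^ (r * Nat.gcd 2 r) * y ^ (r * Nat.gcd 2 r) := by
  intro x hx y hy
  have h1 := comm_sup h.comm y hy x hx
  obtain ⟨k, hk⟩ : r ∣ (r * Nat.gcd 2 r).choose 2 := by
    rcases h.prime.eq_two_or_odd' with rfl | ho
    · decide
    · rw [(Nat.coprime_two_left.2 ho).gcd_eq_one, mul_one]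
      exact h.prime.dvd_choose_self two_ne_zero (lt_of_le_of_ne h.prime.two_le (by
        rintro rfl; exact absurd ho (by decide)))
  rw [H21.mul_pow_class_two (scalars_comm h1 x).symm (scalars_comm h1 y).symm, hk, pow_mul ⁅y, x⁆,
    h.comm_pow y hy x hx, one_pow, mul_one]

theorem CaseB.dvd [Fintype F] {M : Subgroup (GL ι F)} {r : ℕ} (h : CaseB H M r)
    (hn : 2 ≤ Fintype.card ι) : r ∣ Fintype.card F - 1 := by
  classical
  obtain ⟨x, hx, hx'⟩ := SetLike.not_le_iff_exists.1 ((irr_of_env h.top).not_le_scalars hn)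
  obtain ⟨y, hy, h1⟩ := exists_not_comm h.top hx'
  obtain ⟨c, hc⟩ := h.xs.comm y hy x hx
  haveI := Fact.mk h.prime
  rw [← Fintype.card_units, ← orderOf_eq_prime (x := c) (p := r) (scU_injective (ι := ι) (by
    rw [scU_pow, scU_one, show scU c = _ from hc]
    exact h.comm_pow y (Subgroup.mem_sup_left hy) x (Subgroup.mem_sup_left hx)))
    fun e => h1 (by rw [← hc, e, map_one])]
  exact orderOf_dvd_card

theorem CaseB.exists_R [Finite F] {M : Subgroup (GL ι F)} {r : ℕ} (h : CaseB H M r)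
    (hn : 2 ≤ Fintype.card ι) : ∃ R : Subgroup (GL ι F),
      (∀ x, x ∈ R ↔ x ∈ M ⊔ scalars ι F ∧ x ^ (r * Nat.gcd 2 r) = 1) ∧ Nml H R ∧
        M ≤ R ⊔ scalars ι F := by
  let R : Subgroup (GL ι F) :=
    { carrier := {x | x ∈ M ⊔ scalars ι F ∧ x ^ (r * Nat.gcd 2 r) = 1}
      mul_mem' := fun hx hy => ⟨mul_mem hx.1 hy.1, by
        rw [h.mul_pow _ hx.1 _ hy.1, hx.2, hy.2, one_mul]⟩
      one_mem' := ⟨one_mem _, one_pow _⟩
      inv_mem' := fun hx => ⟨inv_mem hx.1, by rw [inv_pow, hx.2, inv_one]⟩ }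
  have hR : Nml H R := fun g hg x hx => ⟨nml_sup h.nml g hg x hx.1, by rw [conj_pow, hx.2]; simp⟩
  refine ⟨R, fun _ => Iff.rfl, hR, ?_⟩
  rcases h.min (M ⊓ (R ⊔ scalars ι F)) inf_le_left
    (fun g hg x hx => ⟨h.nml g hg x hx.1, nml_sup hR g hg x hx.2⟩) with h1 | h1
  · choose c hc using fun x : M => (show (x : GL ι F) ^ (r * Nat.gcd 2 r) ∈ scalars ι F by
      rw [pow_mul]; exact pow_mem (h.pow x x.2) _)
    let ψ : M →* Fˣ := MonoidHom.mk' c fun x y => scU_injective (ι := ι) (by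
      rw [scU_mul, show scU (c x) = _ from hc x, show scU (c y) = _ from hc y,
        show scU (c (x * y)) = _ from hc _]
      exact h.mul_pow _ (Subgroup.mem_sup_left x.2) _ (Subgroup.mem_sup_left y.2))
    haveI : IsCyclic (Fˣ ⧸ (powMonoidHom (r * Nat.gcd 2 r) : Fˣ →* Fˣ).range) :=
      isCyclic_of_surjective _ (QuotientGroup.mk'_surjective _)
    have := ((QuotientGroup.mk' (powMonoidHom (r * Nat.gcd 2 r) : Fˣ →* Fˣ).range).comp
      ψ).isMulCommutative_of_isCyclic_of_ker_le_center fun x hx => by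
        obtain ⟨d, hd⟩ := (QuotientGroup.eq_one_iff _).1 hx
        rw [center_eq h.top]
        refine h1 ⟨x.2, ?_⟩
        change (x : GL ι F) ∈ R ⊔ scalars ι F
        rw [← inv_mul_cancel_right (x : GL ι F) (scU d)]
        refine Subgroup.mul_mem_sup ⟨Subgroup.mul_mem_sup x.2 (inv_mem (scU_mem d)), ?_⟩ (scU_mem d)
        rw [h.mul_pow _ (Subgroup.mem_sup_left x.2) _ (Subgroup.mem_sup_right (inv_mem (scU_mem d))),
          ← hc, inv_pow, ← scU_pow, mul_inv_eq_one]
        exact congrArg scU hd.symm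
    exact (env_ne_top hn (fun x hx y hy =>
      congrArg Subtype.val (this.1.1 ⟨x, hx⟩ ⟨y, hy⟩)) h.top).elim
  · exact h1 ▸ inf_le_right

theorem Xs.pow_of_pGroup [Finite F] (h : Xs R) {r : ℕ} (hr : r.Prime) (hp : IsPGroup r R) :
    ∃ m, Fintype.card ι = r ^ m := by
  haveI := Fact.mk hr
  obtain ⟨k, hk⟩ := hp.exists_card_eq
  obtain ⟨m, -, hm⟩ := (Nat.dvd_prime_pow hr).1
    (show Fintype.card ι ∣ r ^ k from hk ▸ h.card ▸ Dvd.intro_left _ (by rw [sq, mul_assoc]))
  exact ⟨m, hm⟩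

end H29
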