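import Cfsg.Agent.H29.As5

/-! Aschbacher's theorem, part 6: tensor structures `Kr`, `Wr`, conversions between Gram matrices
and the forms of the Prelude, quadratic forms in characteristic two (`quad_zero`), and the linear
case `aschbacher_linear`. -/

set_option autoImplicit false
set_option linter.unusedSectionVars false

namespace H29

open Matrix Cfsg.Geo Module
open scoped Kronecker

variable {F : Type*} [Field F] {ι κ μ : Type} [Fintype ι] [DecidableEq ι] [Fintype κ]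
  [DecidableEq κ] [Fintype μ] [DecidableEq μ] {σ : F →+* F} {H : Subgroup (GL ι F)}
  {G : Matrix ι ι F} {ε : F} {t : ℕ}

/-- reindexed coordinates -/
noncomputable def reT (e : κ ≃ μ) (T : (κ → F) ≃ₗ[F] (ι → F)) : (μ → F) ≃ₗ[F] (ι → F) :=
  (LinearEquiv.funCongrLeft F F e).trans T

theorem reT_apply (e : κ ≃ μ) (T : (κ → F) ≃ₗ[F] (ι → F)) (x : μ → F) : reT e T x = T (x ∘ e) := rfl

theorem Φ_reT (e : κ ≃ μ) (T : (κ → F) ≃ₗ[F] (ι → F)) (X : Matrix μ μ F) :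
    Φ (reT e T) X = Φ T (X.submatrix e e) := (eq_Φ fun x => by
  rw [reT_apply, Φ_mulVec, reT_apply, submatrix_mulVec_equiv]
  simp [Function.comp_assoc]).symm

theorem gT_reT (e : κ ≃ μ) (T : (κ → F) ≃ₗ[F] (ι → F)) :
    (gT σ G (reT e T)).submatrix e e = gT σ G T := by
  ext a b
  rw [submatrix_apply, ← fm_single (σ := σ) (G := gT σ G _), ← fm_single (σ := σ) (G := gT σ G _),
    fm_gT, fm_gT, reT_apply, reT_apply]
  congr 2 <;> ext <;> simp [Pi.single_apply]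

/-- coordinates changed by an invertible matrix -/
noncomputable def mulT (T : (κ → F) ≃ₗ[F] (ι → F)) (P : GL κ F) : (κ → F) ≃ₗ[F] (ι → F) :=
  (H11.glEquiv P).trans T

theorem Φ_mulT (T : (κ → F) ≃ₗ[F] (ι → F)) (P : GL κ F) (X : Matrix κ κ F) :
    Φ (mulT T P) X = Φ T (cjA P X) := (eq_Φ fun x => by
  change _ *ᵥ T ((P : Matrix κ κ F) *ᵥ x) = T ((P : Matrix κ κ F) *ᵥ _)
  rw [Φ_mulVec, cjA_mulVec]).symm

theorem ΦU_mulT (T : (κ → F) ≃ₗ[F] (ι → F)) (P X : GL κ F) :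
    ΦU (mulT T P) X = ΦU T (P * X * P⁻¹) := Units.ext (Φ_mulT T P X)

theorem gT_mulT (T : (κ → F) ≃ₗ[F] (ι → F)) (P : GL κ F) :
    gT σ G (mulT T P) = (P : Matrix κ κ F)ᵀ * gT σ G T * (P : Matrix κ κ F).map σ :=
  fm_ext (σ := σ) fun x y => by rw [← fm_mulVec, fm_gT, fm_gT]; rfl

/-- `H` preserves a tensor decomposition with two factors -/
def Kr (H : Subgroup (GL ι F)) (T : (κ × μ → F) ≃ₗ[F] (ι → F)) : Prop :=
  ∀ g ∈ H, ∃ a b, g = ΦU T (kronU a b)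

/-- `H` preserves a tensor power decomposition -/
def Wr (H : Subgroup (GL ι F)) (T : ((Fin t → κ) → F) ≃ₗ[F] (ι → F)) : Prop :=
  ∀ g ∈ H, ∃ c π a, g = scU c * ΦU T (pmU F κ π * tenU a)

theorem kr_of [Nonempty κ] [Nonempty μ] {A : Set (Matrix ι ι F)} {T : (κ × μ → F) ≃ₗ[F] (ι → F)}
    (hA : NmlA H A) (h : ∀ a, a ∈ A ↔ ∃ X, a = Φ T (X ⊗ₖ (1 : Matrix μ μ F))) : Kr H T := by
  intro g hg
  obtain ⟨a, b, e⟩ := nml_kron (g := (ΦU T).symm g) fun X => by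
    obtain ⟨Y, hY⟩ := (h _).1 (hA g hg _ ((h _).2 ⟨X, rfl⟩))
    exact ⟨Y, (Φ T).injective (by rw [Φ_cjA, MulEquiv.apply_symm_apply, hY])⟩
  exact ⟨a, b, (ΦU T).symm_apply_eq.1 (Units.ext e)⟩

theorem Kr.swap {T : (κ × μ → F) ≃ₗ[F] (ι → F)} (h : Kr H T) :
    Kr H (reT (Equiv.prodComm κ μ) T) := fun g hg => by
  obtain ⟨a, b, e⟩ := h g hg
  refine ⟨b, a, e.trans (Units.ext ?_)⟩
  rw [coe_ΦU, coe_ΦU, Φ_reT]
  congr 1
  ext i j
  exact mul_comm _ _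

theorem gT_swap {T : (κ × μ → F) ≃ₗ[F] (ι → F)} {G₁ : Matrix κ κ F} {G₂ : Matrix μ μ F}
    (h : gT σ G T = G₁ ⊗ₖ G₂) : gT σ G (reT (Equiv.prodComm κ μ) T) = G₂ ⊗ₖ G₁ := by
  ext ⟨a, b⟩ ⟨c, d⟩
  rw [← gT_reT (Equiv.prodComm κ μ)] at h
  exact (congrFun₂ h (b, a) (d, c)).trans (mul_comm _ _)

theorem Kr.le {n₁ n₂ : ℕ} {e : ι ≃ Fin n₁ × Fin n₂} {P : GL ι F} (h : Kr H (coordT e P)) :
    H ≤ tensorProductSubgroup n₁ n₂ e P := fun g hg => by
  obtain ⟨a, b, rfl⟩ := h g hg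
  exact mem_tensorProductSubgroup.2 ⟨a, b, rfl⟩

theorem kr_self {n₁ n₂ : ℕ} (e : ι ≃ Fin n₁ × Fin n₂) (P : GL ι F) :
    Kr (tensorProductSubgroup n₁ n₂ e P) (coordT e P) := fun _ hg => by
  obtain ⟨a, b, h⟩ := mem_tensorProductSubgroup.1 hg
  exact ⟨a, b, Units.ext h⟩

theorem Wr.le {k : ℕ} (ht : 0 < t) {e : ι ≃ (Fin t → Fin k)} {P : GL ι F}
    (h : Wr H (coordT e P)) : H ≤ tensorWreathSubgroup k t e P := fun g hg => by
  obtain ⟨c, π, a, rfl⟩ := h g hg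
  exact mem_tensorWreathSubgroup ht c π a

theorem tenU_mul (a b : Fin t → GL κ F) : tenU (a * b) = tenU a * tenU b :=
  Units.ext (ten_mul _ _)

theorem tenU_inv (a : Fin t → GL κ F) : tenU a⁻¹ = (tenU a)⁻¹ := rfl

theorem pmU_mul_tenU (π : Equiv.Perm (Fin t)) (a : Fin t → GL κ F) :
    pmU F κ π * tenU a = tenU (a ∘ π.symm) * pmU F κ π := Units.ext (pm_mul_ten π _)

theorem pmU_one : pmU F κ (1 : Equiv.Perm (Fin t)) = 1 := by
  ext x y; simp [pmU, pm, Matrix.one_apply, eq_comm]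

theorem Wr.mulT {T : ((Fin t → κ) → F) ≃ₗ[F] (ι → F)} (h : Wr H T) (P : GL κ F) :
    Wr H (mulT T (tenU fun _ => P)) := fun g hg => by
  obtain ⟨c, π, a, rfl⟩ := h g hg
  refine ⟨c, π, (fun _ => P)⁻¹ * a * fun _ => P, ?_⟩
  have : (tenU fun _ : Fin t => P) * pmU F κ π = pmU F κ π * tenU fun _ => P :=
    (pmU_mul_tenU π fun _ => P).symm
  rw [ΦU_mulT, tenU_mul, tenU_mul, tenU_inv, ← mul_assoc, this]
  group

theorem Kr.wr {T : (κ × κ → F) ≃ₗ[F] (ι → F)} (h : Kr H T) (P : Fin 2 → GL κ F) :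
    ∃ T' : ((Fin 2 → κ) → F) ≃ₗ[F] (ι → F), Wr H T' ∧ ∀ (σ : F →+* F) G G₁ G₂,
      gT σ G T = G₁ ⊗ₖ G₂ → gT σ G T' = ten fun i =>
        (P i : Matrix κ κ F)ᵀ * ![G₁, G₂] i * (P i : Matrix κ κ F).map σ := by
  let e := (finTwoArrowEquiv κ).symm
  have he : ∀ X : Fin 2 → Matrix κ κ F, (ten X).submatrix e e = X 0 ⊗ₖ X 1 := fun X => by
    ext a b; simp [e, ten_apply]
  refine ⟨mulT (reT e T) (tenU P), fun g hg => ?_, fun σ G G₁ G₂ hG => ?_⟩
  · obtain ⟨a, b, rfl⟩ := h g hg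
    refine ⟨1, 1, P⁻¹ * ![a, b] * P, ?_⟩
    rw [ΦU_mulT, tenU_mul, tenU_mul, tenU_inv, pmU_one, scU_one, one_mul, one_mul,
      show ∀ x y : GL (Fin 2 → κ) F, x * (x⁻¹ * y * x) * x⁻¹ = y from fun x y => by group]
    exact Units.ext (by rw [coe_ΦU, coe_ΦU, Φ_reT]; exact congrArg _ (he fun i => ![a, b] i).symm)
  · rw [gT_mulT, ← tenU_gram]
    congr 2
    exact (Matrix.reindex e.symm e.symm).injective
      ((gT_reT e T).trans (hG.trans (he ![G₁, G₂]).symm))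

theorem Kr.sim {T : (κ × μ → F) ≃ₗ[F] (ι → F)} {G₁ : Matrix κ κ F} {G₂ : Matrix μ μ F}
    (h : Kr H T) (hs : H ≤ Sim σ G) (hG : gT σ G T = G₁ ⊗ₖ G₂) (h1 : G₁ ≠ 0) (h2 : G₂ ≠ 0) :
    ∀ g ∈ H, ∃ a ∈ Sim σ G₁, ∃ b ∈ Sim σ G₂, g = ΦU T (kronU a b) := fun g hg => by
  obtain ⟨a, b, rfl⟩ := h g hg
  have := sim_kron h1 h2 (hG ▸ ΦU_mem_Sim.1 (hs hg))
  exact ⟨a, this.1, b, this.2, rfl⟩

theorem Wr.sim {T : ((Fin t → κ) → F) ≃ₗ[F] (ι → F)} {G₀ : Matrix κ κ F} {c : F}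
    (h : Wr H T) (hs : H ≤ Sim σ G) (hc : c ≠ 0) (hG : gT σ G T = c • ten fun _ => G₀)
    (h0 : G₀ ≠ 0) : ∀ g ∈ H, ∃ c π a, (∀ i, a i ∈ Sim σ G₀) ∧
      g = scU c * ΦU T (pmU F κ π * tenU a) := fun g hg => by
  obtain ⟨d, π, a, rfl⟩ := h g hg
  have := ΦU_mem_Sim.1 ((Subgroup.mul_mem_cancel_left _ (scalars_le_Sim (scU_mem d))).1 (hs hg))
  rw [hG, Sim_smul hc] at this
  exact ⟨d, π, a, sim_ten h0 this, rfl⟩

theorem Wr.le_Sim {T : ((Fin t → κ) → F) ≃ₗ[F] (ι → F)} {G₀ : Matrix κ κ F} (h : Wr H T)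
    (h0 : ∀ a, a ∈ Sim σ G₀) : H ≤ Sim σ (gT σ (ten fun _ => G₀) T.symm) := fun g hg => by
  obtain ⟨c, π, a, rfl⟩ := h g hg
  refine mul_mem (scalars_le_Sim (scU_mem c)) (ΦU_mem_Sim.2 ?_)
  rw [gT_symm]
  exact ten_mem_Sim π fun i => h0 _

theorem tensorForm {n₁ n₂ : ℕ} {e : ι ≃ Fin n₁ × Fin n₂} {P : GL ι F}
    {G₁ : Matrix (Fin n₁) (Fin n₁) F} {G₂ : Matrix (Fin n₂) (Fin n₂) F}
    (h : gT σ G (coordT e P) = G₁ ⊗ₖ G₂) :
    IsTensorFormStructure σ (fm σ G) (fm σ G₁) (fm σ G₂) e P := ⟨1, one_ne_zero, fun x y => by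
  rw [← coordT_apply, ← coordT_apply, ← fm_gT, h, gram_fm, gram_fm, one_mul]; rfl⟩

theorem tensorPowerForm {k : ℕ} {e : ι ≃ (Fin t → Fin k)} {P : GL ι F}
    {G₀ : Matrix (Fin k) (Fin k) F} {c : F} (hc : c ≠ 0)
    (h : gT σ G (coordT e P) = c • ten fun _ => G₀) :
    IsTensorPowerFormStructure σ (fm σ G) (fm σ G₀) e P := ⟨c, hc, fun x y => by
  rw [← coordT_apply, ← coordT_apply, ← fm_gT, h, gram_fm, fm_smul]; rfl⟩

theorem CaseC.wr [Finite F] [Nonempty ι] {P : Fin t → Subgroup (GL ι F)} (h : CaseC H P)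
    (hG : HF σ ε G) (hs : H ≤ Sim σ G) (o : Fin t) :
    ∃ (k : ℕ) (T : ((Fin t → Fin k) → F) ≃ₗ[F] (ι → F)) (G₀ : Matrix (Fin k) (Fin k) F) (ε₀ c : F),
      2 ≤ k ∧ Wr H T ∧ HF σ ε₀ G₀ ∧ c ≠ 0 ∧ (gT σ G T = c • ten fun _ => G₀) ∧
      ∀ x ∈ P o, ∃ X, (x : Matrix ι ι F) = Φ T (ten (Pi.mulSingle o X)) := by
  obtain ⟨k, g, φ, T, hk, hg, hgo, h0, hT, hW⟩ := h.exists_ten o
  haveI : Nonempty (Fin k) := ⟨⟨0, by omega⟩⟩
  obtain ⟨G₀, ε₀, h1, h2⟩ := exists_gram_factor hG φ fun X =>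
    (h0 _).1 (hG.env_adj ((h.le o).trans hs) ((h0 _).2 ⟨X, rfl⟩))
  obtain ⟨c, hc, h3⟩ := gram_ten (hG.gT T) h1 fun i X => (Φ T).injective (by
    rw [← hG.adj_Φ, ← hT, ← hT, hG.adj_cjA (hs (hg i)), h2])
  refine ⟨k, T, G₀, ε₀, c, hk, hW, h1, hc, h3, fun x hx => ?_⟩
  obtain ⟨X, hX⟩ := (h0 _).1 (coe_mem_env hx)
  exact ⟨X, by rw [← hT, hgo, cjA_one, hX]⟩

/-- the standard alternating `2 × 2` matrix -/
def J2 (F : Type*) [Field F] : Matrix (Fin 2) (Fin 2) F := !![0, 1; -1, 0]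

theorem hf_J2 : HF (RingHom.id F) (-1) (J2 F) :=
  ⟨fun _ => rfl, (isUnit_iff_isUnit_det _).2 (by simp [J2, det_fin_two]), by
    ext i j; fin_cases i <;> fin_cases j <;> simp [J2]⟩

theorem mem_Sim_J2 (a : GL (Fin 2) F) : a ∈ Sim (RingHom.id F) (J2 F) :=
  mem_Sim.2 ⟨(a : Matrix (Fin 2) (Fin 2) F).det, a.det_ne_zero, by
    ext i j
    fin_cases i <;> fin_cases j <;>
      simp [J2, det_fin_two, Matrix.mul_apply, Fin.sum_univ_two, vecMul, dotProduct] <;> ring⟩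

theorem bilin_fm : IsBilinearForm (fm (RingHom.id F) G) :=
  ⟨fm_add_left, fm_smul_left, fm_add_right, fm_smul_right⟩

theorem eq_fm_of_bilin {f : (ι → F) → (ι → F) → F} (h : IsBilinearForm f) :
    f = fm (RingHom.id F) (gramMatrix f) := eq_fm h.add_left h.smul_left h.add_right h.smul_right

theorem isUnit_of_nondegForm (h : IsNondegenerateForm (fm σ G)) : IsUnit G :=
  isUnit_of_nondeg (σ := σ) fun x hx => by_contra fun h0 => (h x h0).2.elim fun y hy => hy (hx y)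

theorem hf_of_symp {f : (ι → F) → (ι → F) → F} (h : IsSymplecticForm f) :
    ∃ G, f = fm (RingHom.id F) G ∧ HF (RingHom.id F) (-1) G := by
  obtain ⟨G, rfl⟩ : ∃ G, f = fm (RingHom.id F) G := ⟨_, eq_fm_of_bilin h.bilinear⟩
  exact ⟨G, rfl, .of_swap (fun _ => rfl) (isUnit_of_nondegForm h.nondegenerate) fun x y => by
    rw [h.skew]; simp⟩

theorem hf_of_quad {Q : (ι → F) → F} (h : IsNondegenerateQuadraticForm Q) :
    ∃ G, QuadraticMap.polar Q = fm (RingHom.id F) G ∧ HF (RingHom.id F) 1 G := by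
  obtain ⟨G, e⟩ : ∃ G, QuadraticMap.polar Q = fm (RingHom.id F) G :=
    ⟨_, eq_fm_of_bilin h.polar_bilinear⟩
  exact ⟨G, e, .of_swap (fun _ => rfl) (isUnit_of_nondegForm (e ▸ h.nondegenerate)) fun x y => by
    rw [← e, QuadraticMap.polar_comm]; simp⟩

theorem hf_of_unit {τ : F ≃+* F} {f : (ι → F) → (ι → F) → F} (h : IsUnitaryForm τ f) :
    ∃ G, f = fm (τ : F →+* F) G ∧ HF (τ : F →+* F) 1 G := by
  obtain ⟨G, rfl⟩ : ∃ G, f = fm (τ : F →+* F) G := ⟨_, eq_fm h.add_left h.smul_left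
    (fun v x y => by rw [h.herm, h.add_left, map_add, ← h.herm, ← h.herm])
    fun c v x => by rw [h.herm, h.smul_left, map_mul, ← h.herm]; rfl⟩
  exact ⟨G, rfl, .of_swap h.involutive (isUnit_of_nondegForm h.nondegenerate) fun x y => by
    rw [h.herm]; simp⟩

theorem ne_id_of_unit {τ : F ≃+* F} {f : (ι → F) → (ι → F) → F} (h : IsUnitaryForm τ f) :
    (τ : F →+* F) ≠ RingHom.id F := fun e => h.ne_refl (RingEquiv.ext (RingHom.congr_fun e))

theorem HF.unitary (h : HF σ 1 G) (hne : σ ≠ RingHom.id F) :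
    ∃ τ : F ≃+* F, IsUnitaryForm τ (fm σ G) :=
  ⟨RingEquiv.ofBijective σ (Function.Involutive.bijective h.σσ),
    fun e => hne (RingHom.ext (RingEquiv.congr_fun e)), h.σσ, fm_add_left, fm_smul_left,
    fun v w => by rw [h.swap, one_mul]; rfl, h.nondeg⟩

theorem HF.symp (h : HF (RingHom.id F) ε G) (ha : ∀ v, fm (RingHom.id F) G v v = 0) :
    IsSymplecticForm (fm (RingHom.id F) G) :=
  ⟨bilin_fm, fun v w => by
    have := ha (v + w)
    rw [fm_add_left, fm_add_right, fm_add_right, ha, ha] at this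
    linear_combination this, ha, h.nondeg⟩

theorem HF.alt (h : HF (RingHom.id F) (-1) G) (h2 : (2 : F) ≠ 0) (v : ι → F) :
    fm (RingHom.id F) G v v = 0 := (mul_eq_zero.1 (by
  have := h.swap v v
  simp only [RingHom.id_apply] at this
  linear_combination this)).resolve_left h2

theorem HF.symm (h : HF (RingHom.id F) 1 G) (x y : ι → F) :
    fm (RingHom.id F) G x y = fm (RingHom.id F) G y x := by simpa using h.swap x y

theorem HF.symmetric (h : HF (RingHom.id F) 1 G) : IsSymmetricForm (fm (RingHom.id F) G) :=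
  ⟨bilin_fm, h.symm, h.nondeg⟩

theorem polar_fm (x y : ι → F) : QuadraticMap.polar (fun v => fm (RingHom.id F) G v v) x y =
    fm (RingHom.id F) (G + Gᵀ) x y := by
  have := fm_swap (G := G) (σ := RingHom.id F) (fun _ => rfl) x y
  simp only [RingHom.coe_id, Matrix.map_id, id] at this
  simp only [QuadraticMap.polar, fm_add_left, fm_add_right, fm_add, this]
  ring

theorem quad_fm (h : HF (RingHom.id F) ε (G + Gᵀ)) :
    IsNondegenerateQuadraticForm fun v => fm (RingHom.id F) G v v := by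
  have : QuadraticMap.polar (fun v => fm (RingHom.id F) G v v) = fm (RingHom.id F) (G + Gᵀ) := by
    ext x y; exact polar_fm x y
  exact ⟨fun c v => by simp only [fm_smul_left, fm_smul_right, RingHom.id_apply]; ring,
    this ▸ bilin_fm, this ▸ h.nondeg⟩

theorem HF.quad (h : HF (RingHom.id F) 1 G) (h2 : (2 : F) ≠ 0) :
    IsNondegenerateQuadraticForm fun v => fm (RingHom.id F) G v v := quad_fm (ε := 1) (by
  rw [h.herm, one_smul, RingHom.coe_id, Matrix.map_id, ← two_smul F G]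
  exact h.smul h2 (by simp))

theorem fixes_iff {P : Subgroup (GL ι F)} : FixesForm (matrixSet P) (fm σ G) ↔ P ≤ Iso σ G :=
  ⟨fun h _ hx => h _ ⟨_, hx, rfl⟩, fun h => by rintro _ ⟨x, hx, rfl⟩; exact h hx⟩

theorem iso_of_quad {Q : (ι → F) → F} (e : QuadraticMap.polar Q = fm (RingHom.id F) G)
    {g : GL ι F} (h : ∀ v, Q ((g : Matrix ι ι F) *ᵥ v) = Q v) : g ∈ Iso (RingHom.id F) G :=
  fun x y => by simp only [← e, QuadraticMap.polar, ← mulVec_add, h]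

theorem polar_self {Q : (ι → F) → F} (h : ∀ (c : F) v, Q (c • v) = c ^ 2 * Q v) (v : ι → F) :
    QuadraticMap.polar Q v v = 2 * Q v := by
  rw [QuadraticMap.polar, ← two_smul F v, h]; ring

theorem even_of_symp {f : (ι → F) → (ι → F) → F} (h : IsSymplecticForm f) :
    Even (Fintype.card ι) :=
  H11.PForm.symp_even _ (S := H11.sympS (bilinOf h.bilinear) h.alternating)
    (fun x hx => by_contra fun h0 => (h.nondegenerate x h0).2.elim fun y hy => hy (hx y)) (by simp)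

theorem exists_sq [Finite F] (h2 : (2 : F) = 0) (a : F) : ∃ b, b ^ 2 = a := by
  haveI : CharP F 2 := CharTwo.of_one_ne_zero_of_two_eq_zero one_ne_zero h2
  exact surjective_frobenius F 2 a

theorem exists_quad_zero [Finite F] (h2 : (2 : F) = 0) (hn : 2 ≤ Fintype.card ι)
    {d : (ι → F) → F} (h1 : ∀ x y, d (x + y) = d x + d y)
    (h3 : ∀ (c : F) x, d (c • x) = c ^ 2 * d x) : ∃ x, x ≠ 0 ∧ d x = 0 := by
  obtain ⟨i, j, hij⟩ := Fintype.exists_pair_of_one_lt_card hn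
  by_cases h0 : d (Pi.single i 1) = 0
  · exact ⟨_, by simp, h0⟩
  obtain ⟨b, hb⟩ := exists_sq h2 (d (Pi.single j 1) / d (Pi.single i 1))
  refine ⟨Pi.single j 1 + b • Pi.single i 1, fun h => by simpa [hij] using congrFun h j, ?_⟩
  rw [h1, h3, hb, div_mul_cancel₀ _ h0, ← two_mul, h2, zero_mul]

theorem quad_zero [Finite F] (hH : Irr H) (h2 : (2 : F) = 0) (hn : 2 ≤ Fintype.card ι)
    {d : (ι → F) → F} (h1 : ∀ x y, d (x + y) = d x + d y) (h3 : ∀ (c : F) x, d (c • x) = c ^ 2 * d x)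
    (h4 : ∀ g ∈ H, ∀ x, d x = 0 → d ((g : Matrix ι ι F) *ᵥ x) = 0) (x : ι → F) : d x = 0 := by
  let W : Submodule F (ι → F) :=
    { carrier := {x | d x = 0}
      add_mem' := fun h h' => by rw [Set.mem_setOf_eq, h1, h, h', add_zero]
      zero_mem' := by simpa using h3 0 0
      smul_mem' := fun c x h => by rw [Set.mem_setOf_eq, h3, h, mul_zero] }
  obtain ⟨y, hy, hy0⟩ := exists_quad_zero h2 hn h1 h3
  exact Submodule.eq_top_iff'.1 ((hH W h4).resolve_left fun h =>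
    hy ((Submodule.eq_bot_iff W).1 h y hy0)) x

theorem quad_unique [Finite F] (hH : Irr H) (hn : 2 ≤ Fintype.card ι) {Q Q' : (ι → F) → F}
    (h1 : ∀ (c : F) x, Q (c • x) = c ^ 2 * Q x) (h1' : ∀ (c : F) x, Q' (c • x) = c ^ 2 * Q' x)
    (h2 : ∀ x y, QuadraticMap.polar Q x y = QuadraticMap.polar Q' x y)
    (h3 : ∀ g ∈ H, ∀ x, Q x = Q' x → Q ((g : Matrix ι ι F) *ᵥ x) = Q' ((g : Matrix ι ι F) *ᵥ x))
    (x : ι → F) : Q x = Q' x := by
  by_cases h0 : (2 : F) = 0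
  · exact sub_eq_zero.1 (quad_zero hH h0 hn (d := fun x => Q x - Q' x) (fun x y => by
      have := h2 x y
      simp only [QuadraticMap.polar] at this
      linear_combination this) (fun c x => by rw [h1, h1', mul_sub])
      (fun g hg x hx => sub_eq_zero.2 (h3 g hg x (sub_eq_zero.1 hx))) x)
  · exact mul_left_cancel₀ h0 (by rw [← polar_self h1, h2, polar_self h1'])

theorem HF.add_self [Nonempty ι] (h : HF (RingHom.id F) ε G) (h2 : (2 : F) = 0) (x y : ι → F) :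
    fm (RingHom.id F) G (x + y) (x + y) = fm (RingHom.id F) G x x + fm (RingHom.id F) G y y := by
  rw [fm_add_left, fm_add_right, fm_add_right, h.swap y x, RingHom.id_apply]
  rcases h.ε_cases with rfl | rfl
  · linear_combination fm (RingHom.id F) G x y * h2
  · ring

theorem bil_cases [Finite F] (hH : Irr H) (hn : 2 ≤ Fintype.card ι) (h : HF (RingHom.id F) ε G)
    (hs : H ≤ Sim (RingHom.id F) G) :
    IsSymplecticForm (fm (RingHom.id F) G) ∨ ((2 : F) ≠ 0 ∧ ε = 1) := by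
  haveI : Nonempty ι := Fintype.card_pos_iff.1 (by omega)
  by_cases h2 : (2 : F) = 0
  · exact Or.inl (h.symp (quad_zero hH h2 hn (h.add_self h2)
      (fun c v => by simp only [fm_smul_left, fm_smul_right, RingHom.id_apply]; ring)
      fun g hg x hx => by obtain ⟨c, hc⟩ := hs hg; rw [hc, hx, mul_zero]))
  · rcases h.ε_cases with rfl | rfl
    exacts [Or.inr ⟨h2, rfl⟩, Or.inl (h.symp (h.alt h2))]

theorem odd_of_two_ne [Fintype F] (h : (2 : F) ≠ 0) : Odd (Fintype.card F) :=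
  by_contra fun h0 => h (by simpa [char_two_of_not_odd h0] using ringChar.Nat.cast_ringChar (R := F))

theorem two_eq_of_not_odd [Fintype F] (h : ¬ Odd (Fintype.card F)) : (2 : F) = 0 :=
  by_contra fun h0 => h (odd_of_two_ne h0)

theorem not_irr (h : ¬ Irr H) : ∃ W : Submodule F (ι → F), W ≠ ⊥ ∧ W ≠ ⊤ ∧
    ∀ g ∈ H, ∀ x ∈ W, (g : Matrix ι ι F) *ᵥ x ∈ W := by
  simp only [Irr, not_forall, not_or] at h
  obtain ⟨W, h1, h2, h3⟩ := h
  exact ⟨W, h2, h3, h1⟩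

theorem exists_prime_field [Fintype F] [Nonempty ι] {B : Subalgebra F (Matrix ι ι F)} {d r : ℕ}
    (hB : IsFieldSubalgebra d B) (hn : NmlA H B) (hr : r ∣ d) :
    ∃ K, IsFieldSubalgebra r K ∧ K ≤ B ∧ H ≤ subalgebraNormalizer K ∧
      ∀ x, x ∈ K ↔ x ∈ B ∧ x ^ (Fintype.card F ^ r) = x := by
  obtain ⟨K, h1, h2⟩ := exists_subfield_alg hB hr
  exact ⟨K, h1, fun x hx => ((h2 x).1 hx).1, le_subalgebraNormalizer fun g hg x hx => (h2 _).2
    ⟨hn g hg x ((h2 x).1 hx).1, by rw [← map_pow, ((h2 x).1 hx).2]⟩, h2⟩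

theorem CaseD.core {P : Subgroup (GL ι F)} [Nonempty ι] (h : CaseD H P)
    (h0 : ∀ F₀ : Subfield F, (∀ c : F, c • (1 : Matrix ι ι F) ∈ env F₀ P → c ∈ F₀) → F₀ = ⊤) :
    IsResidualCore H P :=
  ⟨h.le, h.nml, h.perfect, h.simple, h.nonabelian, h.cent, absIrr_of_env h.top,
    fun F₀ h1 h2 => h1 (h0 F₀ (sc_of_realisable h2))⟩

theorem exists_frob_half [Fintype F] {p d : ℕ} (hp : p.Prime) [CharP F p] (hd : 0 < d)
    (h : Fintype.card F = p ^ (2 * d)) :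
    ∃ σ : F →+* F, (∀ x, σ x = x ^ p ^ d) ∧ (∀ a, σ (σ a) = a) ∧ σ ≠ RingHom.id F :=
  H11.exists_frob (by rw [h, ← pow_mul, mul_comm])

theorem dvd_succ_of_min [Fintype F] {z p d : ℕ} (hz : z.Prime ∨ z = 4 ∧ d = 1 ∧ Odd p)
    (h : IsMinimalFieldFor z p (2 * d) F) (hd : 0 < d) : z ∣ p ^ d + 1 := by
  obtain ⟨hp, -, -, h1, h2⟩ := h
  have h3 := h2 d hd (by omega)
  rcases hz with hz | ⟨rfl, rfl, k, rfl⟩
  · rw [mul_comm, pow_mul, ← one_pow 2, Nat.sq_sub_sq] at h1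
    exact (hz.dvd_mul.1 h1).resolve_right h3
  · simp only [pow_one] at h3 ⊢
    omega

section linear
variable [Fintype F] {n : ℕ} {H : Subgroup (GL (Fin n) F)}

theorem lin_sub [NeZero n] {R : Subgroup (GL (Fin n) F)} (hR : env F R = ⊤) (hn : Nml H R)
    {F₀ : Subfield F} (h0 : F₀ ≠ ⊤)
    (h : ∀ c : F, c • (1 : Matrix (Fin n) (Fin n) F) ∈ env F₀ R → c ∈ F₀) :
    ∃ M, InLinearClass n F M ∧ H ≤ M := by
  obtain ⟨P, hP⟩ := exists_rat (env F₀ R) (env_span hR) h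
  obtain ⟨F₁, r, h1, hr, h2⟩ := exists_prime_index h0
  exact ⟨_, .inr (.inr (.inr (.inr (.inr (.inr (.inl ⟨F₁, r, P, hr, h2, rfl⟩)))))),
    le_subfieldSubgroup h1 hP hn.env⟩

theorem lin_bil (hn : 3 ≤ n) (hH : Irr H) {G : Matrix (Fin n) (Fin n) F}
    (h : HF (RingHom.id F) ε G) (hs : H ≤ Sim (RingHom.id F) G) :
    ∃ M, InLinearClass n F M ∧ H ≤ M := by
  rcases bil_cases hH (by simp; omega) h hs with h1 | ⟨h2, rfl⟩
  · have := even_of_symp h1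
    rw [Fintype.card_fin] at this
    exact ⟨_, .inr (.inr (.inr (.inr (.inr (.inr (.inr (.inr (.inr (.inl
      ⟨_, h1, this, by obtain ⟨k, rfl⟩ := this; omega, rfl⟩))))))))), hs⟩
  · exact ⟨_, .inr (.inr (.inr (.inr (.inr (.inr (.inr (.inr (.inr (.inr (.inr
      ⟨_, h.quad h2, odd_of_two_ne h2, hn, rfl⟩)))))))))), fun g hg =>
        (hs hg).imp fun c hc v => hc v v⟩

theorem lin_unit (hn : 3 ≤ n) {G : Matrix (Fin n) (Fin n) F} (hne : σ ≠ RingHom.id F)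
    (h : HF σ ε G) (hs : H ≤ Sim σ G) : ∃ M, InLinearClass n F M ∧ H ≤ M := by
  haveI : NeZero n := ⟨by omega⟩
  obtain ⟨c, hc, h1⟩ := h.exists_herm hne
  obtain ⟨τ, h2⟩ := h1.unitary hne
  exact ⟨_, .inr (.inr (.inr (.inr (.inr (.inr (.inr (.inr (.inr (.inr (.inl
    ⟨τ, _, h2, hn, rfl⟩)))))))))), hs.trans (Sim_smul hc).ge⟩

theorem lin_wr (hn : 3 ≤ n) (hH : Irr H) {k : ℕ} (hk : 2 ≤ k) (ht : 2 ≤ t)
    {T : ((Fin t → Fin k) → F) ≃ₗ[F] (Fin n → F)} (h : Wr H T) :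
    ∃ M, InLinearClass n F M ∧ H ≤ M := by
  obtain rfl | hk := hk.eq_or_lt
  · exact lin_bil hn hH (hf_J2.ten.gT T.symm) (h.le_Sim mem_Sim_J2)
  · obtain ⟨e, P, rfl⟩ := exists_coordT T
    exact ⟨_, .inr (.inr (.inr (.inr (.inr (.inr (.inr (.inr (.inl
      ⟨k, t, e, P, hk, ht, rfl⟩)))))))), h.le (by omega)⟩

theorem lin_kr {d m : ℕ} (hd : 2 ≤ d) (hm : d < m) {T : (Fin d × Fin m → F) ≃ₗ[F] (Fin n → F)}
    (h : Kr H T) : ∃ M, InLinearClass n F M ∧ H ≤ M := by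
  obtain ⟨e, P, rfl⟩ := exists_coordT T
  exact ⟨_, .inr (.inr (.inr (.inr (.inr (.inl ⟨d, m, e, P, hd, hm, rfl⟩))))), h.le⟩

theorem lin_B (hn : 3 ≤ n) (hH : Irr H) (hP : Prim H) {M : Subgroup (GL (Fin n) F)} {r : ℕ}
    (h : CaseB H M r) : ∃ M, InLinearClass n F M ∧ H ≤ M := by
  haveI : NeZero n := ⟨by omega⟩
  have hn2 : 2 ≤ Fintype.card (Fin n) := by simp; omega
  obtain ⟨R, h1, h2, h3⟩ := h.exists_R hn2
  have hx : Xs R := h.xs.of_le (fun x hx => ((h1 x).1 hx).1) h3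
  have hS := sympType hx.top hn2 h.prime (fun x hx => ((h1 x).1 hx).2) (hP.char_ab hn2
    (fun x hx => sup_le_sup_right h.le _ ((h1 x).1 hx).1) h2)
  have hz : ∀ c, c ∈ ZR R ↔ c ^ (r * Nat.gcd 2 r) = 1 := fun c => by
    rw [mem_ZR, h1, ← scU_pow, ← scU_one, scU_injective.eq_iff,
      and_iff_right (Subgroup.mem_sup_right (scU_mem c))]
  have hc := card_of_mem_iff hz
  have hd := h.dvd hn2
  obtain ⟨m, hm⟩ := hx.pow_of_pGroup h.prime hS.pGroup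
  have hm0 : m ≠ 0 := by rintro rfl; simp at hm; omega
  have hR := hx.card
  rw [hm, card_center hx.top] at hR
  rcases min_or_sub (ZR R) with ⟨p, e, hmin⟩ | ⟨F₀, h4, h5⟩
  swap
  · exact lin_sub hx.top h2 h4 (hx.sc_cond h5)
  have ⟨hp, _, he, _, hmin'⟩ := hmin
  have hrp : r ≠ p := by
    rintro rfl
    have := Fintype.one_lt_card (α := F)
    rcases e with _ | e
    · simp_all
    · exact hp.not_dvd_one ((Nat.dvd_sub_iff_right this.le (he ▸ Dvd.intro_left _ rfl)).1 hd)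
  have hform : ∀ σ : F →+* F, (∀ a, σ (σ a) = a) → (∀ c ∈ ZR R, (c : F) * σ c = 1) →
      ∃ M, InLinearClass n F M ∧ H ≤ M := fun σ hσ h4 => by
    obtain ⟨G, ε, h5, h6⟩ := hx.exists_form hσ h4
    by_cases hne : σ = RingHom.id F
    · subst hne
      exact lin_bil hn hH h5 (sim_of_nml hx.top h5.unit h6 h2)
    · exact lin_unit hn hne h5 (sim_of_nml hx.top h5.unit h6 h2)
  have hev : ∀ d, 0 < d → e = 2 * d → (Nat.card (ZR R)).Prime ∨ Nat.card (ZR R) = 4 ∧ d = 1 ∧ Odd p →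
      ∃ M, InLinearClass n F M ∧ H ≤ M := by
    rintro d hd rfl h4
    obtain ⟨σ, h5, h6, -⟩ := exists_frob_half hp hd he
    refine hform σ h6 fun c hc => ?_
    rw [h5, ← pow_succ', ← Units.val_pow_eq_pow_val, orderOf_dvd_iff_pow_eq_one.1
      (((ZR R).orderOf_dvd_natCard hc).trans (dvd_succ_of_min h4 hmin hd)), Units.val_one]
  have he0 : e ≠ 0 := by rintro rfl; simpa [he] using Fintype.one_lt_card (α := F)
  have hfin : ∀ {X Y Z : Prop}, X ∨ Y ∨ Z → (X ∨ Y ∨ Z → IsLinearSymplecticTypeData r R) →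
      ∃ M, InLinearClass n F M ∧ H ≤ M := fun h4 h5 => ⟨_, .inr (.inr (.inr (.inr (.inr (.inr (.inr
        (.inl ⟨r, R, h5 h4, rfl⟩))))))), nml_iff.1 h2⟩
  rw [← card_center hx.top] at hmin
  rcases h.prime.eq_two_or_odd' with rfl | ho
  · have hp2 : Odd p := hp.odd_of_ne_two hrp.symm
    by_cases h4 : 4 ∣ Fintype.card F - 1
    · replace hc : Nat.card (ZR R) = 4 := hc.trans (Nat.gcd_eq_right h4)
      have : ¬ 2 < e := fun h => hmin' 2 two_pos h (by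
        obtain ⟨k, rfl⟩ := hp2
        exact hc ▸ ⟨k ^ 2 + k, by rw [Nat.sub_eq_iff_eq_add (Nat.one_le_pow _ _ hp.pos)]; ring⟩)
      obtain rfl | rfl : e = 1 ∨ e = 2 := by omega
      · refine hfin (.inr (.inl ⟨rfl, rfl, (card_center hx.top).trans hc, ?_, m, ?_⟩))
          fun h4 => ⟨hS, absIrr_of_env hx.top, p, 1, hrp, hmin, h4⟩
        · rw [Fintype.card_fin] at hm ⊢
          rcases m with _ | _ | m
          · omega
          · omega
          · rw [hm, pow_succ, pow_succ]; have := Nat.one_le_two_pow (n := m); omega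
        · rw [hR, hc]; ring
      · exact hev 1 one_pos rfl (.inr ⟨hc, rfl, hp2⟩)
    · refine hform (RingHom.id F) (fun _ => rfl) fun c hc' => ?_
      have h5 : Nat.card (ZR R) ∣ 2 := by
        obtain ⟨k, hk, e⟩ := (Nat.dvd_prime_pow Nat.prime_two (m := 2)).1
          (hc ▸ Nat.gcd_dvd_right _ _ : Nat.card (ZR R) ∣ 2 ^ 2)
        have := Nat.gcd_dvd_left (Fintype.card F - 1) (2 * Nat.gcd 2 2)
        rw [← hc, e] at this
        rw [e]
        interval_cases k <;> simp_all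
      rw [RingHom.id_apply, ← sq, ← Units.val_pow_eq_pow_val, orderOf_dvd_iff_pow_eq_one.1
        (((ZR R).orderOf_dvd_natCard hc').trans h5), Units.val_one]
  · rw [(Nat.coprime_two_left.2 ho).gcd_eq_one, mul_one, Nat.gcd_eq_right hd] at hc
    rcases Nat.even_or_odd e with ⟨d, hd⟩ | he'
    · exact hev d (by omega) (by omega) (.inl (hc ▸ h.prime))
    · exact hfin (.inl ⟨ho, he', (card_center hx.top).trans hc, m, by omega, by rw [hR, hc]; ring⟩)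
        fun h4 => ⟨hS, absIrr_of_env hx.top, p, e, hrp, hmin, h4⟩

theorem aschbacher_linear (hn : 3 ≤ n) (H : Subgroup (GL (Fin n) F)) :
    (∃ M, InLinearClass n F M ∧ H ≤ M) ∨ InLinearResidualClass H := by
  haveI : NeZero n := ⟨by omega⟩
  by_cases hH : Irr H
  swap
  · obtain ⟨W, h1, h2, h3⟩ := not_irr hH
    exact .inl ⟨_, .inl ⟨W, h1, h2, rfl⟩, fun g hg => mem_subspaceStabilizer_of_le (h3 g hg)⟩
  rcases struct_cases hH with ⟨N, -, h1, x, hx, hx'⟩ | ⟨N, -, h1, d, m, hd, hm, T, h2⟩ | hP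
  · left
    rcases idem_or_field hH h1.env.cenA cenA_comm with ⟨e, he, h2, h3, h4, h5⟩ | h2
    · obtain ⟨t, g, -, -, -, h6, h7⟩ := dec_of_idem hH h2 h3 h4 fun g hg =>
        orbit_idem h1.env.cenA cenA_comm he he h2 h2 h5 h5 hg
      exact ⟨_, .inr (.inr (.inr (.inl ⟨t, _, _, h6, rfl⟩))), h7⟩
    · obtain ⟨r, hr, h3⟩ := Nat.exists_prime_and_dvd (one_lt_finrank hx hx').ne'
      obtain ⟨K, h4, -, h5, -⟩ := exists_prime_field ⟨cenA_comm, h2, rfl⟩ h1.env.cenA h3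
      exact ⟨_, .inr (.inr (.inr (.inr (.inl ⟨r, K, hr, h4, rfl⟩)))), h5⟩
  · left
    haveI : NeZero d := ⟨by omega⟩
    haveI : NeZero m := ⟨by omega⟩
    have h3 := kr_of h1.env h2
    rcases lt_trichotomy d m with h | rfl | h
    · exact lin_kr hd h h3
    · obtain ⟨T', h4, -⟩ := h3.wr 1
      exact lin_wr hn hH hd le_rfl h4
    · exact lin_kr hm h h3.swap
  rcases core_cases hH (by simp; omega) hP with ⟨M, r, h⟩ | ⟨t, P, h⟩ | ⟨P, h⟩
  · exact .inl (lin_B hn hH hP h)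
  · obtain ⟨k, -, -, T, hk, -, -, -, -, h1⟩ := h.exists_ten ⟨0, by have := h.two; omega⟩
    exact .inl (lin_wr hn hH hk h.two h1)
  refine or_iff_not_imp_left.2 fun h0 => ⟨P, h.core fun F₀ h1 =>
    by_contra fun h2 => h0 (lin_sub h.top h.nml h2 h1), ?_, ?_, ?_⟩
  · rintro ⟨Q, h1, h2⟩
    obtain ⟨G, e, h3⟩ := hf_of_quad h1
    exact h0 (lin_bil hn hH h3 (sim_of_nml h.top h3.unit
      (fun x hx => iso_of_quad e (h2 _ ⟨x, hx, rfl⟩)) h.nml))
  · rintro ⟨f, h1, h2⟩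
    obtain ⟨G, rfl, h3⟩ := hf_of_symp h1
    exact h0 (lin_bil hn hH h3 (sim_of_nml h.top h3.unit (fixes_iff.1 h2) h.nml))
  · rintro ⟨τ, f, h1, h2⟩
    obtain ⟨G, rfl, h3⟩ := hf_of_unit h1
    exact h0 (lin_unit hn (ne_id_of_unit h1) h3
      (sim_of_nml h.top h3.unit (fixes_iff.1 h2) h.nml))

end linear

end H29
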