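import Cfsg.Agent.H29.Cv2

/-! Aschbacher's theorem, part 7: groups preserving a form.  Reducible groups (`red_cases`),
normalised commutative algebras closed under adjoints (`AbN`, `AbN.cases`, `FldN.bil`,
`FldN.unit`), and the case division `form_cases`. -/

set_option autoImplicit false
set_option linter.unusedSectionVars false

namespace H29

open Matrix Cfsg.Geo Module
open scoped Kronecker commutatorElement

variable {F : Type*} [Field F] {ι κ μ : Type} [Fintype ι] [DecidableEq ι] [Fintype κ]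
  [DecidableEq κ] [Fintype μ] [DecidableEq μ] {σ : F →+* F} {H : Subgroup (GL ι F)}
  {G : Matrix ι ι F} {ε : F} {t : ℕ}

/-- the orthogonal complement -/
def pp (σ : F →+* F) (G : Matrix ι ι F) (W : Submodule F (ι → F)) : Submodule F (ι → F) where
  carrier := {x | ∀ w ∈ W, fm σ G x w = 0}
  add_mem' ha hb w hw := by rw [fm_add_left, ha w hw, hb w hw, add_zero]
  zero_mem' w _ := fm_zero_left w
  smul_mem' c x hx w hw := by rw [fm_smul_left, hx w hw, mul_zero]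

theorem mem_pp {W : Submodule F (ι → F)} {x : ι → F} :
    x ∈ pp σ G W ↔ ∀ w ∈ W, fm σ G x w = 0 := Iff.rfl

theorem le_finrank_pp (W : Submodule F (ι → F)) :
    Fintype.card ι ≤ finrank F W + finrank F (pp σ G W) := by
  let b := Module.finBasis F W
  let φ : (ι → F) →ₗ[F] (Fin (finrank F W) → F) :=
    { toFun := fun x i => fm σ G x (b i)
      map_add' := fun x y => funext fun i => fm_add_left _ _ _
      map_smul' := fun c x => funext fun i => fm_smul_left _ _ _ }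
  have h1 : LinearMap.ker φ ≤ pp σ G W := fun x hx w hw => by
    have h2 : ∀ v ∈ Submodule.span F (Set.range b), fm σ G x v = 0 := fun v hv => by
      induction hv using Submodule.span_induction with
      | mem v h => obtain ⟨i, rfl⟩ := h; exact congrFun hx i
      | zero => simp
      | add u v _ _ h h' => rw [Submodule.coe_add, fm_add_right, h, h', add_zero]
      | smul c v _ h => rw [Submodule.coe_smul, fm_smul_right, h, mul_zero]
    exact h2 ⟨w, hw⟩ (b.span_eq ▸ Submodule.mem_top)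
  have h2 := φ.finrank_range_add_finrank_ker
  have h3 := (LinearMap.range φ).finrank_le
  have h4 := Submodule.finrank_mono h1
  simp only [Module.finrank_fintype_fun_eq_card, Fintype.card_fin] at h2 h3
  omega

theorem pp_inv (hs : H ≤ Sim σ G) {W : Submodule F (ι → F)}
    (hW : ∀ g ∈ H, ∀ x ∈ W, (g : Matrix ι ι F) *ᵥ x ∈ W) :
    ∀ g ∈ H, ∀ x ∈ pp σ G W, (g : Matrix ι ι F) *ᵥ x ∈ pp σ G W := fun g hg x hx w hw => by
  obtain ⟨c, hc⟩ := hs hg
  rw [← mulVec_inv_mulVec g w, hc, hx _ (hW _ (H.inv_mem hg) w hw), mul_zero]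

theorem HF.ndOn (h : HF σ ε G) {W : Submodule F (ι → F)}
    (hW : ∀ w ∈ W, (∀ x ∈ W, fm σ G w x = 0) → w = 0) : IsNondegenerateOn (fm σ G) W :=
  fun w hw h0 => by
    obtain ⟨x, hx, h1⟩ : ∃ x ∈ W, fm σ G w x ≠ 0 := by
      by_contra! h1
      exact h0 (hW w hw h1)
    exact ⟨⟨x, hx, fun e => h1 (h.eq_zero_comm e)⟩, x, hx, h1⟩

theorem inf_pp {W : Submodule F (ι → F)} (hW : IsNondegenerateOn (fm σ G) W) :
    W ⊓ pp σ G W = ⊥ := (Submodule.eq_bot_iff _).2 fun x hx => by_contra fun h0 =>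
  let ⟨_, y, hy, h1⟩ := hW x hx.1 h0
  h1 (hx.2 y hy)

theorem pp_compl {W : Submodule F (ι → F)} (h : W ⊓ pp σ G W = ⊥) :
    W ⊔ pp σ G W = ⊤ ∧ finrank F W + finrank F (pp σ G W) = Fintype.card ι := by
  have h1 := Submodule.finrank_sup_add_finrank_inf_eq W (pp σ G W)
  have h2 := le_finrank_pp (σ := σ) (G := G) W
  have h3 := (W ⊔ pp σ G W).finrank_le
  rw [h, finrank_bot] at h1
  rw [Module.finrank_fintype_fun_eq_card] at h3
  exact ⟨Submodule.eq_top_of_finrank_eq (by rw [Module.finrank_fintype_fun_eq_card]; omega),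
    by omega⟩

theorem HF.nd_of_inf (h : HF σ ε G) {W : Submodule F (ι → F)} (h0 : W ⊓ pp σ G W = ⊥) :
    IsNondegenerateOn (fm σ G) W ∧ IsNondegenerateOn (fm σ G) (pp σ G W) :=
  ⟨h.ndOn fun w hw h1 => (Submodule.eq_bot_iff _).1 h0 w ⟨hw, h1⟩, h.ndOn fun w hw h1 =>
    h.left fun y => by
      obtain ⟨a, ha, b, hb, rfl⟩ := Submodule.mem_sup.1 ((pp_compl h0).1 ▸ Submodule.mem_top :
        y ∈ W ⊔ pp σ G W)
      rw [fm_add_right, hw a ha, h1 b hb, add_zero]⟩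

theorem mdec_pair {W W' : Submodule F (ι → F)} (h0 : W ≠ ⊥) (h1 : W ⊓ W' = ⊥) (h2 : W ⊔ W' = ⊤)
    (h3 : finrank F W' = finrank F W) : IsMDecomposition (finrank F W) ![W, W'] := by
  refine ⟨le_rfl, by rwa [pos_iff_ne_zero, Ne, Submodule.finrank_eq_zero], ?_, ?_, ?_⟩
  · exact Fin.forall_fin_two.2 ⟨rfl, h3⟩
  · rw [iSupIndep_pair (i := 0) (j := 1) (by simp) (by simp)]
    exact disjoint_iff.2 h1
  · rw [← top_le_iff, ← h2]
    exact sup_le (le_iSup ![W, W'] 0) (le_iSup ![W, W'] 1)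

theorem HF.ndec_pair (h : HF σ ε G) {W : Submodule F (ι → F)} (h0 : W ≠ ⊥)
    (h1 : W ⊓ pp σ G W = ⊥) (h3 : 2 * finrank F W = Fintype.card ι) :
    IsNondegenerateMDecomposition (fm σ G) (finrank F W) ![W, pp σ G W] := by
  have h2 := pp_compl h1
  refine ⟨mdec_pair h0 h1 h2.1 (by omega), ?_, ?_⟩
  · simpa [Fin.forall_fin_two] using h.nd_of_inf h1
  · simp only [Fin.forall_fin_two, ne_eq, not_true, zero_ne_one, one_ne_zero, not_false_iff,
      IsEmpty.forall_iff, true_and, and_true, forall_true_left]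
    exact ⟨fun u hu v hv => h.eq_zero_comm (hv u hu), fun u hu v hv => hu v hv⟩

theorem le_stab {W : Submodule F (ι → F)} (h : ∀ g ∈ H, ∀ x ∈ W, (g : Matrix ι ι F) *ᵥ x ∈ W) :
    H ≤ subspaceStabilizer W := fun g hg => mem_subspaceStabilizer_of_le (h g hg)

theorem le_decStab {D : Fin t → Submodule F (ι → F)} (h : ∀ i, H ≤ subspaceStabilizer (D i)) :
    H ≤ decompositionStabilizer D := fun g hg => ⟨1, fun i => by
  refine le_antisymm ?_ fun x hx => ⟨_, mulVec_mem_of_stab (h i (H.inv_mem hg)) hx,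
    mulVec_inv_mulVec g x⟩
  rintro _ ⟨x, hx, rfl⟩
  exact mulVec_mem_of_stab (h i hg) hx⟩

theorem red_cases (h : HF σ ε G) (hs : H ≤ Sim σ G) (hI : ¬ Irr H) :
    (∃ W, W ≠ ⊥ ∧ IsTotallySingularFor (fm σ G) W ∧ H ≤ subspaceStabilizer W) ∨
    (∃ W, W ≠ ⊥ ∧ IsNondegenerateOn (fm σ G) W ∧ 2 * finrank F W < Fintype.card ι ∧
      H ≤ subspaceStabilizer W) ∨
    ∃ W, W ≠ ⊥ ∧ IsNondegenerateOn (fm σ G) W ∧ 2 * finrank F W = Fintype.card ι ∧
      H ≤ subspaceStabilizer W := by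
  obtain ⟨W, h0, h1, h2⟩ := not_irr hI
  have h3 := pp_inv hs h2
  by_cases h4 : W ⊓ pp σ G W = ⊥
  · have h5 := pp_compl h4
    have h6 := h.nd_of_inf h4
    rcases lt_trichotomy (2 * finrank F W) (Fintype.card ι) with h7 | h7 | h7
    · exact .inr (.inl ⟨W, h0, h6.1, h7, le_stab h2⟩)
    · exact .inr (.inr ⟨W, h0, h6.1, h7, le_stab h2⟩)
    · exact .inr (.inl ⟨_, fun e => h1 (by simpa [e] using h5.1), h6.2, by omega, le_stab h3⟩)
  · exact .inl ⟨_, h4, fun u hu v hv => hu.2 v hv.1,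
      le_stab fun g hg x hx => ⟨h2 g hg x hx.1, h3 g hg x hx.2⟩⟩

theorem stab_pp (hs : H ≤ Sim σ G) {W : Submodule F (ι → F)} (hW : H ≤ subspaceStabilizer W) :
    H ≤ subspaceStabilizer (pp σ G W) :=
  le_stab (pp_inv hs fun _ hg _ hx => mulVec_mem_of_stab (hW hg) hx)

theorem le_decStab_pair (hs : H ≤ Sim σ G) {W : Submodule F (ι → F)}
    (hW : H ≤ subspaceStabilizer W) : H ≤ decompositionStabilizer ![W, pp σ G W] :=
  le_decStab (by simpa [Fin.forall_fin_two] using ⟨hW, stab_pp hs hW⟩)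

/-- `H` normalises a non-scalar commutative algebra closed under adjoints -/
def AbN (σ : F →+* F) (G : Matrix ι ι F) (H : Subgroup (GL ι F)) : Prop :=
  ∃ B : Subalgebra F (Matrix ι ι F), NmlA H B ∧ (∀ x ∈ B, ∀ y ∈ B, x * y = y * x) ∧
    (∀ x ∈ B, adj σ G x ∈ B) ∧ ∃ x ∈ B, ¬ Sc x

/-- `H` permutes transitively the members of a non-degenerate decomposition -/
def NDec (σ : F →+* F) (G : Matrix ι ι F) (H : Subgroup (GL ι F)) (k : ℕ) : Prop :=
  ∃ (t : ℕ) (D : Fin t → Submodule F (ι → F)), IsNondegenerateMDecomposition (fm σ G) k D ∧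
    H ≤ decompositionStabilizer D ∧
      ∀ i j, ∃ g ∈ H, (D i).map (toLin' (g : Matrix ι ι F)) = D j

/-- `ω + ω* = 1` and `H` preserves `{ω, ω*}` -/
def Om (σ : F →+* F) (G : Matrix ι ι F) (H : Subgroup (GL ι F)) (ω : Matrix ι ι F) : Prop :=
  ω + adj σ G ω = 1 ∧ ∀ g ∈ H, cjA g ω = ω ∨ cjA g ω = adj σ G ω

/-- `H` preserves a pair of complementary totally isotropic subspaces -/
def TPair (σ : F →+* F) (G : Matrix ι ι F) (H : Subgroup (GL ι F)) : Prop :=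
  ∃ (k : ℕ) (D : Fin 2 → Submodule F (ι → F)), IsMDecomposition k D ∧
    (∀ i, IsTotallySingularFor (fm σ G) (D i)) ∧ H ≤ decompositionStabilizer D ∧
      ∃ ω, Om σ G H ω ∧ ∀ i, (∀ v ∈ D i, ω *ᵥ v = v) ∨ ∀ v ∈ D i, ω *ᵥ v = 0

/-- `H` normalises a field closed under adjoints -/
def FldN (σ : F →+* F) (G : Matrix ι ι F) (H : Subgroup (GL ι F)) (d : ℕ)
    (K : Subalgebra F (Matrix ι ι F)) : Prop :=
  IsFieldSubalgebra d K ∧ NmlA H K ∧ ∀ x ∈ K, adj σ G x ∈ K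

theorem ndec_of_idem [Finite F] (hH : Irr H) (h : HF σ ε G) (hs : H ≤ Sim σ G) {u : Matrix ι ι F}
    (h1 : u * u = u) (h2 : u ≠ 0) (h3 : u ≠ 1) (h4 : adj σ G u = u)
    (h5 : ∀ g ∈ H, cjA g u = u ∨ cjA g u * u = 0) : NDec σ G H (finrank F (rng u)) := by
  obtain ⟨t, g, hg, ho, -, h6, h7⟩ := dec_of_idem hH h1 h2 h3 h5
  have hid : ∀ g, cjA g u * cjA g u = cjA g u := fun g => by rw [← map_mul, h1]
  have had : ∀ i, adj σ G (cjA (g i) u) = cjA (g i) u := fun i => by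
    rw [h.adj_cjA (hs (hg i)), h4]
  refine ⟨t, _, ⟨h6, fun i => h.ndOn fun w hw h8 => h.left fun y => ?_,
    fun i j hij x hx y hy => ?_⟩, h7, fun i j => ⟨g j * (g i)⁻¹,
      H.mul_mem (hg j) (H.inv_mem (hg i)), ?_⟩⟩
  · rw [← (mem_rng (hid _)).1 hw, h.fm_adj, had]
    exact h8 _ ⟨y, rfl⟩
  · rw [← (mem_rng (hid _)).1 hx, ← (mem_rng (hid _)).1 hy, h.fm_adj, had, mulVec_mulVec,
      ho i j hij, zero_mulVec, fm_zero_right]
  · rw [← rng_cjA, ← cjA_mul, inv_mul_cancel_right]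

theorem ndec_of_sub [Finite F] (hH : Irr H) (h : HF σ ε G) (hs : H ≤ Sim σ G)
    {W : Submodule F (ι → F)} (h0 : W ≠ ⊥) (h1 : W ≠ ⊤) (h2 : IsNondegenerateOn (fm σ G) W)
    (h3 : ∀ g ∈ H, (∀ x ∈ W, (g : Matrix ι ι F) *ᵥ x ∈ W) ∨
      ∀ x ∈ W, ∀ y ∈ W, fm σ G ((g : Matrix ι ι F) *ᵥ x) y = 0) : NDec σ G H (finrank F W) := by
  have hc : IsCompl W (pp σ G W) := ⟨disjoint_iff.2 (inf_pp h2),
    codisjoint_iff.2 (pp_compl (inf_pp h2)).1⟩
  obtain ⟨u, hu⟩ : ∃ u : Matrix ι ι F, ∀ x, u *ᵥ x = Submodule.projection W _ hc x :=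
    ⟨LinearMap.toMatrix' (Submodule.projection W _ hc), fun x => by
      rw [← toLin'_apply, toLin'_toMatrix']⟩
  have a1 : ∀ x, u *ᵥ x ∈ W := fun x => hu x ▸ Submodule.projection_apply_mem hc x
  have a2 : ∀ x ∈ W, u *ᵥ x = x := fun x hx => by
    rw [hu, Submodule.projection_apply_left hc ⟨x, hx⟩]
  have a3 : ∀ x ∈ pp σ G W, u *ᵥ x = 0 := fun x hx => by
    rw [hu, Submodule.projection_apply_right hc ⟨x, hx⟩]
  have a4 : ∀ x, x - u *ᵥ x ∈ pp σ G W := fun x => by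
    obtain ⟨a, ha, b, hb, rfl⟩ := Submodule.mem_sup.1 (hc.sup_eq_top ▸ Submodule.mem_top :
        x ∈ W ⊔ pp σ G W)
    simpa [mulVec_add, a2 a ha, a3 b hb] using hb
  have a5 : ∀ x y, fm σ G (u *ᵥ x) y = fm σ G (u *ᵥ x) (u *ᵥ y) := fun x y => by
    rw [← sub_add_cancel y (u *ᵥ y), fm_add_right, h.eq_zero_comm (a4 y _ (a1 x)), zero_add,
      sub_add_cancel]
  have a6 : rng u = W := le_antisymm (by rintro _ ⟨x, rfl⟩; exact a1 x) fun x hx => ⟨x, a2 x hx⟩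
  rw [← a6]
  refine ndec_of_idem hH h hs (ext_mulVec fun x => by rw [← mulVec_mulVec, a2 _ (a1 x)])
    (fun e => h0 (by rw [← a6, e]; simp [rng])) (fun e => h1 (by rw [← a6, e]; simp [rng]))
    (h.adj_eq fun x y => ?_) fun g hg => ?_
  · rw [a5, ← sub_add_cancel x (u *ᵥ x), fm_add_left, a4 x _ (a1 y), zero_add, sub_add_cancel]
  obtain ⟨c, hc⟩ := hs hg
  refine (h3 g⁻¹ (H.inv_mem hg)).imp (fun h4 => cjA_eq_iff.2 (ext_mulVec fun x => ?_))
    fun h4 => ext_mulVec fun x => ?_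
  · have h5 : ∀ x ∈ W, (g : Matrix ι ι F) *ᵥ x ∈ W := fun x hx => by
      simpa using mulVec_mem_of_stab (Subgroup.inv_mem _ (mem_subspaceStabilizer_of_le h4)) hx
    have h6 : (g : Matrix ι ι F) *ᵥ (x - u *ᵥ x) ∈ pp σ G W := fun w hw => by
      rw [← mulVec_inv_mulVec g w, hc, a4 x _ (h4 w hw), mul_zero]
    have := a3 _ h6
    rw [mulVec_sub, mulVec_sub, a2 _ (h5 _ (a1 x)), sub_eq_zero] at this
    rw [← mulVec_mulVec, ← mulVec_mulVec, this]
  · rw [← mulVec_mulVec, ← mulVec_inv_mulVec g (u *ᵥ x), cjA_mulVec, a3 _ (h4 _ (a1 x)),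
      mulVec_zero, zero_mulVec]

theorem ndec_one [Finite F] (hH : Irr H) (hn : 2 ≤ Fintype.card ι) (h : HF σ ε G)
    (hs : H ≤ Sim σ G) {v : ι → F} (hv : fm σ G v v ≠ 0)
    (h3 : ∀ g ∈ H, (g : Matrix ι ι F) *ᵥ v ∈ F ∙ v ∨ fm σ G ((g : Matrix ι ι F) *ᵥ v) v = 0) :
    NDec σ G H 1 := by
  have h0 : v ≠ 0 := by rintro rfl; simp at hv
  rw [← finrank_span_singleton (K := F) h0]
  refine ndec_of_sub hH h hs (by simpa) (fun e => ?_) (h.ndOn fun w hw h1 => ?_) fun g hg =>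
    (h3 g hg).imp (fun h1 x hx => ?_) fun h1 x hx y hy => ?_
  · have := finrank_span_singleton (K := F) h0
    rw [e, finrank_top, Module.finrank_fintype_fun_eq_card] at this
    omega
  · obtain ⟨c, rfl⟩ := Submodule.mem_span_singleton.1 hw
    have := h1 v (Submodule.mem_span_singleton_self v)
    rw [fm_smul_left] at this
    rw [(mul_eq_zero.1 this).resolve_right hv, zero_smul]
  · obtain ⟨c, rfl⟩ := Submodule.mem_span_singleton.1 hx
    rw [mulVec_smul]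
    exact Submodule.smul_mem _ _ h1
  · obtain ⟨c, rfl⟩ := Submodule.mem_span_singleton.1 hx
    obtain ⟨d, rfl⟩ := Submodule.mem_span_singleton.1 hy
    rw [mulVec_smul, fm_smul_left, fm_smul_right, h1, mul_zero, mul_zero]

theorem tpair_of_idem [Finite F] (hH : Irr H) (h : HF σ ε G) {e : Matrix ι ι F}
    (h1 : e * e = e) (h2 : e ≠ 0) (h3 : e ≠ 1) (h4 : Om σ G H e) : TPair σ G H := by
  have h5 : adj σ G e = 1 - e := eq_sub_of_add_eq' h4.1
  have h6 : (1 - e) * e = 0 := by rw [sub_mul, h1, one_mul, sub_self]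
  have h6' : e * (1 - e) = 0 := by rw [mul_sub, h1, mul_one, sub_self]
  obtain ⟨t, g, hg, ho, -, h7, h8⟩ := dec_of_idem hH h1 h2 h3 fun g hg =>
    (h4.2 g hg).imp_right fun e => by rw [e, h5, h6]
  have hid : ∀ g, cjA g e * cjA g e = cjA g e := fun g => by rw [← map_mul, h1]
  have hne : ∀ i j, cjA (g i) e = cjA (g j) e → i = j := fun i j hij => by_contra fun h0 =>
    h2 ((map_eq_zero_iff _ (cjA (g j)).injective).1 (by rw [← hid, ← ho i j h0, hij]))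
  have h9 : ∀ i, cjA (g i) e = e ∨ cjA (g i) e = 1 - e := fun i => h5 ▸ h4.2 _ (hg i)
  obtain rfl : t = 2 := by
    refine le_antisymm (not_lt.1 fun ht => ?_) h7.two_le
    have a := hne ⟨0, by omega⟩ ⟨1, by omega⟩
    have b := hne ⟨0, by omega⟩ ⟨2, by omega⟩
    have c := hne ⟨1, by omega⟩ ⟨2, by omega⟩
    simp only [Fin.mk.injEq] at a b c
    rcases h9 ⟨0, by omega⟩ with h | h <;> rcases h9 ⟨1, by omega⟩ with h' | h' <;>
      rcases h9 ⟨2, by omega⟩ with h'' | h'' <;> first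
        | exact absurd (a (h.trans h'.symm)) (by omega)
        | exact absurd (b (h.trans h''.symm)) (by omega)
        | exact absurd (c (h'.trans h''.symm)) (by omega)
  refine ⟨_, _, h7, fun i x hx y hy => ?_, h8, e, h4, fun i => (h9 i).imp (fun h0 v hv => ?_)
    fun h0 v hv => ?_⟩
  · rw [← (mem_rng (hid _)).1 hx, ← (mem_rng (hid _)).1 hy, h.fm_adj, mulVec_mulVec]
    rcases h9 i with h0 | h0
    · rw [h0, h5, h6, zero_mulVec, fm_zero_right]
    · rw [h0, ← h5, h.adj_adj, h5, h6', zero_mulVec, fm_zero_right]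
  · rwa [h0, mem_rng h1] at hv
  · obtain ⟨w, rfl⟩ := hv
    rw [h0, toLin'_apply, mulVec_mulVec, h6', zero_mulVec]

theorem AbN.cases [Finite F] [Nonempty ι] (hH : Irr H) (h : HF σ ε G) (hs : H ≤ Sim σ G)
    (hA : AbN σ G H) : (∃ k, NDec σ G H k) ∨ TPair σ G H ∨ ∃ d K, 1 < d ∧ FldN σ G H d K := by
  obtain ⟨B, hB, hc, ha, x, hx, hx'⟩ := hA
  rcases idem_or_field hH hB hc with ⟨e, he, h1, h2, h3, h4⟩ | h1
  swap
  · exact .inr (.inr ⟨_, B, one_lt_finrank hx hx', ⟨hc, h1, rfl⟩, hB, ha⟩)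
  have he' := ha e he
  have h1' : adj σ G e * adj σ G e = adj σ G e := by rw [← h.adj_mul, h1]
  have h4' : ∀ f ∈ B, f * f = f → f * adj σ G e = 0 ∨ f * adj σ G e = adj σ G e := fun f hf h5 => by
    have h6 : f * adj σ G e = adj σ G (adj σ G f * e) := by
      rw [h.adj_mul, h.adj_adj, hc _ hf _ he']
    rw [h6]
    exact (h4 _ (ha f hf) (by rw [← h.adj_mul, h5])).imp (fun h => by rw [h, adj_zero])
      fun h => by rw [h]
  have ho := fun g (hg : g ∈ H) => orbit_idem hB hc he he h1 h1 h4 h4 hg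
  have ho' := fun g (hg : g ∈ H) => orbit_idem hB hc he he' h1 h1' h4 h4' hg
  rcases h4 _ he' h1' with h5 | h5
  swap
  · refine .inl ⟨_, ndec_of_idem hH h hs h1 h2 h3 ?_ ho⟩
    rcases h4' e he h1 with h6 | h6
    · exact absurd (by rw [← h5, hc _ he' _ he, h6]) h2
    · rw [← h6, hc _ he _ he', h5]
  have h5' : e * adj σ G e = 0 := by rw [hc _ he _ he', h5]
  by_cases h6 : e + adj σ G e = 1
  · refine .inr (.inl (tpair_of_idem hH h h1 h2 h3 ⟨h6, fun g hg => ?_⟩))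
    refine (ho g hg).imp_right fun h7 => (ho' g hg).resolve_right fun h8 => h2 ?_
    rw [← map_eq_zero_iff _ (cjA g).injective, ← mul_one (cjA g e), ← h6, mul_add, h7, h8, add_zero]
  refine .inl ⟨_, ndec_of_idem hH h hs (u := e + adj σ G e) ?_ (fun h7 => h2 ?_) h6 ?_
    fun g hg => ?_⟩
  · rw [mul_add, add_mul, add_mul, h1, h1', h5, h5', add_zero, zero_add]
  · simpa [add_mul, h1, h5] using congrArg (· * e) h7
  · rw [adj_add, h.adj_adj, add_comm]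
  rw [map_add, ← h.adj_cjA (hs hg)]
  rcases ho g hg with h7 | h7
  · rw [h7]; exact .inl rfl
  rcases ho' g hg with h8 | h8
  · rw [h8, h.adj_adj]; exact .inl (add_comm _ _)
  have h9 := ha _ (hB g hg e he)
  have a := congrArg (adj σ G) h7
  have b := congrArg (adj σ G) h8
  rw [h.adj_mul, adj_zero, hc _ he' _ h9] at a
  rw [h.adj_mul, adj_zero, h.adj_adj, hc _ he _ h9] at b
  exact .inr (by rw [mul_add, add_mul, add_mul, h7, h8, a, b]; simp)

theorem FldN.sub [Fintype F] [Nonempty ι] (h : HF σ ε G) {d r : ℕ}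
    {B : Subalgebra F (Matrix ι ι F)} (hB : FldN σ G H d B) (hr : r ∣ d) :
    ∃ K, FldN σ G H r K ∧ K ≤ B ∧ ∀ x ∈ K, x ^ (Fintype.card F ^ r) = x := by
  obtain ⟨K, h1, h2⟩ := exists_subfield_alg hB.1 hr
  refine ⟨K, ⟨h1, fun g hg x hx => (h2 _).2 ⟨hB.2.1 g hg x ((h2 x).1 hx).1, ?_⟩,
    fun x hx => (h2 _).2 ⟨hB.2.2 x ((h2 x).1 hx).1, ?_⟩⟩, fun x hx => ((h2 x).1 hx).1,
    fun x hx => ((h2 x).1 hx).2⟩
  · rw [← map_pow, ((h2 x).1 hx).2]
  · rw [← h.adj_pow, ((h2 x).1 hx).2]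

theorem inv_eq_of_field {d : ℕ} {K : Subalgebra F (Matrix ι ι F)} (hK : IsFieldSubalgebra d K)
    {x y : Matrix ι ι F} (hx : x ∈ K) (h0 : x ≠ 0) (h : x * y = 0) : y = 0 := by
  obtain ⟨z, hz, e⟩ := hK.inv x hx h0
  rw [← one_mul y, ← e, hK.comm x hx z hz, mul_assoc, h, mul_zero]

theorem FldN.bil [Fintype F] [Nonempty ι] (h : HF (RingHom.id F) ε G)
    (hs : H ≤ Sim (RingHom.id F) G) {d : ℕ} (hd : 1 < d) {B : Subalgebra F (Matrix ι ι F)}
    (hB : FldN (RingHom.id F) G H d B) :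
    (∃ r K, r.Prime ∧ FldN (RingHom.id F) G H r K ∧ (∀ x ∈ K, adj (RingHom.id F) G x = x) ∧
      ∀ x ∈ K, x ^ (Fintype.card F ^ r) = x) ∨
    (d = 2 ∧ ∀ x ∈ B, adj (RingHom.id F) G x = x → Sc x) := by
  let B₀ : Subalgebra F (Matrix ι ι F) :=
    { carrier := {x | x ∈ B ∧ adj (RingHom.id F) G x = x}
      mul_mem' := fun ha hb => ⟨B.mul_mem ha.1 hb.1, by
        rw [h.adj_mul, ha.2, hb.2, hB.1.comm _ ha.1 _ hb.1]⟩
      add_mem' := fun ha hb => ⟨B.add_mem ha.1 hb.1, by rw [adj_add, ha.2, hb.2]⟩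
      algebraMap_mem' := fun c => ⟨B.algebraMap_mem c, by
        rw [Algebra.algebraMap_eq_smul_one, adj_smul, h.adj_one]; rfl⟩ }
  by_cases h1 : ∀ x ∈ B, adj (RingHom.id F) G x = x → Sc x
  · refine .inr ⟨le_antisymm ?_ hd, h1⟩
    obtain ⟨x, hx, h2⟩ : ∃ x ∈ B, ¬ Sc x := by
      by_contra! h2
      have h3 : B = ⊥ := le_bot_iff.1 fun k hk => by
        obtain ⟨c, rfl⟩ := h2 k hk
        exact Subalgebra.smul_mem _ (Subalgebra.one_mem _) c
      have := hB.1.finrank_eq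
      rw [h3, Subalgebra.finrank_bot] at this
      omega
    have hδ := B.sub_mem hx (hB.2.2 x hx)
    have hδ0 : x - adj (RingHom.id F) G x ≠ 0 := fun e => h2 (h1 x hx (sub_eq_zero.1 e).symm)
    obtain ⟨z, hz, e⟩ := hB.1.inv _ hδ hδ0
    have hz' : adj (RingHom.id F) G z = -z := by
      have := congrArg (adj (RingHom.id F) G) e
      rw [h.adj_mul, adj_sub, h.adj_adj, h.adj_one, ← neg_sub, mul_neg, neg_eq_iff_eq_neg] at this
      rw [← mul_one (adj _ G z), ← e, ← mul_assoc, this, neg_mul, one_mul]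
    have h3 : B.toSubmodule ≤ Submodule.span F {1, x} := fun b hb => by
      have hb' := B.sub_mem hb (hB.2.2 b hb)
      obtain ⟨c, hc⟩ := h1 _ (B.mul_mem hb' hz) (by
        rw [h.adj_mul, adj_sub, h.adj_adj, hz', hB.1.comm _ hb' _ hz, neg_mul, ← mul_neg, neg_sub])
      have h4 : b - adj (RingHom.id F) G b = c • (x - adj (RingHom.id F) G x) := by
        rw [← mul_one (b - _), ← e, hB.1.comm _ hδ _ hz, ← mul_assoc, hc, smul_mul_assoc, one_mul]
      obtain ⟨a, ha⟩ := h1 (b - c • x) (B.sub_mem hb (B.smul_mem hx c)) (by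
        rw [adj_sub, adj_smul, RingHom.id_apply]
        linear_combination (norm := module) -h4)
      exact Submodule.mem_span_pair.2 ⟨a, c, by rw [← ha, sub_add_cancel]⟩
    rw [← hB.1.finrank_eq]
    exact (Submodule.finrank_mono h3).trans (finrank_span_two_le _ _)
  · push Not at h1
    obtain ⟨x, hx, h1, h2⟩ := h1
    obtain ⟨r, hr, h3⟩ := Nat.exists_prime_and_dvd (one_lt_finrank (B := B₀) ⟨hx, h1⟩ h2).ne'
    obtain ⟨K, h4, h5, h6⟩ := FldN.sub h (H := H) (B := B₀) ⟨⟨fun x hx y hy =>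
      hB.1.comm x hx.1 y hy.1, fun x hx h0 => by
        obtain ⟨y, hy, e⟩ := hB.1.inv x hx.1 h0
        refine ⟨y, ⟨hy, ?_⟩, e⟩
        have := congrArg (adj (RingHom.id F) G) e
        rw [h.adj_mul, hx.2, h.adj_one] at this
        rw [← mul_one (adj _ G y), ← e, ← mul_assoc, this, one_mul], rfl⟩,
      fun g hg x hx => ⟨hB.2.1 g hg x hx.1, by rw [h.adj_cjA (hs hg), hx.2]⟩,
      fun x hx => by rwa [hx.2]⟩ h3
    exact .inl ⟨r, K, hr, h4, fun x hx => (h5 hx).2, h6⟩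

theorem FldN.odd [Fintype F] [Nonempty ι] (h : HF σ ε G) (hne : σ ≠ RingHom.id F) {d : ℕ}
    {B : Subalgebra F (Matrix ι ι F)} (hB : FldN σ G H d B) : Odd d := by
  refine Nat.not_even_iff_odd.1 fun hd => ?_
  obtain ⟨K, ⟨h1, -, h2⟩, -, -⟩ := hB.sub h hd.two_dvd
  letI := (isField_of h1).toField
  haveI : Finite K := Subtype.finite
  let τ : K →+* K :=
    { toFun := fun x => ⟨_, h2 x x.2⟩
      map_one' := Subtype.ext h.adj_one
      map_mul' := fun x y => Subtype.ext ((h.adj_mul _ _).trans (h1.comm _ (h2 _ y.2) _ (h2 _ x.2)))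
      map_zero' := Subtype.ext adj_zero
      map_add' := fun x y => Subtype.ext (adj_add _ _) }
  have h3 : ∀ c : F, τ (algebraMap F K c) = algebraMap F K (σ c) := fun c => Subtype.ext (by
    change adj σ G (algebraMap F _ c) = algebraMap F _ (σ c)
    rw [Algebra.algebraMap_eq_smul_one, adj_smul, h.adj_one, Algebra.algebraMap_eq_smul_one])
  refine hne (RingHom.ext fun c => (algebraMap F K).injective ?_)
  by_cases h4 : τ = RingHom.id K
  · rw [← h3, h4]; rfl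
  rw [← h3, H11.unit_σ_eq (fun x => Subtype.ext (h.adj_adj _)) h4 (q := Fintype.card F) (by
    rw [Module.natCard_eq_pow_finrank (K := F), h1.finrank_eq, Nat.card_eq_fintype_card]),
    ← map_pow, FiniteField.pow_card]
  rfl

theorem FldN.unit [Fintype F] [Nonempty ι] (h : HF σ ε G) (hne : σ ≠ RingHom.id F) {d : ℕ}
    (hd : 1 < d) {B : Subalgebra F (Matrix ι ι F)} (hB : FldN σ G H d B) :
    ∃ r K, r.Prime ∧ Odd r ∧ FldN σ G H r K := by
  obtain ⟨r, hr, h1⟩ := Nat.exists_prime_and_dvd hd.ne'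
  obtain ⟨K, h2, -⟩ := hB.sub h h1
  exact ⟨r, K, hr, h2.odd h hne, h2⟩

theorem AbN.mono {K : Subgroup (GL ι F)} (h : AbN σ G K) (hK : H ≤ K) : AbN σ G H :=
  h.imp fun _ h => ⟨fun g hg => h.1 g (hK hg), h.2⟩

theorem adj_adjoin (h : HF σ ε G) {S : Set (Matrix ι ι F)}
    (hS : ∀ x ∈ S, adj σ G x ∈ Algebra.adjoin F S) {a : Matrix ι ι F}
    (ha : a ∈ Algebra.adjoin F S) : adj σ G a ∈ Algebra.adjoin F S := by
  induction ha using Algebra.adjoin_induction with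
  | mem x hx => exact hS x hx
  | algebraMap c =>
    rw [Algebra.algebraMap_eq_smul_one, adj_smul, h.adj_one]
    exact Subalgebra.smul_mem _ (Subalgebra.one_mem _) _
  | add x y _ _ h h' => rw [adj_add]; exact add_mem h h'
  | mul x y _ _ h' h'' => rw [h.adj_mul]; exact mul_mem h'' h'

theorem AbN.of_set (h : HF σ ε G) (S : Set (Matrix ι ι F))
    (h1 : ∀ g ∈ H, ∀ x ∈ S, cjA g x ∈ Algebra.adjoin F S) (h2 : ∀ x ∈ S, ∀ y ∈ S, x * y = y * x)
    (h3 : ∀ x ∈ S, adj σ G x ∈ Algebra.adjoin F S) {x : Matrix ι ι F} (hx : x ∈ S) (h4 : ¬ Sc x) :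
    AbN σ G H := by
  refine ⟨Algebra.adjoin F S, fun g hg a ha => ?_, fun a ha b hb =>
    Algebra.commute_of_mem_adjoin_of_forall_mem_commute hb fun y hy =>
      (Algebra.commute_of_mem_adjoin_of_forall_mem_commute ha fun z hz => h2 y hy z hz).symm,
    fun a ha => adj_adjoin h h3 ha, x, Algebra.subset_adjoin hx, h4⟩
  exact Algebra.adjoin_le (S := (Algebra.adjoin F S).comap (cjA g).toAlgHom)
    (fun x hx => h1 g hg x hx) ha

theorem AbN.of_elt (h : HF σ ε G) {x : Matrix ι ι F}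
    (h1 : ∀ g ∈ H, ∃ a b : F, cjA g x = a • 1 + b • x) {a b : F} (h3 : adj σ G x = a • 1 + b • x)
    (h4 : ¬ Sc x) : AbN σ G H := by
  have h5 : ∀ a b : F, a • 1 + b • x ∈ Algebra.adjoin F {x} := fun a b => add_mem
    (Subalgebra.smul_mem _ (one_mem _) _)
    (Subalgebra.smul_mem _ (Algebra.self_mem_adjoin_singleton F x) _)
  refine AbN.of_set h {x} ?_ (by simp) (by simpa [h3] using h5 a b) rfl h4
  rintro g hg _ rfl
  obtain ⟨a, b, e⟩ := h1 g hg
  exact e ▸ h5 a b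

theorem AbN.of_group (h : HF σ ε G) {A : Subgroup (GL ι F)} [Nonempty ι] (h1 : Nml H A)
    (h2 : ∀ x ∈ A, ∀ y ∈ A, x * y = y * x) (h3 : A ≤ Sim σ G) (h4 : ¬ A ≤ scalars ι F) :
    AbN σ G H := by
  obtain ⟨x, hx, h5⟩ := SetLike.not_le_iff_exists.1 h4
  exact ⟨env F A, h1.env, fun a ha b hb => env_comm (fun y hy => (env_comm (fun z hz => by
    rw [← Units.val_mul, h2 y hy z hz, Units.val_mul]) ha).symm) hb, fun a => h.env_adj h3,
    x, coe_mem_env hx, mt mem_scalars.2 h5⟩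

theorem adj_kron {G₁ : Matrix κ κ F} {G₂ : Matrix μ μ F} {ε₁ ε₂ : F} (h1 : HF σ ε₁ G₁)
    (h2 : HF σ ε₂ G₂) (h : IsUnit (G₁ ⊗ₖ G₂)) (X : Matrix κ κ F) (Y : Matrix μ μ F) :
    adj σ (G₁ ⊗ₖ G₂) (X ⊗ₖ Y) = adj σ G₁ X ⊗ₖ adj σ G₂ Y := adj_eq h1.σσ h (by
  rw [kron_map, ← mul_kronecker_mul, mul_adj h1.σσ h1.unit, mul_adj h1.σσ h2.unit,
    mul_kronecker_mul, kroneckerMap_transpose])

theorem cjA_kron (a : GL κ F) (b : GL μ F) (X : Matrix κ κ F) (Y : Matrix μ μ F) :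
    cjA (kronU a b) (X ⊗ₖ Y) = cjA a X ⊗ₖ cjA b Y := cjA_eq_iff.2 (by
  change _ ⊗ₖ _ * _ = _ * _ ⊗ₖ _
  rw [← mul_kronecker_mul, ← mul_kronecker_mul, cjA_mul_self, cjA_mul_self])

theorem sc_Φ {T : (κ → F) ≃ₗ[F] (ι → F)} {X : Matrix κ κ F} (h : Sc (Φ T X)) : Sc X :=
  h.imp fun c hc => (Φ T).injective (by rw [hc, map_smul, map_one])

/-- a tensor decomposition compatible with the form -/
structure KrF (σ : F →+* F) (G : Matrix ι ι F) (H : Subgroup (GL ι F))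
    (T : (κ × μ → F) ≃ₗ[F] (ι → F)) (G₁ : Matrix κ κ F) (G₂ : Matrix μ μ F) (ε₁ ε₂ : F) :
    Prop where
  kr : Kr H T
  h1 : HF σ ε₁ G₁
  h2 : HF σ ε₂ G₂
  gram : gT σ G T = G₁ ⊗ₖ G₂

/-- a tensor power decomposition compatible with the form -/
structure WrF (σ : F →+* F) (G : Matrix ι ι F) (H : Subgroup (GL ι F))
    (T : ((Fin t → κ) → F) ≃ₗ[F] (ι → F)) (G₀ : Matrix κ κ F) (ε₀ c : F) : Prop where
  wr : Wr H T
  h0 : HF σ ε₀ G₀
  ne : c ≠ 0
  gram : gT σ G T = c • ten fun _ => G₀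

theorem HF.ne_zero [Nonempty ι] (h : HF σ ε G) : G ≠ 0 := h.unit.ne_zero

theorem HF.ε_eq [Nonempty ι] {ε' : F} (h : HF σ ε G) (h' : HF σ ε' G) : ε = ε' :=
  smul_left_injective F (isUnit_map (σ := σ) h.unit).ne_zero (h.herm.symm.trans h'.herm)

theorem HF.kron {G₁ : Matrix κ κ F} {G₂ : Matrix μ μ F} {ε₁ ε₂ : F} (h1 : HF σ ε₁ G₁)
    (h2 : HF σ ε₂ G₂) : HF σ (ε₁ * ε₂) (G₁ ⊗ₖ G₂) :=
  ⟨h1.σσ, (kronU h1.unit.unit h2.unit.unit).isUnit, by
    rw [← kroneckerMap_transpose, h1.herm, h2.herm, kron_map, smul_kronecker, kronecker_smul,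
      smul_smul]⟩

section KrF

variable {T : (κ × μ → F) ≃ₗ[F] (ι → F)} {G₁ : Matrix κ κ F} {G₂ : Matrix μ μ F} {ε₁ ε₂ : F}

theorem KrF.swap (h : KrF σ G H T G₁ G₂ ε₁ ε₂) :
    KrF σ G H (reT (Equiv.prodComm κ μ) T) G₂ G₁ ε₂ ε₁ := ⟨h.kr.swap, h.h2, h.h1, gT_swap h.gram⟩

theorem KrF.ε_eq [Nonempty κ] [Nonempty μ] (h : KrF σ G H T G₁ G₂ ε₁ ε₂) (hG : HF σ ε G) :
    ε₁ * ε₂ = ε := (h.h1.kron h.h2).ε_eq (h.gram ▸ hG.gT T)

theorem KrF.card (T : (κ → F) ≃ₗ[F] (ι → F)) : Fintype.card κ = Fintype.card ι := by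
  simpa using T.finrank_eq

theorem KrF.sim [Nonempty κ] [Nonempty μ] (h : KrF σ G H T G₁ G₂ ε₁ ε₂) (hs : H ≤ Sim σ G) :
    ∀ g ∈ H, ∃ a ∈ Sim σ G₁, ∃ b ∈ Sim σ G₂, g = ΦU T (kronU a b) :=
  h.kr.sim hs h.gram h.h1.ne_zero h.h2.ne_zero

theorem KrF.abN [Nonempty κ] [Nonempty μ] (h : KrF σ G H T G₁ G₂ ε₁ ε₂) (hG : HF σ ε G)
    (hs : H ≤ Sim σ G) (hA : AbN σ G₁ (Sim σ G₁)) : AbN σ G H := by
  obtain ⟨B, h1, h2, h3, x, hx, h4⟩ := hA
  refine ⟨B.map ((Φ T : _ →ₐ[F] _).comp (kronL F κ μ)), ?_, ?_, ?_, _, ⟨x, hx, rfl⟩, fun h5 => ?_⟩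
  · rintro g hg _ ⟨y, hy, rfl⟩
    obtain ⟨a, ha, b, -, rfl⟩ := h.sim hs g hg
    exact ⟨_, h1 a ha y hy, by simp [← Φ_cjA, cjA_kron]⟩
  · rintro _ ⟨y, hy, rfl⟩ _ ⟨z, hz, rfl⟩
    rw [← map_mul, h2 y hy z hz, map_mul]
  · rintro _ ⟨y, hy, rfl⟩
    refine ⟨_, h3 y hy, ?_⟩
    have := (hG.gT T).unit
    rw [h.gram] at this
    simp [hG.adj_Φ, h.gram, adj_kron h.h1 h.h2 this, h.h2.adj_one]
  · obtain ⟨c, hc⟩ := sc_Φ h5
    refine h4 ⟨c, Matrix.ext fun i j => ?_⟩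
    obtain ⟨k⟩ := ‹Nonempty μ›
    simpa [Matrix.one_apply] using congrFun₂ hc (i, k) (j, k)

theorem kr_irr [Nonempty μ] (hH : Irr H) {A : Subgroup (GL κ F)}
    (h : ∀ g ∈ H, ∃ a ∈ A, ∃ b, g = ΦU T (kronU a b)) : Irr A := fun W hW => by
  let W' : Submodule F (κ × μ → F) := ⨅ j, W.comap (LinearMap.funLeft F F fun i => (i, j))
  have h1 : ∀ x, x ∈ W' ↔ ∀ j, (fun i => x (i, j)) ∈ W := fun x => Submodule.mem_iInf _
  obtain ⟨k⟩ := ‹Nonempty μ›
  refine (hH (W'.map T.toLinearMap) ?_).imp (fun h2 => (Submodule.eq_bot_iff _).2 fun w hw => ?_)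
    fun h2 => Submodule.eq_top_iff'.2 fun w => ?_
  · rintro g hg _ ⟨x, hx, rfl⟩
    obtain ⟨a, ha, b, rfl⟩ := h g hg
    refine ⟨_, (h1 _).2 fun j => ?_, (Φ_mulVec T _ x).symm⟩
    convert W.sum_mem (t := Finset.univ) fun l _ =>
      W.smul_mem ((b : Matrix μ μ F) j l) (hW a ha _ ((h1 x).1 hx l)) using 1
    ext i
    simp only [mulVec, dotProduct, kronU, kroneckerMap_apply, Fintype.sum_prod_type_right,
      Finset.sum_apply, Pi.smul_apply, smul_eq_mul, Finset.mul_sum]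
    exact Finset.sum_congr rfl fun _ _ => Finset.sum_congr rfl fun _ _ => by ring
  · have := (Submodule.eq_bot_iff _).1 h2 _ ⟨fun p => w p.1, (h1 _).2 fun _ => hw, rfl⟩
    exact funext fun i => congrFun (T.map_eq_zero_iff.1 this) (i, k)
  · obtain ⟨x, hx, e⟩ := Submodule.eq_top_iff'.1 h2 (T fun p => w p.1)
    obtain rfl := T.injective e
    exact (h1 _).1 hx k

theorem KrF.irr [Nonempty κ] [Nonempty μ] (h : KrF σ G H T G₁ G₂ ε₁ ε₂) (hH : Irr H)
    (hs : H ≤ Sim σ G) : Irr (Sim σ G₁) := kr_irr hH fun g hg =>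
  let ⟨a, ha, b, _, e⟩ := h.sim hs g hg; ⟨a, ha, b, e⟩

end KrF

section WrF

variable {T : ((Fin t → κ) → F) ≃ₗ[F] (ι → F)} {G₀ : Matrix κ κ F} {ε₀ c : F}

theorem WrF.ε_eq [Nonempty κ] (h : WrF σ G H T G₀ ε₀ c) (hG : HF σ ε G) :
    c * ε₀ ^ t = ε * σ c := by
  have h1 := (isUnit_map (σ := σ) (h.h0.ten (t := t)).unit).ne_zero
  have h2 := (hG.gT T).herm
  rw [h.gram, transpose_smul, h.h0.ten.herm, map_smul_σ, smul_smul, smul_smul] at h2
  exact smul_left_injective F h1 h2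

theorem WrF.sim [Nonempty κ] (h : WrF σ G H T G₀ ε₀ c) (hs : H ≤ Sim σ G) :
    ∀ g ∈ H, ∃ c π a, (∀ i, a i ∈ Sim σ G₀) ∧ g = scU c * ΦU T (pmU F κ π * tenU a) :=
  h.wr.sim hs h.ne h.gram h.h0.ne_zero

theorem cjA_scU (c : Fˣ) (X : Matrix ι ι F) : cjA (scU c) X = X := cjA_eq_iff.2 (by simp)

theorem cjA_ten (π : Equiv.Perm (Fin t)) (a : Fin t → GL κ F) (i : Fin t) (X : Matrix κ κ F) :
    cjA (pmU F κ π * tenU a) (ten (Pi.mulSingle i X)) =
      ten (Pi.mulSingle (π i) (cjA (a i) X)) := cjA_eq_iff.2 (by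
  have h1 := pm_mul_ten π (Pi.mulSingle i (cjA (a i) X))
  have h2 : Pi.mulSingle i (cjA (a i) X) ∘ π.symm = Pi.mulSingle (π i) (cjA (a i) X) := by
    ext1 j
    obtain ⟨j, rfl⟩ := π.surjective j
    simp [Pi.mulSingle_apply]
  change pm F κ π * ten _ * _ = _ * (pm F κ π * ten _)
  rw [← mul_assoc, ← h2, ← h1, mul_assoc, mul_assoc, ← ten_mul, ← ten_mul]
  congr 2
  ext1 j
  obtain rfl | h := eq_or_ne j i
  · simp [cjA_mul_self]
  · simp [h])

theorem sc_ten [Nonempty κ] {i : Fin t} {X : Matrix κ κ F} (h : Sc (ten (Pi.mulSingle i X))) :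
    Sc X := h.imp fun c hc => Matrix.ext fun a b => by
  obtain ⟨k⟩ := ‹Nonempty κ›
  have := congrFun₂ hc (Function.update (fun _ => k) i a) (Function.update (fun _ => k) i b)
  rw [ten_apply, Finset.prod_eq_single i (fun j _ hj => by simp [hj]) (by simp)] at this
  simpa [Matrix.one_apply, (Function.update_injective _ i).eq_iff] using this

theorem ten_single_comm {i j : Fin t} {X Y : Matrix κ κ F} (h : X * Y = Y * X) :
    ten (Pi.mulSingle i X) * ten (Pi.mulSingle j Y) =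
      ten (Pi.mulSingle j Y) * ten (Pi.mulSingle i X) := by
  rw [← ten_mul, ← ten_mul]
  congr 1
  ext1 l
  by_cases h1 : l = i <;> by_cases h2 : l = j <;> simp_all [Pi.mulSingle_apply]

theorem WrF.adj_eq (h : WrF σ G H T G₀ ε₀ c) (hG : HF σ ε G) (i : Fin t) (X : Matrix κ κ F) :
    adj σ G (Φ T (ten (Pi.mulSingle i X))) = Φ T (ten (Pi.mulSingle i (adj σ G₀ X))) := by
  rw [hG.adj_Φ, h.gram, adj_smul_left h.ne hG.σσ h.h0.ten.unit, adj_ten h.h0]

theorem WrF.abN [Nonempty κ] (h : WrF σ G H T G₀ ε₀ c) (hG : HF σ ε G) (hs : H ≤ Sim σ G)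
    (ht : 0 < t) (hA : AbN σ G₀ (Sim σ G₀)) : AbN σ G H := by
  obtain ⟨B, h1, h2, h3, x, hx, h4⟩ := hA
  refine AbN.of_set hG {y | ∃ i, ∃ X ∈ B, y = Φ T (ten (Pi.mulSingle i X))} ?_ ?_ ?_
    ⟨⟨0, ht⟩, x, hx, rfl⟩ fun h5 => h4 (sc_ten (sc_Φ h5))
  · rintro g hg _ ⟨i, X, hX, rfl⟩
    obtain ⟨c, π, a, ha, rfl⟩ := h.sim hs g hg
    exact Algebra.subset_adjoin ⟨π i, _, h1 _ (ha i) X hX, by
      rw [cjA_mul, cjA_scU, ← Φ_cjA, cjA_ten]⟩
  · rintro _ ⟨i, X, hX, rfl⟩ _ ⟨j, Y, hY, rfl⟩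
    rw [← map_mul, ten_single_comm (h2 X hX Y hY), map_mul]
  · rintro _ ⟨i, X, hX, rfl⟩
    exact Algebra.subset_adjoin ⟨i, _, h3 X hX, h.adj_eq hG i X⟩

theorem ten_mulVec (π : Equiv.Perm (Fin t)) (a : Fin t → GL κ F) (u : Fin t → κ → F) :
    (pmU F κ π * tenU a).1 *ᵥ (fun y : Fin t → κ => ∏ i, u i (y i)) =
      fun y : Fin t → κ => ∏ i, ((a (π.symm i) : Matrix κ κ F) *ᵥ u (π.symm i)) (y i) := by
  ext y
  rw [Units.val_mul]
  simp only [mulVec, dotProduct]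
  rw [← Equiv.prod_comp π]
  simp only [Equiv.symm_apply_apply, Finset.prod_univ_sum, Fintype.piFinset_univ,
    Finset.prod_mul_distrib]
  exact Finset.sum_congr rfl fun z _ => congrArg (· * _) (pm_mul π _ y z)

theorem wr_irr (hH : Irr H) (ht : 0 < t) {A : Subgroup (GL κ F)}
    (h : ∀ g ∈ H, ∃ c π a, (∀ i, a i ∈ A) ∧ g = scU c * ΦU T (pmU F κ π * tenU a)) : Irr A := by
  intro W hW
  rcases hH (Submodule.span F {x | ∃ u : Fin t → κ → F, (∀ i, u i ∈ W) ∧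
    x = T fun y => ∏ i, u i (y i)}) (fun g hg x hx => by
      obtain ⟨c, π, a, ha, rfl⟩ := h g hg
      induction hx using Submodule.span_induction with
      | mem x hx =>
        obtain ⟨u, hu, rfl⟩ := hx
        rw [Units.val_mul, ← mulVec_mulVec, coe_ΦU, Φ_mulVec, ten_mulVec, coe_scU, smul_mulVec,
          one_mulVec]
        exact Submodule.smul_mem _ _ (Submodule.subset_span ⟨_, fun i => hW _ (ha _) _ (hu _), rfl⟩)
      | zero => simp
      | add x y _ _ h h' => rw [mulVec_add]; exact add_mem h h'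
      | smul c x _ h => rw [mulVec_smul]; exact Submodule.smul_mem _ _ h) with h1 | h1
  · refine .inl ((Submodule.eq_bot_iff _).2 fun w hw => funext fun j => ?_)
    have := (Submodule.eq_bot_iff _).1 h1 _ (Submodule.subset_span ⟨fun _ => w, fun _ => hw, rfl⟩)
    simpa [ht.ne'] using congrFun (T.map_eq_zero_iff.1 this) fun _ => j
  refine .inr (Submodule.eq_top_iff'.2 fun w => by_contra fun hw => ?_)
  obtain ⟨φ, h2, h3⟩ := exists_dual_of_notMem W hw 1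
  have h4 : ∀ u : κ → F, φ u = ∑ j, φ (Pi.single j 1) * u j := fun u => by
    conv_lhs => rw [← Finset.univ_sum_single u, map_sum]
    exact Finset.sum_congr rfl fun j _ => by
      rw [mul_comm, ← smul_eq_mul, ← map_smul, ← Pi.single_smul, smul_eq_mul, mul_one]
  let ψ : ((Fin t → κ) → F) →ₗ[F] F :=
    ∑ y, (∏ i, φ (Pi.single (y i) 1)) • LinearMap.proj y
  have h5 : ∀ u : Fin t → κ → F, ψ (fun y => ∏ i, u i (y i)) = ∏ i, φ (u i) := fun u => by
    simp only [ψ, LinearMap.sum_apply, LinearMap.smul_apply, LinearMap.proj_apply, smul_eq_mul,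
      ← Finset.prod_mul_distrib]
    conv_rhs => simp only [h4 (u _), Finset.prod_univ_sum, Fintype.piFinset_univ]
  have h6 : ⊤ ≤ LinearMap.ker (ψ ∘ₗ T.symm.toLinearMap) := h1 ▸ Submodule.span_le.2 (by
    rintro _ ⟨u, hu, rfl⟩
    simp [h5, h2 _ (hu _), ht.ne'])
  simpa [h5, h3] using h6 (Submodule.mem_top (x := T fun y => ∏ i, w (y i)))

theorem WrF.irr [Nonempty κ] (h : WrF σ G H T G₀ ε₀ c) (hH : Irr H) (hs : H ≤ Sim σ G)
    (ht : 0 < t) : Irr (Sim σ G₀) := wr_irr hH ht (h.sim hs)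

theorem CaseC.wrF [Finite F] [Nonempty ι] {P : Fin t → Subgroup (GL ι F)} (h : CaseC H P)
    (hG : HF σ ε G) (hs : H ≤ Sim σ G) : ∃ (k : ℕ) (T : ((Fin t → Fin k) → F) ≃ₗ[F] (ι → F))
      (G₀ : Matrix (Fin k) (Fin k) F) (ε₀ c : F), 2 ≤ k ∧ WrF σ G H T G₀ ε₀ c ∧
        ¬ Group.IsSolvable (Sim σ G₀) := by
  obtain ⟨o⟩ : Nonempty (Fin t) := ⟨⟨0, by have := h.two; omega⟩⟩
  obtain ⟨k, T, G₀, ε₀, c, hk, h1, h2, h3, h4, h5⟩ := h.wr hG hs o
  refine ⟨k, T, G₀, ε₀, c, hk, ⟨h1, h2, h3, h4⟩, fun h6 => ?_⟩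
  haveI : NeZero k := ⟨by omega⟩
  let φ : GL (Fin k) F →* GL ι F := (ΦU T).toMonoidHom.comp
    ((MonoidHom.mk' tenU tenU_mul).comp (MonoidHom.mulSingle (fun _ => GL (Fin k) F) o))
  have hφ : ∀ a, (φ a : Matrix ι ι F) = Φ T (ten (Pi.mulSingle o (a : Matrix _ _ F))) := fun a =>
    congrArg (fun X => Φ T (ten X)) (funext fun i => by
      by_cases h : i = o <;> simp [Pi.mulSingle_apply, h])
  have h7 : P o ≤ (Sim σ G₀).map φ := fun x hx => by
    obtain ⟨X, hX⟩ := h5 x hx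
    obtain ⟨Y, hY⟩ := h5 _ ((P o).inv_mem hx)
    have h8 : X * Y = 1 := by
      have : ten (Pi.mulSingle o (X * Y)) = 1 := (Φ T).injective (by
        rw [Pi.mulSingle_mul, ten_mul, map_mul, ← hX, ← hY, map_one, Units.mul_inv])
      ext a b
      have := congrFun₂ this (Function.update (fun _ => 0) o a) (Function.update (fun _ => 0) o b)
      rw [ten_apply, Finset.prod_eq_single o (fun j _ hj => by simp [hj]) (by simp)] at this
      simpa [Matrix.one_apply, (Function.update_injective _ o).eq_iff] using this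
    have h9 : φ ⟨X, Y, h8, mul_eq_one_comm.1 h8⟩ = x := Units.ext ((hφ _).trans hX.symm)
    refine ⟨_, ?_, h9⟩
    have := hs (h.le o hx)
    rw [← h9] at this
    have := ΦU_mem_Sim.1 this
    rw [h4, Sim_smul h3] at this
    have := sim_ten h2.ne_zero (π := 1) (a := Pi.mulSingle o ⟨X, Y, h8, mul_eq_one_comm.1 h8⟩)
      (by rw [pmU_one, one_mul]; exact this) o
    rwa [Pi.mulSingle_eq_same] at this
  haveI : Group.IsSolvable ((Sim σ G₀).map φ) := solvable_of_surjective (φ.subgroupMap_surjective _)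
  haveI := solvable_of_solvable_injective (Subgroup.inclusion_injective h7)
  haveI := (Subgroup.nontrivial_iff_ne_bot _).2 (h.ne o)
  refine (IsSolvable.commutator_lt_top_of_nontrivial (P o)).ne ?_
  apply Subgroup.map_injective (P o).subtype_injective
  rw [Subgroup.map_subtype_commutator, h.perfect, ← MonoidHom.range_eq_map, Subgroup.range_subtype]

end WrF

theorem form_cases [Finite F] (hH : Irr H) (hn : 2 ≤ Fintype.card ι) (h : HF σ ε G)
    (hs : H ≤ Sim σ G) : AbN σ G H ∨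
    (∃ (d m : ℕ) (T : (Fin d × Fin m → F) ≃ₗ[F] (ι → F)) (G₁ : _) (G₂ : _) (ε₁ ε₂ : F),
      2 ≤ d ∧ 2 ≤ m ∧ KrF σ G H T G₁ G₂ ε₁ ε₂) ∨
    Prim H ∧ ((∃ M r, CaseB H M r) ∨ (∃ t, ∃ P : Fin t → Subgroup (GL ι F), CaseC H P) ∨
      ∃ P, CaseD H P) := by
  haveI : Nonempty ι := Fintype.card_pos_iff.1 (by omega)
  rcases struct_cases hH with ⟨N, h0, h1, x, hx, hx'⟩ | ⟨N, h0, h1, d, m, hd, hm, T, h2⟩ | hP
  · exact .inl ⟨_, h1.env.cenA, cenA_comm, h.cenA_adj fun a => h.env_adj (h0.trans hs), x, hx, hx'⟩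
  · haveI : NeZero d := ⟨by omega⟩
    haveI : NeZero m := ⟨by omega⟩
    obtain ⟨G₁, G₂, ε₁, ε₂, h3, h4, -, h5⟩ := gram_kron (h.gT T) fun X => by
      obtain ⟨Y, hY⟩ := (h2 _).1 (h.env_adj (h0.trans hs) ((h2 _).2 ⟨X, rfl⟩))
      exact ⟨Y, (Φ T).injective (by rw [← hY, h.adj_Φ])⟩
    exact .inr (.inl ⟨d, m, T, G₁, G₂, ε₁, ε₂, hd, hm, kr_of h1.env h2, h3, h4, h5⟩)
  · exact .inr (.inr ⟨hP, core_cases hH hn hP⟩)

end H29
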