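import Cfsg.Agent.H29.As7
import Cfsg.Agent.H29.D1
import Cfsg.Agent.H21.Pairing
import Cfsg.Agent.H5.Central

/-! Aschbacher's theorem, part 8: subfield structures `SubS`, normalisers of groups of symplectic
type (`XsB`, `xsB_cases`), invariant quadratic forms `QInv`, small factors (`abN_two`), and the
refined list `SpC` for the symplectic groups (`sp_cases`). -/

set_option autoImplicit false
set_option linter.unusedSectionVars false

namespace H29

open Matrix Cfsg.Geo Module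
open scoped Kronecker commutatorElement

variable {F : Type*} [Field F] {ι κ μ : Type} [Fintype ι] [DecidableEq ι] [Fintype κ]
  [DecidableEq κ] [Fintype μ] [DecidableEq μ] {σ : F →+* F} {H : Subgroup (GL ι F)}
  {G : Matrix ι ι F} {ε : F} {t : ℕ}

local notation "ρ" => RingHom.id _

theorem σ_mem [Finite F] (F₀ : Subfield F) {c : F} (hc : c ∈ F₀) : σ c ∈ F₀ := by
  obtain ⟨φ, h1, h2⟩ := exists_frob_sub F₀
  rw [← h1, ← h2, (h1 c).2 hc]

/-- `H` preserves a structure over a subfield of prime index `r` carrying a multiple of the form -/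
def SubS (σ : F →+* F) (G : Matrix ι ι F) (H : Subgroup (GL ι F)) [Fintype F] : Prop :=
  ∃ (F₀ : Subfield F) (r : ℕ) (P : GL ι F) (c : F), r.Prime ∧ Fintype.card F = Nat.card F₀ ^ r ∧
    H ≤ subfieldSubgroup F₀ P ∧ c ≠ 0 ∧ RatM F₀ (c • gT σ G (H11.glEquiv P))

theorem subS_of_env [Fintype F] [Nonempty ι] (h : HF σ ε G) {R : Subgroup (GL ι F)}
    (hR : env F R = ⊤) (hn : Nml H R) {F₀ : Subfield F} (h0 : F₀ ≠ ⊤)
    (h1 : ∀ c : F, c • (1 : Matrix ι ι F) ∈ env F₀ R → c ∈ F₀)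
    (h2 : ∀ x ∈ R, adj σ G (x : Matrix ι ι F) ∈ env F₀ R) : SubS σ G H := by
  obtain ⟨P, hP⟩ := exists_rat (env F₀ R) (env_span hR) h1
  obtain ⟨F₁, r, h3, hr, h4⟩ := exists_prime_index h0
  obtain ⟨c, hc, h5⟩ := rat_gram h (fun _ => σ_mem F₀) hP fun a ha =>
    env_adj (fun c => ⟨⟨σ c, σ_mem F₀ c.2⟩, rfl⟩) h2 ha
  exact ⟨F₁, r, P, c, hr, h4, le_subfieldSubgroup h3 hP hn.env, hc, h5.mono h3⟩

theorem adj_mem_env {k : Type*} [CommSemiring k] [Algebra k F] (h : HF σ ε G)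
    {R : Subgroup (GL ι F)} (hR : R ≤ Iso σ G) :
    ∀ x ∈ R, adj σ G (x : Matrix ι ι F) ∈ env k R := fun x hx => by
  rw [h.adj_iso (hR hx)]
  exact coe_mem_env (R.inv_mem hx)

theorem CaseD.cases [Fintype F] [Nonempty ι] {P : Subgroup (GL ι F)} (hD : CaseD H P)
    (h : HF σ ε G) (hs : H ≤ Iso σ G) : SubS σ G H ∨ IsResidualCore H P ∧
      ∀ (τ : F →+* F) ε' G', HF τ ε' G' → P ≤ Iso τ G' → τ = σ := by
  refine or_iff_not_imp_left.2 fun h0 => ?_
  have h1 : ∀ F₀ : Subfield F, (∀ c : F, c • (1 : Matrix ι ι F) ∈ env F₀ P → c ∈ F₀) → F₀ = ⊤ :=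
    fun F₀ h1 => by_contra fun h2 =>
      h0 (subS_of_env h hD.top hD.nml h2 h1 (adj_mem_env h (hD.le.trans hs)))
  refine ⟨hD.core h1, fun τ ε' G' h' h2 => RingHom.ext fun c => ?_⟩
  refine (h1 (τ.eqLocusField σ) fun c hc => ?_).ge (Subfield.mem_top c)
  have h3 : adj τ G' (c • 1) = adj σ G (c • 1) := env_ind (p := fun a => adj τ G' a = adj σ G a)
    (fun x hx => by rw [h'.adj_iso (h2 hx), h.adj_iso (hs (hD.le hx))]) (by simp)
    (fun a b ha hb => by rw [adj_add, adj_add, ha, hb])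
    (fun c a ha => by
      rw [Subfield.smul_def, adj_smul, adj_smul, ha, show τ c = σ c from c.2]) hc
  rw [adj_smul, adj_smul, h.adj_one, h'.adj_one] at h3
  exact smul_left_injective F one_ne_zero h3

theorem scU_mem_Iso [Nonempty ι] (h : HF σ ε G) {c : Fˣ} :
    (scU c : GL ι F) ∈ Iso σ G ↔ (c : F) * σ c = 1 := by
  rw [mem_Iso, coe_scU, map_smul_σ]
  simp only [transpose_smul, transpose_one, Matrix.map_one _ (map_zero _) (map_one _),
    smul_mul_assoc, mul_smul_comm, one_mul, mul_one, smul_smul]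
  rw [mul_comm]
  exact ⟨fun e => smul_left_injective F h.ne_zero (e.trans (one_smul _ _).symm),
    fun e => by rw [e, one_smul]⟩

/-- the multiplier of a similarity -/
theorem exists_mulH (h0 : G ≠ 0) : ∃ m : Sim σ G →* Fˣ, ∀ (g : Sim σ G) x y,
    fm σ G ((g : GL ι F).1 *ᵥ x) ((g : GL ι F).1 *ᵥ y) = m g * fm σ G x y := by
  choose m hm using fun g : Sim σ G => g.2
  obtain ⟨x, y, h⟩ : ∃ x y, fm σ G x y ≠ 0 := by
    by_contra! h
    exact h0 (fm_ext (σ := σ) fun x y => by rw [h]; simp [fm_eq])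
  refine ⟨MonoidHom.mk' m fun a b => Units.ext (mul_right_cancel₀ h ?_), hm⟩
  rw [← hm, Subgroup.coe_mul, Units.val_mul, ← mulVec_mulVec, ← mulVec_mulVec, hm, hm,
    Units.val_mul, mul_assoc]

theorem CaseB.le_Iso [Finite F] [Nonempty ι] {M : Subgroup (GL ι F)} {r : ℕ} (hB : CaseB H M r)
    (hn : 2 ≤ Fintype.card ι) (h : HF σ ε G) (hs : H ≤ Sim σ G) : M ≤ Iso σ G := by
  rcases hB.min (M ⊓ Iso σ G) inf_le_left (fun g hg x hx => ⟨hB.nml g hg x hx.1, fun u v => by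
    obtain ⟨c, hc⟩ := hs hg
    simp only [Units.val_mul, ← mulVec_mulVec]
    rw [hc, hx.2, ← hc, mulVec_inv_mulVec, mulVec_inv_mulVec]⟩) with h1 | h1
  · obtain ⟨m, hm⟩ := exists_mulH (σ := σ) h.ne_zero
    have := (m.comp (Subgroup.inclusion (hB.le.trans hs))).isMulCommutative_of_isCyclic_of_ker_le_center
      fun x hx => by
        rw [center_eq hB.top]
        refine h1 ⟨x.2, fun u v => ?_⟩
        have := hm (Subgroup.inclusion (hB.le.trans hs) x) u v
        rwa [show m _ = 1 from hx, Units.val_one, one_mul] at this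
    exact (env_ne_top hn (fun x hx y hy =>
      congrArg Subtype.val (this.1.1 ⟨x, hx⟩ ⟨y, hy⟩)) hB.top).elim
  · exact h1 ▸ inf_le_right

theorem exists_common_eigen [Nonempty ι] {A : Subgroup (GL ι F)}
    (hc : ∀ x ∈ A, ∀ y ∈ A, x * y = y * x) (h2 : ∀ x ∈ A, x * x = 1) :
    ∃ v : ι → F, v ≠ 0 ∧ ∀ a ∈ A, (a : Matrix ι ι F) *ᵥ v = v ∨ (a : Matrix ι ι F) *ᵥ v = -v := by
  obtain ⟨W, ⟨h0, hW⟩, hmin⟩ := (wellFounded_lt (α := Submodule F (ι → F))).has_min
    {W | W ≠ ⊥ ∧ ∀ a ∈ A, ∀ x ∈ W, (a : Matrix ι ι F) *ᵥ x ∈ W} ⟨⊤, top_ne_bot, by simp⟩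
  obtain ⟨v, hv, hv0⟩ := Submodule.exists_mem_ne_zero_of_ne_bot h0
  refine ⟨v, hv0, fun a ha => ?_⟩
  have h3 : ∀ x, x ∈ W ⊓ LinearMap.ker (toLin' ((a : Matrix ι ι F) - 1)) ↔
      x ∈ W ∧ (a : Matrix ι ι F) *ᵥ x = x := fun x => by simp [sub_mulVec, sub_eq_zero]
  by_cases h4 : W ⊓ LinearMap.ker (toLin' ((a : Matrix ι ι F) - 1)) = ⊥
  · refine .inr (eq_neg_of_add_eq_zero_left ((Submodule.eq_bot_iff _).1 h4 _
      ((h3 _).2 ⟨add_mem (hW a ha v hv) hv, ?_⟩)))
    rw [mulVec_add, mulVec_mulVec, ← Units.val_mul, h2 a ha, Units.val_one, one_mulVec, add_comm]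
  · refine .inl ((h3 v).1 ((eq_of_le_of_not_lt inf_le_left (hmin _ ⟨h4, fun b hb x hx => ?_⟩)).symm ▸
      hv :)).2
    rw [h3] at hx ⊢
    exact ⟨hW b hb x hx.1, by rw [mulVec_mulVec, ← Units.val_mul, hc a ha b hb, Units.val_mul,
      ← mulVec_mulVec, hx.2]⟩

theorem Xs.cent_le [Finite F] [Nonempty ι] {R : Subgroup (GL ι F)} (h : Xs R) {A : Subgroup R}
    (hc : IsMulCommutative A)
    (hA : Nat.card (Subgroup.center R) * Fintype.card ι ≤ Nat.card A) :
    Subgroup.centralizer (A : Set R) ≤ A := by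
  have h1 : H21.CPair A ⊤ (Subgroup.center R) :=
    ⟨isCyclic_of_le_scalars (by rw [center_eq h.top]; rintro _ ⟨x, hx, rfl⟩; exact hx),
      fun a _ b _ => by rw [center_eq h.top]; exact h.comm a a.2 b b.2,
      Subgroup.center_le_centralizer _, Subgroup.center_le_centralizer _⟩
  have h2 := h1.relIndex_eq
  rw [Subgroup.coe_top, Subgroup.centralizer_univ, Subgroup.relIndex_top_right] at h2
  have h3 := (Subgroup.centralizer (A : Set R)).card_mul_index
  have h4 := ((Subgroup.center R).subgroupOf A).card_mul_index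
  have h5 : Nat.card ((Subgroup.center R).subgroupOf A) ≤ Nat.card (Subgroup.center R) :=
    Nat.card_le_card_of_injective (fun x => ⟨x.1.1, x.2⟩) fun x y e =>
      Subtype.ext (Subtype.ext (Subtype.mk.inj e))
  rw [h.card, ← h2] at h3
  change _ * (Subgroup.center R).relIndex A = _ at h4
  have h6 : Fintype.card ι ≤ (Subgroup.center R).relIndex A := Nat.le_of_mul_le_mul_left
    (hA.trans (h4 ▸ Nat.mul_le_mul_right _ h5)) Nat.card_pos
  have h7 : Nat.card (Subgroup.centralizer (A : Set R)) ≤ Nat.card A :=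
    (Nat.le_of_mul_le_mul_right ((Nat.mul_le_mul_left _ h6).trans_eq (by rw [h3]; ring))
      Fintype.card_pos).trans hA
  exact (Subgroup.eq_of_le_of_card_ge (Subgroup.le_centralizer A) h7).ge

theorem sq_eq_one_of_Iso [Nonempty ι] (h : HF ρ ε G) {x : GL ι F} (h1 : x ∈ scalars ι F)
    (h2 : x ∈ Iso ρ G) : x = 1 ∨ x = -1 := by
  obtain ⟨c, rfl⟩ := h1
  rcases mul_self_eq_one_iff.1 ((scU_mem_Iso h (c := c)).1 h2) with e | e
  · exact .inl (Units.ext (by change (scU c : GL ι F).1 = _; simp [e]))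
  · exact .inr (Units.ext (by change (scU c : GL ι F).1 = _; simp [e]))

theorem Xs.exists_frame [Finite F] [Nonempty ι] {R : Subgroup (GL ι F)} (hx : Xs R)
    (h : HF ρ ε G) (hs : R ≤ Iso ρ G) (h2 : (2 : F) ≠ 0) {A : Subgroup R}
    (hc : IsMulCommutative A) (h1 : ∀ x ∈ A, x * x = 1)
    (hA : Nat.card (Subgroup.center R) * Fintype.card ι ≤ Nat.card A) :
    ∃ v : ι → F, v ≠ 0 ∧ ∀ x ∈ R, (x : Matrix ι ι F) *ᵥ v = v ∨ (x : Matrix ι ι F) *ᵥ v = -v ∨
      fm ρ G ((x : Matrix ι ι F) *ᵥ v) v = 0 := by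
  obtain ⟨v, hv, h3⟩ := exists_common_eigen (A := A.map R.subtype) (by
    rintro _ ⟨x, hx, rfl⟩ _ ⟨y, hy, rfl⟩
    exact congrArg (fun z : A => (z : R).1) (hc.1.1 ⟨x, hx⟩ ⟨y, hy⟩)) (by
    rintro _ ⟨x, hx, rfl⟩
    exact congrArg Subtype.val (h1 x hx))
  refine ⟨v, hv, fun x hx' => ?_⟩
  by_cases h4 : (⟨x, hx'⟩ : R) ∈ Subgroup.centralizer (A : Set R)
  · exact or_assoc.1 (.inl (h3 x ⟨_, hx.cent_le hc hA h4, rfl⟩))
  obtain ⟨a, ha, h5⟩ : ∃ a ∈ A, a * ⟨x, hx'⟩ ≠ ⟨x, hx'⟩ * a := by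
    by_contra! h5
    exact h4 h5
  have h6 : (a : GL ι F) * x = -(x * a) := by
    rcases sq_eq_one_of_Iso h (hx.comm a a.2 x hx') (hs (R.mul_mem (R.mul_mem (R.mul_mem a.2 hx')
      (R.inv_mem a.2)) (R.inv_mem hx'))) with e | e
    · exact absurd (Subtype.ext (commutatorElement_eq_one_iff_mul_comm.1 e)) h5
    · rw [← neg_one_mul, ← e]; group
  have h7 := hs a.2 ((x : Matrix ι ι F) *ᵥ v) v
  rw [mulVec_mulVec, ← Units.val_mul, h6, Units.val_neg, Units.val_mul, neg_mulVec,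
    ← mulVec_mulVec] at h7
  refine .inr (.inr ((mul_eq_zero.1 ?_).resolve_left h2))
  rcases h3 a ⟨a, ha, rfl⟩ with e | e <;> rw [e] at h7 <;>
    simp only [fm_eq, mulVec_neg, neg_neg, neg_dotProduct, RingHom.coe_id, Function.id_comp,
      dotProduct_neg] at h7 ⊢ <;> linear_combination -h7

/-- the data of a class 6 subgroup for a bilinear form -/
structure XsB (G : Matrix ι ι F) (H R : Subgroup (GL ι F)) (m : ℕ) [Fintype F] : Prop where
  xs : Xs R
  st : IsSymplecticTypeGroup 2 R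
  iso : R ≤ Iso ρ G
  nml : Nml H R
  prime : (Fintype.card F).Prime
  odd : Odd (Fintype.card F)
  dim : Fintype.card ι = 2 ^ m
  card : Nat.card R = 2 ^ (1 + 2 * m)
  cent : Nat.card (Subgroup.center R) = 2

theorem char_ab_cases [Nonempty ι] (h : HF σ ε G) {R : Subgroup (GL ι F)} (hn : Nml H R)
    (hs : R ≤ Sim σ G) : AbN σ G H ∨ ∀ A : Subgroup R, A.Characteristic →
      IsMulCommutative A → A.map R.subtype ≤ scalars ι F :=
  or_iff_not_imp_left.2 fun h0 A hA hc => by_contra fun h1 => h0 (AbN.of_group h (nml_of_char hn A)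
    (by
      rintro _ ⟨x, hx, rfl⟩ _ ⟨y, hy, rfl⟩
      exact congrArg (fun z : A => (z : R).1) (hc.1.1 ⟨x, hx⟩ ⟨y, hy⟩))
    ((Subgroup.map_subtype_le A).trans hs) h1)

theorem xsB_cases [Fintype F] (hn : 2 ≤ Fintype.card ι) (h : HF ρ ε G) {M : Subgroup (GL ι F)}
    (hx : Xs M) (hM : Nml H M) (hs : M ≤ Iso ρ G) :
    AbN ρ G H ∨ SubS ρ G H ∨ ∃ R m, XsB G H R m := by
  haveI : Nonempty ι := Fintype.card_pos_iff.1 (by omega)
  have h2 : (2 : F) ≠ 0 := fun h2 => env_ne_top hn (fun x h3 y h4 => by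
    rcases sq_eq_one_of_Iso h (hx.comm x h3 y h4) (hs (M.mul_mem (M.mul_mem (M.mul_mem h3 h4)
      (M.inv_mem h3)) (M.inv_mem h4))) with e | e
    · exact commutatorElement_eq_one_iff_mul_comm.1 e
    · refine commutatorElement_eq_one_iff_mul_comm.1 (e.trans (Units.ext ?_))
      rw [Units.val_neg, neg_eq_iff_add_eq_zero, ← two_smul F, h2, zero_smul]) hx.top
  have hneg : (scU (-1) : GL ι F) = -1 := Units.ext (by simp)
  let R := M ⊔ Subgroup.zpowers (-1)
  have hR : ∀ x ∈ R, x ∈ M ∨ -x ∈ M := fun x hx => by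
    let K : Subgroup (GL ι F) :=
      { carrier := {x | x ∈ M ∨ -x ∈ M}
        mul_mem' := by
          rintro a b (ha | ha) (hb | hb) <;> have := M.mul_mem ha hb <;> simp_all
        one_mem' := .inl M.one_mem
        inv_mem' := by rintro a (ha | ha) <;> have := M.inv_mem ha <;> simp_all }
    exact (sup_le (fun _ => .inl) (Subgroup.zpowers_le.2 (.inr (by simp))) : R ≤ K) hx
  have h1 : -1 ∈ R := Subgroup.mem_sup_right (Subgroup.mem_zpowers _)
  have h3 : R ≤ Iso ρ G := sup_le hs (Subgroup.zpowers_le.2 (hneg ▸ (scU_mem_Iso h).2 (by simp)))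
  have h4 : Nml H R := fun g hg x h5 => (hR x h5).elim
    (fun h6 => Subgroup.mem_sup_left (hM g hg x h6)) fun h6 => by
      simpa using R.mul_mem h1 (Subgroup.mem_sup_left (hM g hg _ h6))
  have h5 : Xs R := hx.of_le (sup_le le_sup_left (Subgroup.zpowers_le.2
    (Subgroup.mem_sup_right (hneg ▸ scU_mem _)))) (le_sup_left.trans le_sup_left)
  have h6 : ∀ c, c ∈ ZR R ↔ c ^ 2 = 1 := fun c => ⟨fun hc => Units.ext (by
    simpa [sq] using (scU_mem_Iso h).1 (h3 hc)), fun hc => by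
      rcases sq_eq_one_iff.1 (show (c : F) ^ 2 = 1 from congrArg Units.val hc) with e | e
      · rw [show c = 1 from Units.ext e]; exact one_mem _
      · rw [show c = -1 from Units.ext e, mem_ZR, hneg]; exact h1⟩
  have ho := odd_of_two_ne h2
  have h7 : Nat.card (Subgroup.center R) = 2 := by
    rw [card_center h5.top, card_of_mem_iff h6]
    exact Nat.gcd_eq_right (Nat.Odd.sub_odd ho odd_one).two_dvd
  refine (char_ab_cases h h4 (h3.trans Iso_le_Sim)).imp_right fun h8 => ?_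
  by_cases h9 : (⊥ : Subfield F) = ⊤
  swap
  · exact .inl (subS_of_env h h5.top h4 h9 (h5.sc_cond fun c hc => by
      rcases sq_eq_one_iff.1 (show (c : F) ^ 2 = 1 from congrArg Units.val ((h6 c).1 hc)) with
        e | e <;> simp [e])
      (adj_mem_env h h3))
  have hS := sympType h5.top hn Nat.prime_two (fun x hx => by
    have : x ^ 2 ∈ scalars ι F := mem_scalars.2 (sc_of_env h5.top fun y hy => by
      rcases sq_eq_one_of_Iso h (h5.comm x hx y hy) (h3 (R.mul_mem (R.mul_mem (R.mul_mem hx hy)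
        (R.inv_mem hx)) (R.inv_mem hy))) with e | e
      · rw [← Units.val_mul, ← Units.val_mul,
          (Commute.pow_left (commutatorElement_eq_one_iff_mul_comm.1 e) 2).eq]
      · have : x * y = -(y * x) := by rw [← neg_one_mul, ← e]; group
        rw [← Units.val_mul, ← Units.val_mul, sq, mul_assoc, this, mul_neg, ← mul_assoc, this,
          neg_mul, neg_neg, mul_assoc])
    rcases sq_eq_one_of_Iso h this (h3 (R.pow_mem hx 2)) with e | e <;> rw [pow_mul, e] <;> simp) h8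
  obtain ⟨m, hm⟩ := h5.pow_of_pGroup Nat.prime_two hS.pGroup
  refine .inr ⟨R, m, h5, hS, h3, h4, ?_, ho, hm, by rw [h5.card, h7, hm]; ring, h7⟩
  obtain ⟨p, _⟩ := CharP.exists F
  obtain ⟨n, hp, -⟩ := FiniteField.card F p
  haveI := Fact.mk hp
  have := Subfield.card_bot F p
  rw [h9, Nat.card_congr Subfield.topEquiv.toEquiv, Nat.card_eq_fintype_card] at this
  rwa [this]

theorem XsB.minus [Fintype F] {R : Subgroup (GL ι F)} {m : ℕ} (hx : XsB G H R m)
    (h : HF ρ ε G) (ha : ∀ v, fm ρ G v v = 0) : IsOfMinusType m R := fun A hc h1 => by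
  haveI : Nonempty ι := Fintype.card_pos_iff.1 (by rw [hx.dim]; positivity)
  by_contra! h2
  obtain ⟨v, hv, h3⟩ := hx.xs.exists_frame h hx.iso (two_ne_zero_of_odd hx.odd) hc h1
    (by rwa [hx.cent, hx.dim, ← pow_succ'])
  refine hv (h.right fun y => ?_)
  rcases irr_of_env hx.xs.top (Submodule.span F {w | ∃ x ∈ R, w = (x : Matrix ι ι F) *ᵥ v})
    (fun g hg x hx => Submodule.mem_comap.1 ((Submodule.span_le
      (p := Submodule.comap (toLin' (g : Matrix ι ι F)) _)).2 (by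
        rintro _ ⟨x, hx, rfl⟩
        exact Submodule.subset_span ⟨_, R.mul_mem hg hx, by simp⟩) hx)) with h4 | h4
  · exact absurd ((Submodule.eq_bot_iff _).1 h4 v (Submodule.subset_span ⟨1, one_mem _, by simp⟩)) hv
  · refine (Submodule.span_le (p := pp ρ G (F ∙ v))).2 ?_ (h4 ▸ Submodule.mem_top) v
      (Submodule.mem_span_singleton_self v)
    rintro _ ⟨x, hx, rfl⟩ w hw
    obtain ⟨c, rfl⟩ := Submodule.mem_span_singleton.1 hw
    rw [fm_smul_right]
    rcases h3 x hx with e | e | e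
    · rw [e, ha, mul_zero]
    · rw [e, ← neg_one_smul F, fm_smul_left, ha, mul_zero, mul_zero]
    · rw [e, mul_zero]

/-- `H` preserves a quadratic form whose polar form is the given one -/
def QInv (G : Matrix ι ι F) (H : Subgroup (GL ι F)) (Q : (ι → F) → F) : Prop :=
  IsNondegenerateQuadraticForm Q ∧ QuadraticMap.polar Q = fm ρ G ∧
    ∀ g ∈ H, ∀ v, Q ((g : Matrix ι ι F) *ᵥ v) = Q v

theorem quad_of_polar (h : HF ρ ε G) {Q : (ι → F) → F} (h1 : ∀ (c : F) v, Q (c • v) = c ^ 2 * Q v)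
    (h2 : QuadraticMap.polar Q = fm ρ G) : IsNondegenerateQuadraticForm Q :=
  ⟨h1, h2 ▸ bilin_fm, h2 ▸ h.nondeg⟩

theorem quad_add {Q : (ι → F) → F} (h2 : QuadraticMap.polar Q = fm ρ G) (x y : ι → F) :
    Q (x + y) = Q x + Q y + fm ρ G x y := by
  rw [← h2, QuadraticMap.polar]; ring

theorem quad_inv {Q : (ι → F) → F} (h1 : ∀ (c : F) v, Q (c • v) = c ^ 2 * Q v)
    (h2 : QuadraticMap.polar Q = fm ρ G) {g : GL ι F} (hg : g ∈ Iso ρ G)
    (T : (κ → F) ≃ₗ[F] (ι → F))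
    (h3 : ∀ p, Q ((g : Matrix ι ι F) *ᵥ T (Pi.single p 1)) = Q (T (Pi.single p 1))) (v : ι → F) :
    Q ((g : Matrix ι ι F) *ᵥ v) = Q v := by
  have hv : v ∈ Submodule.span F (Set.range ((Pi.basisFun F κ).map T)) := by
    rw [Basis.span_eq]; trivial
  induction hv using Submodule.span_induction with
  | mem x hx => obtain ⟨p, rfl⟩ := hx; simpa using h3 p
  | zero => rw [mulVec_zero]
  | add x y _ _ h h' => rw [mulVec_add, quad_add h2, quad_add h2, h, h', hg]
  | smul c x _ h => rw [mulVec_smul, h1, h1, h]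

theorem qInv_of (h : HF ρ ε G) (hs : H ≤ Iso ρ G) (T : (κ → F) ≃ₗ[F] (ι → F)) {U : Matrix κ κ F}
    (hU : U + Uᵀ = gT ρ G T) (p : (κ → F) → Prop) (h1 : ∀ x, p x → fm ρ U x x = 0)
    (h2 : ∀ i, p (Pi.single i 1))
    (h3 : ∀ g ∈ H, ∀ x, p x → ∃ (c : F) (y : κ → F), p y ∧ (g : Matrix ι ι F) *ᵥ T x = c • T y) :
    ∃ Q, QInv G H Q ∧ ∀ x, p x → Q (T x) = 0 := by
  have h4 : ∀ (c : F) v, fm ρ U (T.symm (c • v)) (T.symm (c • v)) =
      c ^ 2 * fm ρ U (T.symm v) (T.symm v) := fun c v => by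
    rw [map_smul, fm_smul_left, fm_smul_right, RingHom.id_apply]; ring
  have h5 : QuadraticMap.polar (fun v => fm ρ U (T.symm v) (T.symm v)) = fm ρ G := by
    ext x y
    have := polar_fm (G := U) (T.symm x) (T.symm y)
    rw [hU, fm_gT, T.apply_symm_apply, T.apply_symm_apply] at this
    rw [← this, QuadraticMap.polar, QuadraticMap.polar, map_add]
  refine ⟨_, ⟨quad_of_polar h h4 h5, h5, fun g hg => quad_inv h4 h5 (hs hg) T fun i => ?_⟩,
    fun x hx => by simpa using h1 x hx⟩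
  obtain ⟨c, y, hy, e⟩ := h3 g hg _ (h2 i)
  rw [e, h4, T.symm_apply_apply, T.symm_apply_apply, h1 y hy, h1 _ (h2 i), mul_zero]

theorem exists_upper {k : ℕ} {G : Matrix (Fin k) (Fin k) F} (h2 : (2 : F) = 0)
    (h : IsSymplecticForm (fm ρ G)) : ∃ U : Matrix (Fin k) (Fin k) F, U + Uᵀ = G := by
  refine ⟨of fun i j => if i < j then G i j else 0, Matrix.ext fun i j => ?_⟩
  have h1 := h.skew (Pi.single i 1) (Pi.single j 1)
  have h3 := h.alternating (Pi.single i 1)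
  simp only [fm_single] at h1 h3
  rcases lt_trichotomy i j with e | rfl | e
  · simp [e, e.not_gt]
  · simp [h3]
  · simp only [Matrix.add_apply, of_apply, transpose_apply, e, e.not_gt, if_true, if_false, zero_add]
    linear_combination -h1 + G j i * h2

theorem fm_kron (G₁ : Matrix κ κ F) (G₂ : Matrix μ μ F) (u u' : κ → F) (v v' : μ → F) :
    fm σ (G₁ ⊗ₖ G₂) (fun p => u p.1 * v p.2) (fun p => u' p.1 * v' p.2) =
      fm σ G₁ u u' * fm σ G₂ v v' := by
  simp only [fm, formOfGram, Fintype.sum_prod_type, Finset.sum_mul_sum, kroneckerMap_apply, map_mul]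
  refine Finset.sum_congr rfl fun _ _ => Finset.sum_congr rfl fun _ _ =>
    Finset.sum_congr rfl fun _ _ => Finset.sum_congr rfl fun _ _ => by ring

theorem kron_mulVec (a : Matrix κ κ F) (b : Matrix μ μ F) (u : κ → F) (v : μ → F) :
    (a ⊗ₖ b) *ᵥ (fun p => u p.1 * v p.2) = fun p => (a *ᵥ u) p.1 * (b *ᵥ v) p.2 := by
  ext p
  simp only [mulVec, dotProduct, Fintype.sum_prod_type, Finset.sum_mul_sum, kroneckerMap_apply]
  exact Finset.sum_congr rfl fun _ _ => Finset.sum_congr rfl fun _ _ => by ring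

theorem fm_ten (X : Fin t → Matrix κ κ F) (u v : Fin t → κ → F) :
    fm σ (ten X) (fun y => ∏ i, u i (y i)) (fun y => ∏ i, v i (y i)) =
      ∏ i, fm σ (X i) (u i) (v i) := by
  simp only [fm, formOfGram, Finset.prod_univ_sum, Fintype.piFinset_univ, ten_apply, map_prod,
    Finset.prod_mul_distrib]

theorem KrF.qInv {d : ℕ} {T : (Fin d × μ → F) ≃ₗ[F] (ι → F)} {G₁ : Matrix (Fin d) (Fin d) F}
    {G₂ : Matrix μ μ F} {ε₁ ε₂ : F} (hk : KrF ρ G H T G₁ G₂ ε₁ ε₂) (h : HF ρ ε G)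
    (hs : H ≤ Iso ρ G) (h2 : (2 : F) = 0) (h3 : IsSymplecticForm (fm ρ G₁))
    (h4 : IsSymplecticForm (fm ρ G₂)) : ∃ Q, QInv G H Q ∧
      ∀ (u : Fin d → F) (v : μ → F), Q (T fun p => u p.1 * v p.2) = 0 := by
  obtain ⟨U, hU⟩ := exists_upper h2 h3
  have h5 : G₂ᵀ = G₂ := Matrix.ext fun i j => by
    have := h4.skew (Pi.single i 1) (Pi.single j 1)
    simp only [fm_single] at this
    rw [transpose_apply]
    linear_combination -this + G₂ j i * h2
  obtain ⟨Q, h6, h7⟩ := qInv_of h hs T (U := U ⊗ₖ G₂)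
    (by rw [← kroneckerMap_transpose, h5, ← add_kronecker, hU, hk.gram])
    (fun x => ∃ (u : Fin d → F) (v : μ → F), x = fun p => u p.1 * v p.2)
    (by rintro _ ⟨u, v, rfl⟩; rw [fm_kron, h4.alternating, mul_zero])
    (fun i => ⟨Pi.single i.1 1, Pi.single i.2 1, funext fun p => by
      simp [Pi.single_apply, Prod.ext_iff, ite_and]; split_ifs <;> rfl⟩) (by
      rintro g hg _ ⟨u, v, rfl⟩
      obtain ⟨a, b, rfl⟩ := hk.kr g hg
      exact ⟨1, _, ⟨_, _, kron_mulVec a b u v⟩, by rw [one_smul, coe_ΦU, Φ_mulVec]; rfl⟩)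
  exact ⟨Q, h6, fun u v => h7 _ ⟨u, v, rfl⟩⟩

theorem WrF.qInv {k : ℕ} {T : ((Fin t → Fin k) → F) ≃ₗ[F] (ι → F)} {G₀ : Matrix (Fin k) (Fin k) F}
    {ε₀ c : F} (hk : WrF ρ G H T G₀ ε₀ c) (h : HF ρ ε G) (hs : H ≤ Iso ρ G) (h2 : (2 : F) = 0)
    (ht : 2 ≤ t) (h3 : IsSymplecticForm (fm ρ G₀)) : ∃ Q, QInv G H Q := by
  obtain ⟨U, hU⟩ := exists_upper h2 h3
  have h5 : ∀ i j, G₀ j i = G₀ i j := fun i j => by rw [← hU]; simp [add_comm]
  obtain ⟨o, o', ho⟩ : ∃ o o' : Fin t, o' ≠ o := ⟨⟨0, by omega⟩, ⟨1, by omega⟩, by simp⟩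
  refine (qInv_of h hs T (U := c • ten (Function.update (fun _ => G₀) o U)) ?_
    (fun x => ∃ u : Fin t → Fin k → F, x = fun y => ∏ i, u i (y i)) ?_ (fun y =>
      ⟨fun i => Pi.single (y i) 1, funext fun z => by
        simp [Pi.single_apply, Finset.prod_boole, funext_iff]⟩) ?_).imp fun _ => And.left
  · rw [hk.gram, transpose_smul, ← smul_add]
    congr 1
    ext x y
    simp only [Matrix.add_apply, transpose_apply, ten_apply,
      ← Finset.mul_prod_erase _ _ (Finset.mem_univ o), Function.update_self]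
    rw [← congrFun₂ hU (x o) (y o), Matrix.add_apply, add_mul, transpose_apply]
    congr 2 <;> refine Finset.prod_congr rfl fun i hi => ?_ <;>
      rw [Function.update_of_ne (Finset.ne_of_mem_erase hi)]
    exact h5 _ _
  · rintro _ ⟨u, rfl⟩
    rw [fm_smul, fm_ten, Finset.prod_eq_zero (Finset.mem_univ o'), mul_zero]
    rw [Function.update_of_ne ho, h3.alternating]
  · rintro g hg _ ⟨u, rfl⟩
    obtain ⟨c, π, a, rfl⟩ := hk.wr g hg
    exact ⟨c, _, ⟨_, rfl⟩, by rw [Units.val_mul, ← mulVec_mulVec, coe_ΦU, Φ_mulVec, ten_mulVec,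
      coe_scU, smul_mulVec, one_mulVec]⟩

theorem Om.qInv {ω : Matrix ι ι F} (ho : Om ρ G H ω) (h : HF ρ ε G) (hs : H ≤ Iso ρ G)
    (h2 : (2 : F) = 0) (ha : ∀ v, fm ρ G v v = 0) : QInv G H fun v => fm ρ G (ω *ᵥ v) v := by
  have h1 : ∀ x y, fm ρ G x y = fm ρ G y x := fun x y => by
    linear_combination (h.symp ha).skew x y - fm ρ G y x * h2
  have h3 : QuadraticMap.polar (fun v => fm ρ G (ω *ᵥ v) v) = fm ρ G := by
    ext x y
    have : fm ρ G x y = fm ρ G (ω *ᵥ x) y + fm ρ G (ω *ᵥ y) x := by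
      rw [h1 (ω *ᵥ y), ← h.fm_adj', ← fm_add_left, ← add_mulVec, ho.1, one_mulVec]
    simp only [QuadraticMap.polar, mulVec_add, fm_add_left, fm_add_right, this]
    ring
  refine ⟨quad_of_polar h (fun c v => ?_) h3, h3, fun g hg v => ?_⟩
  · rw [mulVec_smul, fm_smul_left, fm_smul_right, RingHom.id_apply]; ring
  · have : ω *ᵥ (g : Matrix ι ι F) *ᵥ v = (g : Matrix ι ι F) *ᵥ cjA g⁻¹ ω *ᵥ v := by
      rw [← cjA_mulVec, cjA_cjA_inv]
    simp only [this, hs hg _ _]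
    rcases ho.2 _ (H.inv_mem hg) with e | e
    · rw [e]
    · rw [e, h.fm_adj', h1]

theorem FldN.om {K : Subalgebra F (Matrix ι ι F)} {d : ℕ} [Nonempty ι] (hK : FldN ρ G H d K)
    (hd : 1 < d) (h : HF ρ ε G) (h2 : (2 : F) = 0) (h1 : ∀ x ∈ K, adj ρ G x = x → Sc x) :
    ∃ ω ∈ K, Om ρ G H ω := by
  obtain ⟨x, hx, h3⟩ : ∃ x ∈ K, adj ρ G x ≠ x := by
    by_contra! h3
    have h4 : K = ⊥ := le_bot_iff.1 fun k hk => by
      obtain ⟨c, rfl⟩ := h1 k hk (h3 k hk)
      exact Subalgebra.smul_mem _ (Subalgebra.one_mem _) c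
    have := hK.1.finrank_eq
    rw [h4, Subalgebra.finrank_bot] at this
    omega
  obtain ⟨s, hs⟩ := h1 _ (add_mem hx (hK.2.2 x hx)) (by rw [adj_add, h.adj_adj, add_comm])
  have h4 : s ≠ 0 := by
    rintro rfl
    refine h3 ?_
    linear_combination (norm := module) hs - h2 • x
  have h5 : s⁻¹ • x + adj ρ G (s⁻¹ • x) = 1 := by
    rw [adj_smul, RingHom.id_apply, ← smul_add, hs, smul_smul, inv_mul_cancel₀ h4, one_smul]
  have h6 := K.smul_mem hx s⁻¹
  generalize s⁻¹ • x = ω at h5 h6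
  have h7 := hK.2.2 ω h6
  obtain ⟨n, hn⟩ := h1 _ (mul_mem h6 h7) (by rw [h.adj_mul, h.adj_adj])
  refine ⟨ω, h6, h5, fun g hg => or_iff_not_imp_left.2 fun h8 => sub_eq_zero.1
    (inv_eq_of_field hK.1 (sub_mem (hK.2.1 g hg ω h6) h6) (sub_ne_zero.2 h8) ?_)⟩
  have h9 := congrArg (cjA g) hn
  rw [eq_sub_of_add_eq' h5] at hn h9 ⊢
  rw [map_mul, map_sub, map_one, map_smul, map_one, ← hn] at h9
  have := hK.1.comm _ (hK.2.1 g hg ω h6) _ h6
  linear_combination (norm := noncomm_ring) this - h9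

theorem abN_two {G : Matrix (Fin 2) (Fin 2) F} (h : HF ρ 1 G) (h2 : (2 : F) ≠ 0) :
    AbN ρ G (Sim ρ G) := by
  obtain ⟨u, rfl⟩ := h.unit
  have h1 : (u : Matrix (Fin 2) (Fin 2) F)ᵀ = u := by simpa using h.herm
  have h3 : (J2 F)ᵀ = -J2 F := by simpa using (hf_J2 (F := F)).herm
  have h4 : ((u⁻¹ : GL (Fin 2) F) : Matrix (Fin 2) (Fin 2) F)ᵀ = (u⁻¹ : GL (Fin 2) F) := by
    rw [coe_units_inv, transpose_nonsing_inv, h1]
  refine AbN.of_elt h (x := (u⁻¹ : GL (Fin 2) F) * J2 F) (fun g hg => ?_) (a := 0) (b := -1) ?_ ?_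
  · obtain ⟨c, hc, e⟩ := mem_Sim.1 hg
    have h5 := gram_J2 (g : Matrix (Fin 2) (Fin 2) F)
    simp only [RingHom.coe_id, map_id] at e h5
    refine ⟨0, c / (g : Matrix (Fin 2) (Fin 2) F).det, cjA_eq_iff.2 ?_⟩
    refine (((isUnit_transpose _).2 g.isUnit).mul u.isUnit).mul_left_cancel ?_
    rw [← mul_assoc, e, zero_smul, zero_add, smul_mul_assoc, smul_mul_assoc, mul_smul_comm,
      Units.mul_inv_cancel_left, mul_assoc, mul_assoc _ (J2 F), Units.mul_inv_cancel_left,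
      ← mul_assoc, h5, smul_smul, div_mul_cancel₀ _ (det_ne_zero g)]
  · refine adj_eq h.σσ h.unit ?_
    rw [transpose_mul, h3, h4]
    simp [mul_assoc]
  · rintro ⟨c, hc⟩
    have h5 : J2 F = c • (u : Matrix (Fin 2) (Fin 2) F) := by
      rw [← mul_one (c • _), smul_mul_assoc, ← mul_smul_comm, ← hc, Units.mul_inv_cancel_left]
    rw [h5, transpose_smul, h1, ← h5] at h3
    have := congrFun₂ h3 0 1
    simp only [J2, of_apply, cons_val', cons_val_one, cons_val_zero, Matrix.neg_apply] at this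
    exact h2 (by linear_combination this)

end H29
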