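import Cfsg.Agent.H29.As8
import Cfsg.Agent.H11.Orth2

/-! Aschbacher's theorem, part 9: congruence of Gram matrices, frames over small fields, and the
refined list `SpC` for the symplectic groups (`sp_cases`). -/

set_option autoImplicit false
set_option linter.unusedSectionVars false

namespace H29

open Matrix Cfsg.Geo Module
open scoped Kronecker commutatorElement

variable {F : Type*} [Field F] {ι κ μ : Type} [Fintype ι] [DecidableEq ι] [Fintype κ]
  [DecidableEq κ] [Fintype μ] [DecidableEq μ] {σ : F →+* F} {H : Subgroup (GL ι F)}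
  {G G' : Matrix ι ι F} {ε : F} {t : ℕ}

local notation "ρ" => RingHom.id _

/-- the form as a sesquilinear map, semilinear in the first variable -/
def sesq (σ : F →+* F) (G : Matrix ι ι F) : (ι → F) →ₛₗ[σ] (ι → F) →ₗ[F] F :=
  LinearMap.mk₂'ₛₗ σ ρ (fun x y => fm σ G y x) (fun _ _ _ => fm_add_right _ _ _)
    (fun _ _ _ => fm_smul_right _ _ _) (fun _ _ _ => fm_add_left _ _ _)
    fun _ _ _ => fm_smul_left _ _ _

theorem sesq_apply (x y : ι → F) : sesq σ G x y = fm σ G y x := rfl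

theorem HF.sesq_symm (h : HF σ 1 G) : (sesq σ G).IsSymm :=
  ⟨fun x y => by rw [sesq_apply, sesq_apply, h.swap x y, one_mul]⟩

theorem congr_of_equiv {G' : Matrix κ κ F} (e : (κ → F) ≃ₗ[F] (ι → F))
    (h : ∀ x y, fm σ G (e x) (e y) = fm σ G' x y) : gT σ G e = G' :=
  fm_ext (σ := σ) fun x y => by rw [fm_gT, h]

theorem exists_gl (e : (ι → F) ≃ₗ[F] (ι → F)) : ∃ P : GL ι F,
    gT σ G e = (P : Matrix ι ι F)ᵀ * G * (P : Matrix ι ι F).map σ :=
  ⟨H11.glEquiv.symm e, fm_ext (σ := σ) fun x y => by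
    rw [fm_gT, ← fm_mulVec, glEquiv_symm_mulVec, glEquiv_symm_mulVec]⟩

theorem unit_congr [Finite F] {G' : Matrix κ κ F} (h : HF σ 1 G) (h' : HF σ 1 G')
    (hne : σ ≠ ρ) (hc : Fintype.card κ = Fintype.card ι) : ∃ T, gT σ G T = G' := by
  obtain ⟨e, he⟩ := H11.PForm.unit_eqv hne _ (S := H11.unitS h.σσ hne _ h'.sesq_symm)
    (T := H11.unitS h.σσ hne _ h.sesq_symm) (fun x hx => h'.right hx) (fun x hx => h.right hx)
    rfl (by simp [hc])
  exact ⟨e, congr_of_equiv e fun x y => he.h_eq y x⟩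

theorem symp_congr {G' : Matrix κ κ F} (h : IsSymplecticForm (fm ρ G))
    (h' : IsSymplecticForm (fm ρ G')) (hc : Fintype.card κ = Fintype.card ι) :
    ∃ T, gT ρ G T = G' := by
  obtain ⟨e, he⟩ := H11.PForm.symp_eqv _ (S := H11.sympS (sesq ρ G') h'.alternating)
    (T := H11.sympS (sesq ρ G) h.alternating)
    (fun x hx => by_contra fun h0 => (h'.nondegenerate x h0).1.elim fun y hy => hy (hx y))
    (fun x hx => by_contra fun h0 => (h.nondegenerate x h0).1.elim fun y hy => hy (hx y))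
    rfl (by simp [hc])
  exact ⟨e, congr_of_equiv e fun x y => he.h_eq y x⟩

theorem HF.det_ne (h : HF σ ε G) : G.det ≠ 0 := ((isUnit_iff_isUnit_det G).1 h.unit).ne_zero

theorem HF.transpose_eq (h : HF ρ 1 G) : Gᵀ = G := by simpa using h.herm

theorem symm_congr [Finite F] {G' : Matrix κ κ F} (h2 : (2 : F) ≠ 0) (h : HF ρ 1 G)
    (h' : HF ρ 1 G') (hc : Fintype.card κ = Fintype.card ι)
    (hd : H11.sqSign G.det = H11.sqSign G'.det) : ∃ T, gT ρ G T = G' := by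
  have h0 : LinearMap.BilinForm.IsSymm (sesq ρ G) := ⟨fun x y => h.symm y x⟩
  have hS : (H11.symmS h2 (sesq ρ G) h0).Nondeg := fun x hx => h.right hx
  have h1 := (hS.sqSign_det_gram h2 (Pi.basisFun F ι)).2
  have h3 : (of fun i j => (H11.symmS h2 (sesq ρ G) h0).h (Pi.basisFun F ι i)
      (Pi.basisFun F ι j)) = Gᵀ := by
    ext i j
    simp [sesq_apply, fm_single]
  rw [h3, det_transpose, hd] at h1
  obtain ⟨b, hb⟩ := hS.exists_basis_gram h2 h'.transpose_eq h'.det_ne (by simp [hc]) h1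
  refine ⟨b.equivFun.symm, Matrix.ext fun i j => (fm_single (σ := ρ) i j).symm.trans ?_⟩
  rw [fm_gT, h.symm]
  simpa [Pi.single_apply, sesq_apply] using hb i j

theorem exists_gram_sub (h : HF σ ε G) {W : Submodule F (ι → F)} {k : ℕ} (hk : finrank F W = k)
    (hW : IsNondegenerateOn (fm σ G) W) : ∃ B : Matrix ι (Fin k) F,
      (∀ x, x ∈ W ↔ ∃ y, x = B *ᵥ y) ∧ HF σ ε (Bᵀ * G * B.map σ) := by
  let L := W.subtype ∘ₗ (Module.finBasisOfFinrankEq F W hk).equivFun.symm.toLinearMap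
  have h1 : ∀ y, LinearMap.toMatrix' L *ᵥ y = L y := fun y => by
    rw [← toLin'_apply, toLin'_toMatrix']
  have h2 : ∀ x, x ∈ W ↔ ∃ y, x = LinearMap.toMatrix' L *ᵥ y := fun x =>
    ⟨fun hx => ⟨(Module.finBasisOfFinrankEq F W hk).equivFun ⟨x, hx⟩, by
      rw [h1]; simp only [L, LinearMap.comp_apply, LinearEquiv.coe_coe, LinearEquiv.symm_apply_apply]
      rfl⟩, fun ⟨y, e⟩ => e ▸ h1 y ▸ Subtype.coe_prop _⟩
  refine ⟨_, h2, HF.of_swap h.σσ (isUnit_of_nondeg (σ := σ) fun x hx => by_contra fun h0 => ?_)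
    fun x y => by rw [← fm_mulVec, ← fm_mulVec, h.swap]⟩
  obtain ⟨-, y, hy, h3⟩ := hW _ ((h2 _).2 ⟨x, rfl⟩) (by
    rw [h1]
    exact fun e => h0 ((Module.finBasisOfFinrankEq F W hk).equivFun.symm.map_eq_zero_iff.1
      (Subtype.ext e)))
  obtain ⟨y, rfl⟩ := (h2 y).1 hy
  exact h3 (by rw [fm_mulVec, hx])

theorem even_of_nd (h : HF ρ ε G) (ha : ∀ v, fm ρ G v v = 0) {W : Submodule F (ι → F)}
    (hW : IsNondegenerateOn (fm ρ G) W) : Even (finrank F W) := by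
  obtain ⟨B, -, h1⟩ := exists_gram_sub h rfl hW
  simpa using even_of_symp (h1.symp fun v => by rw [← fm_mulVec, ha])

theorem abN_of_frame (h : HF σ ε G) (hs : H ≤ Sim σ G) (hn : 2 ≤ Fintype.card ι)
    (p : (ι → F) → Prop) (h1 : ∀ w, p w → fm σ G w w ≠ 0)
    (h2 : ∀ g ∈ H, ∀ w, p w → p ((g : Matrix ι ι F) *ᵥ w))
    (h3 : ∀ w w', p w → p w' → w' ∈ F ∙ w ∨ fm σ G w w' = 0) {v : ι → F} (hv : p v) :
    AbN σ G H := by
  obtain ⟨pr, hp⟩ : ∃ pr : (ι → F) → Matrix ι ι F, ∀ w x,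
      pr w *ᵥ x = (fm σ G x w / fm σ G w w) • w :=
    ⟨fun w => (fm σ G w w)⁻¹ • vecMulVec w (G *ᵥ (σ ∘ w)), fun w x => by
      rw [smul_mulVec, H11.vecMulVec_mulVec', smul_smul, dotProduct_comm, ← fm_eq, div_eq_inv_mul]⟩
  haveI : Nonempty ι := Fintype.card_pos_iff.1 (by omega)
  have hε : ε ≠ 0 := left_ne_zero_of_mul_eq_one h.norm
  refine AbN.of_set h {a | ∃ w, p w ∧ a = pr w} ?_ ?_ ?_ ⟨v, hv, rfl⟩ ?_
  · rintro g hg _ ⟨w, hw, rfl⟩
    obtain ⟨c, hc⟩ := hs hg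
    refine Algebra.subset_adjoin ⟨_, h2 g hg w hw, cjA_eq_iff.2 (ext_mulVec fun x => ?_)⟩
    rw [← mulVec_mulVec, ← mulVec_mulVec, hp, hp, hc, hc, mul_div_mul_left _ _ c.ne_zero,
      mulVec_smul]
  · rintro _ ⟨w, hw, rfl⟩ _ ⟨w', hw', rfl⟩
    rcases h3 w w' hw hw' with e | e
    · obtain ⟨c, rfl⟩ := Submodule.mem_span_singleton.1 e
      have h4 := h1 _ hw'
      rw [fm_smul_left, fm_smul_right] at h4
      simp only [ne_eq, mul_eq_zero, not_or] at h4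
      rw [show pr (c • w) = pr w from ext_mulVec fun x => by
        rw [hp, hp, fm_smul_left, fm_smul_right, fm_smul_right, smul_smul]
        congr 1
        field_simp [h4.1, h4.2.1, h4.2.2]]
    · refine ext_mulVec fun x => ?_
      simp only [← mulVec_mulVec, hp, fm_smul_left, e, h.eq_zero_comm e, mul_zero, zero_div,
        zero_smul]
  · rintro _ ⟨w, hw, rfl⟩
    refine Algebra.subset_adjoin ⟨w, hw, h.adj_eq fun x y => ?_⟩
    rw [hp, hp, fm_smul_left, fm_smul_right, map_div₀, h.swap w y]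
    have := h.swap w w
    have h4 := h1 w hw
    rw [show σ (fm σ G w w) = fm σ G w w / ε by rw [eq_div_iff hε, mul_comm, ← this]]
    field_simp
  · rintro ⟨c, hc⟩
    have h4 := le_finrank_pp (σ := σ) (G := G) (F ∙ v)
    have h0 : v ≠ 0 := by rintro rfl; simpa using h1 _ hv
    rw [finrank_span_singleton h0] at h4
    obtain ⟨x, hx, h5⟩ := Submodule.exists_mem_ne_zero_of_ne_bot (p := pp σ G (F ∙ v))
      fun e => by rw [e, finrank_bot] at h4; omega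
    have h6 := hp v v
    have h7 := hp v x
    rw [hc, smul_mulVec, one_mulVec] at h6 h7
    rw [hx v (Submodule.mem_span_singleton_self v), zero_div, zero_smul, smul_eq_zero] at h7
    rw [h7.resolve_right h5, div_self (h1 v hv), zero_smul, one_smul] at h6
    exact h0 h6.symm

theorem NDec.one [Finite F] {k : ℕ} (hD : NDec σ G H k) (hH : Irr H) (h : HF σ ε G)
    (hs : H ≤ Iso σ G) (hf : ∀ G₀ : Matrix (Fin k) (Fin k) F, HF σ ε G₀ → ∃ v, fm σ G₀ v v ≠ 0 ∧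
      ∀ w, fm σ G₀ w w = fm σ G₀ v v → w ∈ F ∙ v ∨ fm σ G₀ w v = 0) : NDec σ G H 1 := by
  obtain ⟨t, D, h1, h2, -⟩ := hD
  have ht := h1.decomp.two_le
  have hk := h1.decomp.pos
  obtain ⟨i⟩ : Nonempty (Fin t) := ⟨⟨0, by omega⟩⟩
  obtain ⟨B, h3, h4⟩ := exists_gram_sub h (h1.decomp.finrank_eq i) (h1.nondegenerate i)
  obtain ⟨v, h5, h6⟩ := hf _ h4
  refine ndec_one hH (by rw [← mdec_card h1.decomp]; nlinarith) h (hs.trans Iso_le_Sim)
    (v := B *ᵥ v) (by rwa [fm_mulVec]) fun g hg => ?_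
  obtain ⟨τ, hτ⟩ := of_mem_decStab (h2 hg)
  have h7 := (h3 _).2 ⟨v, rfl⟩
  have h8 := hτ i _ h7
  by_cases e : τ i = i
  · obtain ⟨w, hw⟩ := (h3 _).1 (e ▸ h8)
    rw [hw, fm_mulVec]
    refine (h6 w (by rw [← fm_mulVec, ← hw, hs hg, fm_mulVec])).imp_left fun h9 => ?_
    obtain ⟨c, rfl⟩ := Submodule.mem_span_singleton.1 h9
    exact Submodule.mem_span_singleton.2 ⟨c, (mulVec_smul _ _ _).symm⟩
  · exact .inr (h1.orthogonal _ _ e _ h8 _ h7)

theorem fm_smul_one (a : F) (x y : ι → F) : fm σ (a • (1 : Matrix ι ι F)) x y =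
    a * ∑ i, x i * σ (y i) := by rw [fm_smul, fm_eq, one_mulVec]; rfl

section small

variable [Fintype F]

theorem frame33 (hF : Fintype.card F = 3) {G : Matrix (Fin 3) (Fin 3) F} (h : HF ρ 1 G) :
    (∃ v, fm ρ G v v = G.det) ∧ ∀ w w', fm ρ G w w = G.det → fm ρ G w' w' = G.det →
      w' ∈ F ∙ w ∨ fm ρ G w w' = 0 := by
  have h3 : G.det ^ 3 = G.det := by simpa only [hF] using FiniteField.pow_card G.det
  obtain ⟨T, hT⟩ := symm_congr (two_ne_zero_of_odd (by rw [hF]; decide)) h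
    ((hf_one h.σσ).smul h.det_ne (ε' := 1) (by simp)) rfl (by simp [h3])
  have h4 : ∀ x y, fm ρ G (T x) (T y) = G.det * ∑ i, x i * y i := fun x y => by
    rw [← fm_gT, hT, fm_smul_one]; rfl
  refine ⟨⟨T (Pi.single 0 1), by simp [h4, Fin.sum_univ_three]⟩, fun w w' => ?_⟩
  obtain ⟨x, rfl⟩ := T.surjective w
  obtain ⟨y, rfl⟩ := T.surjective w'
  simp only [h4, mul_right_eq_self₀, h.det_ne, or_false, mul_eq_zero, false_or]
  let e := ZMod.ringEquivOfPrime F Nat.prime_three hF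
  obtain ⟨x, rfl⟩ := e.surjective.comp_left x
  obtain ⟨y, rfl⟩ := e.surjective.comp_left y
  simp only [Function.comp_apply, ← map_mul, ← map_sum, map_eq_one_iff e e.injective,
    map_eq_zero_iff e e.injective]
  intro h5 h6
  refine ((by decide : ∀ x y : Fin 3 → ZMod 3, ∑ i, x i * x i = 1 → ∑ i, y i * y i = 1 →
    (∃ c : ZMod 3, c • x = y) ∨ ∑ i, x i * y i = 0) x y h5 h6).imp_left ?_
  rintro ⟨c, rfl⟩
  exact Submodule.mem_span_singleton.2 ⟨e c, by rw [← map_smul]; congr 1; ext; simp⟩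

theorem abN_33 (hF : Fintype.card F = 3) {G : Matrix (Fin 3) (Fin 3) F} (h : HF ρ 1 G) :
    AbN ρ G (Sim ρ G) := by
  obtain ⟨⟨v, hv⟩, h1⟩ := frame33 hF h
  refine abN_of_frame h le_rfl (by simp) (fun w => fm ρ G w w = G.det)
    (fun w hw => hw ▸ h.det_ne) (fun g hg w hw => ?_) h1 hv
  obtain ⟨c, hc, e⟩ := mem_Sim.1 hg
  have h2 := congrArg det e
  rw [fm_mulVec, e, fm_smul, hw]
  simp only [RingHom.coe_id, Matrix.map_id, det_mul, det_transpose, det_smul,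
    Fintype.card_fin] at h2
  have h3 : c ^ 3 = c := by rw [← hF, FiniteField.pow_card]
  rw [← h3, ← h2, mul_right_comm, ← sq, pow_card_sub (q := 2) hF (det_ne_zero g), one_mul]

theorem NDec.one33 (hF : Fintype.card F = 3) (hD : NDec ρ G H 3) (hH : Irr H) (h : HF ρ 1 G)
    (hs : H ≤ Iso ρ G) : NDec ρ G H 1 := hD.one hH h hs fun _ h0 =>
  let ⟨⟨v, hv⟩, h1⟩ := frame33 hF h0
  ⟨v, hv ▸ h0.det_ne, fun w hw => (h1 v w hv (hw.trans hv)).imp_right h0.eq_zero_comm⟩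

theorem solvable_23 (hF : Fintype.card F = 3) (K : Subgroup (GL (Fin 2) F)) : Group.IsSolvable K :=
  H5.burnside_paqb_dvd (a := 4) (b := 1) Nat.prime_two Nat.prime_three
    ((Subgroup.card_subgroup_dvd_card K).trans (by simp [card_GL_field, hF]))

theorem qInv_planes (hF : Fintype.card F = 2) (h : HF ρ ε G) (ha : ∀ v, fm ρ G v v = 0)
    {D : Fin t → Submodule F (ι → F)} (hD : IsNondegenerateMDecomposition (fm ρ G) 2 D)
    (hs : H ≤ decompositionStabilizer D) : ∃ Q, QInv G H Q := by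
  classical
  have h2 : (2 : F) = 0 := two_eq_of_card (k := 1) hF
  obtain ⟨π, hπ⟩ := exists_pr hD.decomp.indep hD.decomp.iSup_eq_top
  have h1 : ∀ i, ∀ u ∈ D i, ∀ w ∈ D i, (if u + w = 0 then 0 else 1 : F) =
      (if u = 0 then 0 else 1) + (if w = 0 then 0 else 1) + fm ρ G u w := fun i u hu w hw => by
    by_cases a : u = 0
    · simp [a]
    by_cases b : w = 0
    · simp [b]
    by_cases c : u + w = 0
    · rw [eq_neg_of_add_eq_zero_left c, ← neg_one_smul F w, fm_smul_left, ha]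
      simp [b, one_add_one_eq_two, h2]
    simp only [a, b, c, if_false, one_add_one_eq_two, h2, zero_add]
    refine (eq_one_of_card_two hF fun e => ?_).symm
    have h3 : LinearIndependent F ![u, w] := (LinearIndependent.pair_iff' a).2 fun l e => by
      rw [← e, eq_one_of_card_two hF (c := l) (by rintro rfl; simp_all), one_smul, ← two_smul F,
        h2, zero_smul] at c
      exact c rfl
    have h4 : Submodule.span F {u, w} = D i := Submodule.eq_of_le_of_finrank_eq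
      (Submodule.span_le.2 (Set.pair_subset hu hw)) (by
        rw [hD.decomp.finrank_eq, ← Matrix.range_cons_cons_empty u w ![],
          finrank_span_eq_card h3, Fintype.card_fin])
    obtain ⟨-, x, hx, h5⟩ := hD.nondegenerate i u hu a
    obtain ⟨l, m, rfl⟩ := Submodule.mem_span_pair.1 (h4 ▸ hx)
    simp [fm_add_right, fm_smul_right, ha, e] at h5
  have h3 : QuadraticMap.polar (fun v => ∑ i, (if π i v = 0 then 0 else 1 : F)) = fm ρ G := by
    ext x y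
    simp only [QuadraticMap.polar, map_add, h1 _ _ (hπ.mem _ x) _ (hπ.mem _ y),
      Finset.sum_add_distrib]
    conv_rhs => rw [← hπ.sum x, ← hπ.sum y, ← sesq_apply]
    simp only [map_sum, LinearMap.sum_apply, sesq_apply]
    rw [add_assoc, add_sub_cancel_left, add_sub_cancel_left]
    exact Finset.sum_congr rfl fun i _ => (Finset.sum_eq_single i (fun j _ hj =>
      hD.orthogonal _ _ hj.symm _ (hπ.mem _ _) _ (hπ.mem _ _)) fun h => absurd (Finset.mem_univ _) h).symm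
  refine ⟨_, quad_of_polar h (fun c v => ?_) h3, h3, fun g hg v => ?_⟩
  · obtain rfl | hc := eq_or_ne c 0
    · simp
    · simp [eq_one_of_card_two hF hc]
  · obtain ⟨τ, hτ⟩ := of_mem_decStab (hs hg)
    rw [← Equiv.sum_comp τ]
    refine Finset.sum_congr rfl fun i _ => if_congr ?_ rfl rfl
    rw [← toLin'_apply, hπ.equiv (g := toLin' (g : Matrix ι ι F)) hτ]
    exact ⟨fun e => by_contra fun e' => mulVec_ne_zero g e' e, fun e => by simp [e]⟩

theorem selfadj_alt (h : HF ρ ε G) (ha : ∀ v, fm ρ G v v = 0) {x : Matrix ι ι F} {r : ℕ}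
    (hr : r ≠ 0) (h1 : adj ρ G x = x) (h2 : x ^ (Fintype.card F ^ r) = x) (v : ι → F) :
    fm ρ G (x *ᵥ v) v = 0 := by
  by_cases ho : Odd (Fintype.card F)
  · refine (mul_eq_zero.1 ?_).resolve_left (two_ne_zero_of_odd ho)
    have := (h.symp ha).skew (x *ᵥ v) v
    rw [← h.fm_adj', h1] at this
    linear_combination this
  · obtain ⟨s, hs⟩ := (Nat.not_odd_iff_even.1 ho).pow_of_ne_zero hr
    rw [← h2, hs, pow_add, ← mulVec_mulVec, h.fm_adj, h.adj_pow, h1, ha]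

/-- the geometric classes for a symplectic group -/
def SpC (G : Matrix ι ι F) (H : Subgroup (GL ι F)) : Prop :=
  (∃ W, W ≠ ⊥ ∧ IsTotallySingularFor (fm ρ G) W ∧ H ≤ subspaceStabilizer W) ∨
  (∃ W, W ≠ ⊥ ∧ IsNondegenerateOn (fm ρ G) W ∧ 2 * finrank F W < Fintype.card ι ∧
    H ≤ subspaceStabilizer W) ∨
  (∃ (t k : ℕ) (D : Fin t → Submodule F (ι → F)), IsNondegenerateMDecomposition (fm ρ G) k D ∧
    Even k ∧ (k = 2 → 3 ≤ Fintype.card F) ∧ H ≤ decompositionStabilizer D) ∨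
  (Odd (Fintype.card F) ∧ TPair ρ G H) ∨ SubS ρ G H ∨ (∃ R m, XsB G H R m) ∨
  (¬ Odd (Fintype.card F) ∧ ∃ Q, QInv G H Q) ∨
  (∃ r K, r.Prime ∧ FldN ρ G H r K ∧ (∀ x ∈ K, adj ρ G x = x) ∧
    ∀ x ∈ K, ∀ v, fm ρ G (x *ᵥ v) v = 0) ∨
  (Odd (Fintype.card F) ∧ ∃ K, FldN ρ G H 2 K ∧ ∀ x ∈ K, adj ρ G x = x → Sc x) ∨
  (Odd (Fintype.card F) ∧ ∃ (d m : ℕ) (T : (Fin d × Fin m → F) ≃ₗ[F] (ι → F)) (G₁ : _) (G₂ : _),
    2 ≤ d ∧ Even d ∧ 3 ≤ m ∧ ¬ (Fintype.card F = 3 ∧ m = 3) ∧ KrF ρ G H T G₁ G₂ (-1) 1) ∨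
  (Odd (Fintype.card F) ∧ ∃ (k t : ℕ) (T : ((Fin t → Fin k) → F) ≃ₗ[F] (ι → F)) (G₀ : _) (c : F),
    2 ≤ k ∧ Odd t ∧ 3 ≤ t ∧ ¬ (Fintype.card F = 3 ∧ k = 2) ∧ WrF ρ G H T G₀ (-1) c)

theorem spC_dec (h : HF ρ ε G) (ha : ∀ v, fm ρ G v v = 0) {k : ℕ}
    {D : Fin t → Submodule F (ι → F)} (hD : IsNondegenerateMDecomposition (fm ρ G) k D)
    (hs : H ≤ decompositionStabilizer D) : SpC G H := by
  by_cases h1 : k = 2 → 3 ≤ Fintype.card F
  · have := hD.decomp.two_le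
    exact .inr (.inr (.inl ⟨t, k, D, hD, hD.decomp.finrank_eq ⟨0, by omega⟩ ▸
      even_of_nd h ha (hD.nondegenerate _), h1, hs⟩))
  · push Not at h1
    obtain ⟨rfl, h1⟩ := h1
    have h2 : Fintype.card F = 2 := by have := Fintype.one_lt_card (α := F); omega
    exact .inr (.inr (.inr (.inr (.inr (.inr (.inl ⟨by rw [h2]; decide,
      qInv_planes h2 h ha hD hs⟩))))))

theorem spC_q {Q : (ι → F) → F} (h2 : (2 : F) = 0) (h : QInv G H Q) : SpC G H :=
  .inr (.inr (.inr (.inr (.inr (.inr (.inl ⟨fun e => two_ne_zero_of_odd e h2, Q, h⟩))))))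

theorem spC_abN [Nonempty ι] (hH : Irr H) (h : HF ρ ε G) (ha : ∀ v, fm ρ G v v = 0)
    (hs : H ≤ Iso ρ G) (hA : AbN ρ G H) : SpC G H := by
  rcases hA.cases hH h (hs.trans Iso_le_Sim) with ⟨k, t, D, h1, h2, -⟩ | h1 | ⟨d, K, hd, h1⟩
  · exact spC_dec h ha h1 h2
  · by_cases ho : Odd (Fintype.card F)
    · exact .inr (.inr (.inr (.inl ⟨ho, h1⟩)))
    · obtain ⟨-, -, -, -, -, ω, h1, -⟩ := h1
      exact spC_q (two_eq_of_not_odd ho) (h1.qInv h hs (two_eq_of_not_odd ho) ha)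
  rcases h1.bil h (hs.trans Iso_le_Sim) hd with ⟨r, K, hr, h2, h3, h4⟩ | ⟨rfl, h2⟩
  · exact .inr (.inr (.inr (.inr (.inr (.inr (.inr (.inl ⟨r, K, hr, h2, h3, fun x hx =>
      selfadj_alt h ha hr.ne_zero (h3 x hx) (h4 x hx)⟩)))))))
  · by_cases ho : Odd (Fintype.card F)
    · exact .inr (.inr (.inr (.inr (.inr (.inr (.inr (.inr (.inl ⟨ho, K, h1, h2⟩))))))))
    · obtain ⟨ω, -, h3⟩ := h1.om hd h (two_eq_of_not_odd ho) h2
      exact spC_q (two_eq_of_not_odd ho) (h3.qInv h hs (two_eq_of_not_odd ho) ha)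

theorem spC_xs (hH : Irr H) (hn : 2 ≤ Fintype.card ι) (h : HF ρ ε G) (ha : ∀ v, fm ρ G v v = 0)
    (hs : H ≤ Iso ρ G) {M : Subgroup (GL ι F)} (hx : Xs M) (hM : Nml H M) (h1 : M ≤ Iso ρ G) :
    SpC G H := by
  haveI : Nonempty ι := Fintype.card_pos_iff.1 (by omega)
  rcases xsB_cases hn h hx hM h1 with h2 | h2 | h2
  · exact spC_abN hH h ha hs h2
  · exact .inr (.inr (.inr (.inr (.inl h2))))
  · exact .inr (.inr (.inr (.inr (.inr (.inl h2)))))

theorem spC_kr (hH : Irr H) (h : HF ρ (-1) G) (ha : ∀ v, fm ρ G v v = 0) (hs : H ≤ Iso ρ G)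
    {d m : ℕ} {T : (Fin d × Fin m → F) ≃ₗ[F] (ι → F)} {G₁ : _} {G₂ : _} (hd : 2 ≤ d) (hm : 2 ≤ m)
    (h2 : (2 : F) ≠ 0) (hk : KrF ρ G H T G₁ G₂ (-1) 1) : SpC G H := by
  haveI : NeZero d := ⟨by omega⟩
  haveI : NeZero m := ⟨by omega⟩
  haveI : Nonempty ι := Fintype.card_pos_iff.1 (KrF.card T ▸ Fintype.card_pos)
  obtain rfl | hm := hm.eq_or_lt
  · exact spC_abN hH h ha hs (hk.swap.abN h (hs.trans Iso_le_Sim) (abN_two hk.h2 h2))
  by_cases h3 : Fintype.card F = 3 ∧ m = 3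
  · obtain ⟨h3, rfl⟩ := h3
    exact spC_abN hH h ha hs (hk.swap.abN h (hs.trans Iso_le_Sim) (abN_33 h3 hk.h2))
  exact .inr (.inr (.inr (.inr (.inr (.inr (.inr (.inr (.inr (.inl ⟨odd_of_two_ne h2, d, m, T,
    G₁, G₂, hd, by simpa using even_of_symp (hk.h1.symp (hk.h1.alt h2)), hm, h3, hk⟩)))))))))

theorem sp_cases (hn : 2 ≤ Fintype.card ι) (h : HF ρ (-1) G) (ha : ∀ v, fm ρ G v v = 0)
    (hs : H ≤ Iso ρ G) : SpC G H ∨ InSymplecticResidualClass H := by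
  haveI : Nonempty ι := Fintype.card_pos_iff.1 (by omega)
  have hs' := hs.trans Iso_le_Sim
  by_cases hH : Irr H
  swap
  · rcases red_cases h hs' hH with h1 | h1 | ⟨W, h1, h2, h3, h4⟩
    · exact .inl (.inl h1)
    · exact .inl (.inr (.inl h1))
    · exact .inl (spC_dec h ha (h.ndec_pair h1 (inf_pp h2) h3) (le_decStab_pair hs' h4))
  rcases form_cases hH hn h hs' with h1 | ⟨d, m, T, G₁, G₂, ε₁, ε₂, hd, hm, hk⟩ |
    ⟨-, ⟨M, r, h1⟩ | ⟨t, P, h1⟩ | ⟨P, h1⟩⟩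
  · exact .inl (spC_abN hH h ha hs h1)
  · haveI : NeZero d := ⟨by omega⟩
    haveI : NeZero m := ⟨by omega⟩
    by_cases h2 : (2 : F) = 0
    · obtain ⟨Q, h3, -⟩ := hk.qInv h hs h2
        ((bil_cases (hk.irr hH hs') (by simpa) hk.h1 le_rfl).resolve_right fun e => e.1 h2)
        ((bil_cases (hk.swap.irr hH hs') (by simpa) hk.h2 le_rfl).resolve_right fun e => e.1 h2)
      exact .inl (spC_q h2 h3)
    have h3 := hk.ε_eq h
    rcases hk.h1.ε_cases with rfl | rfl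
    · obtain rfl : ε₂ = -1 := by simpa using h3
      exact .inl (spC_kr hH h ha hs hm hd h2 hk.swap)
    · obtain rfl : ε₂ = 1 := by simpa using h3
      exact .inl (spC_kr hH h ha hs hd hm h2 hk)
  · exact .inl (spC_xs hH hn h ha hs h1.xs h1.nml (h1.le.trans hs))
  · obtain ⟨k, T, G₀, ε₀, c, hk, hw, h3⟩ := h1.wrF h hs'
    haveI : NeZero k := ⟨by omega⟩
    have ht := h1.two
    by_cases h2 : (2 : F) = 0
    · obtain ⟨Q, h3⟩ := hw.qInv h hs h2 ht ((bil_cases (hw.irr hH hs' (by omega)) (by simpa)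
        hw.h0 le_rfl).resolve_right fun e => e.1 h2)
      exact .inl (spC_q h2 h3)
    have h4 : ε₀ ^ t = -1 := mul_left_cancel₀ hw.ne ((hw.ε_eq h).trans (mul_comm _ _))
    have h5 : (1 : F) ≠ -1 := fun e => h2 (by linear_combination e)
    obtain rfl : ε₀ = -1 := hw.h0.ε_cases.resolve_left fun e => h5 (by rwa [e, one_pow] at h4)
    have h6 : Odd t := Nat.not_even_iff_odd.1 fun e => h5 (by rwa [e.neg_one_pow] at h4)
    refine .inl (.inr (.inr (.inr (.inr (.inr (.inr (.inr (.inr (.inr (.inr ⟨odd_of_two_ne h2, k, t,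
      T, G₀, c, hk, h6, by obtain ⟨s, rfl⟩ := h6; omega, ?_, hw⟩))))))))))
    rintro ⟨h7, rfl⟩
    exact h3 (solvable_23 h7 _)
  rcases h1.cases h hs with h2 | ⟨h2, h3⟩
  · exact .inl (.inr (.inr (.inr (.inr (.inl h2)))))
  refine or_iff_not_imp_left.2 fun h0 => ⟨P, h2, ?_, ?_⟩
  · rintro ⟨Q, h4, h5⟩
    obtain ⟨G', e, h6⟩ := hf_of_quad h4
    have h7 : ∀ x ∈ P, ∀ v, Q ((x : Matrix ι ι F) *ᵥ v) = Q v := fun x hx => h5 _ ⟨x, hx, rfl⟩
    obtain ⟨c, rfl⟩ := gram_unique h1.top h.unit (h1.le.trans hs) fun x hx => iso_of_quad e (h7 x hx)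
    have hc : c ≠ 0 := by rintro rfl; exact h6.ne_zero (zero_smul _ _)
    have h8 : (2 : F) = 0 := by
      linear_combination h6.ε_eq (h.smul hc (ε' := -1) (mul_comm _ _))
    have h9 : QuadraticMap.polar (fun v => c⁻¹ * Q v) = fm ρ G := by
      ext x y
      have := congrFun₂ e x y
      rw [fm_smul, QuadraticMap.polar] at this
      rw [QuadraticMap.polar, ← mul_sub, ← mul_sub, this, inv_mul_cancel_left₀ hc]
    refine h0 (spC_q h8 ⟨quad_of_polar h (fun a v => by rw [h4.smul]; ring) h9, h9, fun g hg v =>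
      congrArg (c⁻¹ * ·) (quad_unique (Q := fun v => Q ((g : Matrix ι ι F) *ᵥ v))
        (irr_of_env h1.top) hn (fun a v => by rw [mulVec_smul, h4.smul]) h4.smul
        (fun x y => ?_) (fun x hx w hw => ?_) v)⟩)
    · rw [e, ← Iso_le_smul c (hs hg) x y, ← e, QuadraticMap.polar, QuadraticMap.polar, mulVec_add]
    · rw [h7 x hx, ← hw, ← h7 _ (h1.nml g hg x hx) (_ *ᵥ w)]
      simp only [Units.val_mul, ← mulVec_mulVec, inv_mulVec_mulVec]
  · rintro ⟨τ, f, h4, h5⟩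
    obtain ⟨G', rfl, h6⟩ := hf_of_unit h4
    exact ne_id_of_unit h4 (h3 _ _ _ h6 (fixes_iff.1 h5))

end small

end H29
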