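import Cfsg.Agent.H29.As6
import Cfsg.Agent.H10.SL

/-! Properness of the geometric classes: the structure `Big Ω Sg d` (perfect, quasisimple,
absolutely irreducible, transitive on singular points) and the lemmas `Big.not_*` saying that such
a group lies in no member of the classes 1 to 7; projections `Pr` of a decomposition; `big_SL`. -/

set_option autoImplicit false
set_option linter.unusedSectionVars false

namespace H29

open Matrix Cfsg.Geo Module
open scoped Kronecker commutatorElement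

variable {F : Type*} [Field F] {ι κ μ : Type} [Fintype ι] [DecidableEq ι] [Fintype κ]
  [DecidableEq κ] [Fintype μ] [DecidableEq μ] {t : ℕ}

theorem eq_of_max {G : Type*} [Group G] {K H M : Subgroup G} (h : IsMaximalIn K H) (h1 : H ≤ M)
    (h2 : ¬ K ≤ M) : H = M ⊓ K :=
  ((h.2 (M ⊓ K) (le_inf h1 h.1.le) inf_le_right).resolve_right fun e =>
    h2 (e ▸ inf_le_left)).symm

theorem comm_mul_central {G : Type*} [Group G] {z w : G} (hz : ∀ g, z * g = g * z)
    (hw : ∀ g, w * g = g * w) (a b : G) : ⁅a * z, b * w⁆ = ⁅a, b⁆ := by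
  have h1 : z * (b * w) * z⁻¹ = b * w := by rw [hz, mul_inv_cancel_right]
  have h2 : w * a⁻¹ * w⁻¹ = a⁻¹ := by rw [hw, mul_inv_cancel_right]
  calc _ = a * (z * (b * w) * z⁻¹) * a⁻¹ * (b * w)⁻¹ := by group
    _ = a * b * (w * a⁻¹ * w⁻¹) * b⁻¹ := by rw [h1]; group
    _ = _ := by rw [h2]; group

section Pr
variable {V : Type*} [AddCommGroup V] [Module F V]

/-- projections of a direct sum decomposition -/
structure Pr (D : Fin t → Submodule F V) (π : Fin t → V →ₗ[F] V) : Prop where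
  mem : ∀ i x, π i x ∈ D i
  self : ∀ i, ∀ x ∈ D i, π i x = x
  ne : ∀ i j, i ≠ j → ∀ x ∈ D j, π i x = 0
  sum : ∀ x, ∑ i, π i x = x

theorem exists_pr {D : Fin t → Submodule F V} (h1 : iSupIndep D) (h2 : iSup D = ⊤) :
    ∃ π, Pr D π := by
  have hc : ∀ i, IsCompl (D i) (⨆ j ≠ i, D j) := fun i => ⟨h1 i, codisjoint_iff.2 (by
    rw [← h2, iSup_split_single D i])⟩
  have h3 : ∀ i j, i ≠ j → ∀ x ∈ D j, (D i).projection _ (hc i) x = 0 := fun i j h x hx =>
    Submodule.projection_apply_of_mem_right _ (Submodule.mem_iSup_of_mem j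
      (Submodule.mem_iSup_of_mem h.symm hx))
  refine ⟨fun i => (D i).projection _ (hc i), fun i x => Submodule.projection_apply_mem _ x,
    fun i x hx => Submodule.projection_apply_of_mem_left _ hx, h3, fun x => ?_⟩
  refine Submodule.iSup_induction D (motive := fun x => ∑ i, (D i).projection _ (hc i) x = x)
    (Submodule.eq_top_iff'.1 h2 x) (fun j x hx => ?_) (by simp) fun x y hx hy => by
      simp only [map_add, Finset.sum_add_distrib, hx, hy]
  rw [Finset.sum_eq_single j (fun i _ h => h3 i j h x hx) (by simp)]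
  exact Submodule.projection_apply_of_mem_left _ hx

variable {D : Fin t → Submodule F V} {π : Fin t → V →ₗ[F] V}

theorem Pr.equiv (h : Pr D π) {g : V →ₗ[F] V} {τ : Equiv.Perm (Fin t)}
    (hg : ∀ i, ∀ x ∈ D i, g x ∈ D (τ i)) (i : Fin t) (x : V) : π (τ i) (g x) = g (π i x) := by
  conv_lhs => rw [← h.sum x, map_sum, map_sum]
  rw [Finset.sum_eq_single i (fun j _ hj => h.ne _ _ (τ.injective.ne hj.symm) _
    (hg j _ (h.mem j x))) (by simp)]
  exact h.self _ _ (hg i _ (h.mem i x))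

theorem Pr.eq_zero (h : Pr D π) {p : Fin t → Prop} {x : V} (hx : x ∈ ⨆ i, ⨆ _ : p i, D i)
    {j : Fin t} (hj : ¬ p j) : π j x = 0 := by
  refine (iSup₂_le fun i hi x hx => ?_ : _ ≤ LinearMap.ker (π j)) hx
  exact h.ne j i (fun e => hj (e ▸ hi)) x hx

theorem finrank_biSup [FiniteDimensional F V] (h : iSupIndep D) {m : ℕ}
    (hm : ∀ i, finrank F (D i) = m) (I : Finset (Fin t)) :
    finrank F (⨆ i ∈ I, D i : Submodule F V) = I.card * m := by
  induction I using Finset.induction_on with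
  | empty => simp
  | insert a s ha ih =>
    have := Submodule.finrank_sup_add_finrank_inf_eq (D a) (⨆ i ∈ s, D i)
    rw [show D a ⊓ ⨆ i ∈ s, D i = ⊥ from (h.disjoint_biSup (y := (s : Set (Fin t))) ha).eq_bot,
      finrank_bot, hm, ih] at this
    rw [Finset.iSup_insert, Finset.card_insert_of_notMem ha]
    linarith

end Pr

theorem mdec_card {m : ℕ} {D : Fin t → Submodule F (ι → F)} (h : IsMDecomposition m D) :
    t * m = Fintype.card ι := by
  have := finrank_biSup h.indep h.finrank_eq Finset.univ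
  rw [show ⨆ i ∈ Finset.univ, D i = ⊤ by simpa using h.iSup_eq_top] at this
  simpa using this.symm

theorem of_mem_decStab {D : Fin t → Submodule F (ι → F)} {g : GL ι F}
    (hg : g ∈ decompositionStabilizer D) :
    ∃ τ : Equiv.Perm (Fin t), ∀ i, ∀ x ∈ D i, (g : Matrix ι ι F) *ᵥ x ∈ D (τ i) :=
  let ⟨τ, h⟩ := hg
  ⟨τ, fun i x hx => h i ▸ ⟨x, hx, rfl⟩⟩

theorem mulVec_ne_zero (g : GL ι F) {x : ι → F} (hx : x ≠ 0) : (g : Matrix ι ι F) *ᵥ x ≠ 0 :=
  fun h => hx (by rw [← inv_mulVec_mulVec g x, h, mulVec_zero])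

theorem field_dvd [Nonempty ι] {r : ℕ} {K : Subalgebra F (Matrix ι ι F)}
    (h : IsFieldSubalgebra r K) : r ∣ Fintype.card ι := by
  letI := (isField_of h).toField
  have := Module.finrank_mul_finrank F K (ι → F)
  rw [h.finrank_eq, Module.finrank_fintype_fun_eq_card] at this
  exact ⟨_, this.symm⟩

theorem pmU_mul (π ρ : Equiv.Perm (Fin t)) : pmU F κ π * pmU F κ ρ = pmU F κ (π * ρ) :=
  Units.ext (by ext x y; exact pm_mul π _ x y)

theorem tenU_one : tenU (1 : Fin t → GL κ F) = 1 := Units.ext ten_one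

theorem scU_comm (c : Fˣ) (g : GL ι F) : scU c * g = g * scU c := scalars_comm (scU_mem c) g

theorem wr_self {k : ℕ} (e : ι ≃ (Fin t → Fin k)) (P : GL ι F) :
    Wr (tensorWreathSubgroup k t e P) (coordT e P) := by
  rw [tensorWreathSubgroup, map_glReindex]
  rintro _ ⟨g, hg, rfl⟩
  suffices h : ∃ π a, g = pmU F (Fin k) π * tenU a by
    obtain ⟨π, a, rfl⟩ := h
    exact ⟨1, π, a, by simp⟩
  induction hg using Subgroup.closure_induction with
  | mem g hg =>
    rcases hg with ⟨a, h⟩ | ⟨π, h⟩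
    · exact ⟨1, a, by rw [pmU_one, one_mul]; exact Units.ext (Matrix.ext h)⟩
    · exact ⟨π, 1, by rw [tenU_one, mul_one]; exact Units.ext (Matrix.ext h)⟩
  | one => exact ⟨1, 1, by rw [pmU_one, one_mul, tenU_one]⟩
  | mul g h _ _ hg hh =>
    obtain ⟨π, a, rfl⟩ := hg
    obtain ⟨ρ, b, rfl⟩ := hh
    refine ⟨π * ρ, a ∘ ρ * b, ?_⟩
    rw [← pmU_mul, tenU_mul, mul_assoc, mul_assoc, ← mul_assoc (pmU _ _ ρ), pmU_mul_tenU ρ (a ∘ ρ)]
    simp [Function.comp_assoc, mul_assoc]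
  | inv g _ hg =>
    obtain ⟨π, a, rfl⟩ := hg
    refine ⟨π.symm, a⁻¹ ∘ π.symm, ?_⟩
    rw [pmU_mul_tenU π.symm, _root_.mul_inv_rev, ← tenU_inv]
    simp only [Function.comp_assoc, Equiv.symm_symm, Equiv.symm_comp_self, Function.comp_id]
    rfl

/-- the polynomial attached to a vector and a weight function -/
noncomputable def wt (F : Type*) [Field F] (w : κ → ℕ) : (κ → F) →ₗ[F] Polynomial F :=
  ∑ k, (Polynomial.monomial (w k)).comp (LinearMap.proj k)

theorem wt_apply (w : κ → ℕ) (x : κ → F) : wt F w x = ∑ k, Polynomial.monomial (w k) (x k) := by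
  simp [wt]

theorem wt_ne_zero {k : ℕ} {x : Fin k → F} (hx : x ≠ 0) : wt F Fin.val x ≠ 0 := fun h => hx (by
  ext i
  have := congrArg (Polynomial.coeff · i) h
  simpa [wt_apply, Polynomial.finset_sum_coeff, Polynomial.coeff_monomial, Fin.val_inj] using this)

theorem le_finrank_ker_wt (w : κ → ℕ) {N : ℕ} (h : ∀ k, w k < N) :
    Fintype.card κ ≤ finrank F (LinearMap.ker (wt F w)) + N := by
  have h1 := (wt F w).finrank_range_add_finrank_ker
  have h2 : LinearMap.range (wt F w) ≤ Polynomial.degreeLT F N := by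
    rintro _ ⟨x, rfl⟩
    rw [wt_apply]
    exact Submodule.sum_mem _ fun k _ => Polynomial.mem_degreeLT.2
      ((Polynomial.degree_monomial_le _ _).trans_lt (by exact_mod_cast h k))
  have h3 := Submodule.finrank_mono h2
  rw [(Polynomial.degreeLTEquiv F N).finrank_eq] at h3
  simp at h1 h3
  omega

/-- large classical groups -/
structure Big (Ω : Subgroup (GL ι F)) (Sg : (ι → F) → Prop) (d : ℕ) : Prop where
  two : 2 ≤ Fintype.card ι
  perf : ⁅Ω, Ω⁆ = Ω
  qs : ∀ N ≤ Ω, Nml Ω N → N ≤ scalars ι F ∨ Ω ≤ N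
  irr : Irr Ω
  sc : ∀ b : Matrix ι ι F, (∀ g ∈ Ω, b * g = g * b) → Sc b
  trans : ∀ x y, x ≠ 0 → y ≠ 0 → Sg x → Sg y →
    ∃ g ∈ Ω, ∃ c : F, c ≠ 0 ∧ (g : Matrix ι ι F) *ᵥ x = c • y
  iso : ∀ W : Submodule F (ι → F), d ≤ finrank F W → ∃ x ∈ W, x ≠ 0 ∧ Sg x
  sub : ∀ A : Subring (Matrix ι ι F), (∀ g ∈ Ω, (g : Matrix ι ι F) ∈ A) → ∀ c : F,
    ∃ a ∈ A, a ≠ 0 ∧ c • a ∈ A

namespace Big

variable {Ω : Subgroup (GL ι F)} {Sg : (ι → F) → Prop} {d : ℕ} (h : Big Ω Sg d)
include h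

theorem nonempty : Nonempty ι := Fintype.card_pos_iff.1 (by have := h.two; omega)

theorem not_stab {W : Submodule F (ι → F)} (h0 : W ≠ ⊥) (h1 : W ≠ ⊤) :
    ¬ Ω ≤ subspaceStabilizer W := fun hle =>
  (h.irr W fun _ hg _ hx => mulVec_mem_of_stab (hle hg) hx).elim h0 h1

theorem not_dec {m : ℕ} {D : Fin t → Submodule F (ι → F)} (hD : IsMDecomposition m D)
    (p : Fin t → Prop) {x y : ι → F} (hx : x ∈ ⨆ i, ⨆ _ : p i, D i)
    (hy : y ∈ ⨆ i, ⨆ _ : ¬ p i, D i) (hx0 : x ≠ 0) (hy0 : y ≠ 0) (h1 : Sg x) (h2 : Sg (x + y)) :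
    ¬ Ω ≤ decompositionStabilizer D := fun hle => by
  classical
  obtain ⟨π, hπ⟩ := exists_pr hD.indep hD.iSup_eq_top
  have h3 : ∀ i, π i x ≠ 0 → π i (x + y) ≠ 0 := fun i hi => by
    rwa [map_add, hπ.eq_zero hy fun e => hi (hπ.eq_zero hx e), add_zero]
  obtain ⟨j, hj⟩ : ∃ j, π j y ≠ 0 := by
    by_contra! h0
    exact hy0 (by rw [← hπ.sum y]; simp [h0])
  have h4 : π j x = 0 := hπ.eq_zero hx fun e => hj (hπ.eq_zero hy (not_not.2 e))
  have h5 : π j (x + y) ≠ 0 := by rwa [map_add, h4, zero_add]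
  obtain ⟨g, hg, c, hc, e⟩ := h.trans x (x + y) hx0 (fun e => h5 (by simp [e])) h1 h2
  obtain ⟨τ, hτ⟩ := of_mem_decStab (hle hg)
  have h6 : ∀ i, π i x ≠ 0 ↔ π (τ i) (x + y) ≠ 0 := fun i => by
    have := hπ.equiv (g := toLin' (g : Matrix ι ι F)) hτ i x
    rw [toLin'_apply, toLin'_apply, e, map_smul] at this
    exact ⟨fun h7 h8 => mulVec_ne_zero g h7 (by rw [← this, h8, smul_zero]),
      fun h7 h8 => smul_ne_zero hc h7 (by rw [this, h8, mulVec_zero])⟩
  have h7 := Finset.card_equiv (s := Finset.univ.filter fun i => π i x ≠ 0)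
    (t := Finset.univ.filter fun i => π i (x + y) ≠ 0) τ (by simpa using h6)
  refine (Finset.card_lt_card ⟨fun i => by simpa using h3 i, fun h8 => ?_⟩).ne h7
  simpa [h4] using h8 (Finset.mem_filter.2 ⟨Finset.mem_univ j, h5⟩)

theorem not_dec' {m : ℕ} {D : Fin t → Submodule F (ι → F)} (hD : IsMDecomposition m D) (j : ℕ)
    (hj : j ≤ t) (h1 : d ≤ j * m) (h2 : d ≤ (t - j) * m)
    (ha : ∀ p : Fin t → Prop, ∀ x ∈ ⨆ i, ⨆ _ : p i, D i, ∀ y ∈ ⨆ i, ⨆ _ : ¬ p i, D i,
      Sg x → Sg y → Sg (x + y)) : ¬ Ω ≤ decompositionStabilizer D := by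
  obtain ⟨I, -, hI⟩ := Finset.exists_subset_card_eq (s := (Finset.univ : Finset (Fin t))) (n := j)
    (by simpa)
  obtain ⟨x, hx, hx0, hx1⟩ := h.iso _ ((finrank_biSup hD.indep hD.finrank_eq I).symm ▸ hI ▸ h1)
  obtain ⟨y, hy, hy0, hy1⟩ := h.iso (⨆ i ∈ Iᶜ, D i) (by
    rwa [finrank_biSup hD.indep hD.finrank_eq, Finset.card_compl, hI, Fintype.card_fin])
  simp only [Finset.mem_compl] at hy
  exact h.not_dec hD (· ∈ I) hx hy hx0 hy0 hx1 (ha _ x hx y hy hx1 hy1)

theorem not_field [Finite F] {r : ℕ} {K : Subalgebra F (Matrix ι ι F)}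
    (hK : IsFieldSubalgebra r K) (hr : 1 < r) : ¬ Ω ≤ subalgebraNormalizer K := fun hle => by
  haveI := h.nonempty
  letI := (isField_of hK).toField
  obtain ⟨z, hz⟩ := IsCyclic.exists_monoid_generator (α := Kˣ)
  have h1 : ∀ k ∈ K, k ≠ 0 → ∃ n : ℕ, k = (z : K).1 ^ n := fun k hk h0 => by
    obtain ⟨n, hn⟩ := hz (Units.mk0 ⟨k, hk⟩ fun e => h0 (congrArg Subtype.val e))
    exact ⟨n, (congrArg (fun u : Kˣ => (u : K).1) hn).symm.trans (by simp)⟩
  have h2 : ∀ g ∈ Ω, ∃ n : ℕ, ∀ k ∈ K, k ≠ 0 → cjA g k = k ^ n := fun g hg => by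
    obtain ⟨n, hn⟩ := h1 _ (nmlA_normalizer K g (hle hg) _ (z : K).2)
      ((cjA g).map_ne_zero_iff.2 fun e => z.ne_zero (Subtype.ext e))
    refine ⟨n, fun k hk h0 => ?_⟩
    obtain ⟨j, rfl⟩ := h1 k hk h0
    rw [map_pow, hn, pow_right_comm]
  let C : Subgroup (GL ι F) :=
    { carrier := {g | ∀ k ∈ K, cjA g k = k}
      mul_mem' := fun ha hb k hk => by rw [cjA_mul, hb k hk, ha k hk]
      one_mem' := fun k _ => cjA_one k
      inv_mem' := fun {g} hg k hk => by conv_lhs => rw [← hg k hk, cjA_inv_cjA] }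
  have h3 : Ω ≤ C := h.perf ▸ Subgroup.commutator_le.2 fun a ha b hb k hk => by
    obtain ⟨l, hl, rfl⟩ : ∃ l ∈ K, k = cjA (b * a) l := ⟨_, nmlA_normalizer K _ (hle (Ω.inv_mem
      (Ω.mul_mem hb ha))) k hk, (cjA_cjA_inv _ _).symm⟩
    rw [← cjA_mul, show ⁅a, b⁆ * (b * a) = a * b by group]
    obtain rfl | h0 := eq_or_ne l 0
    · simp
    obtain ⟨n, hn⟩ := h2 a ha
    obtain ⟨m, hm⟩ := h2 b hb
    rw [cjA_mul, cjA_mul, hm l hl h0, hn l hl h0, map_pow, map_pow, hm l hl h0, hn l hl h0,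
      pow_right_comm]
  have h4 : K ≤ ⊥ := fun k hk => by
    obtain ⟨c, rfl⟩ := h.sc k fun g hg => (cjA_eq_iff.1 (h3 hg k hk)).symm
    exact Subalgebra.smul_mem _ (Subalgebra.one_mem _) c
  have := hK.finrank_eq
  rw [le_bot_iff.1 h4, Subalgebra.finrank_bot] at this
  omega

theorem not_sub {F₀ : Subfield F} (h0 : F₀ ≠ ⊤) (P : GL ι F) : ¬ Ω ≤ subfieldSubgroup F₀ P :=
  fun hle => by
  haveI := h.nonempty
  have h1 : Ω ≤ (Matrix.GeneralLinearGroup.map (F₀.subtype : F₀ →+* F)).range.map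
      (MulAut.conj P).toMonoidHom := h.perf ▸ Subgroup.commutator_le.2 fun a ha b hb => by
    obtain ⟨a, h1, rfl⟩ := hle ha
    obtain ⟨b, h2, rfl⟩ := hle hb
    obtain ⟨a, h3, z, hz, rfl⟩ := Subgroup.mem_sup_of_normal_right.1 h1
    obtain ⟨b, h4, w, hw, rfl⟩ := Subgroup.mem_sup_of_normal_right.1 h2
    refine ⟨⁅a, b⁆, Subgroup.commutator_le_self _ (Subgroup.commutator_mem_commutator h3 h4), ?_⟩
    rw [← map_commutatorElement, comm_mul_central (scalars_comm hz) (scalars_comm hw)]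
  let A : Subring (Matrix ι ι F) :=
    { carrier := {a | RatM F₀ (cjA P⁻¹ a)}
      mul_mem' := fun ha hb i j => by
        rw [map_mul, Matrix.mul_apply]
        exact F₀.sum_mem fun k _ => F₀.mul_mem (ha _ _) (hb _ _)
      one_mem' := fun i j => by
        rw [map_one, Matrix.one_apply]
        split_ifs
        exacts [F₀.one_mem, F₀.zero_mem]
      add_mem' := fun ha hb i j => by rw [map_add]; exact F₀.add_mem (ha _ _) (hb _ _)
      zero_mem' := fun i j => by rw [map_zero]; exact F₀.zero_mem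
      neg_mem' := fun ha i j => by rw [map_neg]; exact F₀.neg_mem (ha _ _) }
  refine h0 (top_le_iff.1 fun c _ => ?_)
  obtain ⟨a, h2, h3, h4⟩ := h.sub A (fun g hg => by
    obtain ⟨_, ⟨x, rfl⟩, rfl⟩ := h1 hg
    intro i j
    rw [cjA_coe]
    simp [mul_assoc]) c
  obtain ⟨i, j, h5⟩ : ∃ i j, cjA P⁻¹ a i j ≠ 0 := by
    by_contra! h5
    exact h3 ((cjA P⁻¹).map_eq_zero_iff.1 (Matrix.ext h5))
  have h6 := F₀.div_mem (h4 i j) (h2 i j)
  rwa [map_smul, Matrix.smul_apply, smul_eq_mul, mul_div_cancel_right₀ _ h5] at h6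

theorem not_nml [Finite F] {R : Subgroup (GL ι F)} {r : ℕ} (hr : r.Prime) (hp : IsPGroup r R)
    (hR : ActsAbsolutelyIrreducibly (matrixSet R)) (hn : Nml R Ω) :
    ¬ Ω ≤ subgroupNormalizer R := fun hle => by
  haveI := h.nonempty
  haveI := Fact.mk hr
  have h1 : Nml Ω R := nml_iff.2 hle
  have h2 : Irr R := fun W hW => hR.1 W (by
    rintro _ ⟨g, hg, rfl⟩ _ ⟨x, hx, rfl⟩
    exact hW g hg x hx)
  rcases h.qs (R ⊓ Ω) inf_le_right (fun g hg x hx => ⟨h1 g hg x hx.1,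
    Ω.mul_mem (Ω.mul_mem hg hx.2) (Ω.inv_mem hg)⟩) with h3 | h3
  · refine h2.not_le_scalars h.two fun x hx => mem_scalars.2 (h.sc _ fun g hg => ?_)
    rw [← Units.val_mul, comm_of_perfect h.perf (fun g hg => h3 ⟨?_, Ω.mul_mem (hn x hx g hg)
      (Ω.inv_mem hg)⟩) g hg, Units.val_mul]
    simpa [mul_assoc] using R.mul_mem hx (h1 g hg _ (R.inv_mem hx))
  · haveI := (hp.to_le (h3.trans inf_le_left)).isNilpotent
    refine h.irr.not_le_scalars h.two (le_of_eq_of_le ?_ bot_le)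
    by_contra h4
    haveI := (Subgroup.nontrivial_iff_ne_bot Ω).2 h4
    refine (IsSolvable.commutator_lt_top_of_nontrivial Ω).ne ?_
    apply Subgroup.map_injective Ω.subtype_injective
    rw [Subgroup.map_subtype_commutator, h.perf, ← MonoidHom.range_eq_map, Subgroup.range_subtype]

theorem not_pure (p : (ι → F) → Prop) (h1 : ∀ g ∈ Ω, ∀ x, p x → p ((g : Matrix ι ι F) *ᵥ x))
    (h2 : ∀ (c : F) x, p x → p (c • x)) {A B : Submodule F (ι → F)} (hA : d ≤ finrank F A)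
    (hB : d ≤ finrank F B) (h3 : ∀ x ∈ A, p x) (h4 : ∀ x ∈ B, p x → x = 0) : False := by
  obtain ⟨x, hx, hx0, hx1⟩ := h.iso A hA
  obtain ⟨y, hy, hy0, hy1⟩ := h.iso B hB
  obtain ⟨g, hg, c, hc, e⟩ := h.trans x y hx0 hy0 hx1 hy1
  refine hy0 (h4 y hy ?_)
  simpa [e, hc] using h2 c⁻¹ _ (h1 g hg x (h3 x hx))

theorem not_kr {a b : ℕ} {T : (Fin a × Fin b → F) ≃ₗ[F] (ι → F)} (ha : 0 < a) (hb : d ≤ b)
    (hd : d + a + b ≤ a * b + 1) : ¬ Kr Ω T := fun hk => by
  let L : (Fin b → F) →ₗ[F] (Fin a × Fin b → F) := LinearMap.funLeft F F Prod.snd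
  have hL : Function.Injective L := LinearMap.funLeft_injective_of_surjective _ _ _
    fun j => ⟨(⟨0, ha⟩, j), rfl⟩
  have h1 := le_finrank_ker_wt (F := F) (fun p : Fin a × Fin b => p.1 + p.2) (N := a + b - 1)
    fun p => by have := p.1.2; have := p.2.2; omega
  refine h.not_pure (fun x => ∃ (u : Fin a → F) (v : Fin b → F), x = T fun p => u p.1 * v p.2) ?_ ?_
    (A := (LinearMap.range L).map T.toLinearMap)
    (B := (LinearMap.ker (wt F fun p : Fin a × Fin b => p.1 + p.2)).map T.toLinearMap) ?_ ?_ ?_ ?_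
  · rintro g hg _ ⟨u, v, rfl⟩
    obtain ⟨x, y, rfl⟩ := hk g hg
    refine ⟨(x : Matrix _ _ F) *ᵥ u, (y : Matrix _ _ F) *ᵥ v, ?_⟩
    rw [coe_ΦU, Φ_mulVec]
    congr 1
    ext p
    simp only [mulVec, dotProduct, Fintype.sum_prod_type, Finset.sum_mul_sum, kronU,
      kroneckerMap_apply]
    exact Finset.sum_congr rfl fun _ _ => Finset.sum_congr rfl fun _ _ => by ring
  · rintro c _ ⟨u, v, rfl⟩
    exact ⟨c • u, v, by rw [← map_smul]; congr 1; ext p; simp [mul_assoc]⟩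
  · rwa [LinearEquiv.finrank_map_eq, LinearMap.finrank_range_of_inj hL,
      Module.finrank_fintype_fun_eq_card, Fintype.card_fin]
  · rw [LinearEquiv.finrank_map_eq]
    simp only [Fintype.card_prod, Fintype.card_fin] at h1
    omega
  · rintro _ ⟨_, ⟨v, rfl⟩, rfl⟩
    exact ⟨1, v, by simp only [LinearEquiv.coe_coe]; congr 1; ext p; simp [L]⟩
  · rintro _ ⟨x, hx, rfl⟩ ⟨u, v, e⟩
    obtain rfl := T.injective e
    have h2 : wt F Fin.val u * wt F Fin.val v = 0 := by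
      rw [← LinearMap.mem_ker.1 hx]
      simp [wt_apply, Finset.sum_mul_sum, Fintype.sum_prod_type, Polynomial.monomial_mul_monomial]
    rw [LinearEquiv.coe_coe, LinearEquiv.map_eq_zero_iff]
    rcases mul_eq_zero.1 h2 with h3 | h3 <;>
      simp [not_not.1 (mt wt_ne_zero (not_not.2 h3)), Pi.zero_def]

theorem not_wr {k : ℕ} {T : ((Fin t → Fin k) → F) ≃ₗ[F] (ι → F)} (ht : 0 < t) (hk : d ≤ k)
    (hd : d + t * (k - 1) + 1 ≤ k ^ t) : ¬ Wr Ω T := fun hw => by
  have hk0 : 0 < k := by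
    rcases k with _ | k
    · rw [zero_pow ht.ne'] at hd; omega
    · omega
  let L : (Fin k → F) →ₗ[F] ((Fin t → Fin k) → F) := LinearMap.funLeft F F fun a => a ⟨0, ht⟩
  have hL : Function.Injective L := LinearMap.funLeft_injective_of_surjective _ _ _
    fun j => ⟨fun _ => j, rfl⟩
  have h1 := le_finrank_ker_wt (F := F) (fun a : Fin t → Fin k => ∑ i, (a i : ℕ))
    (N := t * (k - 1) + 1) fun a => Nat.lt_succ_of_le (by
      simpa using Finset.sum_le_card_nsmul Finset.univ (fun i => (a i : ℕ)) (k - 1)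
        fun i _ => by have := (a i).2; omega)
  refine h.not_pure (fun x => ∃ (c : F) (u : Fin t → Fin k → F), x = c • T fun a => ∏ i, u i (a i))
    ?_ ?_ (A := (LinearMap.range L).map T.toLinearMap)
    (B := (LinearMap.ker (wt F fun a : Fin t → Fin k => ∑ i, (a i : ℕ))).map T.toLinearMap)
    ?_ ?_ ?_ ?_
  · rintro g hg _ ⟨c, u, rfl⟩
    obtain ⟨c', π, x, rfl⟩ := hw g hg
    refine ⟨c * c', fun i => (x (π.symm i) : Matrix _ _ F) *ᵥ u (π.symm i), ?_⟩
    rw [mulVec_smul, Units.val_mul, ← mulVec_mulVec, coe_ΦU, Φ_mulVec, coe_scU, smul_mulVec,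
      one_mulVec, smul_smul]
    congr 2
    ext a
    rw [Units.val_mul]
    simp only [mulVec, dotProduct]
    rw [← Equiv.prod_comp π]
    simp only [Equiv.symm_apply_apply, Finset.prod_univ_sum, Fintype.piFinset_univ,
      Finset.prod_mul_distrib]
    exact Finset.sum_congr rfl fun y _ => congrArg (· * _) (pm_mul π _ a y)
  · rintro c _ ⟨c', u, rfl⟩
    exact ⟨c * c', u, smul_smul _ _ _⟩
  · rwa [LinearEquiv.finrank_map_eq, LinearMap.finrank_range_of_inj hL,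
      Module.finrank_fintype_fun_eq_card, Fintype.card_fin]
  · rw [LinearEquiv.finrank_map_eq]
    simp only [Fintype.card_pi, Fintype.card_fin, Finset.prod_const, Finset.card_univ] at h1
    omega
  · rintro _ ⟨_, ⟨v, rfl⟩, rfl⟩
    refine ⟨1, Function.update 1 ⟨0, ht⟩ v, ?_⟩
    rw [one_smul, LinearEquiv.coe_coe]
    congr 1
    ext a
    rw [Finset.prod_eq_single ⟨0, ht⟩ (fun j _ hj => by simp [hj]) (by simp)]
    simp [L]
  · rintro _ ⟨x, hx, rfl⟩ ⟨c, u, e⟩
    rw [← map_smul] at e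
    obtain rfl := T.injective e
    have h2 : c • ∏ i, wt F Fin.val (u i) = 0 := by
      rw [← LinearMap.mem_ker.1 hx, map_smul]
      simp only [wt_apply, Finset.prod_univ_sum, Fintype.piFinset_univ,
        ← Polynomial.C_mul_X_pow_eq_monomial, Finset.prod_mul_distrib, map_prod,
        Finset.prod_pow_eq_pow_sum]
    rw [LinearEquiv.coe_coe, LinearEquiv.map_eq_zero_iff]
    rcases smul_eq_zero.1 h2 with h3 | h3
    · simp [h3]
    · obtain ⟨i, -, h4⟩ := Finset.prod_eq_zero_iff.1 h3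
      ext a
      simp [Finset.prod_eq_zero (f := fun i => u i (a i)) (Finset.mem_univ i)
        (congrFun (not_not.1 (mt wt_ne_zero (not_not.2 h4))) (a i))]

end Big

theorem sc_of_eigen {Ω : Subgroup (GL ι F)} (h : Irr Ω) {b : Matrix ι ι F}
    (hb : ∀ g ∈ Ω, b * g = g * b) {u : ι → F} (hu : u ≠ 0) {c : F} (hc : b *ᵥ u = c • u) :
    Sc b := by
  refine ⟨c, ext_mulVec fun x => ?_⟩
  rcases h (LinearMap.ker (toLin' (b - c • 1))) (fun g hg x hx => by
    simp only [LinearMap.mem_ker, toLin'_apply, sub_mulVec, smul_mulVec, one_mulVec,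
      sub_eq_zero] at hx ⊢
    rw [mulVec_mulVec, hb g hg, ← mulVec_mulVec, hx, mulVec_smul]) with h1 | h1
  · exact absurd ((Submodule.eq_bot_iff _).1 h1 u (by simp [sub_mulVec, hc, smul_mulVec])) hu
  · simpa [sub_mulVec, sub_eq_zero, smul_mulVec] using Submodule.eq_top_iff'.1 h1 x

theorem qs_of_simple {Ω : Subgroup (GL ι F)} (hp : ⁅Ω, Ω⁆ = Ω)
    (h : IsSimpleGroup (Ω ⧸ Subgroup.center Ω))
    (hz : ∀ z ∈ Ω, (∀ g ∈ Ω, z * g = g * z) → z ∈ scalars ι F) (N : Subgroup (GL ι F))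
    (h1 : N ≤ Ω) (h2 : Nml Ω N) : N ≤ scalars ι F ∨ Ω ≤ N := by
  haveI : (N.subgroupOf Ω).Normal := ⟨fun x hx g => h2 g g.2 x hx⟩
  rcases h.eq_bot_or_eq_top_of_normal ((N.subgroupOf Ω).map (QuotientGroup.mk' _))
    (this.map _ (QuotientGroup.mk'_surjective _)) with h3 | h3
  · refine .inl fun x hx => hz x (h1 hx) fun g hg => ?_
    rw [Subgroup.map_eq_bot_iff, QuotientGroup.ker_mk'] at h3
    exact congrArg Subtype.val (Subgroup.mem_center_iff.1 (h3 (x := ⟨x, h1 hx⟩) hx) ⟨g, hg⟩).symm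
  · refine .inr (hp ▸ Subgroup.commutator_le.2 fun a ha b hb => ?_)
    have h4 : ∀ g ∈ Ω, ∃ x ∈ N, ∃ z ∈ scalars ι F, g = x * z := fun g hg => by
      obtain ⟨x, hx, e⟩ := Subgroup.eq_top_iff' _ |>.1 h3 (QuotientGroup.mk' _ ⟨g, hg⟩)
      have h5 := Subgroup.mem_center_iff.1 (QuotientGroup.eq.1 e)
      exact ⟨x, hx, x⁻¹ * g, hz _ (Ω.mul_mem (Ω.inv_mem x.2) hg) fun y hy =>
        congrArg Subtype.val (h5 ⟨y, hy⟩).symm, by simp⟩
    obtain ⟨a, h5, z, hz, rfl⟩ := h4 a ha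
    obtain ⟨b, h6, w, hw, rfl⟩ := h4 b hb
    rw [comm_mul_central (scalars_comm hz) (scalars_comm hw)]
    exact Subgroup.commutator_le_self _ (Subgroup.commutator_mem_commutator h5 h6)

theorem exists_SL_move {u v : ι → F} (hu : u ≠ 0) (hv : v ∉ F ∙ u) :
    ∃ g ∈ specialLinear ι F, (g : Matrix ι ι F) *ᵥ u = v := by
  obtain ⟨g, h1, -, h2⟩ := exists_SL_fix_move (⊥ : Submodule F (ι → F)) (u := u) (x := v - u) (by
    rw [bot_sup_eq, Submodule.mem_span_singleton]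
    rintro ⟨c, hc⟩
    have h0 : c ≠ 0 := by rintro rfl; exact hu (by simpa using hc.symm)
    exact hv (Submodule.mem_span_singleton.2 ⟨c⁻¹ + 1, by
      rw [add_smul, one_smul, ← eq_sub_iff_add_eq, ← hc, smul_smul, inv_mul_cancel₀ h0, one_smul,
        hc]⟩))
  exact ⟨g, h1, by simpa using h2⟩

theorem big_SL (hn : 3 ≤ Fintype.card ι) : Big (specialLinear ι F) (fun _ => True) 1 := by
  haveI : Nontrivial ι := Fintype.one_lt_card_iff_nontrivial.1 (by omega)
  have e : SpecialLinearGroup ι F ≃* specialLinear ι F := H10.SLEquivKerDet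
  have h1 : ⁅specialLinear ι F, specialLinear ι F⁆ = specialLinear ι F := by
    rw [← Subgroup.map_subtype_commutator, H11.commutator_eq_top_of_equiv e.symm
      (H10.commutator_SL_eq_top hn), ← MonoidHom.range_eq_map, Subgroup.range_subtype]
  have h2 : Irr (specialLinear ι F) := fun W hW => by
    by_contra! h
    obtain ⟨g, h1, h2⟩ := exists_SL_not_stab h.1 h.2
    exact h2 (mem_subspaceStabilizer_of_le (hW g h1))
  have h3 : ∀ b : Matrix ι ι F, (∀ g ∈ specialLinear ι F, b * g = g * b) → Sc b := fun b hb => by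
    obtain ⟨i⟩ : Nonempty ι := inferInstance
    have hu : (Pi.single i 1 : ι → F) ≠ 0 := by simp
    by_contra h0
    have h4 : b *ᵥ Pi.single i 1 ∉ F ∙ Pi.single i 1 := fun h => by
      obtain ⟨c, hc⟩ := Submodule.mem_span_singleton.1 h
      exact h0 (sc_of_eigen h2 hb hu hc.symm)
    obtain ⟨g, h5, h6, h7⟩ := exists_SL_fix_move (F ∙ Pi.single i 1) (u := b *ᵥ Pi.single i 1)
      (x := Pi.single i 1) (by rwa [sup_idem])
    rw [mulVec_mulVec, ← hb g h5, ← mulVec_mulVec, h6 _ (Submodule.mem_span_singleton_self _)] at h7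
    exact hu (by simpa using h7)
  refine ⟨by omega, h1, qs_of_simple h1 ((H11.centerQuotCongr e).isSimpleGroup_congr.1
    (H10.PSL_isSimpleGroup hn)) fun z _ hz => mem_scalars.2 (h3 _ fun g hg =>
      congrArg Units.val (hz g hg)), h2, h3, fun x y hx hy _ _ => ?_, fun W hW => ?_,
      fun A hA c => ?_⟩
  · by_cases h : y ∈ F ∙ x
    · obtain ⟨c, rfl⟩ := Submodule.mem_span_singleton.1 h
      have : c ≠ 0 := left_ne_zero_of_smul hy
      exact ⟨1, Subgroup.one_mem _, c⁻¹, inv_ne_zero this, by simp [this]⟩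
    · obtain ⟨g, h1, h2⟩ := exists_SL_move hx h
      exact ⟨g, h1, 1, one_ne_zero, by simpa⟩
  · obtain ⟨x, hx, h⟩ := Submodule.exists_mem_ne_zero_of_ne_bot (p := W) (by
      rintro rfl; simp at hW)
    exact ⟨x, hx, h, trivial⟩
  · obtain ⟨i, j, hij⟩ := exists_pair_ne ι
    have h4 : ∀ c : F, c • single i j (1 : F) ∈ A := fun c => by
      obtain ⟨g, h5, h6⟩ := exists_tv_SL (c • LinearMap.proj j) (Pi.single i 1 : ι → F)
        (by simp [hij.symm])
      convert A.sub_mem (hA g h5) A.one_mem using 1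
      refine ext_mulVec fun x => ?_
      rw [sub_mulVec, h6, smul_mulVec, single_mulVec]
      ext k
      by_cases hk : k = i <;> simp [hk]
    exact ⟨_, by simpa using h4 1, fun h => by simpa using congrFun (congrFun h i) j, h4 c⟩

theorem not_SL_le_sim (hn : 3 ≤ Fintype.card ι) {σ : F →+* F} {ε : F} {G : Matrix ι ι F}
    (h : HF σ ε G) : ¬ specialLinear ι F ≤ Sim σ G := fun hle => by
  obtain ⟨i⟩ : Nonempty ι := Fintype.card_pos_iff.1 (by omega)
  have hu : (Pi.single i 1 : ι → F) ≠ 0 := by simp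
  generalize (Pi.single i 1 : ι → F) = u at hu
  let φ : Dual F (ι → F) := ⟨⟨fun x => fm σ G x u, fun x y => fm_add_left x y u⟩,
    fun c x => fm_smul_left c x u⟩
  obtain ⟨v, -, h1, h2⟩ := exists_mem_ker_notMem [φ] ⊤ (F ∙ u) (by
    have := finrank_span_one_le (F := F) u
    simp; omega)
  obtain ⟨w, hw, hw'⟩ : ∃ w, fm σ G w u ≠ 0 ∧ (fm σ G u u = 0 ∨ w = u) := by
    by_cases h0 : fm σ G u u = 0
    · exact by_contra fun h1 => hu (h.right (by simpa [h0] using h1))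
    · exact ⟨u, h0, .inr rfl⟩
  have h3 : fm σ G v u = 0 := h2 φ (by simp)
  obtain ⟨g, h4, h5, h6⟩ := exists_SL_fix_move (F ∙ u) (u := v) (x := w) (fun h0 => by
    obtain ⟨_, ha, _, hb, rfl⟩ := Submodule.mem_sup.1 h0
    obtain ⟨a, rfl⟩ := Submodule.mem_span_singleton.1 ha
    obtain ⟨b, rfl⟩ := Submodule.mem_span_singleton.1 hb
    rcases hw' with h4 | rfl
    · rw [fm_add_left, fm_smul_left, fm_smul_left, h4, mul_zero, zero_add, mul_eq_zero] at h3
      exact h1 (by simpa [h3.resolve_right hw] using ha)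
    · exact h1 (Submodule.add_mem _ ha hb))
  obtain ⟨c, hc⟩ := hle h4
  have := hc v u
  rw [h6, h5 u (Submodule.mem_span_singleton_self _), fm_add_left, h3] at this
  exact hw (by simpa using this)

end H29
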