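import Cfsg.Agent.H29.Cv1
import Cfsg.Agent.H1.Fitting

/-! Block monomial matrices `bm`, coordinates adapted to a decomposition (`exists_decT`), and the
refined list `lin_max` of maximal subgroups of the special linear groups. -/

set_option autoImplicit false
set_option linter.unusedSectionVars false

namespace H29

open Matrix Cfsg.Geo Module
open scoped Kronecker commutatorElement

variable {F : Type*} [Field F] {ι κ μ : Type} [Fintype ι] [DecidableEq ι] [Fintype κ]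
  [DecidableEq κ] [Fintype μ] [DecidableEq μ] {t : ℕ} {σ : F →+* F} {ε : F}

/-- block monomial matrix -/
def bm (τ : Equiv.Perm (Fin t)) (a : Fin t → Matrix κ κ F) : Matrix (κ × Fin t) (κ × Fin t) F :=
  (blockDiagonal a).submatrix (Equiv.prodCongrRight fun _ => τ.symm) id

theorem bm_apply (τ : Equiv.Perm (Fin t)) (a : Fin t → Matrix κ κ F) (x y : κ) (i j : Fin t) :
    bm τ a (x, i) (y, j) = if i = τ j then a j x y else 0 := by
  simp only [bm, submatrix_apply, Equiv.prodCongrRight_apply, id, blockDiagonal_apply,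
    Equiv.symm_apply_eq]
  split_ifs with h
  · simp [h]
  · rfl

theorem det_bm (τ : Equiv.Perm (Fin t)) (a : Fin t → Matrix κ κ F) :
    (bm τ a).det = ((Equiv.Perm.sign τ ^ Fintype.card κ : ℤˣ) : ℤ) * ∏ i, (a i).det := by
  rw [bm, det_permute, det_blockDiagonal, Equiv.Perm.sign_prodCongrRight]
  simp

theorem bm_gram (τ : Equiv.Perm (Fin t)) (a G : Fin t → Matrix κ κ F) :
    (bm τ a)ᵀ * blockDiagonal G * (bm τ a).map σ =
      blockDiagonal fun j => (a j)ᵀ * G (τ j) * (a j).map σ := by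
  have : blockDiagonal G = (blockDiagonal fun j => G (τ j)).submatrix
      (Equiv.prodCongrRight fun _ => τ.symm) (Equiv.prodCongrRight fun _ => τ.symm) := by
    ext ⟨x, i⟩ ⟨y, j⟩
    simp [blockDiagonal_apply]
  rw [this, bm, transpose_submatrix, ← submatrix_map, submatrix_mul_equiv, submatrix_mul_equiv,
    blockDiagonal_transpose, blockDiagonal_map _ _ (map_zero σ), ← blockDiagonal_mul,
    ← blockDiagonal_mul, submatrix_id_id]

theorem HF.blockDiagonal {G : Fin t → Matrix κ κ F} (hσ : ∀ a, σ (σ a) = a)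
    (h : ∀ i, HF σ ε (G i)) : HF σ ε (blockDiagonal G) := by
  refine ⟨hσ, (isUnit_iff_isUnit_det _).2 ?_, ?_⟩
  · rw [det_blockDiagonal, isUnit_iff_ne_zero, Finset.prod_ne_zero_iff]
    exact fun i _ => ((isUnit_iff_isUnit_det _).1 (h i).unit).ne_zero
  · rw [blockDiagonal_transpose, blockDiagonal_map _ _ (map_zero σ), ← blockDiagonal_smul]
    congr 1
    ext1 i
    exact (h i).herm

theorem det_Φ (T : (κ → F) ≃ₗ[F] (ι → F)) (X : Matrix κ κ F) : (Φ T X).det = X.det := by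
  obtain ⟨e, P, rfl⟩ := exists_coordT T
  rw [Φ_coordT, cjA_apply, det_units_conj, det_submatrix_equiv_self]

theorem exists_decT {m : ℕ} {D : Fin t → Submodule F (ι → F)} (hD : IsMDecomposition m D)
    (b : ∀ i, Basis (Fin m) F (D i)) : ∃ T : (Fin m × Fin t → F) ≃ₗ[F] (ι → F),
      (∀ x i, T (Pi.single (x, i) 1) = b i x) ∧ ∀ g ∈ decompositionStabilizer D,
        ∃ (τ : Equiv.Perm (Fin t)) (a : Fin t → GL (Fin m) F),
          (g : Matrix ι ι F) = Φ T (bm τ fun i => a i) := by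
  let L := Fintype.linearCombination F fun p : Fin m × Fin t => (b p.2 p.1 : ι → F)
  have hL : ∀ x i, L (Pi.single (x, i) 1) = b i x := fun x i => by simp [L]
  have h1 : Function.Surjective L := by
    rw [← LinearMap.range_eq_top, eq_top_iff, ← hD.iSup_eq_top]
    refine iSup_le fun i v hv => ?_
    rw [show v = _ from congrArg Subtype.val ((b i).sum_repr ⟨v, hv⟩).symm, Submodule.coe_sum]
    exact Submodule.sum_mem _ fun x _ => Submodule.smul_mem _ _ ⟨_, hL x i⟩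
  let T := LinearEquiv.ofBijective L ⟨(LinearMap.injective_iff_surjective_of_finrank_eq_finrank
    (by simp [← mdec_card hD, mul_comm])).2 h1, h1⟩
  refine ⟨T, hL, fun g hg => ?_⟩
  obtain ⟨τ, hτ⟩ := of_mem_decStab hg
  let a : Fin t → Matrix (Fin m) (Fin m) F := fun j => of fun x y =>
    (b (τ j)).repr ⟨_, hτ j _ (b j y).2⟩ x
  have h2 : (g : Matrix ι ι F) = Φ T (bm τ a) := eq_Φ fun x => by
    refine LinearMap.congr_fun (?_ : toLin' (g : Matrix ι ι F) ∘ₗ L = L ∘ₗ toLin' (bm τ a)) x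
    refine (Pi.basisFun F _).ext fun ⟨y, j⟩ => ?_
    have := congrArg Subtype.val ((b (τ j)).sum_repr ⟨_, hτ j _ (b j y).2⟩)
    simp only [Submodule.coe_sum, Submodule.coe_smul] at this
    simp [hL, L, Fintype.linearCombination_apply, Fintype.sum_prod_type, bm_apply, a, this]
  have h3 : ∀ i, IsUnit (a i) := fun i => (isUnit_iff_isUnit_det _).2 (isUnit_iff_ne_zero.2
    fun h => ((isUnit_iff_isUnit_det _).1 g.isUnit).ne_zero (by
      rw [h2, det_Φ, det_bm, Finset.prod_eq_zero (Finset.mem_univ i) h, mul_zero]))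
  exact ⟨τ, fun i => (h3 i).unit, h2⟩

theorem exists_decT' {m : ℕ} {D : Fin t → Submodule F (ι → F)} (hD : IsMDecomposition m D) :
    ∃ T : (Fin m × Fin t → F) ≃ₗ[F] (ι → F), ∀ g ∈ decompositionStabilizer D,
      ∃ (τ : Equiv.Perm (Fin t)) (a : Fin t → GL (Fin m) F),
        (g : Matrix ι ι F) = Φ T (bm τ fun i => a i) :=
  (exists_decT hD fun i => finBasisOfFinrankEq F _ (hD.finrank_eq i)).imp fun _ h => h.2

theorem mem_Sim_of_Φ {T : (κ → F) ≃ₗ[F] (ι → F)} {G X : Matrix κ κ F} {g : GL ι F}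
    (h : (g : Matrix ι ι F) = Φ T X) {c : F} (hc : c ≠ 0) (h1 : Xᵀ * G * X.map σ = c • G) :
    g ∈ Sim σ (gT σ G T.symm) := by
  obtain ⟨g, rfl⟩ := (ΦU T).surjective g
  obtain rfl := (Φ T).injective h
  rw [ΦU_mem_Sim, gT_symm]
  exact mem_Sim.2 ⟨c, hc, h1⟩

theorem mem_Iso_of_Φ {T : (κ → F) ≃ₗ[F] (ι → F)} {G X : Matrix κ κ F} {g : GL ι F}
    (h : (g : Matrix ι ι F) = Φ T X) (h1 : Xᵀ * G * X.map σ = G) :
    g ∈ Iso σ (gT σ G T.symm) := by
  obtain ⟨g, rfl⟩ := (ΦU T).surjective g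
  obtain rfl := (Φ T).injective h
  rw [ΦU_mem_Iso, gT_symm]
  exact mem_Iso.2 h1

theorem dec_le_Iso {m : ℕ} {D : Fin t → Submodule F (ι → F)} (hD : IsMDecomposition m D)
    {G₀ : Matrix (Fin m) (Fin m) F} (h : HF σ ε G₀) (h1 : ∀ a, a ∈ Iso σ G₀) :
    ∃ G, HF σ ε G ∧ decompositionStabilizer D ≤ Iso σ G := by
  obtain ⟨T, hT⟩ := exists_decT' hD
  refine ⟨_, (HF.blockDiagonal h.σσ fun _ => h).gT T.symm, fun g hg => ?_⟩
  obtain ⟨τ, a, e⟩ := hT g hg
  exact mem_Iso_of_Φ e (by simp only [bm_gram, mem_Iso.1 (h1 _)])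

theorem hf_one (hσ : ∀ a, σ (σ a) = a) : HF σ 1 (1 : Matrix κ κ F) := ⟨hσ, isUnit_one, by simp⟩

theorem gram_J2 (a : Matrix (Fin 2) (Fin 2) F) :
    aᵀ * J2 F * a.map (RingHom.id F) = a.det • J2 F := by
  ext i j
  fin_cases i <;> fin_cases j <;>
    simp [J2, Matrix.mul_apply, Fin.sum_univ_two, det_fin_two, vecMul, dotProduct] <;> ring

theorem mem_Iso_fin_one (h : ∀ c : F, c ≠ 0 → c * σ c = 1) (a : GL (Fin 1) F) :
    a ∈ Iso σ (1 : Matrix (Fin 1) (Fin 1) F) := mem_Iso.2 (by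
  ext i j
  have := ((isUnit_iff_isUnit_det _).1 a.isUnit).ne_zero
  rw [det_fin_one] at this
  fin_cases i; fin_cases j
  simpa [Matrix.mul_apply] using h _ this)

theorem det_ne_zero (a : GL κ F) : (a : Matrix κ κ F).det ≠ 0 :=
  ((isUnit_iff_isUnit_det _).1 a.isUnit).ne_zero

section
variable [Fintype F]

theorem pow_card_sub {q : ℕ} (h : Fintype.card F = q + 1) {c : F} (hc : c ≠ 0) : c ^ q = 1 := by
  simpa [h] using FiniteField.pow_card_sub_one_eq_one c hc

theorem eq_one_of_card_two (h : Fintype.card F = 2) {c : F} (hc : c ≠ 0) : c = 1 := by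
  simpa using pow_card_sub h hc

theorem two_eq_of_card {k : ℕ} (h : Fintype.card F = 2 * k) : (2 : F) = 0 :=
  two_eq_of_not_odd (by rw [h]; simp)

theorem exists_frob_four (h : Fintype.card F = 4) :
    ∃ σ : F →+* F, (∀ x, σ x = x ^ 2) ∧ (∀ a, σ (σ a) = a) ∧ σ ≠ RingHom.id F := by
  haveI : CharP F 2 := CharTwo.of_one_ne_zero_of_two_eq_zero one_ne_zero (two_eq_of_card (k := 2) h)
  exact exists_frob_half Nat.prime_two one_pos h

/-- the field with four elements inside the `2 × 2` matrices over `F₂` -/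
theorem kr_two_field (h : Fintype.card F = 2) [Nonempty ι] {H : Subgroup (GL ι F)}
    {T : (Fin 2 × μ → F) ≃ₗ[F] (ι → F)} (hk : Kr H T) :
    ∃ K, IsFieldSubalgebra 2 K ∧ H ≤ subalgebraNormalizer K := by
  have h2 := two_eq_of_card (k := 1) h
  have h0 : ∀ c : F, c = 0 ∨ c = 1 := fun c => (eq_or_ne c 0).imp_right (eq_one_of_card_two h)
  have h3 : (1 : F) + 1 = 0 := one_add_one_eq_two.trans h2
  let K₀ : Subalgebra F (Matrix (Fin 2) (Fin 2) F) :=
    { carrier := {X | X 0 1 = X 1 0 ∧ X 1 1 = X 0 0 + X 0 1}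
      mul_mem' := fun {X Y} hX hY => by
        simp only [Set.mem_setOf, Matrix.mul_apply, Fin.sum_univ_two, ← hX.1, ← hY.1, hX.2, hY.2]
        exact ⟨by ring, by ring⟩
      add_mem' := fun {X Y} hX hY => by
        simp only [Set.mem_setOf, Matrix.add_apply, ← hX.1, ← hY.1, hX.2, hY.2]
        exact ⟨trivial, by ring⟩
      algebraMap_mem' := fun c => by simp [algebraMap_matrix_apply] }
  have hK : ∀ X, X ∈ K₀ ↔ X = 0 ∨ X * (X * X) = 1 := fun X => by
    change (_ ∧ _) ↔ _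
    simp only [← Matrix.ext_iff, Fin.forall_fin_two, Matrix.mul_apply, Fin.sum_univ_two]
    rcases h0 (X 0 0) with e | e <;> rcases h0 (X 0 1) with e' | e' <;>
      rcases h0 (X 1 0) with e'' | e'' <;> rcases h0 (X 1 1) with e''' | e''' <;>
      simp [e, e', e'', e''', h3]
  let φ := (Φ T : Matrix _ _ F →ₐ[F] Matrix ι ι F).comp (kronL F (Fin 2) μ)
  have hφ : Function.Injective φ := φ.toRingHom.injective
  refine ⟨K₀.map φ, ⟨?_, ?_, ?_⟩, le_subalgebraNormalizer ?_⟩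
  · rintro _ ⟨X, hX, rfl⟩ _ ⟨Y, hY, rfl⟩
    rw [← map_mul, ← map_mul]
    congr 1
    ext i j
    fin_cases i <;> fin_cases j <;>
      simp [Matrix.mul_apply, Fin.sum_univ_two, ← hX.1, ← hY.1, hX.2, hY.2] <;> ring
  · rintro _ ⟨X, hX, rfl⟩ h4
    refine ⟨_, ⟨X * X, K₀.mul_mem hX hX, rfl⟩, ?_⟩
    exact (map_mul φ _ _).symm.trans (by
      rw [((hK X).1 hX).resolve_left fun e => h4 (by simp [e]), map_one])
  · rw [← (K₀.equivMapOfInjective φ hφ).toLinearEquiv.finrank_eq]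
    let L : K₀ ≃ₗ[F] (Fin 2 → F) :=
      { toFun := fun X => X.1 0
        map_add' := fun _ _ => rfl
        map_smul' := fun _ _ => rfl
        invFun := fun v => ⟨!![v 0, v 1; v 1, v 0 + v 1], by simp [K₀]⟩
        left_inv := fun X => Subtype.ext (by
          ext i j
          fin_cases i <;> fin_cases j <;> simp [X.2.1.symm, X.2.2])
        right_inv := fun v => by ext i; fin_cases i <;> simp }
    simpa using L.finrank_eq
  · rintro g hg _ ⟨X, hX, rfl⟩
    obtain ⟨a, b, rfl⟩ := hk g hg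
    refine ⟨cjA a X, ?_, ?_⟩
    · exact (hK _).2 (((hK X).1 hX).imp (fun e => by simp [e]) fun e => by
        rw [← map_mul, ← map_mul, e, map_one])
    · change Φ T (cjA a X ⊗ₖ (1 : Matrix μ μ F)) = cjA _ (Φ T (X ⊗ₖ (1 : Matrix μ μ F)))
      rw [← Φ_cjA]
      congr 1
      simp [cjA_apply, kronU, ← mul_kronecker_mul]

theorem le_quadSim {G : Matrix ι ι F} :
    Sim (RingHom.id F) G ≤ quadSimilarityGroup fun v => fm (RingHom.id F) G v v :=
  fun _ hg => hg.imp fun _ hc v => hc v v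

theorem quadSim_le {Q : (ι → F) → F} {G : Matrix ι ι F}
    (e : QuadraticMap.polar Q = fm (RingHom.id F) G) :
    quadSimilarityGroup Q ≤ Sim (RingHom.id F) G := fun g hg => hg.imp fun c hc x y => by
  simp only [← e, QuadraticMap.polar, ← mulVec_add, hc]; ring

theorem irr_of_absIrr {R : Subgroup (GL ι F)} (hR : ActsAbsolutelyIrreducibly (matrixSet R)) :
    Irr R := fun W hW => hR.1 W (by
  rintro _ ⟨g, hg, rfl⟩ _ ⟨x, hx, rfl⟩
  exact hW g hg x hx)

theorem env_of_absIrr [Nonempty ι] {R : Subgroup (GL ι F)}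
    (hR : ActsAbsolutelyIrreducibly (matrixSet R)) : env F R = ⊤ := by
  have h1 := irr_of_absIrr hR
  have h2 : ∀ b : Matrix ι ι F, (∀ g ∈ R, b * g = g * b) → Sc b := fun b hb =>
    hR.2 b (by rintro _ ⟨g, hg, rfl⟩; exact hb g hg)
  obtain ⟨d, hd, ⟨ψ⟩⟩ := wedderburn (k := F) (R := env F R) (fun x hx => Subtype.ext
    (h1.eq_zero_of_nil (Nml.env fun g hg x hx => R.mul_mem (R.mul_mem hg hx) (R.inv_mem hg)) x.2
      fun y hy => (hx ⟨y, hy⟩).map (env F R).val)) fun x hx => by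
    obtain ⟨c, hc⟩ := h2 x fun g hg => congrArg Subtype.val (hx ⟨g, coe_mem_env hg⟩)
    exact ⟨c, Subtype.ext (by rw [hc, Subalgebra.coe_algebraMap, Algebra.algebraMap_eq_smul_one])⟩
  haveI : NeZero d := ⟨hd.ne'⟩
  obtain ⟨m, T, hT⟩ := exists_kron ((env F R).val.comp ψ.toAlgHom)
  have h3 : ∀ Y : Matrix (Fin m) (Fin m) F, Sc (Φ T (1 ⊗ₖ Y)) := fun Y => h2 _ fun g hg => by
    obtain ⟨X, hX⟩ := ψ.surjective ⟨g, coe_mem_env hg⟩
    have : (g : Matrix ι ι F) = Φ T (X ⊗ₖ 1) := (congrArg Subtype.val hX).symm.trans (hT X)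
    rw [this, ← map_mul, ← map_mul, ← mul_kronecker_mul, ← mul_kronecker_mul]
    simp
  have h4 := eq_top_of_kron (A := (env F R).comap (Φ T).toAlgHom)
    (fun X => Set.mem_of_eq_of_mem (s := env F R) (hT X).symm (ψ X).2) fun Y => by
      obtain ⟨c, hc⟩ := h3 Y
      exact Set.mem_of_eq_of_mem (s := env F R) hc ((env F R).smul_mem (Subalgebra.one_mem _) c)
  refine top_le_iff.1 fun a _ => ?_
  obtain ⟨X, rfl⟩ := (Φ T).surjective a
  exact (h4.ge (Algebra.mem_top (x := X)) :)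

theorem class_two {G : Type*} [Group G] [Finite G] [Group.IsNilpotent G]
    (h : ∀ A : Subgroup G, A.Characteristic → IsMulCommutative A → A ≤ Subgroup.center G)
    (hc : IsCyclic (Subgroup.center G)) (x y : G) : ⁅x, y⁆ ∈ Subgroup.center G := by
  let Z₂ := (Subgroup.center (G ⧸ Subgroup.center G)).comap (QuotientGroup.mk' _)
  have h1 : ∀ b, b ∈ Z₂ ↔ ∀ g : G, ⁅g, b⁆ ∈ Subgroup.center G := fun b => by
    rw [Subgroup.mem_comap, Subgroup.mem_center_iff, (QuotientGroup.mk'_surjective _).forall]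
    refine forall_congr' fun g => ?_
    rw [← commutatorElement_eq_one_iff_mul_comm, ← map_commutatorElement, QuotientGroup.mk'_apply,
      QuotientGroup.eq_one_iff]
  haveI : Z₂.Characteristic := Subgroup.characteristic_iff_le_comap.2 fun φ b hb =>
    (h1 _).2 fun g => by
      obtain ⟨g, rfl⟩ := φ.surjective g
      exact (map_commutatorElement φ g b) ▸ Subgroup.characteristic_iff_le_comap.1
        inferInstance φ ((h1 b).1 hb g)
  have h2 : Z₂ ⊓ Subgroup.centralizer (Z₂ : Set G) ≤ Subgroup.center G :=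
    h _ ⟨fun φ => by
      rw [Subgroup.comap_inf, this.fixed, (Subgroup.characteristic_centralizer (H := Z₂)).fixed]⟩ ⟨⟨fun a b => Subtype.ext (b.2.2 _ a.2.1)⟩⟩
  have h3 : Subgroup.centralizer (Z₂ : Set G) ≤ Subgroup.center G := by
    by_contra h3
    refine H1.normal_inf_center_ne_bot ((Subgroup.centralizer (Z₂ : Set G)).map
      (QuotientGroup.mk' (Subgroup.center G))) (by
        rwa [Ne, Subgroup.map_eq_bot_iff, QuotientGroup.ker_mk']) (eq_bot_iff.2 ?_)
    rintro _ ⟨⟨c, hc, rfl⟩, h4⟩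
    exact (QuotientGroup.eq_one_iff c).2 (h2 ⟨h4, hc⟩)
  obtain ⟨a, ha, h4⟩ := H21.CPair.exists_comm (A := Z₂) (B := Z₂) (Z := Subgroup.center G)
    ⟨hc, fun a _ b hb => (h1 b).1 hb a, Subgroup.center_le_centralizer _,
      Subgroup.center_le_centralizer _⟩ (fun b => ⁅y, b⁆) (fun b hb => (h1 b).1 hb y)
    (fun b _ c hc => H21.comm_mul_right (Subgroup.mem_center_iff.1 ((h1 c).1 hc y) b))
    fun b hb hb' => commutatorElement_eq_one_iff_mul_comm.2
      (Subgroup.mem_center_iff.1 (h2 ⟨hb, hb'⟩) y)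
  have h5 : a⁻¹ * y ∈ Subgroup.center G := h3 fun b hb => by
    have := h4 b hb
    simp only [commutatorElement_def, mul_left_inj] at this
    calc _ = a⁻¹ * (a * b * a⁻¹) * y := by group
      _ = _ := by rw [← this]; group
  refine (h1 y).1 ?_ x
  exact mul_inv_cancel_left a y ▸ Z₂.mul_mem ha ((h1 _).2 fun g => by
    rw [commutatorElement_eq_one_iff_mul_comm.2 (Subgroup.mem_center_iff.1 h5 g)]
    exact Subgroup.one_mem _)

theorem xs_of_sympType [Nonempty ι] {R : Subgroup (GL ι F)} {r : ℕ}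
    (h : IsSymplecticTypeGroup r R) (hR : ActsAbsolutelyIrreducibly (matrixSet R))
    (hz : Nat.card (Subgroup.center R) = r * Nat.gcd 2 r) : Xs R := by
  haveI := Fact.mk h.prime
  haveI := h.pGroup.isNilpotent
  have h1 := env_of_absIrr hR
  refine ⟨h1, fun x hx y hy => ?_⟩
  have := class_two (G := R) (fun A hA hc => ?_) (h.cyclic_of_characteristic _ inferInstance
    inferInstance) ⟨x, hx⟩ ⟨y, hy⟩
  · rwa [center_eq h1] at this
  have h2 := h.cyclic_of_characteristic (A ⊔ Subgroup.center R) ⟨fun φ => by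
    rw [Subgroup.comap_equiv_eq_map_symm', Subgroup.map_sup, ← Subgroup.comap_equiv_eq_map_symm',
      ← Subgroup.comap_equiv_eq_map_symm', hA.fixed, Subgroup.centerCharacteristic.fixed]⟩
    ⟨⟨fun a b => Subtype.ext (by
      obtain ⟨a1, h3, z, hz, e⟩ := Subgroup.mem_sup_of_normal_right.1 a.2
      obtain ⟨b1, h4, w, hw, e'⟩ := Subgroup.mem_sup_of_normal_right.1 b.2
      rw [Subgroup.coe_mul, Subgroup.coe_mul, ← e, ← e', ← commutatorElement_eq_one_iff_mul_comm,
        comm_mul_central (fun g => (Subgroup.mem_center_iff.1 hz g).symm)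
        fun g => (Subgroup.mem_center_iff.1 hw g).symm, commutatorElement_eq_one_iff_mul_comm]
      exact congrArg Subtype.val (hc.is_comm.comm ⟨a1, h3⟩ ⟨b1, h4⟩))⟩⟩
  refine le_sup_left.trans (Subgroup.eq_of_le_of_card_ge le_sup_right ?_).ge
  rw [hz, ← h.exponent_eq, ← IsCyclic.exponent_eq_card]
  exact Nat.le_of_dvd Monoid.ExponentExists.of_finite.exponent_pos
    (Monoid.exponent_dvd_of_monoidHom _ (Subgroup.subtype_injective _))

theorem min_pos {z p e : ℕ} (h : IsMinimalFieldFor z p e F) : 0 < e :=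
  Nat.pos_of_ne_zero fun e0 => by
    simpa [h.2.2.1, e0] using Fintype.one_lt_card (α := F)

theorem min_modEq {z p e : ℕ} (h : IsMinimalFieldFor z p e F) : p ^ e ≡ 1 [MOD z] :=
  ((Nat.modEq_iff_dvd' (Nat.one_le_pow _ _ h.1.pos)).2 h.2.2.2.1).symm

theorem min_dvd {z p e d : ℕ} (h : IsMinimalFieldFor z p e F) (hd : p ^ d ≡ 1 [MOD z]) : e ∣ d := by
  by_contra h0
  refine h.2.2.2.2 (d % e) (Nat.pos_of_ne_zero (mt Nat.dvd_of_mod_eq_zero h0))
    (Nat.mod_lt _ (min_pos h)) ((Nat.modEq_iff_dvd' (Nat.one_le_pow _ _ h.1.pos)).1 ?_)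
  have := ((min_modEq h).pow (d / e)).mul_right (p ^ (d % e))
  rw [← pow_mul, ← pow_add, Nat.div_add_mod, one_pow, one_mul] at this
  exact hd.symm.trans this

theorem min_dvd_pred {r p e : ℕ} (h : IsMinimalFieldFor r p e F) (hr : r.Prime) (hp : r ≠ p) :
    e ∣ r - 1 := min_dvd h (Nat.totient_prime hr ▸ Nat.ModEq.pow_totient
  ((Nat.coprime_primes h.1 hr).2 hp.symm))

theorem min_ne_one {r p e : ℕ} (h : IsMinimalFieldFor r p e F) (he : e ≠ 1) : p % r ≠ 1 % r :=
  fun h0 => he (Nat.dvd_one.1 (min_dvd h (by simpa [Nat.ModEq] using h0)))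

theorem ne_top_of_card {F₀ : Subfield F} {r : ℕ} (hr : r.Prime)
    (h : Fintype.card F = Nat.card F₀ ^ r) : F₀ ≠ ⊤ := by
  rintro rfl
  rw [Nat.card_congr Subfield.topEquiv.toEquiv, Nat.card_eq_fintype_card] at h
  exact (lt_self_pow₀ Fintype.one_lt_card hr.one_lt).ne h

variable {n : ℕ}

theorem lin_data (hn : 3 ≤ n) {r : ℕ} {R : Subgroup (GL (Fin n) F)}
    (h : IsLinearSymplecticTypeData r R) : (∃ m, n = r ^ m) ∧ r.Prime ∧ ∃ p e, r ≠ p ∧
      (Odd r ∧ Odd e ∧ IsMinimalFieldFor r p e F ∨ r = 2 ∧ e = 1 ∧ IsMinimalFieldFor 4 p 1 F) := by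
  haveI : NeZero n := ⟨by omega⟩
  obtain ⟨p, e, h1, h2, h3⟩ := h.field
  have := fun hz => (xs_of_sympType h.symplecticType h.absIrred hz).pow_of_pGroup
    h.symplecticType.prime h.symplecticType.pGroup
  rw [Fintype.card_fin] at this
  rcases h3 with ⟨h3, h4, h5, -⟩ | ⟨rfl, rfl, h5, -⟩ | ⟨-, -, h5, -⟩
  · exact ⟨this (by rw [h5, (Nat.coprime_two_left.2 h3).gcd_eq_one, mul_one]),
      h.symplecticType.prime, p, e, h1, .inl ⟨h3, h4, h5 ▸ h2⟩⟩
  · exact ⟨this h5, Nat.prime_two, p, 1, h1, .inr ⟨rfl, rfl, h5 ▸ h2⟩⟩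
  · rw [Fintype.card_fin] at h5; omega

theorem wr_bound {k t : ℕ} (hk : 3 ≤ k) (ht : 2 ≤ t) : 3 + t * (k - 1) + 1 ≤ k ^ t := by
  obtain ⟨k, rfl⟩ := Nat.exists_eq_add_of_le' hk
  induction t, ht using Nat.le_induction with
  | base => simp; nlinarith
  | succ t ht ih =>
    have h1 : (t + 1) * (k + 3 - 1) ≤ 2 * (t * (k + 3 - 1)) := by nlinarith
    have h2 : 2 * (k + 3) ^ t ≤ (k + 3) ^ t * (k + 3) := by nlinarith [Nat.zero_le ((k + 3) ^ t)]
    rw [pow_succ]
    omega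

theorem nml_SL (R : Subgroup (GL ι F)) : Nml R (specialLinear ι F) := fun g _ x hx =>
  (MonoidHom.normal_ker _).conj_mem x hx g

/-- the maximal subgroups of the special linear groups -/
theorem lin_max (hn : 3 ≤ n) {H : Subgroup (GL (Fin n) F)}
    (hH : IsMaximalIn (specialLinear (Fin n) F) H) :
    (∃ W : Submodule F (Fin n → F), W ≠ ⊥ ∧ W ≠ ⊤ ∧
      H = subspaceStabilizer W ⊓ specialLinear (Fin n) F) ∨
    (∃ (t m : ℕ) (D : Fin t → Submodule F (Fin n → F)), IsMDecomposition m D ∧ t * m = n ∧ 2 ≤ t ∧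
      (m = 1 → 5 ≤ Fintype.card F) ∧ (m = 2 → 3 ≤ Fintype.card F) ∧
      H = decompositionStabilizer D ⊓ specialLinear (Fin n) F) ∨
    (∃ (r : ℕ) (K : Subalgebra F (Matrix (Fin n) (Fin n) F)), r.Prime ∧ r ∣ n ∧
      IsFieldSubalgebra r K ∧ H = subalgebraNormalizer K ⊓ specialLinear (Fin n) F) ∨
    (∃ (a b : ℕ) (e : Fin n ≃ Fin a × Fin b) (P : GL (Fin n) F), 2 ≤ a ∧ a < b ∧ a * b = n ∧
      (a = 2 → 3 ≤ Fintype.card F) ∧ H = tensorProductSubgroup a b e P ⊓ specialLinear (Fin n) F) ∨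
    (∃ (F₀ : Subfield F) (r : ℕ) (P : GL (Fin n) F), r.Prime ∧ Fintype.card F = Nat.card F₀ ^ r ∧
      H = subfieldSubgroup F₀ P ⊓ specialLinear (Fin n) F) ∨
    (∃ (r : ℕ) (R : Subgroup (GL (Fin n) F)), IsLinearSymplecticTypeData r R ∧
      H = subgroupNormalizer R ⊓ specialLinear (Fin n) F) ∨
    (∃ (k t : ℕ) (e : Fin n ≃ (Fin t → Fin k)) (P : GL (Fin n) F), 3 ≤ k ∧ 2 ≤ t ∧ k ^ t = n ∧
      H = tensorWreathSubgroup k t e P ⊓ specialLinear (Fin n) F) ∨
    (Odd (Fintype.card F) ∧ ∃ Q : (Fin n → F) → F, IsNondegenerateQuadraticForm Q ∧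
      H = quadSimilarityGroup Q ⊓ specialLinear (Fin n) F) ∨
    (Even n ∧ ∃ f : (Fin n → F) → (Fin n → F) → F, IsSymplecticForm f ∧
      H = similarityGroup f ⊓ specialLinear (Fin n) F) ∨
    (∃ (σ : F ≃+* F) (f : (Fin n → F) → (Fin n → F) → F), IsUnitaryForm σ f ∧
      H = similarityGroup f ⊓ specialLinear (Fin n) F) ∨ InLinearResidualClass H := by
  haveI : NeZero n := ⟨by omega⟩
  have hn' : 3 ≤ Fintype.card (Fin n) := by simpa
  have hb := big_SL (F := F) hn'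
  have h1 := Fintype.one_lt_card (α := F)
  by_cases hI : Irr H
  swap
  · obtain ⟨W, h1, h2, h3⟩ := not_irr hI
    exact .inl ⟨W, h1, h2, eq_of_max hH (fun g hg => mem_subspaceStabilizer_of_le (h3 g hg))
      (hb.not_stab h1 h2)⟩
  have hred : ∀ {W : Submodule F (Fin n → F)}, W ≠ ⊥ → W ≠ ⊤ → ¬ H ≤ subspaceStabilizer W :=
    fun h0 h1 h2 => (hI _ fun g hg x hx => mulVec_mem_of_stab (h2 hg) hx).elim h0 h1
  have hbil : ∀ {ε : F} {G : Matrix (Fin n) (Fin n) F}, HF (RingHom.id F) ε G →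
      H ≤ Sim (RingHom.id F) G → ∀ {X : Prop},
      (Odd (Fintype.card F) ∧ ∃ Q : (Fin n → F) → F, IsNondegenerateQuadraticForm Q ∧
        H = quadSimilarityGroup Q ⊓ specialLinear (Fin n) F) ∨
      (Even n ∧ ∃ f : (Fin n → F) → (Fin n → F) → F, IsSymplecticForm f ∧
        H = similarityGroup f ⊓ specialLinear (Fin n) F) ∨ X := fun h hs => by
    rcases bil_cases hI (by omega) h hs with h1 | ⟨h2, rfl⟩
    · exact .inr (.inl ⟨by simpa using even_of_symp h1, _, h1,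
        eq_of_max hH hs (not_SL_le_sim hn' h)⟩)
    · obtain ⟨G', e, h3⟩ := hf_of_quad (h.quad h2)
      exact .inl ⟨odd_of_two_ne h2, _, h.quad h2, eq_of_max hH (hs.trans le_quadSim)
        fun h4 => not_SL_le_sim hn' h3 (h4.trans (quadSim_le e))⟩
  have hfield : ∀ {r K}, r.Prime → IsFieldSubalgebra r K → H ≤ subalgebraNormalizer K →
      ∃ (r : ℕ) (K : Subalgebra F (Matrix (Fin n) (Fin n) F)), r.Prime ∧ r ∣ n ∧
      IsFieldSubalgebra r K ∧ H = subalgebraNormalizer K ⊓ specialLinear (Fin n) F :=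
    fun hr h h' => ⟨_, _, hr, by simpa using field_dvd h, h,
      eq_of_max hH h' (hb.not_field h hr.one_lt)⟩
  rcases aschbacher_linear hn H with ⟨M, hM, hle⟩ | h
  swap
  · iterate 10 right
    exact h
  rcases hM with ⟨W, h2, h3, rfl⟩ | ⟨W, U, h2, h3, -, rfl⟩ | ⟨W, U, h2, h3, -, h4, rfl⟩ |
    ⟨t, m, D, hD, rfl⟩ | ⟨r, K, hr, hK, rfl⟩ | ⟨a, b, e, P, ha, hab, rfl⟩ |
    ⟨F₀, r, P, hr, h2, rfl⟩ | ⟨r, R, hR, rfl⟩ | ⟨k, t, e, P, hk, ht, rfl⟩ | ⟨f, hf, h2, -, rfl⟩ |
    ⟨σ, f, hf, -, rfl⟩ | ⟨Q, hQ, h2, -, rfl⟩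
  · exact (hred h2 h3 hle).elim
  · exact (hred h2 h3.ne_top (hle.trans inf_le_left)).elim
  · exact (hred h2 (by rintro rfl; exact h4.not_ge (Submodule.finrank_mono le_top))
      (hle.trans inf_le_left)).elim
  · by_cases h2 : m = 1 ∧ Fintype.card F ≤ 3
    · obtain ⟨rfl, h2⟩ := h2
      obtain ⟨G, h3, h4⟩ := dec_le_Iso hD (hf_one fun _ => rfl) (mem_Iso_fin_one
        (σ := RingHom.id F) fun c hc => by
          obtain h | h : Fintype.card F = 2 ∨ Fintype.card F = 3 := by omega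
          · simp [eq_one_of_card_two h hc]
          · simpa [sq] using pow_card_sub h hc)
      iterate 7 right
      exact hbil h3 (hle.trans (h4.trans Iso_le_Sim))
    by_cases h3 : m = 1 ∧ Fintype.card F = 4
    · obtain ⟨rfl, h3⟩ := h3
      obtain ⟨σ, h4, h5, h6⟩ := exists_frob_four h3
      obtain ⟨G, h7, h8⟩ := dec_le_Iso hD (hf_one h5) (mem_Iso_fin_one fun c hc => by
        rw [h4, ← pow_succ', pow_card_sub h3 hc])
      obtain ⟨τ, h9⟩ := h7.unitary h6
      iterate 9 right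
      exact .inl ⟨τ, _, h9, eq_of_max hH (hle.trans (h8.trans Iso_le_Sim)) (not_SL_le_sim hn' h7)⟩
    by_cases h4 : m = 2 ∧ Fintype.card F = 2
    · obtain ⟨rfl, h4⟩ := h4
      obtain ⟨G, h5, h6⟩ := dec_le_Iso hD hf_J2 fun a => mem_Iso.2 (by
        rw [gram_J2, eq_one_of_card_two h4 (det_ne_zero a), one_smul])
      iterate 7 right
      exact hbil h5 (hle.trans (h6.trans Iso_le_Sim))
    have := hD.two_le
    have := hD.pos
    exact .inr (.inl ⟨t, m, D, hD, by simpa using mdec_card hD, hD.two_le, by omega, by omega,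
      eq_of_max hH hle (hb.not_dec' hD 1 (by omega) (by omega)
        (Nat.mul_pos (by omega) hD.pos) fun _ _ _ _ _ _ _ => trivial)⟩)
  · exact .inr (.inr (.inl (hfield hr hK hle)))
  · by_cases h2 : a = 2 ∧ Fintype.card F = 2
    · obtain ⟨rfl, h2⟩ := h2
      obtain ⟨K, h3, h4⟩ := kr_two_field h2 (kr_self e P)
      exact .inr (.inr (.inl (hfield Nat.prime_two h3 (hle.trans h4))))
    exact .inr (.inr (.inr (.inl ⟨a, b, e, P, ha, hab, by simpa using (Fintype.card_congr e).symm,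
      by omega, eq_of_max hH hle fun h => hb.not_kr (by omega) (by omega) (by nlinarith)
        fun g hg => kr_self e P g (h hg)⟩)))
  · exact .inr (.inr (.inr (.inr (.inl ⟨F₀, r, P, hr, h2, eq_of_max hH hle
      (hb.not_sub (ne_top_of_card hr h2) P)⟩))))
  · exact .inr (.inr (.inr (.inr (.inr (.inl ⟨r, R, hR, eq_of_max hH hle (hb.not_nml
      hR.symplecticType.prime hR.symplecticType.pGroup hR.absIrred (nml_SL R))⟩)))))
  · refine .inr (.inr (.inr (.inr (.inr (.inr (.inl ⟨k, t, e, P, hk, ht,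
      by simpa using (Fintype.card_congr e).symm, eq_of_max hH hle fun h =>
        hb.not_wr (by omega) (by omega) ?_ fun g hg => wr_self e P g (h hg)⟩))))))
    exact (by have := wr_bound hk ht; omega)
  · obtain ⟨G, rfl, h3⟩ := hf_of_symp hf
    iterate 7 right
    exact hbil h3 hle
  · obtain ⟨G, rfl, h3⟩ := hf_of_unit hf
    iterate 9 right
    exact .inl ⟨σ, _, hf, eq_of_max hH hle (not_SL_le_sim hn' h3)⟩
  · obtain ⟨G, e, h3⟩ := hf_of_quad hQ
    iterate 7 right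
    exact hbil h3 (hle.trans (quadSim_le e))

end

end H29
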