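import Cfsg.Agent.H29.TSDec

/-! Orthogonal decompositions `V = W₁ ⊥ ⋯ ⊥ W_t`: `exists_swap_nd` (an isometry interchanging two isometric
orthogonal non-degenerate subspaces), `ODec`, `exists_not_mem_parts`, the symplectic case `symp_odec`, and the
case of parts of dimension at least five `odec_dichotomy`, `isMaximalIn_odec`. -/

set_option autoImplicit false

namespace H29
open H11 H11.PForm Module Matrix
open scoped MatrixGroups

variable {F : Type*} [Field F] {σ : F →+* F} {P : FParam σ} {V : Type*} [AddCommGroup V]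
  [Module F V] {S : PForm P V} [FiniteDimensional F V]

theorem exists_swap_nd (hS : S.Nondeg) {A B : Submodule F V} (hA : (S.restrict A).Nondeg)
    (hB : (S.restrict B).Nondeg) (hAB : B ≤ S.perp A) (e : Eqv (S.restrict A) (S.restrict B)) :
    ∃ s : S.Isom, (∀ x ∈ A, s.1 x ∈ B) ∧ (∀ x ∈ B, s.1 x ∈ A) ∧
      ∀ z ∈ S.perp A, z ∈ S.perp B → s.1 z = z := by
  obtain ⟨φ, hφ⟩ := e
  let π : V →ₗ[F] A := A.projectionOnto (S.perp A) (S.isCompl_perp hA)
  let ψ : V →ₗ[F] V := B.subtype ∘ₗ (φ : A →ₗ[F] B) ∘ₗ π + (LinearMap.id - A.subtype ∘ₗ π)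
  have hψ : ∀ (a : A) z, z ∈ S.perp A → ψ (a + z) = φ a + z := by
    intro a z hz
    have h1 : π (a + z) = a := by
      simp [π, Submodule.projectionOnto_apply_of_mem_right _ hz]
    simp only [ψ, LinearMap.add_apply, LinearMap.comp_apply, LinearMap.sub_apply, h1,
      LinearMap.id_apply, Submodule.subtype_apply, LinearEquiv.coe_coe]
    abel
  set Z := S.perp A ⊓ S.perp B with hZ
  have hdec : ∀ x : ↥(A ⊔ Z), ∃ a : A, ∃ z ∈ Z, (x : V) = a + z := fun x => by
    obtain ⟨a, ha, z, hz, h⟩ := Submodule.mem_sup.1 x.2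
    exact ⟨⟨a, ha⟩, z, hz, h.symm⟩
  have hiso : IsIsom (S.restrict (A ⊔ Z)) S (ψ ∘ₗ (A ⊔ Z).subtype) := by
    constructor
    · intro x y
      obtain ⟨a, z, hz, h1⟩ := hdec x
      obtain ⟨a', z', hz', h2⟩ := hdec y
      have := hφ.h_eq a a'
      simp only [restrict_h] at this
      simp only [LinearMap.comp_apply, Submodule.subtype_apply, restrict_h, h1, h2, hψ _ _ hz.1,
        hψ _ _ hz'.1, map_add, LinearMap.add_apply, this, hz'.1 _ a.2, hz'.2 _ (φ a).2,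
        S.h_swap_zero (hz.1 _ a'.2), S.h_swap_zero (hz.2 _ (φ a').2)]
    · intro x
      obtain ⟨a, z, hz, h1⟩ := hdec x
      have h2 := hφ.q_eq a
      have h3 := S.q_add (φ a) z
      have h4 := S.q_add a z
      rw [hz.2 _ (φ a).2] at h3
      rw [hz.1 _ a.2] at h4
      simp only [restrict_q] at h2
      simp only [LinearMap.comp_apply, Submodule.subtype_apply, restrict_q, h1, hψ _ _ hz.1]
      have := P.Λ.sub_mem (P.Λ.add_mem h3 h2) h4
      convert this using 1; ring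
  have hinj : Function.Injective (ψ ∘ₗ (A ⊔ Z).subtype) := by
    rw [← LinearMap.ker_eq_bot, eq_bot_iff]
    intro x hx
    obtain ⟨a, z, hz, h1⟩ := hdec x
    rw [LinearMap.mem_ker, LinearMap.comp_apply, Submodule.subtype_apply, h1, hψ _ _ hz.1] at hx
    have h2 : z = 0 := Submodule.disjoint_def.1 ((S.restrict_nondeg_iff B).1 hB) z (by
      rw [eq_neg_of_add_eq_zero_right hx]; exact B.neg_mem (φ a).2) hz.2
    rw [h2, add_zero] at hx h1
    have h3 : a = 0 := by simpa using hx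
    rw [h3] at h1
    exact Subtype.ext h1
  obtain ⟨g, hg⟩ := hS.witt_subspace _ _ hinj hiso
  have g1 : ∀ a : A, g.1 a = φ a := fun a => by
    have := hg ⟨a, Submodule.mem_sup_left a.2⟩
    have h2 := hψ a 0 (Submodule.zero_mem _)
    simp only [add_zero] at h2
    exact this.trans h2
  have g2 : ∀ z ∈ Z, g.1 z = z := fun z hz => by
    have := hg ⟨z, Submodule.mem_sup_right hz⟩
    have h2 := hψ 0 z hz.1
    simp only [map_zero, ZeroMemClass.coe_zero, zero_add] at h2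
    exact this.trans h2
  refine ⟨g, fun x hx => by rw [g1 ⟨x, hx⟩]; exact (φ _).2, fun y hy => ?_,
    fun z h1 h2 => g2 z ⟨h1, h2⟩⟩
  have h1 : g.1 y ∈ A ⊔ B := by
    rw [← hS.perp_perp (A ⊔ B), perp_sup]
    intro z hz
    rw [← g2 z hz, isom_h]
    exact S.h_swap_zero (hz.2 y hy)
  obtain ⟨a, ha, b, hb, h2⟩ := Submodule.mem_sup.1 h1
  have h3 : b = 0 := Submodule.disjoint_def.1 ((S.restrict_nondeg_iff B).1 hB) b hb (by
    intro x hx
    obtain ⟨x', hx'⟩ := φ.surjective ⟨x, hx⟩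
    have h4 : S.h x (g.1 y) = 0 := by
      rw [show x = φ x' from (congrArg Subtype.val hx').symm, ← g1, isom_h]
      exact hAB hy _ x'.2
    rw [← h2, map_add, S.h_swap_zero (hAB hx a ha), zero_add] at h4
    exact h4)
  rw [← h2, h3, add_zero]; exact ha

/-- an orthogonal decomposition into non-degenerate subspaces of dimension `k` -/
structure ODec (S : PForm P V) {t : ℕ} (k : ℕ) (D : Fin t → Submodule F V) : Prop where
  nondeg : ∀ i, (S.restrict (D i)).Nondeg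
  orth : ∀ i j, i ≠ j → D j ≤ S.perp (D i)
  top : iSup D = ⊤
  dim : ∀ i, finrank F (D i) = k
  pos : 0 < k
  two : 2 ≤ t

namespace ODec
variable {t k : ℕ} {D : Fin t → Submodule F V}

omit [FiniteDimensional F V] in
theorem eq_zero (hS : S.Nondeg) (h : ODec S k D) {x : V} (hx : ∀ i, x ∈ S.perp (D i)) : x = 0 := by
  have : iSup D ≤ S.perp (F ∙ x) := iSup_le fun i y hy =>
    S.mem_perp_singleton.2 (S.h_swap_zero (hx i y hy))
  rw [h.top] at this
  exact hS x fun y => S.mem_perp_singleton.1 (this trivial)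

omit [FiniteDimensional F V] in
theorem disj (h : ODec S k D) {i j : Fin t} (hij : i ≠ j) : Disjoint (D i) (D j) :=
  ((S.restrict_nondeg_iff _).1 (h.nondeg i)).mono_right (h.orth i j hij)

omit [FiniteDimensional F V] in
theorem eq_zero' (h : ODec S k D) {i : Fin t} {x : V} (h1 : x ∈ D i) (h2 : x ∈ S.perp (D i)) :
    x = 0 := Submodule.disjoint_def.1 ((S.restrict_nondeg_iff _).1 (h.nondeg i)) x h1 h2

theorem exists_comp (hS : S.Nondeg) (h : ODec S k D) {x : V} (hx : x ≠ 0) :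
    ∃ i, ∃ a ∈ D i, ∃ r ∈ S.perp (D i), a ≠ 0 ∧ x = a + r := by
  by_contra hc
  push Not at hc
  refine hx (h.eq_zero hS fun i => ?_)
  obtain ⟨a, ha, r, hr, e⟩ := exists_decomp (h.nondeg i) x
  by_cases h0 : a = 0
  · rw [e, h0, zero_add]; exact hr
  · exact absurd e (hc i a ha r hr h0)

omit [FiniteDimensional F V] in
theorem exists_not_mem (h : ODec S k D) (g : V →ₗ[F] V) {W : Submodule F V}
    (hW : ¬ ∃ j, ∀ x ∈ W, g x ∈ D j) : ∃ x ∈ W, ∀ j, g x ∉ D j := by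
  by_contra hc
  push Not at hc hW
  obtain ⟨x, hx, hx0⟩ := hW ⟨0, by have := h.two; omega⟩
  obtain ⟨j, hj⟩ := hc x hx
  obtain ⟨y, hy, hyj⟩ := hW j
  obtain ⟨l, hl⟩ := hc y hy
  obtain ⟨r, hr⟩ := hc (x + y) (W.add_mem hx hy)
  rw [map_add] at hr
  have hlj : l ≠ j := by rintro rfl; exact hyj hl
  by_cases hrj : r = j
  · subst hrj
    exact hyj (((D r).add_mem_iff_right hj).1 hr)
  · have h1 := (Submodule.add_mem_iff_left _ (h.orth j l hlj.symm hl)).1 (h.orth j r (Ne.symm hrj) hr)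
    rw [h.eq_zero' hj h1] at hx0
    exact hx0 (Submodule.zero_mem _)

/-- the elements permuting the parts -/
def Perm (D : Fin t → Submodule F V) (g : S.Isom) : Prop := ∀ i, ∃ j, ∀ x ∈ D i, g.1 x ∈ D j

omit [FiniteDimensional F V] in
theorem perm_of_fix (h : ODec S k D) {i : Fin t} {g : S.Isom} (h1 : ∀ x ∈ D i, g.1 x ∈ D i)
    (h2 : ∀ x ∈ S.perp (D i), g.1 x = x) : Perm D g := by
  intro j
  by_cases hj : j = i
  · exact ⟨j, hj ▸ h1⟩
  · exact ⟨j, fun x hx => by rw [h2 x (h.orth i j (Ne.symm hj) hx)]; exact hx⟩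

theorem perm_eich (h : ODec S k D) {i : Fin t} {u v : V} (hu : u ∈ D i) (hv : v ∈ D i) (a : F) :
    Perm D (S.eich u v a) :=
  h.perm_of_fix (fun x hx => (eich_mem_stab hu hv a x).1 hx)
    fun x hx => eich_apply_of_perp_perp (hx u hu) (hx v hv)

theorem exists_swap (hS : S.Nondeg) (h : ODec S k D) {i j : Fin t} (hij : i ≠ j)
    (e : Eqv (S.restrict (D i)) (S.restrict (D j))) :
    ∃ s : S.Isom, Perm D s ∧ (∀ x ∈ D i, s.1 x ∈ D j) ∧ (∀ x ∈ D j, s.1 x ∈ D i) ∧
      ∀ l, l ≠ i → l ≠ j → ∀ x ∈ D l, s.1 x = x := by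
  obtain ⟨s, h1, h2, h3⟩ := exists_swap_nd hS (h.nondeg i) (h.nondeg j) (h.orth i j hij) e
  have h4 : ∀ l, l ≠ i → l ≠ j → ∀ x ∈ D l, s.1 x = x := fun l hi hj x hx =>
    h3 x (h.orth i l hi.symm hx) (h.orth j l hj.symm hx)
  refine ⟨s, fun l => ?_, h1, h2, h4⟩
  by_cases hi : l = i
  · exact ⟨j, hi ▸ h1⟩
  by_cases hj : l = j
  · exact ⟨i, hj ▸ h2⟩
  exact ⟨l, fun x hx => by rw [h4 l hi hj x hx]; exact hx⟩

omit [FiniteDimensional F V] in
theorem Perm.mul {g g' : S.Isom} (h : Perm D g) (h' : Perm D g') : Perm D (g * g') := by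
  intro i
  obtain ⟨j, hj⟩ := h' i
  obtain ⟨l, hl⟩ := h j
  exact ⟨l, fun x hx => hl _ (hj x hx)⟩

omit [FiniteDimensional F V] in
theorem induction (hS : S.Nondeg) (h : ODec S k D) (p : V → Prop) (h1 : ∀ i, ∀ x ∈ D i, p x)
    (h2 : ∀ l, ∀ y ∈ D l, y ≠ 0 → ∀ r ∈ S.perp (D l), ∀ j, j ≠ l → r ∉ S.perp (D j) →
      (∀ z ∈ D j, p (r - z)) → p (r + y)) (x : V) : p x := by
  classical
  have key : ∀ J : Finset (Fin t), ∀ x ∈ J.sup D, p x := by
    intro J
    induction J using Finset.induction_on with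
    | empty =>
      intro x hx
      rw [Finset.sup_empty, Submodule.mem_bot] at hx
      exact h1 ⟨0, by have := h.two; omega⟩ x (hx ▸ Submodule.zero_mem _)
    | insert l J hl ih =>
      intro x hx
      rw [Finset.sup_insert] at hx
      obtain ⟨y, hy, r, hr, rfl⟩ := Submodule.mem_sup.1 hx
      by_cases hy0 : y = 0
      · rw [hy0, zero_add]; exact ih r hr
      by_cases hr0 : r = 0
      · rw [hr0, add_zero]; exact h1 l y hy
      have hle : ∀ i ∉ J, J.sup D ≤ S.perp (D i) := fun i hi =>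
        Finset.sup_le fun j hj => h.orth i j (by rintro rfl; exact hi hj)
      obtain ⟨j, hj⟩ : ∃ j, r ∉ S.perp (D j) := by
        by_contra hc
        push Not at hc
        exact hr0 (h.eq_zero hS hc)
      have hjJ : j ∈ J := by
        by_contra hc
        exact hj (hle j hc hr)
      rw [add_comm]
      exact h2 l y hy hy0 r (hle l hl hr) j (by rintro rfl; exact hl hjJ) hj fun z hz =>
        ih _ (Submodule.sub_mem _ hr (Finset.le_sup (f := D) hjJ hz))
  apply key Finset.univ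
  rw [Finset.sup_univ_eq_iSup, h.top]; trivial

end ODec

theorem symp_odec {S : PForm (sympP F) V} (hS : S.Nondeg) {t k : ℕ} {D : Fin t → Submodule F V}
    (h : ODec S k D) (hex : (∃ c : F, c ≠ 0 ∧ c ≠ 1) ∨ 3 ≤ k) (H : Subgroup S.Isom)
    (hH : ∀ g, ODec.Perm D g → g ∈ H) : S.E ≤ H ∨ ∀ g ∈ H, ODec.Perm D g := by
  by_cases hc : ∀ g ∈ H, ODec.Perm D g
  · exact Or.inr hc
  left
  let TF : V → Prop := fun v => ∀ a, S.eich v 0 a ∈ H
  have r0 : ∀ i, ∀ x ∈ D i, TF x := fun i x hx a => hH _ (h.perm_eich hx (Submodule.zero_mem _) a)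
  have r1 : ∀ g ∈ H, ∀ v, TF v → TF (g.1 v) := fun g hg v hv a => by
    have := H.mul_mem (H.mul_mem hg (hv a)) (H.inv_mem hg)
    rwa [conj_eich, map_zero] at this
  have r3 : ∀ u w, TF u → TF w → S.h u w ≠ 0 → ∀ c : F, TF (w + c • u) := by
    intro u w hu hw huw c
    have := r1 _ (hu (c / S.h u w)) w hw
    rwa [symp_transv_apply, div_mul_cancel₀ _ huw] at this
  have ex : ∀ j, ∀ a ∈ D j, a ≠ 0 → ∃ b ∈ D j, S.h a b ≠ 0 := fun j a ha ha0 => by
    by_contra hc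
    push Not at hc
    exact ha0 (h.eq_zero' ha (S.mem_perp'.2 hc))
  have rA : ∀ j, ∀ a ∈ D j, ∀ r ∈ S.perp (D j), a ≠ 0 → TF (a + r) → ∀ a' ∈ D j, a' ≠ 0 →
      TF (a' + r) := by
    intro j
    have step : ∀ a ∈ D j, ∀ r ∈ S.perp (D j), TF (a + r) → ∀ a' ∈ D j, S.h a' a ≠ 0 →
        TF (a' + r) := by
      intro a ha r hr hT a' ha' h0
      have := r3 (a' - a) _ (r0 j _ ((D j).sub_mem ha' ha)) hT
        (by simpa [symp_h_self, hr a ha, hr a' ha'] using h0) 1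
      convert this using 1
      module
    intro a ha r hr ha0 hT a' ha' ha0'
    obtain ⟨b, hb, h1, h2⟩ := exists_both_ne_zero (D j) (S.h a) (S.h a') (ex j a ha ha0)
      (ex j a' ha' ha0')
    exact step b hb r hr (step a ha r hr hT b hb fun h => h1 (S.h_swap_zero h)) a' ha' h2
  let R : Fin t → Fin t → Prop := fun j l => ∀ y ∈ D j, y ≠ 0 → ∀ z ∈ D l, z ≠ 0 → TF (y + z)
  have Rsymm : ∀ j l, R j l → R l j := fun j l hR y hy hy0 z hz hz0 => by
    rw [add_comm]; exact hR z hz hz0 y hy hy0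
  have Rof : ∀ j l, j ≠ l → ∀ y ∈ D j, y ≠ 0 → ∀ z ∈ D l, z ≠ 0 → TF (y + z) → R j l := by
    intro j l hjl y hy hy0 z hz hz0 hT y' hy' hy0' z' hz' hz0'
    have h1 := rA j y hy z (h.orth j l hjl hz) hy0 hT y' hy' hy0'
    rw [add_comm] at h1 ⊢
    exact rA l z hz y' (h.orth l j hjl.symm hy') hz0 h1 z' hz' hz0'
  have Rmove : ∀ j l l', j ≠ l → j ≠ l' → R j l → R j l' := by
    intro j l l' hjl hjl' hR
    by_cases hl : l = l'
    · exact hl ▸ hR
    obtain ⟨s, s0, -, s2, s3⟩ := h.exists_swap hS hl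
      (symp_eqv k (h.nondeg l) (h.nondeg l') (h.dim l) (h.dim l'))
    intro y hy hy0 z hz hz0
    have := r1 _ (H.inv_mem (hH s s0)) _ (hR y hy hy0 _ (s2 z hz) (by simpa using hz0))
    rwa [← s3 j hjl hjl' y hy, ← map_add, isom_inv_apply_self] at this
  obtain ⟨j₀, l₀, hjl₀, hR₀⟩ : ∃ j l, j ≠ l ∧ R j l := by
    push Not at hc
    obtain ⟨g, hg, hp⟩ := hc
    obtain ⟨i, hi⟩ := not_forall.1 hp
    obtain ⟨x, hx, hxj⟩ := h.exists_not_mem (g.1 : V →ₗ[F] V) hi
    have hT := r1 g hg x (r0 i x hx)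
    change ∀ j, g.1 x ∉ D j at hxj
    obtain ⟨j, a, ha, r, hr, ha0, e⟩ := h.exists_comp hS (x := g.1 x)
      (fun h0 => hxj i (h0 ▸ Submodule.zero_mem _))
    obtain ⟨l, b, hb, r', hr', hb0, e'⟩ := h.exists_comp hS (x := r)
      (fun h0 => hxj j (by rw [e, h0, add_zero]; exact ha))
    have hjl : j ≠ l := by
      rintro rfl
      exact hb0 (h.eq_zero' hb ((Submodule.add_mem_iff_left _ hr').1 (e' ▸ hr)))
    have hr'j : r' ∈ S.perp (D j) := (Submodule.add_mem_iff_right _ (h.orth j l hjl hb)).1 (e' ▸ hr)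
    obtain ⟨a', ha', haa⟩ := ex j a ha ha0
    obtain ⟨b', hb', hb0', hbb, hbb'⟩ : ∃ b' ∈ D l, b' ≠ 0 ∧ b - b' ≠ 0 ∧ S.h b b' = 0 := by
      rcases hex with ⟨c, hc0, hc1⟩ | hk
      · refine ⟨c • b, (D l).smul_mem c hb, smul_ne_zero hc0 hb0, ?_, by simp [symp_h_self]⟩
        have : b - c • b = (1 - c) • b := by module
        rw [this]
        exact smul_ne_zero (sub_ne_zero.2 hc1.symm) hb0
      · have := finrank_span_one_le (F := F) b
        have h1 := h.dim l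
        obtain ⟨b', hb', h2, h3⟩ := exists_mem_ker_notMem [S.h b] (D l) (F ∙ b) (by simp; omega)
        exact ⟨b', hb', fun h0 => h2 (by simp [h0]), fun h0 => h2 (by
          rw [← sub_eq_zero.1 h0]; exact Submodule.mem_span_singleton_self b), h3 _ (by simp)⟩
    have ha0' : a' ≠ 0 := by rintro rfl; simp at haa
    rw [e] at hT
    have h1 := rA j a ha r hr ha0 hT a' ha' ha0'
    rw [e', add_left_comm] at h1
    have h2 := rA l b hb _ (Submodule.add_mem _ (h.orth l j hjl.symm ha') hr') hb0 h1 b' hb' hb0'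
    have h3 := r3 _ _ h2 hT (by
      rw [e']
      simpa [symp_h_self, S.h_swap_zero hbb', hr' b' hb', hr'j a' ha', h.orth l j hjl.symm ha b' hb',
        h.orth j l hjl hb a' ha', S.h_swap_zero (hr'j a ha), S.h_swap_zero (hr' b hb)]
        using fun h => haa (S.h_swap_zero h)) (-1)
    refine ⟨j, l, hjl, Rof j l hjl (a - a') ((D j).sub_mem ha ha') (fun h0 => haa (by
      rw [← sub_eq_zero.1 h0, symp_h_self])) (b - b') ((D l).sub_mem hb hb') hbb ?_⟩
    convert h3 using 1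
    rw [e']; module
  have Rall : ∀ j l, j ≠ l → R j l := by
    intro j l hjl
    by_cases hj : j = j₀
    · subst hj; exact Rmove j l₀ l hjl₀ hjl hR₀
    · exact Rmove j j₀ l hj hjl (Rsymm _ _ (Rmove j₀ l₀ j hjl₀ (Ne.symm hj) hR₀))
  have all := h.induction hS TF r0 (fun l y hy hy0 r hr j hjl hrj ih => by
    rw [mem_perp] at hrj
    push Not at hrj
    obtain ⟨z, hz, hzr⟩ := hrj
    have hz0 : z ≠ 0 := by rintro rfl; simp at hzr
    have := r3 _ _ (ih z hz) (Rall j l hjl z hz hz0 y hy hy0) (by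
      simpa [symp_h_self, S.h_swap_zero (hr y hy), h.orth j l hjl hy z hz]
        using fun h => hzr (S.h_swap_zero h)) 1
    convert this using 1
    module)
  have : S.T ≤ H := T_le_iff.2 fun u a _ _ _ => all u a
  rw [hS.symp_T_eq_top] at this
  exact le_top.trans this

/-- the isometry group restricted to `E` acts irreducibly in dimension at least five -/
theorem sub_of_E_inv (h3 : Iso3 S) {W : Submodule F V} (hW : (S.restrict W).Nondeg)
    (h5 : 5 ≤ finrank F W) {H : Subgroup S.Isom} (hE : ∀ u ∈ W, ∀ v ∈ W, ∀ a, S.eich u v a ∈ H)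
    {Y : Submodule F V} (hY : ∀ g ∈ H, ∀ y ∈ Y, g.1 y ∈ Y) {y : V} (hy : y ∈ Y)
    (hyW : y ∉ S.perp W) : W ≤ Y := by
  obtain ⟨a, ha, r, hr, rfl⟩ := exists_decomp hW y
  have ha0 : a ≠ 0 := by rintro rfl; exact hyW (by simpa using hr)
  obtain ⟨u, hu, hs, hp, hua⟩ := exists_sing (S := S.restrict W) hW (h3.restrict W) ⊤
    [⟨a, ha⟩] [⟨a, ha⟩] (by simpa using h5)
  rw [list_set_one] at hua
  have hau : a ∉ F ∙ (u : V) := fun hm => by
    obtain ⟨c, hc⟩ := Submodule.mem_span_singleton.1 hm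
    have hc0 : c ≠ 0 := by rintro rfl; exact ha0 (by simpa using hc.symm)
    exact hua (Submodule.mem_span_singleton.2 ⟨c⁻¹, Subtype.ext (by
      simp [← hc, smul_smul, inv_mul_cancel₀ hc0])⟩)
  obtain ⟨v, hv, h1, h2⟩ := exists_mem_perp_h_eq hW u.2 ha hau 1
  have hc : S.ECond u v (S.q v) := ECond.of_q hs h1
  have h4 := hY _ (hE u u.2 v hv (S.q v)) _ hy
  have hua' : S.h u a = 0 := S.h_swap_zero (hp ⟨a, ha⟩ (by simp))
  rw [eich_apply_of_perp hc (by simp [hua', hr u u.2]), Submodule.sub_mem_iff_right _ hy, map_add,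
    hr v hv, S.symm a v, h2] at h4
  have h5' : (u : V) ∈ Y := (Y.smul_mem_iff (by simp [P.ε_ne_zero])).1 h4
  have hu0 : (u : V) ≠ 0 := fun h0 => hua (by rw [show u = 0 from Subtype.ext h0]; simp)
  obtain ⟨f, hf, Hy⟩ := exists_partner_mem hW u.2 hu0 hs
  refine span_sing W u.2 hf hs (by rw [Hy.h_ef]; exact one_ne_zero) Y.toAddSubgroup fun x hx hxs => ?_
  by_cases hx0 : x = 0
  · rw [hx0]; exact Y.zero_mem
  obtain ⟨g, hg, h6, -⟩ := exists_EW h3 hW h5 hE u.2 hx hu0 hx0 (P.Λ.sub_mem hxs hs)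
  rw [← h6]
  exact hY g hg _ h5'

/-- irreducibility of the stabiliser of a part on the orthogonal complement -/
theorem ODec.irr_perp (hS : S.Nondeg) (h3 : Iso3 S) {t k : ℕ} {D : Fin t → Submodule F V}
    (h : ODec S k D) (hk : 3 ≤ k) (hn : 5 ≤ finrank F V)
    (heq : ∀ i j, Eqv (S.restrict (D i)) (S.restrict (D j))) {H : Subgroup S.Isom}
    (hH : ∀ g ∈ S.E, ODec.Perm D g → g ∈ H) (i : Fin t)
    (hirr : ∀ Y : Submodule F V, (∀ g ∈ H, g ∈ S.stab (D i) → ∀ y ∈ Y, g.1 y ∈ Y) → ∀ j, j ≠ i →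
      ∀ y ∈ Y, y ∈ S.perp (D i) → y ∉ S.perp (D j) → D j ≤ Y)
    (Y : Submodule F V) (hY : Y ≤ S.perp (D i)) (hY0 : Y ≠ ⊥)
    (hinv : ∀ g ∈ H, g ∈ S.stab (D i) → ∀ y ∈ Y, g.1 y ∈ Y) : S.perp (D i) ≤ Y := by
  obtain ⟨y, hy, hy0⟩ := Submodule.exists_mem_ne_zero_of_ne_bot hY0
  obtain ⟨j, hj⟩ : ∃ j, y ∉ S.perp (D j) := by
    by_contra hc
    push Not at hc
    exact hy0 (h.eq_zero hS hc)
  have hji : j ≠ i := by rintro rfl; exact hj (hY hy)
  have h1 := hirr Y hinv j hji y hy (hY hy) hj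
  have h2 : ∀ l, l ≠ i → D l ≤ Y := by
    intro l hl
    by_cases hlj : l = j
    · exact hlj ▸ h1
    obtain ⟨s, s0, -, s2, s3⟩ := h.exists_swap hS hlj (heq l j)
    obtain ⟨e, he, f, hf, Hy⟩ := exists_hyp_mem h3 (h.nondeg i) (by rw [h.dim]; omega)
    obtain ⟨r, r1, r2, r3⟩ := exists_E_mul_fix hS h3 hn he hf Hy s
    have hg := hH _ r3 (s0.mul (h.perm_of_fix r2 r1))
    have hst : s * r ∈ S.stab (D i) := mem_stab_of_le fun x hx => by
      rw [isom_mul_apply, s3 i hl.symm hji.symm _ (r2 x hx)]; exact r2 x hx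
    have h4 : (D j).map ((s * r).1 : V →ₗ[F] V) = D l := map_eq_of_le _ (fun x hx => by
      rw [isom_mul_apply, r1 x (h.orth i j hji.symm hx)]; exact s2 x hx) (by rw [h.dim, h.dim])
    rw [← h4]
    rintro _ ⟨x, hx, rfl⟩
    exact hinv _ hg hst x (h1 hx)
  intro x hx
  have : x ∈ D i ⊔ Y := by
    have : iSup D ≤ D i ⊔ Y := iSup_le fun l => by
      by_cases hl : l = i
      · rw [hl]; exact le_sup_left
      · exact (h2 l hl).trans le_sup_right
    rw [h.top] at this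
    exact this trivial
  obtain ⟨a, ha, b, hb, rfl⟩ := Submodule.mem_sup.1 this
  rw [h.eq_zero' ha ((Submodule.add_mem_iff_left _ (hY hb)).1 hx), zero_add]
  exact hb

theorem odec_dichotomy (hS : S.Nondeg) (h3 : Iso3 S) {t k : ℕ} {D : Fin t → Submodule F V}
    (h : ODec S k D) (hk : 5 ≤ k) (heq : ∀ i j, Eqv (S.restrict (D i)) (S.restrict (D j)))
    (H : Subgroup S.Isom) (hH : ∀ g ∈ S.E, ODec.Perm D g → g ∈ H) :
    S.E ≤ H ∨ ∀ g ∈ H, ODec.Perm D g := by
  have h5 : ∀ i, 5 ≤ finrank F (D i) := fun i => by rw [h.dim]; exact hk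
  have hE : ∀ i, ∀ u ∈ D i, ∀ v ∈ D i, ∀ a, S.eich u v a ∈ H := fun i u hu v hv a =>
    hH _ (S.eich_mem_E u v a) (h.perm_eich hu hv a)
  have hn : 5 ≤ finrank F V := (h5 ⟨0, by have := h.two; omega⟩).trans (Submodule.finrank_le _)
  by_cases hE' : S.E ≤ H
  · exact Or.inl hE'
  have hB := fun i => (nd_dichotomy hS h3 (h.nondeg i) (h5 i) (hE i)
    (h.irr_perp hS h3 (by omega) hn heq hH i fun Y hY j hj y hy _ hyj =>
      sub_of_E_inv h3 (h.nondeg j) (h5 j) (H := H ⊓ S.stab (D i)) (fun u hu v hv a =>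
        ⟨hE j u hu v hv a, fix_le_stab _ fun x hx => eich_apply_of_perp_perp
          (h.orth j i hj hx u hu) (h.orth j i hj hx v hv)⟩)
        (fun g hg => hY g hg.1 hg.2) hy hyj)).resolve_left hE'
  refine Or.inr fun g hg i => ?_
  by_contra hc
  push Not at hc
  obtain ⟨x, hx, hx0⟩ := exists_ne_zero_of_finrank (D i) (by rw [h.dim]; exact h.pos)
  refine hx0 (by
    simpa using h.eq_zero hS (x := g.1 x) fun j => ((nd_side hS h3 (h.nondeg j) (h5 j) (hE j) (hB j)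
      (h.nondeg i) (h5 i) (hE i) hg).resolve_left fun h' => by
        obtain ⟨y, hy, hy'⟩ := hc j
        exact hy' (h' y hy)) x hx)

theorem ODec.exists_E_not_perm (hS : S.Nondeg) {t k : ℕ} {D : Fin t → Submodule F V}
    (h : ODec S k D) {i : Fin t} {e : V} (he : e ∈ D i) (he0 : e ≠ 0) (hs : S.Sing e) :
    ∃ g ∈ S.E, ¬ ODec.Perm D g := by
  obtain ⟨f, hf, H⟩ := exists_partner_mem (h.nondeg i) he he0 hs
  obtain ⟨j, hj⟩ : ∃ j, j ≠ i := by
    have : Nontrivial (Fin t) := Fin.nontrivial_iff_two_le.2 h.two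
    exact exists_ne i
  obtain ⟨v, hv, hv0⟩ := exists_ne_zero_of_finrank (D j) (by rw [h.dim]; exact h.pos)
  have hv' := h.orth i j hj.symm hv
  have hc : S.ECond e v (S.q v) := ECond.of_q H.sing_e (hv' e he)
  refine ⟨_, S.eich_mem_E e v (S.q v), fun hp => ?_⟩
  obtain ⟨l, hl⟩ := hp i
  have hm := hl f hf
  by_cases hli : l = i
  · subst hli
    rw [eich_apply hc, Submodule.sub_mem_iff_left _ (Submodule.smul_mem _ _ he),
      Submodule.add_mem_iff_right _ hf, H.h_ef, one_smul] at hm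
    exact hv0 (h.eq_zero' hm hv')
  · have := h.orth i l (Ne.symm hli) hm e he
    rw [eich_apply hc] at this
    simp [H.h_ef, H.h_ee, hv' e he] at this

section Mat
variable {ι : Type} [Fintype ι] [DecidableEq ι]

theorem isMaximalIn_odec {S : PForm P (ι → F)} (hS : S.Nondeg) {t k : ℕ}
    {D : Fin t → Submodule F (ι → F)} (hD : Cfsg.Geo.IsMDecomposition k D) (h : ODec S k D)
    (hs : ∃ g ∈ S.E, ¬ ODec.Perm D g)
    (hmain : ∀ H : Subgroup S.Isom, (∀ g ∈ S.E, ODec.Perm D g → g ∈ H) → H ≤ S.E →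
      S.E ≤ H ∨ ∀ g ∈ H, ODec.Perm D g) :
    Cfsg.Geo.IsMaximalIn (EGL S) (Cfsg.Geo.decompositionStabilizer D ⊓ EGL S) := by
  apply isMaximalIn_EGL
  · obtain ⟨g, hg, h⟩ := hs
    exact ⟨g, hg, fun hm => h (forall_of_mem_decStab hm)⟩
  · intro H h1 h2
    exact (hmain H (fun g hg hp => h1 ⟨mem_decStab_of_forall hD g hp, hg⟩) h2).imp id
      fun h g hg => mem_decStab_of_forall hD g (h g hg)

theorem odec_of (S : PForm P (ι → F)) {f : (ι → F) → (ι → F) → F} (hf : ∀ x y, f x y = 0 ↔ S.h x y = 0)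
    {t k : ℕ} {D : Fin t → Submodule F (ι → F)}
    (hD : Cfsg.Geo.IsNondegenerateMDecomposition f k D) : ODec S k D :=
  ⟨fun i => restrict_nondeg_of_on S (fun x y h h' => h ((hf x y).2 h')) (hD.nondegenerate i),
    fun i j hij y hy x hx => (hf x y).1 (hD.orthogonal i j hij x hx y hy), hD.decomp.iSup_eq_top,
    hD.decomp.finrank_eq, hD.decomp.pos, hD.decomp.two_le⟩

end Mat

end H29
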