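import Cfsg.Agent.H29.As9
import Cfsg.Agent.H29.Lin
import Cfsg.Agent.H29.ODec
import Cfsg.Agent.H29.Ar

/-! The structure `Big` for the symplectic, special unitary and orthogonal groups (`big_sp`,
`big_su`, `big_omega`), and the lists `sp_std`, `sp_max` for the standard symplectic groups. -/

set_option autoImplicit false
set_option linter.unusedSectionVars false

namespace H29

open Matrix Cfsg.Geo Module H11 H11.PForm
open scoped Kronecker commutatorElement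

variable {F : Type*} [Field F] {ι κ μ : Type} [Fintype ι] [DecidableEq ι] [Fintype κ]
  [DecidableEq κ] [Fintype μ] [DecidableEq μ] {σ : F →+* F} {H : Subgroup (GL ι F)}
  {G G' : Matrix ι ι F} {ε : F} {t : ℕ}

local notation "ρ" => RingHom.id _

theorem big_EGL [Finite F] {P : FParam σ} {S : PForm P (ι → F)} (hS : S.Nondeg) (hR : S.Rich 5)
    (hn : 3 ≤ Fintype.card ι) (hp : commutator S.E = ⊤) {d : ℕ}
    (hd : ∀ W : Submodule F (ι → F), d ≤ finrank F W → ∃ x ∈ W, x ≠ 0 ∧ S.Sing x)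
    (hs : ∀ A : Subring (Matrix ι ι F), (∀ g ∈ EGL S, (g : Matrix ι ι F) ∈ A) → ∀ c : F,
      ∃ a ∈ A, a ≠ 0 ∧ c • a ∈ A) : Big (EGL S) S.Sing d := by
  have hn' : 3 ≤ finrank F (ι → F) := by simpa
  have hR3 : S.Rich 3 := hR.mono (by omega)
  obtain ⟨e, -, he0, he⟩ := iso3_fin S ⊤ (by simpa)
  obtain ⟨f, hh⟩ := hS.exists_isHyp he he0
  have hI : Irr (EGL S) := fun W hW => or_iff_not_imp_left.2 fun h0 => by
    have h1 : ∀ g ∈ S.E, ∀ x ∈ W, g.1 x ∈ W := fun g hg x hx => by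
      simpa using hW _ ⟨g, hg, rfl⟩ x hx
    obtain ⟨w, hw, hw0⟩ := Submodule.exists_mem_ne_zero_of_ne_bot h0
    rcases hR with h2 | h2
    · obtain ⟨a, ha, ha0⟩ := (AddSubgroup.bot_or_exists_ne_zero _).resolve_left h2
      obtain ⟨u, hu, h3⟩ : ∃ u, S.Sing u ∧ S.h u w ≠ 0 := by
        by_contra! h3
        exact hw0 (hS.eq_zero' fun x => S.mem_perp_singleton.1 (span_sing_top hS (iso3_fin S) hn'
          (S.perp (F ∙ w)).toAddSubgroup (fun x hx => S.mem_perp_singleton.2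
            (S.h_swap_zero (h3 x hx))) x) |> S.h_swap_zero)
      have h4 : u ∈ W := by
        have := W.sub_mem hw (h1 _ (S.eich_mem_E u 0 a) w hw)
        rw [eich_apply ⟨hu, by simp, P.Λ.sub_mem ha S.q_zero⟩] at this
        simpa [W.smul_mem_iff (mul_ne_zero P.ε_ne_zero (mul_ne_zero ha0 h3))] using this
      refine Submodule.eq_top_iff'.2 (span_sing_top hS (iso3_fin S) hn' W.toAddSubgroup
        fun x hx => ?_)
      obtain rfl | hx0 := eq_or_ne x 0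
      · exact zero_mem _
      obtain ⟨g, hg, c, hc, e⟩ := hS.exists_E_move hR3 hu (by rintro rfl; simp at h3) hx hx0
      exact (W.smul_mem_iff hc).1 (e ▸ h1 g hg u h4)
    · exact top_le_iff.1 (sub_of_E_inv (iso3_fin S) (W := ⊤) ((eqv_restrict_top S).symm.nondeg hS)
        (by simpa using h2) (H := S.E) (fun u _ v _ a => S.eich_mem_E u v a) h1 hw
        (by rwa [hS.perp_top]))
  refine ⟨by omega, ?_, fun N h1 h2 => ?_, hI, fun b hb => ?_, fun x y hx hy h1 h2 => ?_, hd, hs⟩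
  · rw [EGL, ← Subgroup.map_commutator, ← Subgroup.map_subtype_commutator, hp,
      ← MonoidHom.range_eq_map, Subgroup.range_subtype]
  · refine (hh.normal_E_dichotomy hS hR3 (fun _ _ _ _ _ _ _ => hR) rfl hp
      ((N.comap (toGL S)).subgroupOf S.E) ⟨fun x hx g => by
        simpa [Subgroup.mem_subgroupOf] using h2 _ ⟨g, g.2, rfl⟩ _ hx⟩).imp (fun h3 x hx => ?_) ?_
    · obtain ⟨g, hg, rfl⟩ := h1 hx
      obtain ⟨c, hc⟩ := (hh.mem_center_iff_scalar hS hR3 le_rfl ⟨g, hg⟩).1 (h3 hx)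
      haveI : Nonempty ι := Fintype.card_pos_iff.1 (by omega)
      exact mem_scalars.2 ⟨c, ext_mulVec fun x => by simpa [smul_mulVec] using hc x⟩
    · rintro h3 _ ⟨g, hg, rfl⟩
      exact (Subgroup.eq_top_iff' _).1 h3 ⟨g, hg⟩
  · obtain ⟨c, hc⟩ := Submodule.mem_span_singleton.1 (eigen_of_commute hS hn' he (y := b *ᵥ e)
      (fun v _ => by
        rw [← toGL_mulVec, mulVec_mulVec, ← hb _ ⟨_, S.eich_mem_E _ _ _, rfl⟩, ← mulVec_mulVec,
          toGL_mulVec, eich_apply_self]) he0)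
    exact sc_of_eigen hI hb he0 hc.symm
  · obtain ⟨g, hg, c, hc, e⟩ := hS.exists_E_move hR3 h1 hx h2 hy
    exact ⟨_, ⟨g, hg, rfl⟩, c, hc, by simpa⟩

theorem sub_of_Λ {P : FParam σ} {S : PForm P (ι → F)} {e f : ι → F} (hh : S.IsHyp e f) {a : F}
    (ha : a ∈ P.Λ) (ha0 : a ≠ 0)
    (h : ∀ b : F, ∃ v, S.h e v = 0 ∧ S.h f v = 0 ∧ b - S.q v ∈ P.Λ) (A : Subring (Matrix ι ι F))
    (hA : ∀ g ∈ EGL S, (g : Matrix ι ι F) ∈ A) (c : F) : ∃ a ∈ A, a ≠ 0 ∧ c • a ∈ A := by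
  have h0 : S.ECond f 0 a := ⟨hh.sing_f, by simp, P.Λ.sub_mem ha S.q_zero⟩
  have h1 : ∀ b : F, ∃ M ∈ A, ∀ x, M *ᵥ x = (-(b * a ^ 2 * P.ε ^ 4) * S.h f x) • f := fun b => by
    obtain ⟨v, h1, h2, h3⟩ := h b
    have h4 := fun u v a => A.sub_mem (hA _ ⟨_, S.eich_mem_E u v a, rfl⟩) A.one_mem
    refine ⟨_, A.mul_mem (h4 f 0 a) (A.mul_mem (h4 e v b) (h4 f 0 a)), fun x => ?_⟩
    simp only [← mulVec_mulVec, sub_mulVec, toGL_mulVec, one_mulVec, eich_apply h0,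
      eich_apply (⟨hh.sing_e, h1, h3⟩ : S.ECond e v b)]
    simp only [smul_zero, add_zero, map_zero, LinearMap.zero_apply, zero_add, sub_sub_cancel_left,
      map_neg, map_smul, hh.h_ef, S.h_swap_zero h2, map_sub, map_add, h2, hh.h_fe, smul_eq_mul,
      hh.sing_f.h_self, ← neg_smul]
    congr 1
    ring
  obtain ⟨M, h2, h3⟩ := h1 1
  obtain ⟨M', h4, h5⟩ := h1 c
  refine ⟨M, h2, fun e0 => ?_, (ext_mulVec fun x => ?_ : M' = c • M) ▸ h4⟩
  · have := h3 e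
    simp [e0, hh.h_fe, ha0, P.ε_ne_zero, hh.f_ne] at this
  · rw [smul_mulVec, h3, h5, smul_smul]; ring_nf

theorem Big.congr {Ω : Subgroup (GL ι F)} {Sg Sg' : (ι → F) → Prop} {d : ℕ} (h : Big Ω Sg d)
    (e : ∀ x, Sg x ↔ Sg' x) : Big Ω Sg' d := (funext fun x => propext (e x) : Sg = Sg') ▸ h

theorem big_sp [Fintype F] (h : IsSymplecticForm (fm ρ G)) (hn : 4 ≤ Fintype.card ι)
    (hex : ¬ (Fintype.card ι = 4 ∧ Fintype.card F = 2)) : Big (Iso ρ G) (fun _ => True) 1 := by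
  let S := sympS (sesq ρ G) h.alternating
  have hS : S.Nondeg := fun x hx => by_contra fun h0 =>
    (h.nondegenerate x h0).1.elim fun y hy => hy (hx y)
  have h1 : Iso ρ G = EGL S := by
    rw [EGL, hS.symp_E_eq_top, ← MonoidHom.range_eq_map]
    ext g
    rw [mem_range_toGL]
    exact ⟨fun h => symp_isIsom fun x y => h y x, fun h x y => h.h_eq y x⟩
  obtain ⟨e, f, hh⟩ := hS.symp_exists_hyp (by simp; omega)
  refine h1 ▸ (big_EGL hS (symp_rich S 5) (by omega) ?_ (fun W hW => ?_) (sub_of_Λ hh (a := 1)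
    trivial one_ne_zero fun b => ⟨0, by simp, by simp, trivial⟩)).congr fun _ => Iff.rfl
  · rw [hS.symp_E_eq_top]
    refine commutator_eq_top_of_equiv Subgroup.topEquiv (hS.symp_commutator_eq_top ?_)
    obtain ⟨m, hm⟩ := even_of_symp h
    have := Fintype.one_lt_card (α := F)
    simp only [finrank_fintype_fun_eq_card]
    by_cases h6 : 6 ≤ Fintype.card ι
    · exact .inl h6
    · exact .inr (.inl ⟨hn, exists_ne_zero_ne_one (by rw [Nat.card_eq_fintype_card]; omega)⟩)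
  · obtain ⟨x, hx, h0⟩ := Submodule.exists_mem_ne_zero_of_ne_bot (p := W) (by
      rintro rfl
      simp at hW)
    exact ⟨x, hx, h0, trivial⟩

theorem big_su [Fintype F] (h : HF σ 1 G) (hne : σ ≠ ρ) (hn : 3 ≤ Fintype.card ι)
    (hex : ¬ (Fintype.card ι = 3 ∧ Fintype.card F = 4)) :
    Big (Iso σ G ⊓ specialLinear ι F) (fun v => fm σ G v v = 0) 2 := by
  let S := unitS h.σσ hne _ h.sesq_symm
  have hS : S.Nondeg := fun x hx => h.right hx
  obtain ⟨e, f, hh⟩ := hS.unit_exists_hyp hne (by simp; omega)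
  have h1 : Iso σ G ⊓ specialLinear ι F = EGL S := by
    rw [EGL, ← hh.unit_SIsom_eq_E hne hS]
    ext g
    refine ⟨fun h => ?_, ?_⟩
    · obtain ⟨k, rfl⟩ := (mem_range_toGL S g).2 (unit_isIsom fun x y => h.1 y x)
      exact ⟨k, (det_toGL S k).symm.trans h.2, rfl⟩
    · rintro ⟨k, hk, rfl⟩
      exact ⟨fun x y => ((mem_range_toGL S _).1 ⟨k, rfl⟩).h_eq y x, (det_toGL S k).trans hk⟩
  obtain ⟨q, hq, -⟩ := unit_field_facts h.σσ hne
  obtain ⟨a, ha0, ha⟩ := exists_mem_unit_Λ h.σσ hne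
  refine h1 ▸ (big_EGL hS (unit_rich hne S 5) hn ?_ (unit_exists_sing hne S) (sub_of_Λ hh ha ha0
    fun b => ?_)).congr fun v => unit_sing S v
  · refine hS.unit_commutator_eq_top hne (by simpa) rfl (hS.unit_T_eq_E hne hq ?_)
    rintro ⟨h2, rfl⟩
    exact hex ⟨by simpa using h2, by simpa using hq⟩
  · have := hh.finrank_perp
    obtain ⟨v, hv, h2⟩ := unit_exists_norm_mem hne (hS.restrict_perp hh.nondeg)
      (by simp at this; omega) (μ := b + σ b) (by rw [map_add, h.σσ, add_comm])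
    exact ⟨v, (S.mem_perp_pair.1 hv).1, (S.mem_perp_pair.1 hv).2, (unit_congr_iff S v b).2 h2⟩

theorem big_omega [Fintype F] {Q : (ι → F) → F} (h : IsNondegenerateQuadraticForm Q)
    (hn : 7 ≤ Fintype.card ι) : Big (omegaGL Q) (fun v => Q v = 0) 3 := by
  have hS := quadOf_nondeg h
  have h1 := omegaGL_eq _ hS hn
  rw [coe_quadOf] at h1
  refine h1 ▸ (big_EGL hS (.inr (by simp; omega)) (by omega) (hS.orth_E_perfect
    (hS.orth_hasTS (by simp; omega)) (by simp; omega) rfl) (iso3_fin _) fun A hA c => ?_).congr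
    fun v => orth_sing _ v
  obtain ⟨u, hu, -, h2⟩ := exists_sing_top hS (iso3_fin _) [] [] (by simp; omega)
  obtain ⟨v, hv, h3, h4⟩ := exists_sing_top hS (iso3_fin _) [u] [u] (by simp; omega)
  have h5 : ∀ c : F, (orthS (quadOf h)).ECond u (c • v) 0 := fun c =>
    ⟨hu, by rw [map_smul, h3 u (by simp), smul_zero], by simpa [Sing] using hv.smul c⟩
  have h6 := fun c : F => A.sub_mem (hA _ ⟨_, eich_mem_E _ u (c • v) 0, rfl⟩) A.one_mem
  refine ⟨_, h6 1, fun e => ?_, by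
    convert h6 c using 1
    refine ext_mulVec fun x => ?_
    simp only [smul_mulVec, sub_mulVec, toGL_mulVec, one_mulVec, eich_apply (h5 _), h_smul_left,
      RingHom.id_apply]
    module⟩
  obtain ⟨y, hy⟩ := hS.exists_h_eq_one (x := u) (by rintro rfl; simp at h2)
  have := congrArg (· *ᵥ y) e
  simp only [sub_mulVec, toGL_mulVec] at this
  rw [eich_apply (h5 1)] at this
  simp only [one_mulVec, hy, one_smul, zero_mulVec,
      add_sub_right_comm, sub_sub_cancel_left, neg_add_eq_zero] at this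
  exact h4 (by rw [list_set_one, ← this]; exact Submodule.smul_mem _ _ (by simp))

theorem HF.finrank_pp (h : HF σ ε G) (W : Submodule F (ι → F)) :
    finrank F W + finrank F (pp σ G W) = Fintype.card ι := by
  let b := Module.finBasis F W
  let φ : (ι → F) →ₗ[F] (Fin (finrank F W) → F) :=
    { toFun := fun x i => fm σ G x (b i)
      map_add' := fun x y => funext fun i => fm_add_left _ _ _
      map_smul' := fun c x => funext fun i => fm_smul_left _ _ _ }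
  have h1 : LinearMap.range φ = ⊤ := by
    by_contra h1
    obtain ⟨f, hf, h2⟩ := Submodule.exists_le_ker_of_lt_top _ (lt_top_iff_ne_top.2 h1)
    have h3 : ∑ i, σ (f (Pi.single i 1)) • b i = 0 := Subtype.ext (h.right fun y => by
      have h4 : ∀ s : Finset _, fm σ G y ↑(∑ i ∈ s, σ (f (Pi.single i 1)) • b i) =
          f (∑ i ∈ s, φ y i • Pi.single i 1) := fun s => by
        induction s using Finset.induction_on with
        | empty => simp
        | insert i s hi ih =>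
          rw [Finset.sum_insert hi, Finset.sum_insert hi, Submodule.coe_add, fm_add_right, ih,
            Submodule.coe_smul, fm_smul_right, h.σσ, map_add, map_smul, smul_eq_mul, mul_comm]
          rfl
      rw [h4, ← pi_eq_sum_univ']
      exact h2 ⟨y, rfl⟩)
    exact hf (LinearMap.pi_ext' fun i => LinearMap.ext_ring (by
      simpa using Fintype.linearIndependent_iff.1 b.linearIndependent _ h3 i))
  have h2 := φ.finrank_range_add_finrank_ker
  have h4 := Submodule.finrank_mono (show pp σ G W ≤ LinearMap.ker φ from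
    fun x hx => funext fun i => hx _ (b i).2)
  have := le_finrank_pp (σ := σ) (G := G) W
  rw [h1, finrank_top] at h2
  simp only [finrank_fintype_fun_eq_card, Fintype.card_fin] at h2
  omega

theorem field_dvd' [Nonempty ι] {r : ℕ} {K : Subalgebra F (Matrix ι ι F)}
    (h : IsFieldSubalgebra r K) {W : Submodule F (ι → F)} (hW : ∀ k ∈ K, ∀ x ∈ W, k *ᵥ x ∈ W) :
    r ∣ finrank F W := by
  letI := (isField_of h).toField
  let W' : Submodule K (ι → F) := { W.toAddSubmonoid with smul_mem' := fun k x hx => hW k k.2 x hx }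
  have := Module.finrank_mul_finrank F K W'
  rw [h.finrank_eq] at this
  exact ⟨_, this.symm⟩

theorem two_mul_dvd [Finite F] [Nonempty ι] {r : ℕ} {K : Subalgebra F (Matrix ι ι F)}
    (h : HF ρ ε G) (hK : IsFieldSubalgebra r K) (h1 : ∀ x ∈ K, adj ρ G x = x)
    (h2 : ∀ x ∈ K, ∀ v, fm ρ G (x *ᵥ v) v = 0) : 2 * r ∣ Fintype.card ι := by
  obtain ⟨W, ⟨h3, h4⟩, h5⟩ := (Set.toFinite {W : Submodule F (ι → F) |
    (∀ k ∈ K, ∀ x ∈ W, k *ᵥ x ∈ W) ∧ W ≤ pp ρ G W}).exists_maximal ⟨⊥, by simp⟩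
  have h6 : pp ρ G W ≤ W := fun v hv => by
    let U := W ⊔ K.toSubmodule.map (toLin'.toLinearMap.flip v)
    have hU : ∀ x, x ∈ U ↔ ∃ w ∈ W, ∃ k ∈ K, w + k *ᵥ v = x := fun x => by
      simp [U, Submodule.mem_sup]
    refine h5 (y := U) ⟨fun k hk x hx => ?_, fun x hx y hy => ?_⟩ le_sup_left
      ((hU v).2 ⟨0, W.zero_mem, 1, K.one_mem, by simp⟩)
    · obtain ⟨w, hw, k', hk', rfl⟩ := (hU x).1 hx
      exact (hU _).2 ⟨_, h3 k hk w hw, _, K.mul_mem hk hk', by rw [mulVec_add, mulVec_mulVec]⟩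
    · obtain ⟨w, hw, k, hk, rfl⟩ := (hU x).1 hx
      obtain ⟨w', hw', k', hk', rfl⟩ := (hU y).1 hy
      have h7 : ∀ k ∈ K, ∀ w ∈ W, fm ρ G (k *ᵥ v) w = 0 := fun k hk w hw => by
        rw [h.fm_adj, h1 k hk, hv _ (h3 k hk w hw)]
      rw [fm_add_left, fm_add_right, fm_add_right, h4 hw _ hw', h7 k hk _ hw',
        h.eq_zero_comm (h7 k' hk' _ hw), ← h1 k' hk', ← h.fm_adj, mulVec_mulVec,
        h2 _ (K.mul_mem hk' hk)]
      simp
  have := h.finrank_pp W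
  rw [le_antisymm h6 h4, ← two_mul] at this
  exact this ▸ Nat.mul_dvd_mul_left 2 (field_dvd' hK h3)

theorem selfAdj_iff (h : HF σ ε G) {K : Subalgebra F (Matrix ι ι F)} :
    IsSelfAdjointFor (fm σ G) K ↔ ∀ x ∈ K, adj σ G x = x :=
  ⟨fun h1 x hx => h.adj_eq (h1 x hx), fun h1 x hx u v => by rw [h.fm_adj, h1 x hx]⟩

theorem FldN.adjClosed {d : ℕ} {K : Subalgebra F (Matrix ι ι F)} (hK : FldN σ G H d K)
    (h : HF σ ε G) : IsAdjointClosedFor (fm σ G) K := fun x hx => ⟨_, hK.2.2 x hx, h.fm_adj x⟩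

theorem FldN.not_selfAdj [Nonempty ι] {d : ℕ} {K : Subalgebra F (Matrix ι ι F)}
    (hK : FldN σ G H d K) (h : HF σ ε G) (hd : 1 < d) (h1 : ∀ x ∈ K, adj σ G x = x → Sc x) :
    ¬ IsSelfAdjointFor (fm σ G) K := fun h2 => by
  have h3 : K ≤ ⊥ := fun x hx => by
    obtain ⟨c, rfl⟩ := h1 x hx ((selfAdj_iff h).1 h2 x hx)
    exact Subalgebra.smul_mem _ (one_mem _) c
  have := hK.1.finrank_eq
  rw [le_bot_iff.1 h3, Subalgebra.finrank_bot] at this
  omega

theorem ts_ne_top [Nonempty ι] (h : HF σ ε G) {W : Submodule F (ι → F)}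
    (hW : IsTotallySingularFor (fm σ G) W) : W ≠ ⊤ := by
  rintro rfl
  obtain ⟨x, hx⟩ := exists_ne (0 : ι → F)
  exact hx (h.left fun y => hW x trivial y trivial)

theorem nml_Iso {R : Subgroup (GL ι F)} (h : R ≤ Iso σ G) : Nml R (Iso σ G) := fun _ hg _ hx =>
  mul_mem (mul_mem (h hg) hx) (inv_mem (h hg))

theorem ne_top_of_lt {W : Submodule F (ι → F)} (h : finrank F W < Fintype.card ι) : W ≠ ⊤ := by
  rintro rfl
  simp at h

theorem wr_bound' {k t : ℕ} (hk : 2 ≤ k) (ht : 3 ≤ t) : 2 + t * (k - 1) + 1 ≤ k ^ t := by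
  obtain h | h : k = 2 ∨ 3 ≤ k := by omega
  · subst h
    obtain ⟨s, rfl⟩ := Nat.exists_eq_add_of_le' ht
    have := s.lt_two_pow_self
    rw [pow_add]
    omega
  · have := wr_bound h (show 2 ≤ t by omega)
    omega

variable [Fintype F]

theorem not_le_quadSim {Q : (ι → F) → F} (hQ : IsNondegenerateQuadraticForm Q)
    {Ω : Subgroup (GL ι F)} (hb : Big Ω (fun _ => True) 1) (hn : 3 ≤ Fintype.card ι) :
    ¬ Ω ≤ quadSimilarityGroup Q := fun h => by
  have hS := quadOf_nondeg hQ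
  obtain ⟨e, -, he0, he⟩ := iso3_fin (orthS (quadOf hQ)) ⊤ (by simpa)
  obtain ⟨f, hh⟩ := hS.exists_isHyp he he0
  have h1 : ∀ x, x ≠ 0 → Q x = 0 := fun x hx => by
    obtain ⟨g, hg, c, hc, h1⟩ := hb.trans e x he0 hx trivial trivial
    obtain ⟨d, h2⟩ := h hg
    have h3 := h2 e
    rw [h1, hQ.smul, show Q e = 0 from (orth_sing _ e).1 he, mul_zero] at h3
    simpa [hc] using h3
  obtain ⟨x, hx⟩ := (hQ.nondegenerate e he0).1
  have h0 : Q 0 = 0 := by simpa using hQ.smul 0 0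
  have h2 : ∀ x, Q x = 0 := fun x => by
    obtain rfl | hx := eq_or_ne x 0
    exacts [h0, h1 x hx]
  exact hx (by simp [QuadraticMap.polar, h2])

theorem symp_eq (m : ℕ) : Cfsg.sympForm m F = fm ρ (J (Fin m) F) := by
  funext u v
  rw [fm_eq]
  rfl

theorem spGL_iso (m : ℕ) : Cfsg.spGL m F = Iso ρ (J (Fin m) F) := by
  rw [Cfsg.spGL, symp_eq]
  rfl

theorem hf_J (m : ℕ) : HF ρ (-1) (J (Fin m) F) :=
  ⟨fun _ => rfl, (isUnit_iff_isUnit_det _).2 (isUnit_det_J _ _), by simp [J_transpose]⟩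

theorem alt_J (m : ℕ) (v : Fin m ⊕ Fin m → F) : fm ρ (J (Fin m) F) v v = 0 := by
  simp [fm_eq, J, fromBlocks_mulVec, dotProduct, mul_comm, neg_mulVec]

/-- the classes for the symplectic groups; `R X` is the conclusion about the overgroup `X` -/
def SpL (m : ℕ) (F : Type*) [Field F] [Fintype F]
    (R : Subgroup (GL (Fin m ⊕ Fin m) F) → Prop) : Prop :=
  let f := Cfsg.sympForm m F
  (∃ W, W ≠ ⊥ ∧ IsTotallySingularFor f W ∧ R (subspaceStabilizer W)) ∨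
  (∃ W, W ≠ ⊥ ∧ IsNondegenerateOn f W ∧ finrank F W < m ∧ R (subspaceStabilizer W)) ∨
  (∃ (t k : ℕ) (D : Fin t → Submodule F (Fin m ⊕ Fin m → F)), IsNondegenerateMDecomposition f k D ∧
    t * k = 2 * m ∧ 2 ≤ t ∧ Even k ∧ (k = 2 → 3 ≤ Fintype.card F) ∧
      R (decompositionStabilizer D)) ∨
  (Odd (Fintype.card F) ∧ ∃ D : Fin 2 → Submodule F (Fin m ⊕ Fin m → F), IsMDecomposition m D ∧
    (∀ i, IsTotallySingularFor f (D i)) ∧ R (decompositionStabilizer D)) ∨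
  (∃ (F₀ : Subfield F) (r : ℕ) (P : GL (Fin m ⊕ Fin m) F) (ζ : F), r.Prime ∧
    Fintype.card F = Nat.card F₀ ^ r ∧ ζ ≠ 0 ∧ IsFormRationalStructure f F₀ ζ P ∧
      R (subfieldSubgroup F₀ P)) ∨
  (∃ (k : ℕ) (E : Subgroup (GL (Fin m ⊕ Fin m) F)), 2 * m = 2 ^ k ∧ (Fintype.card F).Prime ∧
    Odd (Fintype.card F) ∧ IsSymplecticTypeGroup 2 E ∧ ActsAbsolutelyIrreducibly (matrixSet E) ∧
    E ≤ similarityGroup f ∧ Nat.card E = 2 ^ (1 + 2 * k) ∧ Nat.card (Subgroup.center E) = 2 ∧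
      IsOfMinusType k E ∧ R (subgroupNormalizer E)) ∨
  (¬ Odd (Fintype.card F) ∧ ∃ Q : (Fin m ⊕ Fin m → F) → F, IsNondegenerateQuadraticForm Q ∧
    (∀ u v, QuadraticMap.polar Q u v = f u v) ∧ R (quadSimilarityGroup Q)) ∨
  (∃ (r : ℕ) (K : Subalgebra F (Matrix (Fin m ⊕ Fin m) (Fin m ⊕ Fin m) F)), r.Prime ∧ r ∣ m ∧
    IsFieldSubalgebra r K ∧ IsSelfAdjointFor f K ∧ (∀ k ∈ K, ∀ v, f (k *ᵥ v) v = 0) ∧
      R (subalgebraNormalizer K)) ∨
  (Odd (Fintype.card F) ∧ ∃ K : Subalgebra F (Matrix (Fin m ⊕ Fin m) (Fin m ⊕ Fin m) F),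
    IsFieldSubalgebra 2 K ∧ IsAdjointClosedFor f K ∧ ¬ IsSelfAdjointFor f K ∧
      R (subalgebraNormalizer K)) ∨
  (Odd (Fintype.card F) ∧ ∃ (a b : ℕ) (e : (Fin m ⊕ Fin m) ≃ Fin a × Fin b)
    (P : GL (Fin m ⊕ Fin m) F) (f₁ : (Fin a → F) → (Fin a → F) → F)
    (f₂ : (Fin b → F) → (Fin b → F) → F), a * b = 2 * m ∧ 2 ≤ a ∧ Even a ∧ 3 ≤ b ∧
      (b = 3 → 5 ≤ Fintype.card F) ∧ IsSymplecticForm f₁ ∧ IsSymmetricForm f₂ ∧
      IsTensorFormStructure id f f₁ f₂ e P ∧ R (tensorProductSubgroup a b e P)) ∨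
  (Odd (Fintype.card F) ∧ ∃ (k t : ℕ) (e : (Fin m ⊕ Fin m) ≃ (Fin t → Fin k))
    (P : GL (Fin m ⊕ Fin m) F) (f₁ : (Fin k → F) → (Fin k → F) → F), k ^ t = 2 * m ∧ 2 ≤ k ∧
      Odd t ∧ 3 ≤ t ∧ (k = 2 → 5 ≤ Fintype.card F) ∧ IsSymplecticForm f₁ ∧
      IsTensorPowerFormStructure id f f₁ e P ∧ R (tensorWreathSubgroup k t e P))

theorem five_le (h : Odd (Fintype.card F)) (h3 : Fintype.card F ≠ 3) : 5 ≤ Fintype.card F := by
  have := Fintype.one_lt_card (α := F)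
  obtain ⟨k, hk⟩ := h
  omega

theorem SpC.spL {m : ℕ} (hm : 2 ≤ m) (hex : ¬ (m = 2 ∧ Fintype.card F = 2))
    {H : Subgroup (GL (Fin m ⊕ Fin m) F)} (h : SpC (J (Fin m) F) H) {R : _ → Prop}
    (hR : ∀ X, H ≤ X → ¬ Cfsg.spGL m F ≤ X → R X) : SpL m F R := by
  have hn : Fintype.card (Fin m ⊕ Fin m) = 2 * m := by simp [two_mul]
  have hJ := hf_J (F := F) m
  have hb := big_sp (hJ.symp (alt_J m)) (by omega) (by omega)
  haveI := hb.nonempty
  rw [spGL_iso] at hR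
  rw [SpL, symp_eq]
  rcases h with ⟨W, h1, h2, h3⟩ | ⟨W, h1, h2, h3, h4⟩ | ⟨t, k, D, h1, h2, h3, h4⟩ |
    ⟨ho, k, D, h1, h2, h3, -⟩ | ⟨F₀, r, P, c, h1, h2, h3, h4, h5⟩ | ⟨E, k, h1⟩ | ⟨ho, Q, h1⟩ |
    ⟨r, K, hr, h1, h2, h3⟩ | ⟨ho, K, h1, h2⟩ | ⟨ho, a, b, T, G₁, G₂, h1, h2, h3, h4, h5⟩ |
    ⟨ho, k, t, T, G₀, c, h1, h2, h3, h4, h5⟩
  · exact .inl ⟨W, h1, h2, hR _ h3 (hb.not_stab h1 (ts_ne_top hJ h2))⟩
  · exact .inr (.inl ⟨W, h1, h2, by omega, hR _ h4 (hb.not_stab h1 (ne_top_of_lt (by omega)))⟩)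
  · have := h1.decomp.two_le
    have := h1.decomp.pos
    exact .inr (.inr (.inl ⟨t, k, D, h1, hn ▸ mdec_card h1.decomp, by omega, h2, h3, hR _ h4
      (hb.not_dec' h1.decomp 1 (by omega) (by omega) (Nat.mul_pos (by omega) this)
        fun _ _ _ _ _ _ _ => trivial)⟩))
  · obtain rfl : k = m := by have := mdec_card h1; omega
    exact .inr (.inr (.inr (.inl ⟨ho, D, h1, h2, hR _ h3 (hb.not_dec' h1 1 (by omega) (by omega)
      (by omega) fun _ _ _ _ _ _ _ => trivial)⟩)))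
  · exact .inr (.inr (.inr (.inr (.inl ⟨F₀, r, P, c, h1, h2, h4, fm_rat (fun _ h => h) h5,
      hR _ h3 (hb.not_sub (ne_top_of_card h1 h2) P)⟩))))
  · exact .inr (.inr (.inr (.inr (.inr (.inl ⟨k, E, hn ▸ h1.dim, h1.prime, h1.odd, h1.st,
      absIrr_of_env h1.xs.top, h1.iso.trans Iso_le_Sim, h1.card, h1.cent, h1.minus hJ (alt_J m),
      hR _ (nml_iff.1 h1.nml) (hb.not_nml Nat.prime_two h1.st.pGroup (absIrr_of_env h1.xs.top)
        (nml_Iso h1.iso))⟩)))))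
  · iterate 6 right
    exact .inl ⟨ho, Q, h1.1, fun u v => by rw [h1.2.1], hR _
      (fun g hg => ⟨1, fun v => by simp [h1.2.2 g hg]⟩) (not_le_quadSim h1.1 hb (by omega))⟩
  · iterate 7 right
    exact .inl ⟨r, K, hr, Nat.dvd_of_mul_dvd_mul_left two_pos (hn ▸ two_mul_dvd hJ h1.1 h2 h3),
      h1.1, (selfAdj_iff hJ).2 h2, h3,
      hR _ (le_subalgebraNormalizer h1.2.1) (hb.not_field h1.1 hr.one_lt)⟩
  · iterate 8 right
    exact .inl ⟨ho, K, h1.1, h1.adjClosed hJ, h1.not_selfAdj hJ one_lt_two h2,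
      hR _ (le_subalgebraNormalizer h1.2.1) (hb.not_field h1.1 one_lt_two)⟩
  · iterate 9 right
    obtain ⟨e, P, rfl⟩ := exists_coordT T
    exact .inl ⟨ho, a, b, e, P, _, _, by simpa [hn] using (Fintype.card_congr e).symm, h1, h2, h3,
      fun e => five_le ho fun e' => h4 ⟨e', e⟩,
      h5.h1.symp (h5.h1.alt (two_ne_zero_of_odd ho)), h5.h2.symmetric, tensorForm h5.gram,
      hR _ h5.kr.le fun h => hb.not_kr (by omega) (by omega) (by nlinarith)
        fun g hg => kr_self e P g (h hg)⟩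
  · iterate 10 right
    obtain ⟨e, P, rfl⟩ := exists_coordT T
    exact ⟨ho, k, t, e, P, _, by simpa [hn] using (Fintype.card_congr e).symm, h1, h2, h3,
      fun e => five_le ho fun e' => h4 ⟨e', e⟩,
      h5.h0.symp (h5.h0.alt (two_ne_zero_of_odd ho)), tensorPowerForm h5.ne h5.gram,
      hR _ (h5.wr.le (by omega)) fun h => hb.not_wr (by omega) (by omega)
        (by have := wr_bound' h1 h3; omega) fun g hg => wr_self e P g (h hg)⟩

theorem sp_list {m : ℕ} (hm : 2 ≤ m) (hex : ¬ (m = 2 ∧ Fintype.card F = 2))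
    {H : Subgroup (GL (Fin m ⊕ Fin m) F)} (h : H ≤ Cfsg.spGL m F) {R : _ → Prop}
    (hR : ∀ X, H ≤ X → ¬ Cfsg.spGL m F ≤ X → R X) : SpL m F R ∨ InSymplecticResidualClass H :=
  (sp_cases (by simp; omega) (hf_J m) (alt_J m) (spGL_iso (F := F) m ▸ h)).imp_left
    fun h => h.spL hm hex hR

theorem sp_max {m : ℕ} (hm : 2 ≤ m) (hex : ¬ (m = 2 ∧ Fintype.card F = 2))
    {H : Subgroup (GL (Fin m ⊕ Fin m) F)} (h : IsMaximalIn (Cfsg.spGL m F) H) :
    SpL m F (fun X => H = X ⊓ Cfsg.spGL m F) ∨ InSymplecticResidualClass H :=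
  sp_list hm hex h.1.le fun _ => eq_of_max h

end H29
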