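import Mathlib

/-! The subgroup `derG G Ω` generated by the derangements: it is transitive (`der_trans`) and elements
outside it have exactly one fixed point (`fix_eq_one`). Burnside's lemma in `Nat.card` form over a
subgroup (`sum_fix`). -/

set_option autoImplicit false

namespace H29

open MulAction

section
variable (G Ω : Type*) [Group G] [MulAction G Ω]

/-- the subgroup generated by the derangements -/
abbrev derG : Subgroup G := Subgroup.closure {g : G | ∀ ω : Ω, g • ω ≠ ω}

variable {G} [Finite Ω]

open Classical in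
theorem sum_fix [Fintype G] (D : Subgroup G) :
    ∑ g ∈ Finset.univ.filter (· ∈ D), Nat.card (fixedBy Ω g) =
      Nat.card (orbitRel.Quotient D Ω) * Nat.card D := by
  haveI : Fintype (orbitRel.Quotient D Ω) := Fintype.ofFinite _
  haveI : ∀ a : D, Fintype (fixedBy Ω a) := fun a => Fintype.ofFinite _
  rw [Finset.sum_subtype (p := (· ∈ D)) (F := inferInstance) _ (by simp), Nat.card_eq_fintype_card,
    Nat.card_eq_fintype_card, ← sum_card_fixedBy_eq_card_orbits_mul_card_group]
  exact Finset.sum_congr rfl fun a _ => Nat.card_eq_fintype_card (α := fixedBy Ω a)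

theorem sum_fix_top [Fintype G] :
    ∑ g : G, Nat.card (fixedBy Ω g) = Nat.card (orbitRel.Quotient G Ω) * Nat.card G := by
  classical
  haveI : Fintype (orbitRel.Quotient G Ω) := Fintype.ofFinite _
  haveI : ∀ a : G, Fintype (fixedBy Ω a) := fun a => Fintype.ofFinite _
  rw [Nat.card_eq_fintype_card, Nat.card_eq_fintype_card, ← sum_card_fixedBy_eq_card_orbits_mul_card_group]
  exact Finset.sum_congr rfl fun a _ => Nat.card_eq_fintype_card (α := fixedBy Ω a)

variable {Ω}

open Classical in
theorem card_filter_not_mem [Fintype G] (D : Subgroup G) :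
    Nat.card D + (Finset.univ.filter (· ∉ D)).card = Nat.card G := by
  rw [Nat.card_eq_fintype_card, Nat.card_eq_fintype_card, Fintype.card_subtype,
    Finset.card_filter_add_card_filter_not, Finset.card_univ]

theorem der_main [Finite G] [IsPretransitive G Ω] :
    IsPretransitive (derG G Ω) Ω ∧ ∀ g : G, g ∉ derG G Ω → Nat.card (fixedBy Ω g) = 1 := by
  classical
  haveI := Fintype.ofFinite G
  rcases isEmpty_or_nonempty Ω with h | h
  · exact ⟨⟨fun x => isEmptyElim x⟩, fun g hg => absurd (Subgroup.subset_closure fun x => isEmptyElim x) hg⟩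
  have h1 := sum_fix_top (G := G) Ω
  have h0 : Nat.card (orbitRel.Quotient G Ω) = 1 := by
    haveI := (pretransitive_iff_subsingleton_quotient G Ω).1 inferInstance
    exact Nat.card_of_subsingleton (Quotient.mk _ (Classical.arbitrary Ω))
  rw [h0, one_mul, ← Finset.sum_filter_add_sum_filter_not _ (· ∈ derG G Ω), sum_fix] at h1
  have h2 : ∀ g ∈ Finset.univ.filter (· ∉ derG G Ω), 1 ≤ Nat.card (fixedBy Ω g) := fun g hg => by
    have h3 : ¬ ∀ ω : Ω, g • ω ≠ ω := fun h => (Finset.mem_filter.1 hg).2 (Subgroup.subset_closure h)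
    push Not at h3
    obtain ⟨ω, hω⟩ := h3
    haveI : Nonempty (fixedBy Ω g) := ⟨⟨ω, hω⟩⟩
    exact Nat.card_pos
  have h3 := Finset.sum_le_sum h2
  have h4 := card_filter_not_mem (derG G Ω)
  have h5 : 0 < Nat.card (derG G Ω) := Nat.card_pos
  haveI : Nonempty (orbitRel.Quotient (derG G Ω) Ω) := ⟨Quotient.mk _ (Classical.arbitrary Ω)⟩
  have h6 : 0 < Nat.card (orbitRel.Quotient (derG G Ω) Ω) := Nat.card_pos
  have h3' := h3
  rw [Finset.sum_const, smul_eq_mul, mul_one] at h3'
  have h7 : Nat.card (orbitRel.Quotient (derG G Ω) Ω) = 1 := by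
    by_contra hc
    have : 2 ≤ Nat.card (orbitRel.Quotient (derG G Ω) Ω) := by omega
    nlinarith
  refine ⟨(pretransitive_iff_subsingleton_quotient _ Ω).2 (Nat.card_eq_one_iff_unique.1 h7).1, fun g hg => ?_⟩
  rw [h7] at h1
  exact ((Finset.sum_eq_sum_iff_of_le h2).1 (by rw [Finset.sum_const, smul_eq_mul, mul_one]; omega) g
    (by simpa using hg)).symm

end

end H29
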