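import Cfsg.Agent.H29.RatL
import Cfsg.Agent.H29.Cv3

/-! Extension field structures: `K`-lines `KL K u` of a `K`-space viewed over a subfield `F`,
`Pres K H` (the group `H` of `F`-linear maps permutes the `K`-lines), the maximal intersection
lemma `exists_hyp`, lifting of functionals and forms along a functional `K → F`
(`exists_lift_dual`, `exists_lift_form`), the kernel of a spread (`kern`). -/

set_option autoImplicit false
set_option linter.unusedSectionVars false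

namespace H29

open Module H11 H11.PForm

variable {F K V : Type*} [Field F] [Field K] [Algebra F K] [AddCommGroup V] [Module F V]
  [Module K V] [IsScalarTower F K V]

variable (F K) in
/-- the `K`-line through `u` as an `F`-subspace -/
def KL (u : V) : Submodule F V :=
  LinearMap.range ((LinearMap.toSpanSingleton K V u).restrictScalars F)

theorem mem_KL {u x : V} : x ∈ KL F K u ↔ ∃ k : K, k • u = x := Iff.rfl

theorem smul_mem_KL (k : K) (u : V) : k • u ∈ KL F K u := ⟨k, rfl⟩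

theorem mem_KL' {u x : V} : x ∈ KL F K u ↔ x ∈ K ∙ u := Submodule.mem_span_singleton.symm

theorem finrank_KL {u : V} (hu : u ≠ 0) : finrank F (KL F K u) = finrank F K :=
  LinearMap.finrank_range_of_inj (smul_left_injective K hu)

variable (K) in
/-- all elements of `H` map `K`-lines into `K`-lines -/
def Pres (H : Subgroup (V ≃ₗ[F] V)) : Prop := ∀ h ∈ H, ∀ (u : V) (k : K), h (k • u) ∈ KL F K (h u)

theorem mem_range_of_mul (hr : (finrank F K).Prime) (D : Submodule F K) (h1 : (1 : K) ∈ D)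
    (h2 : D ≠ ⊤) {κ : K} (h : ∀ d ∈ D, κ * d ∈ D) : ∃ c : F, algebraMap F K c = κ := by
  let A : Subalgebra F K :=
    { carrier := {κ | ∀ d ∈ D, κ * d ∈ D}
      mul_mem' := fun ha hb d hd => by rw [mul_assoc]; exact ha _ (hb d hd)
      add_mem' := fun ha hb d hd => by rw [add_mul]; exact D.add_mem (ha d hd) (hb d hd)
      algebraMap_mem' := fun c d hd => by rw [← Algebra.smul_def]; exact D.smul_mem c hd }
  rcases (Subalgebra.isSimpleOrder_of_finrank_prime F K hr).eq_bot_or_eq_top A with e | e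
  · exact Algebra.mem_bot.1 (e ▸ (h : κ ∈ A))
  · exact absurd (Submodule.eq_top_iff'.2 fun x => by
      simpa using (e ▸ Algebra.mem_top : x ∈ A) 1 h1) h2

theorem exists_hyp [FiniteDimensional F V] (hr : (finrank F K).Prime) {H : Subgroup (V ≃ₗ[F] V)}
    (hn : ¬ Pres K H) : ∃ h ∈ H, ∃ u : V, u ≠ 0 ∧
      (∃ w ∈ (KL F K u).map (h : V →ₗ[F] V), w ∉ KL F K (h u)) ∧ ∀ γ : V →ₗ[F] V,
      (∀ x ∈ (KL F K u).map (h : V →ₗ[F] V), γ x ∈ KL F K (h u)) → (∀ x ∈ KL F K (h u), γ x = 0) →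
      (∀ l : K, ∃ g ∈ H, ∀ x ∈ (KL F K u).map (h : V →ₗ[F] V), g x = x + l • γ x) →
      ∀ w ∈ (KL F K u).map (h : V →ₗ[F] V), γ w ≠ 0 →
      ∀ x ∈ (KL F K u).map (h : V →ₗ[F] V), ∃ c : F, x - c • w ∈ KL F K (h u) := by
  classical
  let p : ℕ → Prop := fun d => ∃ h ∈ H, ∃ u : V, u ≠ 0 ∧
    (∃ w ∈ (KL F K u).map (h : V →ₗ[F] V), w ∉ KL F K (h u)) ∧
    finrank F ↥((KL F K u).map (h : V →ₗ[F] V) ⊓ KL F K (h u)) = d
  have hb : ∀ d, p d → d ≤ finrank F V := by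
    rintro _ ⟨h, -, u, -, -, rfl⟩
    exact Submodule.finrank_le _
  obtain ⟨d0, h0⟩ : ∃ d, p d := by
    simp only [Pres, not_forall] at hn
    obtain ⟨h, hh, u, k, h1⟩ := hn
    exact ⟨_, h, hh, u, by rintro rfl; simp at h1, ⟨_, ⟨_, smul_mem_KL k u, rfl⟩, h1⟩, rfl⟩
  obtain ⟨h, hh, u, hu, h1, h2⟩ := Nat.findGreatest_spec (hb _ h0) h0
  refine ⟨h, hh, u, hu, h1, fun γ g1 g2 g3 w hw g4 x hx => ?_⟩
  set W' := (KL F K u).map (h : V →ₗ[F] V)
  have hu' : h u ≠ 0 := by simpa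
  have hW : h u ∈ W' := ⟨u, ⟨1, one_smul _ _⟩, rfl⟩
  have h3 : ∀ (l : K), ∀ y ∈ W', y ∉ KL F K (h u) → l • γ y ∈ W' → ∀ z ∈ W', l • γ z ∈ W' := by
    intro l y hy hy' h4 z hz
    obtain ⟨g, hg, h5⟩ := g3 l
    have h6 : g (h u) = h u := by rw [h5 _ hW, g2 _ ⟨1, one_smul _ _⟩, smul_zero, add_zero]
    have h7 : (h⁻¹ * g * h) u = u := by simp [h6]
    by_contra h8
    have h9 : p (finrank F ↥((KL F K u).map
        ((h⁻¹ * g * h : V ≃ₗ[F] V) : V →ₗ[F] V) ⊓ KL F K u)) := by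
      refine ⟨_, H.mul_mem (H.mul_mem (H.inv_mem hh) hg) hh, u, hu, ?_, by rw [h7]⟩
      obtain ⟨t, hz', e⟩ := id hz
      refine ⟨_, ⟨t, hz', rfl⟩, fun h9 => h8 ?_⟩
      rw [h7] at h9
      have : g z ∈ W' := ⟨_, h9, by simp [← e]⟩
      rwa [h5 _ hz, W'.add_mem_iff_right hz] at this
    replace h9 := Nat.le_findGreatest (hb _ h9) h9
    rw [← h2, ← LinearEquiv.finrank_map_eq h] at h9
    have h10 : ∀ t ∈ W', g t ∈ W' → g t ∈ ((KL F K u).map ((h⁻¹ * g * h : V ≃ₗ[F] V) : V →ₗ[F] V) ⊓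
        KL F K u).map (h : V →ₗ[F] V) := by
      rintro _ ⟨t, ht, rfl⟩ ⟨s, hs, e⟩
      exact ⟨s, ⟨⟨t, ht, h.injective (by simpa using e.symm)⟩, hs⟩, e⟩
    refine h9.not_gt (Submodule.finrank_lt_finrank_of_lt (lt_of_le_not_ge (fun t ht => ?_) fun h11 => ?_))
    · have : g t = t := by rw [h5 t ht.1, g2 t ht.2, smul_zero, add_zero]
      exact this ▸ h10 t ht.1 (this.symm ▸ ht.1)
    · have := (h11 (h10 y hy (h5 y hy ▸ W'.add_mem hy h4))).2
      obtain ⟨a, ha⟩ := mem_KL.1 (g1 y hy)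
      rw [h5 y hy, ← ha, smul_smul] at this
      exact hy' ((Submodule.add_mem_iff_left _ (smul_mem_KL _ _)).1 this)
  obtain ⟨a, ha⟩ := mem_KL.1 (g1 w hw)
  obtain ⟨b, hb⟩ := mem_KL.1 (g1 x hx)
  have ha0 : a ≠ 0 := by rintro rfl; exact g4 (by rw [← ha, zero_smul])
  let D := W'.comap ((LinearMap.toSpanSingleton K V (h u)).restrictScalars F)
  have hD : ∀ k, k ∈ D ↔ k • h u ∈ W' := fun k => Iff.rfl
  have h4 : D ≠ ⊤ := fun e => by
    obtain ⟨y, hy, hy'⟩ := h1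
    refine hy' ((Submodule.eq_of_le_of_finrank_eq (S₁ := KL F K (h u)) (S₂ := W') ?_ ?_).symm ▸ hy)
    · rintro _ ⟨k, rfl⟩
      exact (hD k).1 (e ▸ trivial)
    · rw [finrank_KL hu', LinearEquiv.finrank_map_eq, finrank_KL hu]
  obtain ⟨c, hc⟩ := mem_range_of_mul hr D ((hD 1).2 (by rwa [one_smul])) h4 (κ := b / a) fun d hd => by
    have := h3 (d / a) w hw (fun e => g4 (g2 w e)) (by
      rwa [← ha, smul_smul, div_mul_cancel₀ _ ha0]) x hx
    rw [← hb, smul_smul] at this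
    rw [hD]
    convert this using 2
    ring
  refine ⟨c, by_contra fun h5 => h4 (Submodule.eq_top_iff'.2 fun k => ?_)⟩
  have := h3 (k / a) _ (W'.sub_mem hx (W'.smul_mem c hw)) h5 (by
    rw [map_sub, map_smul, ← ha, ← hb, ← algebraMap_smul K c, hc, smul_smul, div_mul_cancel₀ _ ha0,
      sub_self, smul_zero]
    exact W'.zero_mem) w hw
  rwa [← ha, smul_smul, div_mul_cancel₀ _ ha0] at this

theorem eq_of_eigen (A : V →+ V) {u w : V} {a b c : K} (hu : u ≠ 0) (hw : w ∉ K ∙ u)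
    (h1 : A u = a • u) (h2 : A w = b • w) (h3 : A (u + w) = c • (u + w)) : a = b := by
  rw [map_add, h1, h2] at h3
  have h4 : (c - b) • w = (a - c) • u := by linear_combination (norm := module) -h3
  have h5 : c - b = 0 := by_contra fun h => hw ((Submodule.smul_mem_iff _ h).1
    (h4 ▸ Submodule.smul_mem _ _ (Submodule.mem_span_singleton_self u)))
  rw [h5, zero_smul, eq_comm, smul_eq_zero_iff_left hu] at h4
  linear_combination h4 + h5

theorem kern (hn : ∀ u : V, ∃ w, w ∉ K ∙ u) (A : V →+ V) (hA : ∀ u, ∃ k : K, k • u = A u) :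
    ∃ k : K, ∀ x, A x = k • x := by
  obtain ⟨e, he⟩ := hn 0
  have he0 : e ≠ 0 := by rintro rfl; simp at he
  obtain ⟨w, hw⟩ := hn e
  obtain ⟨k, hk⟩ := hA e
  have h1 : ∀ x, x ∉ K ∙ e → A x = k • x := fun x hx => by
    obtain ⟨l, hl⟩ := hA x
    obtain ⟨c, hc⟩ := hA (e + x)
    rw [eq_of_eigen A he0 hx hk.symm hl.symm hc.symm, hl]
  refine ⟨k, fun x => by_contra fun h => ?_⟩
  have h2 : x ∈ K ∙ e := by_contra fun h2 => h (h1 x h2)
  have := h1 (x + w) (by rwa [Submodule.add_mem_iff_right _ h2])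
  rw [map_add, h1 w hw, smul_add, add_left_inj] at this
  exact h this

theorem Pres.semi (hn : ∀ u : V, ∃ w, w ∉ K ∙ u) {H : Subgroup (V ≃ₗ[F] V)} (h : Pres K H)
    {g : V ≃ₗ[F] V} (hg : g ∈ H) (k : K) : ∃ l : K, ∀ x, g (k • x) = l • g x := by
  obtain ⟨l, hl⟩ := kern hn ((g : V →+ V).comp ((DistribSMul.toAddMonoidHom V k).comp
    (g.symm : V →+ V))) fun u => by simpa using mem_KL.1 (h g hg (g.symm u) k)
  exact ⟨l, fun x => by simpa using hl (g x)⟩

variable {φ : Dual F K}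

theorem eq_zero_of_dual (hφ : φ ≠ 0) {a : K} (h : ∀ k, φ (k * a) = 0) : a = 0 :=
  by_contra fun ha => hφ (LinearMap.ext fun k => by simpa [ha] using h (k / a))

theorem eq_of_dual (hφ : φ ≠ 0) {a b : K} (h : ∀ k, φ (k * a) = φ (k * b)) : a = b :=
  sub_eq_zero.1 (eq_zero_of_dual hφ fun k => by rw [mul_sub, map_sub, h, sub_self])

variable [FiniteDimensional F K]

theorem exists_of_dual (hφ : φ ≠ 0) (θ : Dual F K) : ∃ a, ∀ k, φ (k * a) = θ k := by
  let L : K →ₗ[F] Dual F K := (LinearMap.mul F K).flip.compr₂ φ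
  obtain ⟨a, ha⟩ := (LinearMap.injective_iff_surjective_of_finrank_eq_finrank (f := L)
    Subspace.dual_finrank_eq.symm).1 (fun a b h => eq_of_dual hφ fun k => LinearMap.congr_fun h k) θ
  exact ⟨a, fun k => LinearMap.congr_fun ha k⟩

theorem exists_lift_dual (hφ : φ ≠ 0) (θ : Dual F V) : ∃ χ : Dual K V, ∀ x, φ (χ x) = θ x := by
  choose χ h using fun x : V =>
    exists_of_dual hφ (θ ∘ₗ (LinearMap.toSpanSingleton K V x).restrictScalars F)
  replace h : ∀ x k, φ (k * χ x) = θ (k • x) := h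
  exact ⟨⟨⟨χ, fun x y => eq_of_dual hφ fun k => by rw [mul_add, map_add, h, h, h, smul_add, map_add]⟩,
    fun c x => eq_of_dual hφ fun k => by simp only [RingHom.id_apply, smul_eq_mul, ← mul_assoc, h,
      smul_smul]⟩, fun x => by simpa using h x 1⟩

theorem exists_lift_form (hφ : φ ≠ 0) (f : V →ₗ[F] V →ₗ[F] F) (τ : K →+* K)
    (h : ∀ (k : K) x y, f (k • x) y = f x (τ k • y)) :
    ∃ B : V →ₛₗ[τ] V →ₗ[K] K, ∀ x y, φ (B x y) = f x y := by
  choose χ hχ using fun x => exists_lift_dual (K := K) hφ (f x)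
  have h1 : ∀ x y k, φ (k * χ x y) = f x (k • y) := fun x y k => by rw [← hχ, map_smul, smul_eq_mul]
  exact ⟨⟨⟨χ, fun x y => LinearMap.ext fun z => eq_of_dual hφ fun k => by simp [mul_add, h1]⟩,
    fun c x => LinearMap.ext fun z => eq_of_dual hφ fun k => by
      simp only [LinearMap.smul_apply, smul_eq_mul, ← mul_assoc, h1, h, smul_smul]
      rw [mul_comm]⟩, hχ⟩

end H29
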