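import Cfsg.Agent.H29.ExtS

/-! Overgroups of `SL(K)` in `GL(F)` for `K / F` of prime degree: a group containing the
`K`-transvections which does not permute the `K`-lines contains an `F`-transvection (`NT`,
`nt_of_not_pres`), and then all of them (`lfull_of_nt`). -/

set_option autoImplicit false
set_option linter.unusedSectionVars false

namespace H29

open Module H11

variable {F K V : Type*} [Field F] [Field K] [Algebra F K] [AddCommGroup V] [Module F V]
  [Module K V] [IsScalarTower F K V] {H : Subgroup (V ≃ₗ[F] V)}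

/-- `H` contains a non-trivial transvection -/
def NT (H : Subgroup (V ≃ₗ[F] V)) : Prop :=
  ∃ (φ : Dual F V) (u : V), φ ≠ 0 ∧ u ≠ 0 ∧ φ u = 0 ∧ HasTv H φ u

theorem nt_of {y : V ≃ₗ[F] V} (hy : y ∈ H) {u x : V} (h1 : y u = u) (h2 : ∀ x, y x - x ∈ F ∙ u)
    (h3 : y x ≠ x) : NT H := by
  have hu : u ≠ 0 := by rintro rfl; exact h3 (by simpa [sub_eq_zero] using h2 x)
  let φ : Dual F V := (LinearEquiv.toSpanNonzeroSingleton F V u hu).symm.toLinearMap ∘ₗ
    ((y : V →ₗ[F] V) - LinearMap.id).codRestrict _ h2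
  have h4 : ∀ x, y x = x + φ x • u := fun x => by
    have := congrArg Subtype.val ((LinearEquiv.toSpanNonzeroSingleton F V u hu).apply_symm_apply
      ⟨y x - x, h2 x⟩)
    exact (add_sub_cancel x (y x)).symm.trans (congrArg (x + ·) this.symm)
  exact ⟨φ, u, fun e => h3 (by simp [h4, e]), hu, by simpa [h1, hu] using h4 u, y, hy, h4⟩

theorem HasTv.comp {φ : Dual F V} {u : V} (h : HasTv H φ u) {g : V ≃ₗ[F] V} (hg : g ∈ H)
    (h1 : g u = u) {ψ : Dual F V} (h2 : ∀ x, φ (g x) = ψ x) : HasTv H ψ u := by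
  convert h.conj (H.inv_mem hg) using 1
  · exact LinearMap.ext fun x => (h2 x).symm
  · exact g.injective (by simp [h1])

theorem subring_top [Fintype F] [Finite K] (hr : 1 < finrank F K) (R : Subring K)
    (h : ∀ l : K, l ≠ 0 → l ^ (Fintype.card F - 1) ∈ R) : R = ⊤ := by
  classical
  haveI := Fintype.ofFinite K
  let E : Subfield K := { R with
    inv_mem' := fun a ha => by
      obtain rfl | h0 := eq_or_ne a 0
      · simpa using R.zero_mem
      have h1 := FiniteField.pow_card_sub_one_eq_one a h0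
      have h2 := Fintype.one_lt_card (α := K)
      rw [show Fintype.card K - 1 = Fintype.card K - 2 + 1 by omega, pow_succ] at h1
      exact (eq_inv_of_mul_eq_one_left h1) ▸ R.pow_mem ha _ }
  by_contra h1
  have h2 : 2 ≤ finrank E K := by
    by_contra! h2
    have h3 : finrank E K = 1 := by have := finrank_pos (R := E) (M := K); omega
    refine h1 (eq_top_iff.2 fun x _ => ?_)
    obtain ⟨c, hc⟩ := (finrank_eq_one_iff_of_nonzero' (1 : K) one_ne_zero).1 h3 x
    exact hc ▸ by simpa [Subfield.smul_def] using c.2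
  obtain ⟨z, hz⟩ := IsCyclic.exists_monoid_generator (α := Kˣ)
  have h3 := FiniteField.pow_card_sub_one_eq_one (⟨_, h z z.ne_zero⟩ : E)
    (fun e => pow_ne_zero _ z.ne_zero (congrArg Subtype.val e))
  have h4 : orderOf z ∣ (Fintype.card F - 1) * (Fintype.card E - 1) := orderOf_dvd_of_pow_eq_one
    (Units.ext (by simpa [pow_mul] using congrArg Subtype.val h3))
  rw [orderOf_eq_card_of_forall_mem_powers hz, Nat.card_units, Nat.card_eq_fintype_card] at h4
  have h5 := Fintype.one_lt_card (α := F)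
  have h6 := Fintype.one_lt_card (α := E)
  have h7 : Fintype.card F ^ 2 ≤ Fintype.card K :=
    Module.card_eq_pow_finrank (K := F) (V := K) ▸ Nat.pow_le_pow_right (by omega) hr
  have h8 : Fintype.card E ^ 2 ≤ Fintype.card K :=
    Module.card_eq_pow_finrank (K := E) (V := K) ▸ Nat.pow_le_pow_right (by omega) h2
  have h9 := Nat.le_of_dvd (Nat.mul_pos (by omega) (by omega)) h4
  generalize Fintype.card K = Q at *
  obtain ⟨a, ha⟩ : ∃ a, Fintype.card F = a + 1 := ⟨_, (Nat.sub_add_cancel h5.le).symm⟩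
  obtain ⟨b, hb⟩ : ∃ b, Fintype.card E = b + 1 := ⟨_, (Nat.sub_add_cancel h6.le).symm⟩
  rw [ha] at h5 h7 h9
  rw [hb] at h6 h8 h9
  simp only [add_tsub_cancel_right, tsub_le_iff_right] at h9
  rcases le_total a b with h | h <;> nlinarith

theorem lfull_of_nt [Fintype F] [Finite K] (hr : 1 < finrank F K) (hn : ∀ u : V, ∃ w, w ∉ K ∙ u)
    (hT : ∀ (χ : Dual K V) u, χ u = 0 → ∃ g ∈ H, ∀ x, g x = x + χ x • u)
    (hD : ∀ (χ : Dual K V) v (l : K), χ v = 1 → l ≠ 0 →
      ∃ g ∈ H, ∀ x, g x = x + ((l ^ (Fintype.card F - 1) - 1) * χ x) • v)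
    (h : NT H) (u : V) : LFull H u := by
  haveI : FiniteDimensional F K := finite_of_finrank_pos (by omega)
  obtain ⟨φ0, hφ0⟩ := Module.Projective.exists_dual_ne_zero F (one_ne_zero (α := K))
  replace hφ0 : φ0 ≠ 0 := by rintro rfl; simp at hφ0
  have lift : ∀ {φ : Dual F K}, φ ≠ 0 → ∀ (θ : Dual F V) (d : V), (∀ k : K, θ (k • d) = 0) →
      ∃ χ : Dual K V, χ d = 0 ∧ ∀ x, φ (χ x) = θ x := fun hφ θ d h => by
    obtain ⟨χ, hχ⟩ := exists_lift_dual hφ θ
    exact ⟨χ, eq_zero_of_dual hφ fun k => by rw [← smul_eq_mul, ← map_smul, hχ, h], hχ⟩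
  obtain ⟨φ, d, h1, h2, h3, h4⟩ := h
  let P : V → Prop := fun v => ∀ θ : Dual F V, (∀ k : K, θ (k • v) = 0) → HasTv H θ v
  have p1 : P d := fun θ hθ => by
    by_cases h5 : φ ∘ₗ (LinearMap.toSpanSingleton K V d).restrictScalars F = 0
    swap
    · obtain ⟨χ, h6, h7⟩ := lift h5 θ d hθ
      obtain ⟨g, hg, h8⟩ := hT χ d h6
      simpa using (h4.comp hg (by simp [h8, h6]) (ψ := φ + θ) fun x => by
        rw [h8, map_add, LinearMap.add_apply, ← h7]; rfl).sub h4 (by simpa [h3] using hθ 1) h3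
    obtain ⟨χ, h6, h7⟩ := lift hφ0 φ d fun k => LinearMap.congr_fun h5 k
    obtain ⟨χ', h8, h9⟩ := lift hφ0 θ d hθ
    obtain ⟨v, hv⟩ : ∃ v, χ v = 1 := LinearMap.surjective_iff_ne_zero.2 (by
      rintro rfl; exact h1 (LinearMap.ext fun x => by simp [← h7])) 1
    by_cases h10 : ∀ x, χ' x = χ' v * χ x
    swap
    · obtain ⟨v, h11, h12⟩ : ∃ v, χ v = 1 ∧ χ' v = 1 := by
        push Not at h10
        obtain ⟨x, hx⟩ := h10
        refine ⟨v + ((1 - χ' v) / (χ' x - χ' v * χ x)) • (x - χ x • v), by simp [hv], ?_⟩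
        rw [map_add, map_smul, map_sub, map_smul, smul_eq_mul, smul_eq_mul, mul_comm (χ x),
          div_mul_cancel₀ _ (sub_ne_zero.2 hx), add_sub_cancel]
      obtain ⟨g, hg, h13⟩ := hT (χ' - χ) v (by simp [h11, h12])
      exact h4.comp hg (by simp [h13, h6, h8]) fun x => by simp [← h7, ← h9, h13, h11]
    let f : K → Dual F V := fun a => φ0 ∘ₗ (a • χ).restrictScalars F
    have f0 : ∀ a, f a d = 0 := fun a => by simp [f, h6]
    let R : Subring K :=
      { carrier := {r | ∀ a, HasTv H (f a) d → HasTv H (f (a * r)) d}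
        mul_mem' := fun h1 h2 c hc => by rw [← mul_assoc]; exact h2 _ (h1 c hc)
        one_mem' := fun c hc => by rwa [mul_one]
        add_mem' := fun h1 h2 c hc => by
          convert (h1 c hc).add (h2 c hc) (f0 _) using 1
          ext x; simp [f, mul_add, add_mul]
        zero_mem' := fun c _ => by simpa [f] using hasTv_zero H d
        neg_mem' := fun h1 c hc => by
          convert (h1 c hc).neg (f0 _) using 1
          ext x; simp [f] }
    have hR : R = ⊤ := subring_top hr R fun l hl a ha => by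
      obtain ⟨g, hg, h11⟩ := hD χ v l hv hl
      refine ha.comp hg (by simp [h11, h6]) fun x => congrArg φ0 ?_
      simp [h11, hv]
      ring
    convert (hR ▸ Subring.mem_top _ : χ' v ∈ R) 1 (by convert h4; ext x; simp [f, h7]) using 1
    ext x
    simp [f, ← h9, ← h10]
  have p2 : ∀ u v, u ≠ 0 → v ∉ K ∙ u → P u → P v := fun u v hu hv h θ hθ => by
    obtain ⟨χ, h5, h6⟩ := exists_dual_of_notMem (K ∙ (v - u)) (u := u) (fun h => by
      obtain ⟨k, hk⟩ := Submodule.mem_span_singleton.1 h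
      have hk0 : k ≠ 0 := by rintro rfl; exact hu (by simpa using hk.symm)
      exact hv ((Submodule.smul_mem_iff _ hk0).1 (Submodule.mem_span_singleton.2
        ⟨1 + k, by linear_combination (norm := module) -hk⟩))) 1
    obtain ⟨g, hg, h7⟩ := hT χ _ (h5 _ (Submodule.mem_span_singleton_self _))
    convert (h (θ ∘ₗ (g : V →ₗ[F] V)) fun k => by simpa [h7, h6, smul_sub] using hθ k).conj hg using 1
    · ext x; simp
    · simp [h7, h6]
  have p3 : ∀ v, v ≠ 0 → P v := fun v hv => by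
    by_cases h5 : v ∈ K ∙ d
    · obtain ⟨w, hw⟩ := hn d
      refine p2 w v (by rintro rfl; simp at hw) (fun h => hw ?_) (p2 d w h2 hw p1)
      obtain ⟨k, rfl⟩ := Submodule.mem_span_singleton.1 h
      exact (Submodule.smul_mem_iff _ (by rintro rfl; simp at hv)).1 h5
    · exact p2 d v h2 h5 p1
  intro θ hθ
  obtain rfl | hu := eq_or_ne u 0
  · exact ⟨1, H.one_mem, by simp⟩
  obtain ⟨χ, hχ⟩ := exists_lift_dual hφ0 θ
  by_cases h5 : χ u = 0
  · exact p3 u hu θ fun k => by simp [← hχ, h5]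
  obtain ⟨v, h6, h7⟩ : ∃ v, χ v = 0 ∧ v ∉ K ∙ u := by
    obtain ⟨w, hw⟩ := hn u
    exact ⟨w - (χ w / χ u) • u, by simp [h5], by
      rwa [Submodule.sub_mem_iff_left _ (mem_KL'.1 (smul_mem_KL (F := F) _ u))]⟩
  have h8 := p3 v (by rintro rfl; simp at h7) θ fun k => by simp [← hχ, h6]
  obtain ⟨φ', h9, h10⟩ := exists_dual_of_notMem (KL F K u) (mt mem_KL'.1 h7) 1
  obtain ⟨t, ht, h11⟩ := p3 u hu φ' fun k => h9 _ (smul_mem_KL k u)
  have h12 := h8.conj ht
  rw [show θ ∘ₗ (t.symm : V →ₗ[F] V) = θ from LinearMap.ext fun x => by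
    obtain ⟨x, rfl⟩ := t.surjective x
    rw [LinearMap.comp_apply, LinearEquiv.coe_coe, t.symm_apply_apply]
    simp [h11 x, hθ], h11, h10, one_smul] at h12
  simpa using h12.sub_right h8 (by simp [← hχ, h6])

theorem nt_four (h2 : (2 : K) = 0) {u w : V} {ε : K} (hε : ε * ε = ε + 1) {π χ : Dual K V}
    (a1 : π u = 1) (a2 : π w = 0) (a3 : χ u = 0) (a4 : χ w = 1)
    (hV : ∀ T : Submodule F V, u ∈ T → ε • u ∈ T → w ∈ T → ε • w ∈ T → ∀ x, x ∈ T)
    (hT : ∀ (χ : Dual K V) u, χ u = 0 → ∃ g ∈ H, ∀ x, g x = x + χ x • u)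
    (hD : ∃ g ∈ H, ∀ x, g x = x + ((ε - 1) * χ x) • w) {t : V ≃ₗ[F] V} (ht : t ∈ H)
    (t1 : t u = u) (t2 : t w = w) (t3 : t (ε • u) = ε • u + w)
    (t4 : ∃ a b : K, (a = 0 ∨ a = 1) ∧ (b = 0 ∨ b = 1) ∧ t (ε • w) = ε • w + a • u + b • w) : NT H := by
  have h0 : ∀ x : V, x + x = 0 := fun x => by rw [← two_smul K, h2, zero_smul]
  have h1 : ∀ x y : V, x + (x + y) = y := fun x y => by rw [← add_assoc, h0, zero_add]
  have hw : w ≠ 0 := by rintro rfl; simp at a4
  have hu : u ≠ 0 := by rintro rfl; simp at a1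
  have key : ∀ y ∈ H, ∀ d x : V, y d = d → y x = x + d → d ≠ 0 → (y u = u ∨ y u = u + d) →
      (y (ε • u) = ε • u ∨ y (ε • u) = ε • u + d) → (y w = w ∨ y w = w + d) →
      (y (ε • w) = ε • w ∨ y (ε • w) = ε • w + d) → NT H := fun y hy d x b1 b2 b3 b4 b5 b6 b7 => by
    have : ∀ z, y z = z ∨ y z = z + d → z ∈ (F ∙ d).comap ((y : V →ₗ[F] V) - LinearMap.id) := by
      rintro z (h | h) <;> simp [h]
    exact nt_of hy b1 (hV _ (this _ b4) (this _ b5) (this _ b6) (this _ b7)) (x := x) (by simpa [b2])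
  obtain ⟨d, hd, d0⟩ := hD
  have d1 : d u = u := by simp [d0, a3]
  have d2 : d (ε • u) = ε • u := by simp [d0, a3]
  have d3 : d w = ε • w := by simp [d0, a4, sub_smul]
  have d4 : d (ε • w) = ε • w + w := by
    rw [d0, map_smul, a4]
    linear_combination (norm := module) hε • w
  obtain ⟨a, b, rfl | rfl, rfl | rfl, t4⟩ := t4 <;> simp only [zero_smul, one_smul, add_zero] at t4
  · exact key t ht w _ t2 t3 hw (.inl t1) (.inr t3) (.inl t2) (.inl t4)
  · exact key t ht w _ t2 t3 hw (.inl t1) (.inr t3) (.inl t2) (.inr t4)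
  · refine key _ (H.pow_mem (H.mul_mem ht hd) 3) u (ε • u) ?_ ?_ hu (.inl ?_) (.inr ?_) (.inl ?_)
      (.inl ?_) <;>
    simp only [pow_three, LinearEquiv.mul_apply, map_add, t1, t2, t3, t4, d1, d2, d3, d4, add_assoc,
      add_comm, add_left_comm, h0, h1, add_zero, zero_add]
  obtain ⟨s, hs, s0⟩ := hT (π + χ) (u + w) (by simp [a1, a2, a3, a4, one_add_one_eq_two, h2])
  have s1 : s u = w := by simp [s0, a1, a3, h1]
  have s2 : s (ε • u) = ε • w := by simp [s0, a1, a3, h1]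
  have s3 : s w = u := by simp [s0, a2, a4, h1, add_comm u]
  have s4 : s (ε • w) = ε • u := by simp [s0, a2, a4, h1, add_comm (ε • u)]
  refine key _ (H.pow_mem (H.mul_mem ht (H.mul_mem hs hd)) 3) (ε • u + ε • w) u ?_ ?_ (fun e => ?_)
    (.inr ?_) (.inl ?_) (.inr ?_) (.inl ?_)
  rotate_left 2
  · have := congrArg π e
    simp only [map_add, map_smul, a1, a2, smul_eq_mul, mul_one, mul_zero, add_zero, map_zero] at this
    simp [this] at hε
  all_goals simp only [pow_three, LinearEquiv.mul_apply, map_add, t1, t2, t3, t4, d1, d2, d3, d4, s1, s2,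
    s3, s4, add_assoc, add_comm, add_left_comm, h0, h1, add_zero, zero_add]

theorem nt_of_not_pres [Fintype F] [FiniteDimensional F V] (hr : (finrank F K).Prime)
    (hT : ∀ (χ : Dual K V) u, χ u = 0 → ∃ g ∈ H, ∀ x, g x = x + χ x • u)
    (hD : ∀ (χ : Dual K V) v (l : K), χ v = 1 → l ≠ 0 →
      ∃ g ∈ H, ∀ x, g x = x + ((l ^ (Fintype.card F - 1) - 1) * χ x) • v)
    (hn : ¬ Pres K H) : NT H := by
  haveI : FiniteDimensional K V := Module.Finite.of_restrictScalars_finite F K V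
  obtain ⟨h, hh, u', hu', ⟨w, hw, hw'⟩, hyp⟩ := exists_hyp hr hn
  set W' := (KL F K u').map (h : V →ₗ[F] V)
  set u := h u' with hu
  have hu0 : u ≠ 0 := by simpa [u]
  have huW : u ∈ W' := ⟨u', ⟨1, one_smul _ _⟩, rfl⟩
  obtain ⟨χ, χ1, χw⟩ := exists_dual_of_notMem (K ∙ u) (mt mem_KL'.2 hw') 1
  have χu := χ1 u (Submodule.mem_span_singleton_self u)
  have hg : ∀ l : K, ∃ g ∈ H, ∀ x, g x = x + (l * χ x) • u := fun l => hT (l • χ) u (by simp [χu])
  replace hyp := hyp ((χ.smulRight u).restrictScalars F) (fun x _ => smul_mem_KL _ _)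
    (by rintro _ ⟨k, rfl⟩; simp [χu]) (fun l => let ⟨g, h1, h2⟩ := hg l
      ⟨g, h1, fun x hx => by simp [h2 x, smul_smul]⟩) w hw (by simp [χw, hu0])
  have d1 : finrank F W' = finrank F (KL F K u) := by
    rw [finrank_KL hu0, LinearEquiv.finrank_map_eq, finrank_KL hu']
  obtain ⟨_, ⟨ε, rfl⟩, he⟩ := SetLike.not_le_iff_exists.1 fun h1 : KL F K u ≤ W' =>
    hw' ((Submodule.eq_of_le_of_finrank_eq h1 d1.symm).symm ▸ hw)
  replace he : ε • u ∉ W' := he
  obtain ⟨ν, ν0, ν1⟩ := exists_dual_of_notMem W' he 1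
  obtain ⟨μ, μ0, μ1⟩ := exists_dual_of_notMem _ hw' 1
  have μ2 : ∀ x ∈ W', χ x = algebraMap F K (μ x) := fun x hx => by
    obtain ⟨c, hc⟩ := hyp x hx
    have h1 := μ0 _ hc
    have h2 := χ1 _ (mem_KL'.1 hc)
    rw [map_sub, map_smul, μ1, smul_eq_mul, mul_one, sub_eq_zero] at h1
    rwa [map_sub, ← algebraMap_smul K, map_smul, χw, smul_eq_mul, mul_one, sub_eq_zero, ← h1] at h2
  have ν2 : ∀ k : K, k • u - ν (k • u) • ε • u ∈ W' := fun k => by
    have h1 : W' ⊓ KL F K u ⊔ F ∙ ε • u = KL F K u := by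
      refine Submodule.eq_of_le_of_finrank_le (sup_le inf_le_right
        ((Submodule.span_singleton_le_iff_mem _ _).2 (smul_mem_KL _ _))) ?_
      have h2 := Submodule.finrank_lt_finrank_of_lt (s := W' ⊓ KL F K u) (t := _ ⊔ F ∙ ε • u)
        (lt_of_le_not_ge le_sup_left fun h =>
          he (h (Submodule.mem_sup_right (Submodule.mem_span_singleton_self _))).1)
      have h3 := Submodule.finrank_mono (show W' ≤ W' ⊓ KL F K u ⊔ F ∙ w from fun x hx => by
        obtain ⟨c, hc⟩ := hyp x hx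
        exact sub_add_cancel x (c • w) ▸ Submodule.add_mem_sup ⟨W'.sub_mem hx (W'.smul_mem c hw), hc⟩
          (Submodule.smul_mem _ c (Submodule.mem_span_singleton_self w)))
      have h4 := Submodule.finrank_add_le_finrank_add_finrank (W' ⊓ KL F K u) (F ∙ w)
      have h5 := finrank_span_one_le (F := F) w
      omega
    obtain ⟨x, hx, _, hy, e⟩ := Submodule.mem_sup.1 (h1.symm ▸ smul_mem_KL k u)
    obtain ⟨c, rfl⟩ := Submodule.mem_span_singleton.1 hy
    simpa [← e, ν0 x hx.1, ν1] using hx.1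
  have hα : ∀ ψ : Dual K V, ψ u' = 0 → ∃ α : V →ₗ[F] V, (∀ x, α x = h (ψ (h.symm x) • u')) ∧
      (∀ x, α x ∈ W') ∧ (∀ x ∈ W', α x = 0) ∧ (∃ t ∈ H, ∀ x, t x = x + α x) ∧
      ∀ d : K, d • u ∈ W' → ∃ y ∈ H, ∀ x, y x = x + μ (α x) • d • u -
        ν ((d * χ x) • u) • (α (ε • u) + μ (α (ε • u)) • d • u) := fun ψ hψ => by
    obtain ⟨t, ht, h1⟩ := hT ψ u' hψ
    let α := (h : V →ₗ[F] V) ∘ₗ (ψ.smulRight u').restrictScalars F ∘ₗ (h.symm : V →ₗ[F] V)
    have a1 : ∀ x, α x ∈ W' := fun x => ⟨_, smul_mem_KL _ _, rfl⟩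
    have a2 : ∀ x ∈ W', α x = 0 := by rintro _ ⟨_, ⟨k, rfl⟩, rfl⟩; simp [α, hψ]
    have a3 : ∀ x, (h * t * h⁻¹) x = x + α x := fun x => by simp [h1, α]
    have a4 := H.mul_mem (H.mul_mem hh ht) (H.inv_mem hh)
    refine ⟨α, fun _ => rfl, a1, a2, ⟨_, a4, a3⟩, fun d hd => ?_⟩
    obtain ⟨g, h2, h3⟩ := hg d
    generalize h * t * h⁻¹ = t at a3 a4
    refine ⟨g * t * g⁻¹ * t⁻¹, H.mul_mem (H.mul_mem (H.mul_mem h2 a4) (H.inv_mem h2)) (H.inv_mem a4),
      fun x => ?_⟩
    have a5 : t⁻¹ x = x - α x := t.injective (by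
      rw [a3 (x - _), map_sub α, a2 _ (a1 x)]; simp)
    have a6 : ∀ x, g⁻¹ x = x - (d * χ x) • u := fun x => g.injective (by
      simp [h3 (x - _), χu, -map_sub]; simp [χu])
    have a7 : ∀ k : K, α (k • u) = ν (k • u) • α (ε • u) := fun k => by
      simpa [sub_eq_zero] using a2 _ (ν2 k)
    have a8 : ν ((d * χ (x - α x)) • u) = ν ((d * χ x) • u) := by
      rw [map_sub, μ2 _ (a1 x), mul_sub, sub_smul, map_sub, mul_comm d (algebraMap _ _ _), mul_smul _ d,
        algebraMap_smul, ν.map_smul (μ _), ν0 _ hd, smul_zero, sub_zero]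
    rw [LinearEquiv.mul_apply, LinearEquiv.mul_apply, LinearEquiv.mul_apply, a5, a6, a3, map_sub α, a7, a8,
      h3]
    simp only [map_sub, map_add, a2 _ (a1 x), map_smul, χu, μ2 _ (a1 _), ← algebraMap_smul K (ν _),
      ← algebraMap_smul K (μ _), smul_eq_mul, map_zero]
    module
  obtain ⟨_, ⟨k1, rfl⟩, hk1⟩ := id hw
  replace hk1 : h (k1 • u') = w := hk1
  have he' : h.symm (ε • u) ∉ K ∙ u' := fun h1 => he ⟨_, mem_KL'.2 h1, by simp⟩
  by_cases h1 : ∃ x, x ∉ Submodule.span K {u', h.symm (ε • u)}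
  · obtain ⟨x, hx⟩ := h1
    obtain ⟨ψ, h2, h3⟩ := exists_dual_of_notMem _ hx k1
    obtain ⟨α, a0, a1, a2, -, a3⟩ := hα ψ (h2 _ (Submodule.subset_span (by simp)))
    obtain ⟨y, hy, h4⟩ := a3 1 (by rwa [one_smul])
    have h5 : α (ε • u) = 0 := by rw [a0, h2 _ (Submodule.subset_span (by simp)), zero_smul, map_zero]
    refine ⟨μ ∘ₗ α, u, fun e => ?_, hu0, by simp [a2 _ huW], y, hy, fun x => by simp [h4, h5]⟩
    simpa [a0, h3, hk1, μ1] using LinearMap.congr_fun e (h x)
  obtain ⟨ψ, h2, h3⟩ := exists_dual_of_notMem _ he' k1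
  obtain ⟨α, a0, a1, a2, ⟨t, ht, a4⟩, a3⟩ := hα ψ (h2 _ (Submodule.mem_span_singleton_self _))
  have a5 : α (ε • u) = w := by rw [a0, h3, hk1]
  have a7 : ∀ k : K, α (k • u) = ν (k • u) • w := fun k => by
    simpa [sub_eq_zero, a5] using a2 _ (ν2 k)
  simp only [a5, μ1, one_smul] at a3
  obtain ⟨π, π1, π2⟩ := exists_dual_of_notMem (K ∙ w) (u := u) (fun h => by
    obtain ⟨k, hk⟩ := Submodule.mem_span_singleton.1 h
    have := congrArg χ hk
    simp only [map_smul, χw, χu, smul_eq_mul, mul_one] at this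
    exact hu0 (by rw [← hk, this, zero_smul])) 1
  replace π1 := π1 w (Submodule.mem_span_singleton_self w)
  have dec : ∀ x, x = π x • u + χ x • w := fun x => by
    have h4 := finrank_span_two_le (F := K) u' (h.symm (ε • u))
    push Not at h1
    rw [Submodule.eq_top_iff'.2 h1, finrank_top] at h4
    have h5 : Submodule.span K {u, w} = ⊤ := Submodule.eq_top_of_finrank_eq (le_antisymm
      (Submodule.finrank_le _) (h4.trans (by
        have := Submodule.finrank_lt_finrank_of_lt (s := K ∙ u) (t := Submodule.span K {u, w})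
          (lt_of_le_not_ge (Submodule.span_mono (by simp)) fun h =>
            hw' (mem_KL'.2 (h (Submodule.subset_span (by simp)))))
        rwa [finrank_span_singleton hu0] at this)))
    obtain ⟨a, b, rfl⟩ := Submodule.mem_span_pair.1 (h5 ▸ Submodule.mem_top : x ∈ _)
    simp [π1, π2, χu, χw]
  by_cases h4 : ∃ d : K, d ≠ 0 ∧ d ≠ 1 ∧ d • u ∈ W'
  · obtain ⟨d, d0, d1, d2⟩ := h4
    have key : ∀ d κ : K, d • u ∈ W' → ∃ m ∈ H, ∀ x, m x = x - (algebraMap F K (ν ((κ * χ x) • u)) * d +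
        algebraMap F K (ν ((d * χ x) • u)) * (algebraMap F K (ν (κ • u)) * d + κ)) • u := fun d κ hd => by
      obtain ⟨y, hy, h5⟩ := a3 d hd
      obtain ⟨g, h6, h7⟩ := hg κ
      refine ⟨g * y * g⁻¹ * y⁻¹, H.mul_mem (H.mul_mem (H.mul_mem h6 hy) (H.inv_mem h6)) (H.inv_mem hy),
        fun x => ?_⟩
      obtain ⟨x, rfl⟩ := y.surjective x
      have a6 : ∀ x, g⁻¹ x = x - (κ * χ x) • u := fun x => g.injective (by
        simp [h7 (x - _), χu, -map_sub]; simp [χu])
      have a8 : χ (y x) = χ x - algebraMap F K (ν ((d * χ x) • u)) := by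
        rw [h5, ← algebraMap_smul K (ν _), ← algebraMap_smul K (μ _)]
        simp [-algebraMap_smul, χu, χw]
      have a9 : ∀ (k : K) (c : F), ν ((k * (χ x - algebraMap F K c)) • u) =
          ν ((k * χ x) • u) - c * ν (k • u) := fun k c => by
        rw [mul_sub, sub_smul, map_sub, mul_comm k (algebraMap _ _ _), mul_smul _ k, algebraMap_smul,
          ν.map_smul c, smul_eq_mul]
      rw [LinearEquiv.mul_apply, LinearEquiv.mul_apply, LinearEquiv.mul_apply, a8, a9, a9, ν0 _ hd,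
        show y⁻¹ (y x) = x by simp, a6, h7, map_sub y, map_sub χ, a8, h5 (_ • u), a7, μ.map_smul, μ1,
        smul_eq_mul, mul_one, ← algebraMap_smul K (ν _) (d • u)]
      simp only [map_sub, map_add, map_smul, χu, map_mul, map_zero, smul_eq_mul, mul_zero, zero_smul]
      module
    obtain ⟨g, h5, h6, h7⟩ : ∃ g ∈ H, (∀ k : K, g (k • u) = (k * d⁻¹) • u) ∧
        ∀ x, χ (g x) = d * χ x := by
      obtain ⟨t1, b1, c1⟩ := hT π w π1
      obtain ⟨t2, b2, c2⟩ := hg (d⁻¹ - 1)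
      obtain ⟨t3, b3, c3⟩ := hT ((-d) • π) w (by simp [π1])
      refine ⟨t3 * t2 * t1, H.mul_mem (H.mul_mem b3 b2) b1, fun k => ?_, fun x => ?_⟩
      · simp only [LinearEquiv.mul_apply, c1, c2, c3, map_add, map_smul, π1, π2, χu, χw,
          LinearMap.smul_apply, smul_eq_mul]
        linear_combination (norm := module) (-k * mul_inv_cancel₀ d0) • w
      · simp only [LinearEquiv.mul_apply, c1, c2, c3, map_add, map_smul, π1, π2, χu, χw,
          LinearMap.smul_apply, smul_eq_mul]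
        linear_combination (-π x - χ x) * mul_inv_cancel₀ d0
    obtain ⟨m1, b1, c1⟩ := key 1 (ε / (1 - d)) (by rwa [one_smul])
    obtain ⟨m2, b2, c2⟩ := key d (ε / (1 - d) * d) d2
    have h8 : ν ((ε / (1 - d) * d) • u) = ν ((ε / (1 - d)) • u) - 1 := by
      rw [← ν1, ← map_sub, ← sub_smul]
      congr 2
      field_simp [sub_ne_zero.2 d1.symm]
      ring
    refine ⟨ν ∘ₗ (χ.smulRight u).restrictScalars F, u, fun e => ?_, hu0, by simp [χu],
      g * m2 * g⁻¹ * m1⁻¹, H.mul_mem (H.mul_mem (H.mul_mem h5 b2) (H.inv_mem h5)) (H.inv_mem b1),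
      fun x => ?_⟩
    · simpa [χw, ν1] using LinearMap.congr_fun e (ε • w)
    obtain ⟨x, rfl⟩ := m1.surjective x
    obtain ⟨x, rfl⟩ := g.surjective x
    rw [LinearEquiv.mul_apply, LinearEquiv.mul_apply, LinearEquiv.mul_apply,
      show m1⁻¹ (m1 (g x)) = g x by simp, show g⁻¹ (g x) = x by simp, c2, c1, map_sub, h6, h7, h8,
      LinearMap.comp_apply, ← algebraMap_smul K (ν _) u, mul_assoc (ε / (1 - d))]
    simp only [LinearMap.comp_apply, LinearMap.coe_restrictScalars, LinearMap.smulRight_apply, map_sub χ,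
      map_smul χ, χu, h7, one_mul, map_one, smul_zero, sub_zero, map_sub (algebraMap F K)]
    generalize algebraMap F K (ν ((d * χ x) • u)) = a
    generalize algebraMap F K (ν ((ε / (1 - d) * (d * χ x)) • u)) = b
    generalize algebraMap F K (ν ((ε / (1 - d)) • u)) = c
    linear_combination (norm := module) (-(b + a * (c - 1 + ε / (1 - d))) * mul_inv_cancel₀ d0) • u
  push Not at h4
  have h5 : ∀ d : K, d • u ∈ W' → d = 0 ∨ d = 1 := fun d hd => by_contra fun h => by
    rw [not_or] at h; exact h4 d h.1 h.2 hd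
  have h6 : ∀ c : F, algebraMap F K c = 0 ∨ algebraMap F K c = 1 := fun c =>
    h5 _ (by rw [algebraMap_smul]; exact W'.smul_mem c huW)
  have h7 : ∀ k : K, ∃ c : F, k - c • ε = 0 ∨ k - c • ε = 1 := fun k =>
    ⟨_, h5 _ (by rw [sub_smul, smul_assoc]; exact ν2 k)⟩
  have h8 : (2 : K) = 0 := (h6 2).elim (by rw [map_ofNat]; exact id) fun h => by
    rw [map_ofNat] at h; exact absurd (by linear_combination h) (one_ne_zero (α := K))
  have ε0 : ε ≠ 0 := by rintro rfl; simp at he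
  have ε1 : ε ≠ 1 := by rintro rfl; exact he (by simpa)
  have h9 : ε * ε = ε + 1 := by
    obtain ⟨c, hc⟩ := h7 (ε * ε)
    rw [Algebra.smul_def] at hc
    rcases h6 c with e | e <;> rw [e] at hc <;> rcases hc with hc | hc
    · simp [ε0] at hc
    · exact absurd (sub_eq_zero.1 (pow_eq_zero_iff two_ne_zero |>.1
        (show (ε - 1) ^ 2 = 0 by linear_combination hc + (1 - ε) * h8))) ε1
    · exact absurd (mul_left_cancel₀ ε0 (show ε * ε = ε * 1 by linear_combination hc)) ε1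
    · linear_combination hc
  have h10 : Fintype.card F = 2 := le_antisymm (by
    by_contra! h
    obtain ⟨c, c0, c1⟩ := exists_ne_zero_ne_one (F := F) (by rwa [Nat.card_eq_fintype_card])
    rcases h6 c with e | e
    exacts [c0 (by simpa using e), c1 ((algebraMap F K).injective (by simpa using e))])
    Fintype.one_lt_card
  refine nt_four h8 h9 π2 π1 χu χw (fun T b1 b2 b3 b4 x => ?_) hT (by simpa [h10] using hD χ w ε χw ε0)
    ht (by simp [a4, a2 _ huW]) (by simp [a4, a2 _ hw]) (by rw [a4, a5]) ?_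
  · have : ∀ v ∈ T, ε • v ∈ T → ∀ k : K, k • v ∈ T := fun v b1 b2 k => by
      obtain ⟨c, hc⟩ := h7 k
      rw [show k • v = (k - c • ε) • v + c • ε • v by rw [sub_smul, smul_assoc, sub_add_cancel]]
      rcases hc with e | e <;> rw [e] <;> simp [T.add_mem, T.smul_mem, b1, b2]
    exact dec x ▸ T.add_mem (this _ b1 b2 _) (this _ b3 b4 _)
  · obtain ⟨c, k, hk⟩ := hyp _ (a1 (ε • w))
    replace hk : k • u = α (ε • w) - c • w := hk
    exact ⟨k, _, h5 k (hk ▸ W'.sub_mem (a1 _) (W'.smul_mem c hw)), h6 c, by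
      rw [a4, hk, algebraMap_smul]; module⟩

end H29
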