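import Cfsg.Agent.H29.Ext

/-! Overgroups of `Sp(K)` in `Sp(F)` for `K / F` of prime degree (`symp_ext`), and the passage
from matrix subalgebras to the abstract setting (`nml_of_pres`, `mem_nml_of_comm`). -/

set_option autoImplicit false
set_option linter.unusedSectionVars false

namespace H29

open Module H11 H11.PForm

variable {F K V : Type*} [Field F] [Field K] [Algebra F K] [AddCommGroup V] [Module F V]
  [Module K V] [IsScalarTower F K V]

theorem mem_of_sq [Finite F] (A : AddSubgroup F) {a : F} (ha : a ≠ 0) (h : ∀ c, c * a * c ∈ A)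
    (b : F) : b ∈ A := by
  by_cases h2 : (2 : F) = 0
  · haveI : CharP F 2 := CharTwo.of_one_ne_zero_of_two_eq_zero one_ne_zero h2
    obtain ⟨c, hc⟩ := FiniteField.isSquare_of_char_two (ringChar.eq F 2) (b / a)
    convert h c using 1
    field_simp at hc
    linear_combination hc
  · convert A.sub_mem (h ((b / a + 1) / 2)) (h ((b / a - 1) / 2)) using 1
    field_simp
    ring

variable {S : PForm (sympP F) V}

/-- `H` contains no non-trivial transvection -/
def NoT (H : Subgroup S.Isom) : Prop := ∀ u a, u ≠ 0 → S.eich u 0 a ∈ H → a = 0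

theorem sec {u v : V} (h : S.h u v = 0) (a : F) : S.ECond u v a := ⟨trivial, h, trivial⟩

theorem seich_mul {H : Subgroup S.Isom} {u v w : V} {a b : F} (hv : S.h u v = 0) (hw : S.h u w = 0)
    (h1 : S.eich u v a ∈ H) (h2 : S.eich u w b ∈ H) : S.eich u (v + w) (a + b + S.h v w) ∈ H :=
  eich_mul (sec hv a) (sec hw b) ▸ H.mul_mem h1 h2

theorem seich_inv {H : Subgroup S.Isom} {u v : V} {a : F} (hv : S.h u v = 0)
    (h1 : S.eich u v a ∈ H) : S.eich u (-v) (-a) ∈ H := by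
  simpa [eich_inv (sec hv a)] using H.inv_mem h1

theorem eich_conj {σ : F →+* F} {P : FParam σ} {S : PForm P V} {H : Subgroup S.Isom} {u v : V} {a : F}
    (h1 : S.eich u v a ∈ H) {g : S.Isom} (hg : g ∈ H) : S.eich (g.1 u) (g.1 v) a ∈ H :=
  conj_eich g u v a ▸ H.mul_mem (H.mul_mem hg h1) (H.inv_mem hg)

theorem NoT.eq {H : Subgroup S.Isom} (h : NoT H) {u v : V} {a b : F} (hu : u ≠ 0)
    (hv : S.h u v = 0) (h1 : S.eich u v a ∈ H) (h2 : S.eich u v b ∈ H) : a = b := by
  have := seich_mul hv (by simp [hv]) h1 (seich_inv hv h2)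
  rw [add_neg_cancel] at this
  simpa [symp_h_self, add_neg_eq_zero] using h _ _ hu this

variable [Finite F] [FiniteDimensional F V]

theorem E_le_of_transv (hS : S.Nondeg) {H : Subgroup S.Isom}
    (h : ∀ u, u ≠ 0 → ∃ a, a ≠ 0 ∧ ∀ c : F, c ≠ 0 → S.eich (c • u) 0 a ∈ H) : S.E ≤ H := by
  refine le_top.trans (hS.symp_T_eq_top ▸ T_le_iff.2 fun u b _ hu _ => ?_)
  obtain ⟨a, ha, h⟩ := h u hu
  let A : AddSubgroup F :=
    { carrier := {b | S.eich u 0 b ∈ H}
      add_mem' := fun h1 h2 => by simpa using seich_mul (by simp) (by simp) h1 h2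
      zero_mem' := by simp [eich_zero]
      neg_mem' := fun h1 => by simpa using seich_inv (by simp) h1 }
  refine mem_of_sq A ha (fun c => ?_) b
  obtain rfl | hc := eq_or_ne c 0
  · simp
  · exact (transv_smul (S.symp_sing u) (AddSubgroup.mem_top a) c ▸ h c hc :)

theorem noT_of (hS : S.Nondeg) {H : Subgroup S.Isom} (h1 : ¬ S.E ≤ H)
    (h : ∀ u u', u ≠ 0 → u' ≠ 0 → ∃ g ∈ H, g.1 u = u') : NoT H := fun w a hw ha => by_contra fun h0 =>
  h1 (E_le_of_transv hS fun u hu => ⟨a, h0, fun c hc => by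
    obtain ⟨g, hg, e⟩ := h w _ hw (smul_ne_zero hc hu)
    simpa [e] using eich_conj ha hg⟩)

theorem symp_ext (hr : (finrank F K).Prime) {φ : Dual F K} (hφ : φ ≠ 0) (hS : S.Nondeg)
    (U : PForm (sympP K) V) (hU : ∀ x y, φ (U.h x y) = S.h x y) (H : Subgroup S.Isom)
    (hH : ∀ g : U.Isom, ∃ g' ∈ H, ∀ x, g'.1 x = g.1 x) (hq : 2 < Nat.card F ∨ 4 < finrank F V) :
    S.E ≤ H ∨ Pres K (H.map S.Isom.subtype) := by
  haveI : FiniteDimensional K V := Module.Finite.of_restrictScalars_finite F K V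
  haveI : FiniteDimensional F K := finite_of_finrank_pos hr.pos
  by_contra! hc
  have hU' : U.Nondeg := fun x hx => hS x fun y => by rw [← hU, hx, map_zero]
  have hv : ∀ u u', u ≠ 0 → u' ≠ 0 → ∃ g ∈ H, ∀ k : K, g.1 (k • u) = k • u' := fun u u' h h' => by
    obtain ⟨g, e⟩ := hU'.witt_vec h h' trivial
    obtain ⟨g', hg, e'⟩ := hH g
    exact ⟨g', hg, fun k => by rw [e', map_smul, e]⟩
  have hT := noT_of hS hc.1 fun u u' h h' =>
    let ⟨g, hg, e⟩ := hv u u' h h'; ⟨g, hg, by simpa using e 1⟩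
  obtain ⟨_, ⟨h, hh, rfl⟩, u', hu', ⟨w0, hw0, hw0'⟩, hyp⟩ := exists_hyp hr hc.2
  simp only [Subgroup.coe_subtype] at hw0 hw0' hyp
  set W' := (KL F K u').map (h.1 : V →ₗ[F] V)
  set u := h.1 u' with hu
  have hu0 : u ≠ 0 := by simpa [u]
  have huW : u ∈ W' := ⟨u', ⟨1, one_smul _ _⟩, rfl⟩
  have ti : ∀ x ∈ W', ∀ y ∈ W', S.h x y = 0 := by
    rintro _ ⟨_, ⟨k, rfl⟩, rfl⟩ _ ⟨_, ⟨l, rfl⟩, rfl⟩
    rw [LinearEquiv.coe_coe, isom_h, ← hU]
    simp [symp_h_self]
  obtain ⟨v, hvu, w, hw, hvw, hg⟩ : ∃ v, U.h v u = 0 ∧ ∃ w ∈ W', U.h v w ≠ 0 ∧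
      ∀ l : K, ∃ g ∈ H, ∀ x ∈ W', g.1 x = x + (l * U.h v x) • u := by
    by_cases h1 : ∃ w ∈ W', U.h u w ≠ 0
    · obtain ⟨w, hw, h1⟩ := h1
      refine ⟨u, U.symp_h_self u, w, hw, h1, fun l => ?_⟩
      obtain ⟨g, hg, e⟩ := hH (U.eich u 0 l)
      exact ⟨g, hg, fun x _ => by rw [e, symp_transv_apply]⟩
    · push Not at h1
      obtain ⟨v, h2, h3⟩ := hU'.exists_perp_of_notMem (mt mem_KL'.2 hw0') 1
      rw [mem_perp_singleton] at h2
      refine ⟨v, U.h_swap_zero h2, w0, hw0, by simp [h3], fun l => ?_⟩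
      obtain ⟨g, hg, e⟩ := hH (U.eich u (l • v) 0)
      exact ⟨g, hg, fun x hx => by
        rw [e, eich_apply_of_perp (sec (by simp [h2]) _) (h1 x hx)]; simp⟩
  have hwu : w ∉ K ∙ u := fun h1 => by
    obtain ⟨k, rfl⟩ := Submodule.mem_span_singleton.1 h1
    simp [hvu] at hvw
  replace hyp := hyp (((U.h v).smulRight u).restrictScalars F) (fun x _ => smul_mem_KL _ _)
    (by rintro _ ⟨k, rfl⟩; simp [hvu]) (fun l => let ⟨g, h1, h2⟩ := hg l
      ⟨_, ⟨g, h1, rfl⟩, fun x hx => by simp [h2 x hx, smul_smul]⟩) w hw (by simp [hvw, hu0])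
  obtain ⟨k0, hk0⟩ : ∃ k, φ k = 1 := LinearMap.surjective_iff_ne_zero.2 hφ 1
  have key : ∀ d : K, d • u ∈ W' → S.eich (d • u) w 1 ∈ H := fun d hd => by
    obtain ⟨g, h1, h2⟩ := hg (d / U.h v w)
    let z := (k0 / U.h v w) • v
    have h3 : ∀ x ∈ W', g.1 x = x + S.h z x • d • u := fun x hx => by
      obtain ⟨c, k, hk⟩ := hyp x hx
      have : U.h v x = algebraMap F K c * U.h v w := by
        have := congrArg (U.h v) hk
        simp only [LinearMap.coe_restrictScalars, LinearMap.toSpanSingleton_apply, map_smul, hvu,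
          smul_zero, map_sub, ← algebraMap_smul K c w, smul_eq_mul] at this
        linear_combination -this
      rw [h2 x hx, ← hU, h_smul_left, this, RingHom.id_apply, mul_left_comm, div_mul_cancel₀ _ hvw,
        mul_left_comm, div_mul_cancel₀ _ hvw, ← Algebra.smul_def, ← Algebra.smul_def, map_smul, hk0,
        smul_eq_mul, mul_one, smul_assoc]
    have h4 : S.h z w = 1 := by simp [z, ← hU, hvw, hk0]
    obtain ⟨_, ⟨k1, rfl⟩, rfl⟩ := id hw
    have h5 : U.h u' (h⁻¹.1 z) ≠ 0 := fun e => by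
      rw [LinearEquiv.coe_coe, isom_h_right, ← hU] at h4
      rw [LinearMap.coe_restrictScalars, LinearMap.toSpanSingleton_apply, map_smul, U.h_swap_zero e] at h4
      simp at h4
    obtain ⟨t, ht, e⟩ := hH (U.eich u' 0 (k1 / U.h u' (h⁻¹.1 z)))
    let α : V → V := fun x => h.1 ((k1 / U.h u' (h⁻¹.1 z) * U.h u' (h⁻¹.1 x)) • u')
    have a1 : ∀ x, α x ∈ W' := fun x => ⟨_, smul_mem_KL _ _, rfl⟩
    have a2 : ∀ x y, S.h (α x) y = S.h (α y) x := fun x y => by
      simp only [α, isom_h_left]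
      simp only [← hU, h_smul_left, RingHom.id_apply, mul_right_comm]
    have a3 : ∀ x, (h * t * h⁻¹).1 x = x + α x := fun x => by simp [e, symp_transv_apply, α]
    have a4 : α z = _ := congrArg h.1 (congrArg (· • u') (div_mul_cancel₀ _ h5))
    set w := (h.1 : V →ₗ[F] V) (((LinearMap.toSpanSingleton K V u').restrictScalars F) k1)
    replace a4 : α z = w := a4
    have a5 : ∀ x, α (g⁻¹.1 x) = α x - S.h (d • u) x • w := fun x => hS.ext_left fun y => by
      rw [a2, ← isom_h_left, h3 _ (a1 y), map_sub, LinearMap.sub_apply, a2 x, h_smul_left, ← a4, a2 z,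
        map_add, LinearMap.add_apply, h_smul_left, symp_symm S (α y) z]
      simp only [RingHom.id_apply]
      ring
    have a6 : g * (h * t * h⁻¹) * g⁻¹ = S.eich (d • u) (-w) (-1) * (h * t * h⁻¹) := by
      ext1 x
      rw [isom_mul_apply, isom_mul_apply, isom_mul_apply _ _ x, a3, a3, map_add, isom_apply_inv_self,
        h3 _ (a1 _), a5, eich_apply (sec (by simp [ti _ hd _ hw]) _)]
      simp only [map_add, map_sub, map_smul, h4, ti _ hd _ (a1 x), ti _ hw _ (a1 x), map_neg,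
        LinearMap.neg_apply, symp_symm S (α x) z, a2 x z, a4, sympP_ε]
      generalize d • u = y
      module
    have a7 := H.mul_mem (H.mul_mem hh ht) (H.inv_mem hh)
    have := H.mul_mem (H.mul_mem (H.mul_mem h1 a7) (H.inv_mem h1)) (H.inv_mem a7)
    rw [a6, mul_inv_cancel_right] at this
    simpa using seich_inv (by simp [ti _ hd _ hw]) this
  have mv : ∀ x x', x ∉ K ∙ u → x' ∉ K ∙ u → U.h u x' = U.h u x →
      ∃ g ∈ H, (∀ k : K, g.1 (k • u) = k • u) ∧ g.1 x = x' := fun x x' h1 h2 h3 => by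
    obtain ⟨g, h4, h5⟩ := hU'.witt_fix _ h1 h2 trivial fun y hy => by
      obtain ⟨k, rfl⟩ := Submodule.mem_span_singleton.1 hy
      simp [h3]
    obtain ⟨g', hg, e⟩ := hH g
    exact ⟨g', hg, fun k => by rw [e, h4 _ (mem_KL'.1 (smul_mem_KL (F := F) k u))], by rw [e, h5]⟩
  have h0 : ∀ x y, U.h x y = 0 → S.h x y = 0 := fun x y h => by rw [← hU, h, map_zero]
  have k1 := key 1 (by rwa [one_smul])
  rw [one_smul] at k1
  by_cases h1 : ∃ y, U.h u y = 0 ∧ y ∉ K ∙ u
  · obtain ⟨y, a, h1, h2, h3⟩ : ∃ y a, U.h u y = 0 ∧ y ∉ K ∙ u ∧ S.eich u y a ∈ H := by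
      by_cases h2 : U.h u w = 0
      · exact ⟨w, 1, h2, hwu, k1⟩
      obtain ⟨y, h1, h3⟩ := h1
      obtain ⟨g, hg, h4, h5⟩ := mv w (w + y) hwu (fun h => by
        obtain ⟨k, hk⟩ := Submodule.mem_span_singleton.1 h
        have := congrArg (U.h u) hk
        simp only [map_smul, symp_h_self, map_add, h1, smul_zero, add_zero] at this
        exact h2 this.symm) (by simp [h1])
      have h6 := eich_conj k1 hg
      rw [h5, ← one_smul K u, h4, one_smul] at h6
      have := seich_mul (by simp [ti _ huW _ hw]) (by simp [ti _ huW _ hw, h0 _ _ h1])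
        (seich_inv (ti _ huW _ hw) k1) h6
      rw [neg_add_cancel_left] at this
      exact ⟨y, _, h1, h3, this⟩
    have h4 : ∀ x, U.h u x = 0 → U.h y x ≠ 0 → S.eich u x a ∈ H := fun x hx hx' => by
      obtain ⟨g, hg, h4, h5⟩ := mv y x h2 (fun h => by
        obtain ⟨k, rfl⟩ := Submodule.mem_span_singleton.1 h
        simp [U.h_swap_zero h1] at hx') (by rw [h1, hx])
      have h6 := eich_conj h3 hg
      rwa [h5, ← one_smul K u, h4, one_smul] at h6
    have h5 : ∀ k, k ≠ 0 → a + φ k = 0 := fun k hk => by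
      obtain ⟨x, h5, h6⟩ := hU'.exists_perp_of_notMem' h2 k
      rw [mem_perp_singleton] at h5
      have := hT.eq hu0 (by simp [h0 _ _ h1, h0 _ _ h5])
        (seich_mul (h0 _ _ h1) (h0 _ _ h5) h3 (h4 x h5 (h6 ▸ hk)))
        (h4 _ (by simp [h1, h5]) (by simpa [symp_h_self, h6]))
      rw [← hU, h6] at this
      linear_combination this
    obtain ⟨k, hk, hk'⟩ := Submodule.exists_mem_ne_zero_of_ne_bot (LinearMap.ker_ne_bot_of_finrank_lt
      (f := φ) (by simpa using hr.one_lt))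
    have h6 := h5 k hk'
    have h7 := h5 k0 (by rintro rfl; simp at hk0)
    rw [hk, add_zero] at h6
    simp [h6, hk0] at h7
  push Not at h1
  have h2 : U.h w u ≠ 0 := fun e => hwu (h1 w (U.h_swap_zero e))
  have h3 : ∀ d : K, d ≠ 0 → d • u ∈ W' → ∀ k : K,
      S.eich u ((k * d⁻¹) • u) (-S.h w (k • u)) ∈ H := fun d hd hd' k => by
    obtain ⟨g, hg, h4, h5⟩ := mv w (w + k • u) hwu
      (by rwa [Submodule.add_mem_iff_left _ (mem_KL'.1 (smul_mem_KL (F := F) k u))])
      (by simp [symp_h_self])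
    have h6 := eich_conj (key d hd') hg
    rw [h5, h4] at h6
    have h7 := seich_mul (by simp [ti _ hd' _ hw]) (by
      rw [map_add, ti _ hd' _ hw, zero_add]; exact h0 _ _ (by simp [symp_h_self]))
      (seich_inv (ti _ hd' _ hw) (key d hd')) h6
    obtain ⟨g, hg, h8⟩ := hv u (d⁻¹ • u) hu0 (smul_ne_zero (inv_ne_zero hd) hu0)
    simpa [h8, smul_smul, hd, symp_h_self] using eich_conj h7 hg
  have h4 : ∀ d : K, d ≠ 0 → d • u ∈ W' → d = 1 := fun d hd hd' => by
    refine inv_eq_one.1 (mul_right_cancel₀ h2 (eq_of_dual hφ fun k => ?_))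
    have := hT.eq hu0 (h0 _ _ (by simp [symp_h_self])) (h3 d hd hd' k)
      (by simpa using h3 1 one_ne_zero (by rwa [one_smul]) (k * d⁻¹))
    simpa [← hU, mul_assoc, eq_comm] using this
  rcases hq with hq | hq
  · obtain ⟨c, h5, h6⟩ := exists_ne_zero_ne_one (F := F) hq
    exact h6 ((algebraMap F K).injective ((h4 _ (by simpa) (by
      rw [algebraMap_smul]; exact W'.smul_mem c huW)).trans (map_one _).symm))
  have h5 := hU'.finrank_perp (K ∙ u)
  have h6 := Submodule.finrank_mono (show U.perp (K ∙ u) ≤ K ∙ u from fun x hx =>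
    h1 x (U.mem_perp_singleton.1 hx))
  have h7 := Submodule.finrank_mono (show W' ≤ Submodule.span F {w, u} from fun x hx => by
    obtain ⟨c, k, hk⟩ := hyp x hx
    replace hk : k • u = x - c • w := hk
    refine Submodule.mem_span_pair.2 ?_
    obtain rfl | hk0 := eq_or_ne k 0
    · exact ⟨c, 0, by linear_combination (norm := module) hk⟩
    · rw [h4 k hk0 (hk ▸ W'.sub_mem hx (W'.smul_mem c hw))] at hk
      exact ⟨c, 1, by linear_combination (norm := module) hk⟩)
  have h8 := finrank_span_two_le (F := F) w u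
  rw [LinearEquiv.finrank_map_eq, finrank_KL hu'] at h7
  rw [finrank_span_singleton hu0] at h5 h6
  rw [← Module.finrank_mul_finrank F K V] at hq
  nlinarith

open Matrix Cfsg.Geo

variable {ι : Type} [Fintype ι] [DecidableEq ι] {A : Subalgebra F (Matrix ι ι F)}

theorem mem_nml_of_comm {g : GL ι F} (h : ∀ (k : A) (x : ι → F), g.1 *ᵥ (k • x) = k • g.1 *ᵥ x) :
    g ∈ subalgebraNormalizer A := by
  have h1 : ∀ k ∈ A, cjA g k = k := fun k hk => cjA_eq_iff.2 (Matrix.ext_iff_smul.2 fun x => by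
    rw [mul_smul, mul_smul]; exact h ⟨k, hk⟩ x)
  exact fun k => ⟨fun hk => show cjA g k ∈ A by rwa [h1 k hk], fun hk => by
    rw [← (cjA g).injective (h1 _ hk)]; exact hk⟩

theorem le_nml {L : Subgroup (GL ι F)}
    (h : ∀ g ∈ L, ∀ k : A, ∃ l : A, ∀ x : ι → F, g.1 *ᵥ (k • x) = l • g.1 *ᵥ x) :
    L ≤ subalgebraNormalizer A := le_subalgebraNormalizer fun g hg k hk => by
  obtain ⟨l, hl⟩ := h g hg ⟨k, hk⟩
  rw [cjA_eq_iff.2 (show _ = l.1 * _ from Matrix.ext_iff_smul.2 fun x => by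
    rw [mul_smul, mul_smul]; exact hl x)]
  exact l.2

theorem isMaximalIn_of_not_le {σ : F →+* F} {P : FParam σ} (S : PForm P (ι → F)) {M : Subgroup (GL ι F)}
    (hne : ¬ EGL S ≤ M) (h : ∀ H : Subgroup S.Isom, (∀ g ∈ S.E, toGL S g ∈ M → g ∈ H) →
      S.E ≤ H ∨ H.map (toGL S) ≤ M) : IsMaximalIn (EGL S) (M ⊓ EGL S) :=
  isMaximalIn_EGL S M (by simpa [EGL, Subgroup.map_le_iff_le_comap, SetLike.le_def] using hne)
    fun H h1 _ => (h H fun _ hg hg' => h1 ⟨hg', hg⟩).imp_right Subgroup.map_le_iff_le_comap.1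

theorem exists_notMem_line {K V : Type*} [Field K] [AddCommGroup V] [Module K V]
    (h : 1 < finrank K V) (u : V) : ∃ w, w ∉ K ∙ u := exists_notMem_of_ne_top fun e => by
  have := finrank_span_one_le (F := K) u
  rw [e, finrank_top] at this
  omega

theorem sp_fld_max {F : Type*} [Field F] [Fintype F] {m r : ℕ} (hm : 2 ≤ m)
    (hq : ¬ (m = 2 ∧ Fintype.card F = 2)) (hr : r.Prime)
    {K : Subalgebra F (Matrix (Fin m ⊕ Fin m) (Fin m ⊕ Fin m) F)} (hK : IsFieldSubalgebra r K)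
    (hsa : IsSelfAdjointFor (Cfsg.sympForm m F) K)
    (halt : ∀ k ∈ K, ∀ v, Cfsg.sympForm m F (k *ᵥ v) v = 0) :
    IsMaximalIn (Cfsg.spGL m F) (subalgebraNormalizer K ⊓ Cfsg.spGL m F) := by
  have hb := big_sp ((hf_J (F := F) m).symp (alt_J m)) (by simp; omega) (by simp; omega)
  haveI := hb.nonempty
  have h1 := hb.not_field hK hr.one_lt
  rw [← spGL_iso] at h1
  rw [spGL_eq] at h1 ⊢
  letI := (isField_of hK).toField
  obtain ⟨φ, hφ⟩ := Module.Projective.exists_dual_ne_zero F (one_ne_zero (α := K))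
  replace hφ : φ ≠ 0 := by rintro rfl; simp at hφ
  have hS := stdSymp_nondeg (F := F) m
  obtain ⟨B, hB⟩ := exists_lift_form hφ (stdSymp m F).h (RingHom.id K) fun k x y => by
    rw [stdSymp_h, stdSymp_h]; exact hsa k k.2 x y
  have hA : LinearMap.IsAlt B := fun x => eq_zero_of_dual hφ fun k => by
    rw [← smul_eq_mul, ← map_smul, hB, symp_symm, stdSymp_h, neg_eq_zero]; exact halt k k.2 x
  refine isMaximalIn_of_not_le _ h1 fun H hH => (symp_ext (hK.finrank_eq ▸ hr) hφ hS (sympS B hA) hB H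
    (fun g => ⟨⟨g.1.restrictScalars F, symp_isIsom fun x y => ?_⟩, hH _ (hS.symp_E_eq_top ▸ Subgroup.mem_top _)
      (mem_nml_of_comm fun k x => ?_), fun _ => rfl⟩) ?_).imp_right fun h => le_nml ?_
  · rw [← hB, ← hB]; exact congrArg φ (isom_h g x y)
  · rw [toGL_mulVec, toGL_mulVec]; exact map_smul g.1 k x
  · have := Fintype.one_lt_card (α := F)
    simp only [Nat.card_eq_fintype_card, finrank_fintype_fun_eq_card, Fintype.card_sum, Fintype.card_fin]
    omega
  · rintro _ ⟨g, hg, rfl⟩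
    simp only [toGL_mulVec]
    refine h.semi (fun u => by_contra fun h2 => ?_) ⟨g, hg, rfl⟩
    push Not at h2
    obtain ⟨x, hx⟩ := exists_ne (0 : Fin m ⊕ Fin m → F)
    refine hx (hS x fun y => ?_)
    obtain ⟨a, rfl⟩ := Submodule.mem_span_singleton.1 (h2 x)
    obtain ⟨b, rfl⟩ := Submodule.mem_span_singleton.1 (h2 y)
    simp [← hB, hA u]

end H29
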