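import Cfsg.Agent.H29.Fr5

/-! Frames in even dimension at least ten (`FE0`, the variant of `FE`; `frame_max_ten`). -/

set_option autoImplicit false
set_option linter.unusedSectionVars false

namespace H29

open Module H11 H11.PForm Finset

universe u

variable {F : Type*} [Field F] {V : Type u} [AddCommGroup V] [Module F V] {S : PForm (orthP F) V}
  [FiniteDimensional F V] [Fintype F] {H : Subgroup S.Isom} {ι : Type} [Fintype ι] [DecidableEq ι]
  {e : ι → V}

/-- `H` contains the even sign changes and the even permutations of a frame, but not `E` -/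
structure FE0 (H : Subgroup S.Isom) (e : ι → V) : Prop where
  f : FK (⊤ : Subgroup S.Isom) e
  pr : (Fintype.card F).Prime
  card : 10 ≤ Fintype.card ι
  r2 : ∀ i j, S.refl (e i) * S.refl (e j) ∈ H
  sw : ∀ i j k l, i ≠ j → k ≠ l → S.refl (e i - e j) * S.refl (e k - e l) ∈ H
  nb : ¬ S.E ≤ H
  ev : ∀ x ∈ H, x ∈ FA S e → ∀ J : Finset ι, (∀ i, i ∈ J ↔ ¬ x.1 (e i) = e i) → J.card ≠ 5

namespace FE0
variable (h : FE0 H e)
include h

theorem not_ek {i j k l : ι} (hL : Function.Injective ![i, j, k, l]) :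
    ¬ EK H (Submodule.span F (Set.range (e ∘ ![i, j, k, l]))) := fun hE => h.nb <| by
  have f := h.f
  have n := fun a b (hab : a ≠ b) => hL.ne hab
  have ⟨ij, ik, il, jk, jl, kl⟩ : i ≠ j ∧ i ≠ k ∧ i ≠ l ∧ j ≠ k ∧ j ≠ l ∧ k ≠ l :=
    ⟨n 0 1 (by simp), n 0 2 (by simp), n 0 3 (by simp), n 1 2 (by simp), n 1 3 (by simp), n 2 3 (by simp)⟩
  have a1 : ∀ m, m ∉ ({i, j, k} : Finset ι) →
      EK H (Submodule.span F (Set.range (e ∘ ![i, j, k, m]))) := fun m hm => by
    by_cases hl : l = m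
    · exact hl ▸ hE
    simp only [mem_insert, mem_singleton, not_or] at hm
    have := fun t => Submodule.mem_map_of_mem (f := ((S.refl (e l - e m) * S.refl (e i - e j)).1 :
      V →ₗ[F] V)) (mem_span_vec (F := F) (e ∘ ![i, j, k, l]) t)
    refine (hE.map (h.sw l m i j hl ij)).mono (span_vec_le fun t => ?_)
    fin_cases t
    · simpa [f.t_e, Equiv.swap_apply_def, *, Ne.symm] using this 1
    · simpa [f.t_e, Equiv.swap_apply_def, *, Ne.symm] using this 0
    · simpa [f.t_e, Equiv.swap_apply_def, *, Ne.symm] using this 2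
    · simpa [f.t_e, Equiv.swap_apply_def, *, Ne.symm] using this 3
  have l3 : ∀ m, Submodule.span F (Set.range (e ∘ ![i, j, k])) ≤
      Submodule.span F (Set.range (e ∘ ![i, j, k, m])) := fun m => span_vec_le fun t => by
    fin_cases t
    exacts [mem_span_vec _ 0, mem_span_vec _ 1, mem_span_vec _ 2]
  obtain ⟨u, hu, hu0, hs⟩ := iso3_orth S _ (f.vec (L := ![i, j, k]) fun a b => by
    fin_cases a <;> fin_cases b <;> simp [*, Ne.symm]).2.ge
  have a2 : ∀ m, m ∉ ({i, j, k} : Finset ι) → S.h u (e m) = 0 := fun m hm =>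
    S.mem_perp'.1 (span_vec_le (W := S.perp (F ∙ e m)) (fun t => S.mem_perp_singleton.2 (by
      simp only [mem_insert, mem_singleton, not_or] at hm
      fin_cases t <;> simp [f.hh, hm])) hu) _ (Submodule.mem_span_singleton_self _)
  have a3 : Full H u := full_of_BSet hs (fun v hv => by
    rw [f.expand v, ← sum_add_sum_compl {i, j, k}] at hv ⊢
    refine AddSubgroup.add_mem _ (mem_BSet_of_mem hE (l3 l hu) hs (l3 l (Submodule.sum_mem _
      fun m hm => Submodule.smul_mem _ _ ?_)) ?_) (AddSubgroup.sum_mem _ fun m hm =>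
        mem_BSet_of_mem (a1 m (mem_compl.1 hm)) (l3 m hu) hs
          (Submodule.smul_mem _ _ (mem_span_vec _ 3)) (by simp [a2 m (mem_compl.1 hm)]))
    · simp only [mem_insert, mem_singleton] at hm
      rcases hm with rfl | rfl | rfl
      exacts [mem_span_vec _ 0, mem_span_vec _ 1, mem_span_vec _ 2]
    · rwa [map_add, map_sum _ _ _ᶜ, sum_eq_zero (s := _ᶜ) fun m hm => by simp [a2 m (mem_compl.1 hm)],
        add_zero] at hv) fun a _ => hE u (l3 l hu) 0 (zero_mem _) a
  obtain ⟨m, hm⟩ := not_forall.1 (mt (f.span u) hu0)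
  have a4 := a3.map (h.r2 m l)
  rw [isom_mul_apply, refl_apply_of_perp (S.h_swap_zero (a2 l (by simp [Ne.symm, *])))] at a4
  exact S.E_le_iff.2 fun x v a _ => full_all_of_pair f.nd hs ((isom_sing _ u).2 hs) a3 a4
    (by simpa [refl_apply, hs.h_self, f.q1, hm] using fun e => hm (S.h_swap_zero e)) x v a

theorem stab_big {J : Finset ι} (hJ : 6 ≤ J.card) {l : ι} (hl : l ∉ J) {g : S.Isom} (hg : g ∈ H)
    (hW : g ∈ S.stab (CJ S e J)) {i : ι} (hi : i ∈ J) : g.1 (e i) ∈ FV e := by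
  have f := h.f
  have m : ∀ i ∈ J, e i ∈ CJ S e J := fun i hi j hj => f.orth j i (by rintro rfl; exact hj hi)
  have sp : ∀ x ∈ CJ S e J, (∀ i ∈ J, S.h (e i) x = 0) → x = 0 := fun x hx h0 =>
    f.span x fun i => by by_cases a : i ∈ J; exacts [h0 i a, hx i a]
  have nd : (S.restrict (CJ S e J)).Nondeg := (S.restrict_nondeg_iff' _).2 fun x hx h0 =>
    sp x hx fun i hi => S.h_swap_zero (h0 _ (m i hi))
  let K := (H.subgroupOf (S.stab (CJ S e J))).map (S.resHom _)
  have st : ∀ a ∈ CJ S e J, S.refl a ∈ S.stab (CJ S e J) := fun a ha =>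
    mem_stab_of_le fun x hx => refl_mem ha hx
  have f1 : FK K fun i : J => (⟨e i, m i i.2⟩ : CJ S e J) := ⟨nd, f.two, f.pr, by simpa,
    fun i => f.q1 i, fun i j hij => f.orth i j fun a => hij (Subtype.ext a),
    fun x hx => Subtype.ext (sp x x.2 fun i hi => hx ⟨i, hi⟩),
    fun i => ⟨⟨_, mul_mem (st _ (m i i.2)) (mem_stab_of_le fun x hx => by
      rwa [refl_apply_of_perp (hx l hl)])⟩, h.r2 i l, isom_ext fun x => Subtype.ext (by
        simp [refl_apply_of_perp (x.2 l hl), refl_apply])⟩,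
    fun i j k l ij kl => ⟨⟨_, mul_mem (st _ (sub_mem (m i i.2) (m j j.2))) (st _ (sub_mem (m k k.2) (m l l.2)))⟩,
      h.sw i j k l (fun a => ij (Subtype.ext a)) (fun a => kl (Subtype.ext a)),
      isom_ext fun x => Subtype.ext (by simp [refl_apply])⟩⟩
  rcases f1.dich h.pr with hE | hP
  swap
  · obtain ⟨j, hj⟩ := hP _ ⟨⟨g, hW⟩, hg, rfl⟩ ⟨i, hi⟩
    obtain ⟨c, hc⟩ := Submodule.mem_span_singleton.1 hj
    exact f.fv (by simp [f.q1]) (j := j) (Submodule.mem_span_singleton.2 ⟨c, congrArg Subtype.val hc⟩)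
  exfalso
  obtain ⟨L, hL⟩ : ∃ L : Fin 6 → J, Function.Injective L :=
    ⟨_, (Function.Embedding.nonempty_of_card_le (α := Fin 6) (β := J) (by simpa)).some.injective⟩
  have d6 : 6 ≤ finrank F (CJ S e J) := (f1.vec hL).2.ge.trans (Submodule.finrank_le _)
  let N := H ⊓ S.fix (S.perp (CJ S e J))
  have cj : ∀ t ∈ (S.restrict (CJ S e J)).E, ∃ k ∈ H, (∀ x : CJ S e J, k.1 x = t.1 x) ∧
      ∀ n ∈ N, k * n * k⁻¹ ∈ N := fun t ht => by
    obtain ⟨k, hk, rfl⟩ := hE ht
    have hk : k.1 ∈ H := hk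
    exact ⟨k, hk, fun x => rfl, fun n hn => ⟨H.mul_mem (H.mul_mem hk hn.1) (H.inv_mem hk), fun x hx => by
      rw [isom_mul_apply, isom_mul_apply, hn.2 _ ((stab_le_stab_perp _ (inv_mem k.2) x).1 hx),
        isom_apply_inv_self]⟩⟩
  have ne : (L 0 : ι) ≠ L 1 := fun a => absurd (hL (Subtype.ext a)) (by decide)
  have ma := m _ (L 0).2
  have mb := m _ (L 1).2
  generalize (L 0 : ι) = a at ne ma
  generalize (L 1 : ι) = b at ne mb
  obtain ⟨s, hs, ss, h1, h3⟩ := exists_sing f.nd (iso3_orth S) (CJ S e J) [e a, e b] [] (by simp; omega)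
  have s0 : s ≠ 0 := by rintro rfl; simp at h3
  have sa := S.h_swap_zero (h1 (e a) (by simp))
  have sb := S.h_swap_zero (h1 (e b) (by simp))
  have t2 := f.two
  have b1 : e a ∈ BSet N ss := by
    obtain ⟨k, -, k1, k2⟩ := cj _ ((S.restrict _).eich_mem_E ⟨s, hs⟩ ⟨(-2⁻¹ : F) • e a, Submodule.smul_mem _ _ ma⟩
      (S.q ((-2⁻¹ : F) • e a)))
    have c1 : (S.restrict (CJ S e J)).ECond ⟨s, hs⟩ ⟨(-2⁻¹ : F) • e a, Submodule.smul_mem _ _ ma⟩
      (S.q ((-2⁻¹ : F) • e a)) := ECond.of_q ss (by simp [sa])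
    have n0 : S.refl (e a) * S.refl (e b) ∈ N := ⟨h.r2 a b, fun x hx => by
      rw [isom_mul_apply, refl_apply_of_perp (hx _ mb), refl_apply_of_perp (hx _ ma)]⟩
    have n1 := N.mul_mem n0 (N.inv_mem (k2 _ n0))
    have e1 : k.1 (e a) = e a + s := by
      rw [k1 ⟨_, ma⟩, eich_apply_of_perp c1 sa]; simp [f.hh, t2]
    have e2 : k.1 (e b) = e b := by
      rw [k1 ⟨_, mb⟩, eich_apply_of_perp c1 sb]; simp [f.hh, ne]
    rw [show k * (S.refl (e a) * S.refl (e b)) * k⁻¹ = k * S.refl (e a) * k⁻¹ * (k * S.refl (e b) * k⁻¹)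
      by group, conj_refl, conj_refl, e1, e2, mul_inv_rev, refl_inv, refl_inv, mul_assoc,
      ← mul_assoc (S.refl (e b)), refl_mul_self, one_mul] at n1
    exact ⟨_, ECond.of_q ss sa, by
      rwa [orth_eich_eq ((orth_sing S s).1 ss) sa (by simp [f.q1]), f.q1, one_smul]⟩
  have b2 : ∀ v ∈ CJ S e J, S.h s v = 0 → v ∈ BSet H ss := fun v hv h0 => by
    obtain ⟨c, c1, c2⟩ := irr5 nd (iso3_orth _) (by omega) (u := ⟨s, hs⟩)
      ((BSet N ss).comap (CJ S e J).subtype.toAddMonoidHom) (fun w v a c1 c2 c3 z ⟨b, z1, z2⟩ => by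
        obtain ⟨k, -, k1, k2⟩ := cj _ ((S.restrict _).eich_mem_E w v a)
        have e1 : k.1 s = s := by
          rw [k1 ⟨s, hs⟩, eich_apply_of_perp_perp ((S.restrict _).h_swap_zero c2)
            ((S.restrict _).h_swap_zero c3)]
        have := k2 _ z2
        rw [conj_eich, e1] at this
        exact ⟨b, by simpa [e1, ← k1] using z1.map k, by simpa [← k1] using this⟩)
      (z := ⟨_, ma⟩) b1 sa (fun hc => by
        obtain ⟨c, hc⟩ := Submodule.mem_span_singleton.1 hc
        have := congrArg (fun x : CJ S e J => S.q x) hc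
        simp [orth_q_smul, (orth_sing S s).1 ss, f.q1] at this) (y := ⟨v, hv⟩) h0
    exact ⟨c, c1, c2.1⟩
  obtain ⟨j, hj⟩ := not_forall.1 (mt (f.span s) s0)
  have jJ : j ∈ J := by_contra fun a => hj (hs j a)
  have := rel_full' nd hs ss (h.r2 j b) (mul_mem (st _ (m j jJ)) (st _ mb)) (by
    simpa [refl_apply_of_perp (S.h_swap_zero sb), refl_apply, ss.h_self, f.q1, hj] using
      fun e => hj (S.h_swap_zero e)) b2
  refine h.not_ek (i := L 0) (j := L 1) (k := L 2) (l := L 3) (fun x y => ?_)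
    (this.mono (span_vec_le fun t => ?_))
  · fin_cases x <;> fin_cases y <;> simp [Subtype.val_inj, hL.eq_iff]
  · fin_cases t <;> exact m _ (L _).2

theorem r_fm (i : ι) : S.refl (e i) ∈ FM S e := mem_FM fun j => by
  by_cases a : i = j
  · exact ⟨j, Or.inr (by rw [a, refl_apply_self (by simp [h.f.q1])])⟩
  · exact ⟨j, Or.inl (refl_apply_of_perp (h.f.orth i j a))⟩

theorem t_fm {i j : ι} (ij : i ≠ j) : S.refl (e i - e j) ∈ FM S e :=
  mem_FM fun k => ⟨_, Or.inl (h.f.t_e ij k)⟩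

theorem fm_of_fix {g : S.Isom} (hg : g ∈ H) {i : ι} (hi : g.1 (e i) = e i ∨ g.1 (e i) = -e i) :
    g ∈ FM S e := mem_FM fun j => by
  by_cases a : j = i
  · exact ⟨i, a ▸ hi⟩
  refine h.stab_big (J := {i}ᶜ) (l := i) (by rw [card_compl, card_singleton]; have := h.card; omega)
    (by simp) hg (mem_stab_of_le fun x hx k hk => ?_) (by simpa)
  obtain rfl : k = i := by simpa using hk
  have := isom_h g (e k) x
  rw [hx k hk] at this
  rcases hi with hi | hi <;> simpa [hi] using this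

theorem fm_of_fv {g : S.Isom} (hg : g ∈ H) {i : ι} (hi : g.1 (e i) ∈ FV e) : g ∈ FM S e := by
  obtain ⟨k, hk⟩ := hi
  by_cases a : i = k
  · exact h.fm_of_fix hg (a ▸ hk)
  obtain ⟨x, y, xy, hx, hy⟩ := exists_two_notMem {i, k} (by
    have := h.card; have := card_le_two (a := i) (b := k); omega)
  simp only [mem_insert, mem_singleton, not_or] at hx hy
  refine ((FM S e).mul_mem_cancel_left (mul_mem (h.t_fm a) (h.t_fm xy))).1
    (h.fm_of_fix (mul_mem (h.sw i k x y a xy) hg) (i := i) ?_)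
  rcases hk with hk | hk <;>
  simp [hk, h.f.t_e, a, xy, Equiv.swap_apply_of_ne_of_ne (Ne.symm hx.2) (Ne.symm hy.2)]

theorem no_vec {w : V} (qw : S.q w = 1) (hw : w ∉ FV e) {J : Finset ι} (hJ : J.card ≤ 4) {k : ι}
    (kJ : k ∉ J) (hk : S.h (e k) w ≠ 0) (hm : ∀ m ∈ H, (∀ x ∈ CJ S e J, m.1 x = x) →
      S.h w (m.1 w) = 0 ∨ m.1 w = w ∨ m.1 w = -w) : False := by
  classical
  have f := h.f
  have t2 := f.two
  have rf : ∀ k ∉ J, ∀ l ∉ J, ∀ x ∈ CJ S e J, (S.refl (e k) * S.refl (e l)).1 x = x := fun k hk l hl x hx => by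
    rw [isom_mul_apply, refl_apply_of_perp (hx l hl), refl_apply_of_perp (hx k hk)]
  have pm : ∀ {m : S.Isom} {a b}, S.h (e a) w ≠ 0 → S.h (e b) w ≠ 0 → S.h (e a) (m.1 w) = -S.h (e a) w →
      S.h (e b) (m.1 w) = S.h (e b) w → ¬ (m.1 w = w ∨ m.1 w = -w) := by
    rintro m a b h1 h2 h3 h4 (e' | e') <;> rw [e'] at h3 h4
    · exact mul_ne_zero t2 h1 (by linear_combination h3)
    · exact mul_ne_zero t2 h2 (by rw [map_neg] at h4; linear_combination -h4)
  have r2 : ∀ a ∉ J, ∀ b ∉ J, ∀ c, a ≠ b → c ≠ a → c ≠ b → S.h (e a) w ≠ 0 → S.h (e c) w ≠ 0 →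
      S.h (e a) w ^ 2 + S.h (e b) w ^ 2 = 2 := fun a ha b hb c ab ca cb h1 h2 => by
    have := (hm _ (h.r2 a b) (rf a ha b hb)).resolve_right (pm h1 h2 (by simp [f.co_r, ab])
      (by simp [f.co_r, ca, cb]))
    simp [refl_apply, f.q1, f.hh, ab, orth_h_self, qw, S.orth_symm (e _) w] at this
    linear_combination -this
  let P := (fsp S e w).filter (· ∉ J)
  have hP : ∀ a ∈ P, a ∉ J ∧ S.h (e a) w ≠ 0 := fun a ha => by simpa [P, and_comm] using ha
  by_cases h5 : 5 ≤ P.card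
  · obtain ⟨L, hL⟩ : ∃ L : Fin 5 → P, Function.Injective L :=
      ⟨_, (Function.Embedding.nonempty_of_card_le (α := Fin 5) (β := P) (by simpa)).some.injective⟩
    have n : ∀ a b, a ≠ b → (L a : ι) ≠ L b := fun a b hab e' => hab (hL (Subtype.ext e'))
    have p := fun a => hP _ (L a).2
    have a1 := r2 _ (p 0).1 _ (p 1).1 _ (n 0 1 (by decide)) (n 4 0 (by decide)) (n 4 1 (by decide)) (p 0).2 (p 4).2
    have a2 := r2 _ (p 2).1 _ (p 3).1 _ (n 2 3 (by decide)) (n 4 2 (by decide)) (n 4 3 (by decide)) (p 2).2 (p 4).2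
    have := (hm _ (mul_mem (h.r2 (L 0) (L 1)) (h.r2 (L 2) (L 3))) fun x hx => by
      rw [isom_mul_apply, rf _ (p 2).1 _ (p 3).1 x hx, rf _ (p 0).1 _ (p 1).1 x hx]).resolve_right
      (pm (p 0).2 (p 4).2 (by simp [f.co_r, n]) (by simp [f.co_r, n]))
    simp [refl_apply, f.q1, f.hh, n, orth_h_self, qw, S.orth_symm (e _) w] at this
    exact t2 (by linear_combination -this - a1 - a2)
  obtain ⟨l, l', ll, h1, h2⟩ := exists_two_notMem (J ∪ P) (by
    have := card_union_le J P; have := h.card; omega)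
  have z : ∀ l, l ∉ J ∪ P → l ∉ J ∧ S.h (e l) w = 0 := fun l hl => by
    simp only [P, mem_union, mem_filter, mem_fsp, not_or, not_and, not_not] at hl
    exact ⟨hl.1, by_contra fun a => hl.1 (hl.2 a)⟩
  obtain ⟨l1, l2⟩ := z l h1
  obtain ⟨l3, l4⟩ := z l' h2
  have kl : k ≠ l := by rintro rfl; exact hk l2
  obtain ⟨c, c1, c2⟩ : ∃ c, c ≠ k ∧ S.h (e c) w ≠ 0 := by
    by_contra! hc
    exact hw (f.fv qw (j := k) (Submodule.mem_span_singleton.2 ⟨S.h (e k) w / 2, f.ext fun j => by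
      by_cases a : j = k <;> simp [f.hh, *]⟩))
  have a1 := r2 k kJ l l1 c kl c1 (by rintro rfl; exact c2 l2) hk c2
  have a2 := hm _ (h.sw k l l l' kl ll) fun x hx => by
    rw [isom_mul_apply, f.t_fix (hx l l1) (hx l' l3), f.t_fix (hx k kJ) (hx l l1)]
  rw [isom_mul_apply, f.t_fix l2 l4] at a2
  have a3 := f.co_t kl l w
  rw [Equiv.swap_apply_right] at a3
  rcases a2 with a2 | a2 | a2
  · simp [refl_apply, f.q_sub kl, orth_h_self, qw, l2, S.orth_symm (e _) w] at a1 a2
    field_simp at a2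
    exact t2 (by linear_combination a2 + a1)
  all_goals simp [a2, l2, hk.symm] at a3

theorem fm_of_supp {g : S.Isom} (hg : g ∈ H) {i : ι} (hi : (fsp S e (g.1 (e i))).card ≤ 4) :
    g ∈ FM S e := by
  by_contra hc
  obtain ⟨k, -, -, hk, -⟩ := exists_two_notMem (fsp S e (g.1 (e i))) (by have := h.card; omega)
  obtain ⟨c, c1⟩ := not_forall.1 (mt (h.f.span ((g⁻¹).1 (e k))) fun a => by
    have := orth_isom_q g⁻¹ (e k)
    rw [a, h.f.q1, S.orth_q_zero] at this
    exact zero_ne_one this)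
  rw [← isom_h g, isom_apply_inv_self] at c1
  refine h.no_vec (w := g.1 (e c)) (by simp [h.f.q1]) (fun a => hc (h.fm_of_fv hg a)) hi hk
    (fun a => c1 (S.h_swap_zero a)) fun m hm h1 => ?_
  obtain ⟨j, hj⟩ := FM.fv (h.fm_of_fix (mul_mem (mul_mem (inv_mem hg) hm) hg) (i := i) (Or.inl (by
    simp [h1 _ fun j hj => by simpa using hj]))) c
  have : m.1 (g.1 (e c)) = g.1 (e j) ∨ m.1 (g.1 (e c)) = -g.1 (e j) := by
    simpa [LinearEquiv.symm_apply_eq] using hj
  by_cases a : c = j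
  · exact Or.inr (a ▸ this)
  · exact Or.inl (by rcases this with b | b <;> simp [b, h.f.hh, a])

theorem fm_of_r2 {g : S.Isom} (hg : g ∈ H) {i j : ι} (ij : i ≠ j)
    (hm : g * (S.refl (e i) * S.refl (e j)) * g⁻¹ ∈ FM S e) : g ∈ FM S e := by
  have f := h.f
  have t2 := f.two
  refine h.fm_of_supp hg (i := i) (not_lt.1 fun hc => ?_)
  rw [show g * (S.refl (e i) * S.refl (e j)) * g⁻¹ = g * S.refl (e i) * g⁻¹ * (g * S.refl (e j) * g⁻¹)
    by group, conj_refl, conj_refl] at hm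
  have uu : S.h (g.1 (e i)) (g.1 (e j)) = 0 := by rw [isom_h, f.orth i j ij]
  have q1 : S.q (g.1 (e i)) = 1 := by simp [f.q1]
  have q2 : S.q (g.1 (e j)) = 1 := by simp [f.q1]
  generalize g.1 (e i) = u at *
  generalize g.1 (e j) = u' at *
  have ap : ∀ x, (S.refl u * S.refl u').1 x = x - S.h u x • u - S.h u' x • u' := fun x => by
    simp [refl_apply, q1, q2, uu]; abel
  generalize S.refl u * S.refl u' = y at hm ap
  have sa : ∀ x z, S.h (y.1 x) z = S.h x (y.1 z) := fun x z => by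
    simp [ap, S.orth_symm u x, S.orth_symm u' x]; ring
  choose π hπ using FM.fv hm
  have d0 : ∀ a b, b ≠ a → b ≠ π a → S.h (y.1 (e a) - e a) (y.1 (e b) - e b) = 0 := fun a b h1 h2 => by
    have : S.h (y.1 (e a)) (e b) = 0 := by rcases hπ a with c | c <;> simp [c, f.hh, h2.symm]
    simp [← sa (e a) (e b), this, f.hh, h1.symm]
  have d1 : ∀ a ∈ fsp S e u, S.q (y.1 (e a) - e a) ≠ 0 := fun a ha => by
    have t4 : (4 : F) ≠ 0 := by simpa [← two_mul, show (4 : F) = 2 * 2 by norm_num]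
    by_cases b : π a = a
    · rcases hπ a with c | c <;> rw [b] at c
      · have := sa (e a) u
        rw [c, ap] at this
        simp [orth_h_self, q1, S.h_swap_zero uu] at this
        exact absurd (show 2 * S.h (e a) u = 0 by linear_combination this) (mul_ne_zero t2 (mem_fsp.1 ha))
      · rw [c, orth_q_sub, orth_q_neg]; simp [f.q1, f.hh]; norm_num; exact t4
    · rcases hπ a with c | c <;> simpa [c, orth_q_sub, orth_q_neg, f.q1, f.hh, b, one_add_one_eq_two]
  obtain ⟨a, ha⟩ := card_pos.1 (show 0 < (fsp S e u).card by omega)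
  obtain ⟨b, hb, b1⟩ := exists_mem_notMem_of_card_lt_card (s := {a, π a}) (t := fsp S e u)
    (by have := card_le_two (a := a) (b := π a); omega)
  obtain ⟨c, hc', c1⟩ := exists_mem_notMem_of_card_lt_card (s := {a, π a, b, π b}) (t := fsp S e u)
    (by have := card_le_four (a := a) (b := π a) (c := b) (d := π b); omega)
  simp only [mem_insert, mem_singleton, not_or] at b1 c1
  have a1 := d0 a b b1.1 b1.2
  have a2 := d0 a c c1.1 c1.2.1
  have a3 := d0 b c c1.2.2.1 c1.2.2.2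
  have := (orthFam (S := S) t2 (b := ![y.1 (e a) - e a, y.1 (e b) - e b, y.1 (e c) - e c])
    (fun t => by fin_cases t; exacts [d1 a ha, d1 b hb, d1 c hc']) fun s t hst => by
      fin_cases s <;> fin_cases t <;> first | exact absurd rfl hst | assumption | exact S.h_swap_zero ‹_›).2
  have m : ∀ x, y.1 x - x ∈ Submodule.span F {u, u'} := fun x =>
    Submodule.mem_span_pair.2 ⟨-S.h u x, -S.h u' x, by rw [ap]; module⟩
  have := Submodule.finrank_mono (span_vec_le (b := ![y.1 (e a) - e a, y.1 (e b) - e b, y.1 (e c) - e c])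
    fun t => by fin_cases t <;> exact m _)
  have := finrank_span_two_le (F := F) u u'
  omega

theorem ext' {g g' : S.Isom} (hg : ∀ i, g.1 (e i) = g'.1 (e i)) : g = g' := isom_ext fun x => by
  rw [h.f.expand x]; simp [hg]

theorem r_fa (i : ι) : S.refl (e i) ∈ FA S e := fun j => by
  by_cases a : i = j
  · exact Or.inr (by rw [a, refl_apply_self (by simp [h.f.q1])])
  · exact Or.inl (refl_apply_of_perp (h.f.orth i j a))

theorem fa_comm {x y : S.Isom} (hx : x ∈ FA S e) (hy : y ∈ FA S e) : x * y = y * x :=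
  h.ext' fun i => by rcases hx i with a | a <;> rcases hy i with b | b <;> simp [a, b]

theorem cent {x g : S.Isom} (xH : x ∈ H) (hx : x ∈ FA S e) (h1 : x ≠ 1) (h2 : x ≠ S.negOne) (hg : g ∈ H)
    (hc : g * x = x * g) : g ∈ FM S e := by
  classical
  have t2 := h.f.two
  have k : ∀ x ∈ FA S e, x ≠ 1 → g * x = x * g → 6 ≤ (univ.filter fun i => x.1 (e i) = e i).card →
      g ∈ FM S e := fun x hx h1 hc h6 => by
    obtain ⟨l, hl⟩ := not_forall.1 fun a => h1 (h.ext' (g' := 1) a)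
    obtain ⟨i, hi⟩ := card_pos.1 (lt_of_lt_of_le (by norm_num) h6)
    have k2 : ∀ v, v ∈ CJ S e (univ.filter fun i => x.1 (e i) = e i) ↔ x.1 v = v := fun v => by
      refine ⟨fun hv => h.f.ext fun j => ?_, fun hv j hj => ?_⟩
      · have := isom_h x (e j) v
        rcases hx j with a | a
        · rwa [a] at this
        · by_cases b : x.1 (e j) = e j
          · rwa [b] at this
          rw [hv j (by simpa)] at this ⊢
          simpa [a] using this
      · have := isom_h x (e j) v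
        rw [(hx j).resolve_left (by simpa using hj), hv, map_neg, LinearMap.neg_apply] at this
        exact (mul_eq_zero.1 (by linear_combination -this)).resolve_left t2
    exact h.fm_of_fv hg (h.stab_big h6 (l := l) (by simpa) hg (mem_stab_of_le fun v hv => (k2 _).2 (by
      rw [← isom_mul_apply, ← hc, isom_mul_apply, (k2 v).1 hv])) hi)
  by_cases h6 : 6 ≤ (univ.filter fun i => x.1 (e i) = e i).card
  · exact k x hx h1 hc h6
  refine k (S.negOne * x) (mul_mem (fun i => Or.inr (by simp)) hx) (fun a => h2 (isom_ext fun v => by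
    simpa [neg_eq_iff_eq_neg] using congrArg (fun y : S.Isom => y.1 v) a)) (isom_ext fun v => by
    simpa using congrArg (fun y : S.Isom => y.1 v) hc) ?_
  have := card_filter_add_card_filter_not (s := univ) fun i => x.1 (e i) = e i
  have := h.card
  have := h.ev x xH hx (univ.filter fun i => ¬ x.1 (e i) = e i) (by simp)
  have := card_le_card (show (univ.filter fun i => ¬ x.1 (e i) = e i) ⊆
    univ.filter fun i => (S.negOne * x).1 (e i) = e i from fun i hi => by
      simp [(hx i).resolve_left (by simpa using hi)])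
  rw [card_univ] at *
  omega

theorem sclosed {x g : S.Isom} (xH : x ∈ H) (hx : x ∈ FA S e) (hg : g ∈ H) (hy : g * x * g⁻¹ ∈ FM S e) :
    g * x * g⁻¹ ∈ FA S e := by
  by_contra hc
  obtain ⟨i, hi⟩ := not_forall.1 hc
  obtain ⟨j, hj⟩ := FM.fv hy i
  have ij : i ≠ j := by rintro rfl; exact hi hj
  have xx : x * x = 1 := h.ext' fun i => by rcases hx i with a | a <;> simp [a]
  have yy : g * x * g⁻¹ * (g * x * g⁻¹) = 1 := by rw [conj_mul, xx, mul_one, mul_inv_cancel]
  have a1 : x ≠ 1 := by rintro rfl; exact hc (by simpa using one_mem _)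
  have a2 : x ≠ S.negOne := by rintro rfl; exact hc fun i => Or.inr (by simp)
  have a3 : g * x * g⁻¹ * (S.refl (e i) * S.refl (e j)) * (g * x * g⁻¹)⁻¹ = S.refl (e i) * S.refl (e j) := by
    generalize g * x * g⁻¹ = y at yy hj
    have := congrArg (fun z : S.Isom => z.1 (e i)) yy
    rw [← conj_mul, conj_refl, conj_refl, h.fa_comm (h.r_fa i) (h.r_fa j)]
    rcases hj with a | a <;> simp [a, neg_eq_iff_eq_neg] at this <;> simp [a, this, refl_neg]
  have a4 := h.cent xH hx a1 a2 (g := g⁻¹ * (S.refl (e i) * S.refl (e j)) * g⁻¹⁻¹)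
    (mul_mem (mul_mem (inv_mem hg) (h.r2 i j)) (inv_mem (inv_mem hg))) (by
      generalize S.refl (e i) * S.refl (e j) = z at a3
      conv_lhs => rw [← a3]
      group)
  exact hc (FA.conj hx (by simpa using inv_mem (h.fm_of_r2 (inv_mem hg) ij a4)))

end FE0

theorem FE0.le_fm (h : FE0 H e) (hz : S.negOne ∈ H) : H ≤ FM S e := by
  have f := h.f
  haveI := finite_isom (S := S)
  have cm : ∀ g : S.Isom, g * S.negOne = S.negOne * g := fun g => isom_ext fun x => by simp
  have nn : S.negOne * S.negOne = 1 := isom_ext fun x => by simp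
  have nA : S.negOne ∈ FA S e := fun i => Or.inr (by simp)
  have ne : ∀ i, e i ≠ -e i := fun i a => by
    have := congrArg (S.h (e i)) a
    simp only [map_neg, f.hh, if_true] at this
    exact mul_ne_zero f.two f.two (by linear_combination this)
  obtain ⟨L, hL⟩ : ∃ L : Fin 7 → ι, Function.Injective L :=
    ⟨_, (Function.Embedding.nonempty_of_card_le (α := Fin 7) (β := ι) (by
      have := h.card; simp; omega)).some.injective⟩
  have n : ∀ a b, a ≠ b → L a ≠ L b := fun a b hab => hL.ne hab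
  have r1 : ∀ i, (S.refl (e i)).1 (e i) = -e i := fun i => refl_apply_self (by simp [f.q1])
  have r2 : ∀ i j, i ≠ j → (S.refl (e i)).1 (e j) = e j := fun i j a => refl_apply_of_perp (f.orth i j a)
  have ev := fun {x y : S.Isom} (a : x = y) (i : ι) => congrArg (fun z : S.Isom => z.1 (e i)) a
  by_contra hc
  obtain ⟨g, hg⟩ := ti_quot (G := H) (A := (FA S e).subgroupOf H) (M := (FM S e).subgroupOf H)
    (z := ⟨_, hz⟩) (fun g => Subtype.ext (cm g)) nA (Subgroup.subgroupOf_mono _ FA_le)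
    (fun a => hc (Subgroup.subgroupOf_eq_top.1 a))
    (fun a ha => Subtype.ext (h.ext' fun i => by
      rcases ha i with b | b <;> simp only [Subgroup.coe_subtype] at b <;> simp [b]))
    (fun a ha g hg => h.sclosed a.2 ha g.2 hg)
    (fun a ha a1 a2 g hg => h.fm_of_r2 g.2 (n 0 1 (by decide)) (h.cent a.2 ha (fun b => a1 (Subtype.ext b))
      (fun b => a2 (Subtype.ext b)) (mul_mem (mul_mem g.2 (h.r2 _ _)) (inv_mem g.2)) (by
        have b1 := h.fa_comm ha (mul_mem (h.r_fa (L 0)) (h.r_fa (L 1)))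
        generalize S.refl (e (L 0)) * S.refl (e (L 1)) = r at b1
        simp only [Subgroup.coe_subtype] at b1 ⊢
        rcases hg with b | b <;> have b := congrArg Subtype.val b <;>
          simp only [Subgroup.coe_mul, Subgroup.coe_inv] at b
        · conv_lhs => rw [← b]
          conv_rhs => rw [← b]
          rw [conj_mul, conj_mul, b1]
        · have : a.1 = g.1 * (a.1 * S.negOne) * g.1⁻¹ := by
            rw [← mul_assoc, mul_assoc _ _ g.1⁻¹, ← cm, ← mul_assoc, b, mul_assoc, nn, mul_one]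
          conv_lhs => rw [this]
          conv_rhs => rw [this]
          rw [conj_mul, conj_mul, ← mul_assoc r, ← b1, mul_assoc a.1, cm, mul_assoc a.1])))
    (fun g hg => h.fm_of_r2 g.2 (n 0 1 (by decide)) (FA_le (hg ⟨_, h.r2 _ _⟩
      (mul_mem (h.r_fa (L 0)) (h.r_fa (L 1))))))
    (a := ⟨_, h.r2 (L 0) (L 1)⟩) (b := ⟨_, mul_mem (h.r2 (L 0) (L 1)) (h.r2 (L 2) (L 3))⟩)
    (mul_mem (h.r_fa _) (h.r_fa _)) (mul_mem (mul_mem (h.r_fa _) (h.r_fa _)) (mul_mem (h.r_fa _) (h.r_fa _)))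
    (fun a => ne (L 0) (by simpa [r1, r2, n] using (ev (congrArg Subtype.val a) (L 0)).symm))
    (fun a => ne (L 2) (by simpa [r1, r2, n] using ev (congrArg Subtype.val a) (L 2)))
    (fun a => ne (L 0) (by simpa [r1, r2, n] using (ev (congrArg Subtype.val a) (L 0)).symm))
    (fun a => ne (L 4) (by simpa [r1, r2, n] using ev (congrArg Subtype.val a) (L 4)))
  have hb := mul_mem (mul_mem (h.r_fa (L 0)) (h.r_fa (L 1))) (mul_mem (h.r_fa (L 2)) (h.r_fa (L 3)))
  have hg' : g.1 * (S.refl (e (L 0)) * S.refl (e (L 1))) * g.1⁻¹ = _ ∨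
    g.1 * (S.refl (e (L 0)) * S.refl (e (L 1))) * g.1⁻¹ = _ := hg.imp (congrArg Subtype.val) (congrArg Subtype.val)
  have gM := h.fm_of_r2 g.2 (n 0 1 (by decide)) (FA_le (by
    rcases hg' with b | b <;> rw [b]
    exacts [hb, mul_mem hb nA]))
  obtain ⟨i, hi⟩ := FM.fv gM (L 0)
  obtain ⟨j, hj⟩ := FM.fv gM (L 1)
  rw [← conj_mul, conj_refl, conj_refl, show S.refl (g.1.1 (e (L 0))) = S.refl (e i) by
    rcases hi with a | a <;> simp [a, refl_neg], show S.refl (g.1.1 (e (L 1))) = S.refl (e j) by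
    rcases hj with a | a <;> simp [a, refl_neg]] at hg'
  have k : ∀ a b c, a ≠ b → a ≠ c → b ≠ c → ∃ d, (d = a ∨ d = b ∨ d = c) ∧
      (S.refl (e i) * S.refl (e j)).1 (e (L d)) = e (L d) := fun a b c ab ac bc => by
    obtain ⟨d, d1, d2⟩ := exists_mem_notMem_of_card_lt_card (s := {i, j}) (t := {L a, L b, L c})
      (by rw [card_eq_three.2 ⟨_, _, _, n a b ab, n a c ac, n b c bc, rfl⟩]; exact Nat.lt_succ_of_le card_le_two)
    simp only [mem_insert, mem_singleton, not_or] at d1 d2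
    have : (S.refl (e i) * S.refl (e j)).1 (e d) = e d := by simp [r2, Ne.symm d2.1, Ne.symm d2.2]
    rcases d1 with rfl | rfl | rfl <;> exact ⟨_, by simp, this⟩
  rcases hg' with b | b
  · obtain ⟨d, d1, d2⟩ := k 0 1 2 (by decide) (by decide) (by decide)
    rw [b] at d2
    rcases d1 with rfl | rfl | rfl <;> exact ne _ (by simpa [r1, r2, n] using d2.symm)
  · obtain ⟨d, d1, d2⟩ := k 4 5 6 (by decide) (by decide) (by decide)
    rw [b] at d2
    rcases d1 with rfl | rfl | rfl <;> exact ne _ (by simpa [r1, r2, n] using d2.symm)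

theorem frame_even0 (hS : S.Nondeg) (hp : (Fintype.card F).Prime) (h2 : (2 : F) ≠ 0) {t : ℕ}
    {D : Fin t → Submodule F V} (h : ODec S 1 D) (hn : 10 ≤ t) (ho : Even (finrank F V))
    {e : Fin t → V} (he : ∀ i, e i ∈ D i) (hq : ∀ i, S.q (e i) = 1) (H : Subgroup S.Isom)
    (hH : ∀ g ∈ S.E, ODec.Perm D g → g ∈ H) (hle : H ≤ S.E) : S.E ≤ H ∨ ∀ g ∈ H, ODec.Perm D g := by
  have e0 : ∀ i, e i ≠ 0 := fun i e' => by simpa [e', S.orth_q_zero] using hq i
  have hD : ∀ i, D i = F ∙ e i := fun i => (Submodule.eq_of_le_of_finrank_eq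
    ((Submodule.span_singleton_le_iff_mem _ _).2 (he i)) (by rw [finrank_span_singleton (e0 i), h.dim])).symm
  have pm : ∀ g ∈ FM S e, ODec.Perm D g := fun g hg i =>
    (FM.fv hg i).imp fun j hj x hx => by
      rw [hD] at hx ⊢
      obtain ⟨c, rfl⟩ := Submodule.mem_span_singleton.1 hx
      rcases hj with a | a <;> simp [a, Submodule.smul_mem]
  have f0 : FK (⊤ : Subgroup S.Isom) e := ⟨hS, h2, prime_field hp, by simp; omega, hq,
    fun i j hij => h.orth i j hij (he j) _ (he i), fun x hx => h.eq_zero hS fun i => by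
      rw [hD, mem_perp_singleton]; exact hx i, fun _ => trivial, fun _ _ _ _ _ _ => trivial⟩
  have h3 : 3 ≤ finrank F V :=
    ((f0.vec (L := Fin.castLE (by omega : 3 ≤ t)) (Fin.castLE_injective _)).2.ge).trans
      (Submodule.finrank_le _)
  obtain ⟨a, b, Hy⟩ := hS.orth_exists_hyp h3
  have q0 : ∀ i, S.q (e i) ≠ 0 := by simp [hq]
  have rr : ∀ a b, S.q a ≠ 0 → S.q b = S.q a → S.refl a * S.refl b ∈ S.E := fun a b a1 a2 =>
    (hS.mem_E_iff h3 Hy _).2 ⟨by rw [map_mul, hS.dick_refl a1, hS.dick_refl (by rwa [a2])]; rfl,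
      by rw [map_mul, hS.spin_refl a1, hS.spin_refl (by rwa [a2]), a2, Int.units_mul_self]⟩
  have r1 : ∀ i, S.refl (e i) ∈ FM S e := fun i => mem_FM fun j => by
    by_cases a : i = j
    · exact ⟨j, Or.inr (by rw [a, refl_apply_self (q0 j)])⟩
    · exact ⟨j, Or.inl (refl_apply_of_perp (f0.orth i j a))⟩
  have r2 : ∀ i j, i ≠ j → S.refl (e i - e j) ∈ FM S e := fun i j ij =>
    mem_FM fun k => ⟨_, Or.inl (f0.t_e ij k)⟩
  refine or_iff_not_imp_left.2 fun hE g hg => pm g (FE0.le_fm ⟨f0, hp, by simpa,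
    fun i j => hH _ (rr _ _ (q0 i) (by rw [hq, hq])) (pm _ (mul_mem (r1 i) (r1 j))),
    fun i j k l ij kl => hH _ (rr _ _ (by rwa [f0.q_sub ij]) (by rw [f0.q_sub ij, f0.q_sub kl]))
      (pm _ (mul_mem (r2 i j ij) (r2 k l kl))), hE, fun x xH hx J hJ c5 => ?_⟩ (hH _ ?_ (pm _ (mem_FM fun i => ⟨i, by simp⟩))) hg)
  · obtain ⟨g, g1, g2⟩ := exists_prod_refl e J (fun i _ => q0 i)
      fun i _ j _ => f0.orth i j
    have : g = x := isom_ext fun v => by
      rw [f0.expand v, map_sum, map_sum]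
      refine sum_congr rfl fun i _ => ?_
      rw [map_smul, map_smul, g1]
      by_cases a : x.1 (e i) = e i
      · simp [hq, f0.hh, a, hJ]
      · rw [(hx i).resolve_left a]
        simp [hq, f0.hh, (hJ i).2 a]; module
    have d := (hS.E_le_ker_dick (hle xH) :)
    rw [MonoidHom.mem_ker, ← this, g2, prod_congr rfl fun i _ => hS.dick_refl (q0 i), prod_const, c5] at d
    exact absurd d (by decide)
  obtain ⟨g, g1, g2⟩ := exists_prod_refl e univ (fun i _ => q0 i) fun i _ j _ => f0.orth i j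
  have : g = S.negOne := isom_ext fun x => f0.ext fun i => by simp [g1, hq, f0.hh]; ring
  refine (hS.mem_E_iff h3 Hy _).2 ⟨by rw [hS.dick_negOne h2, ho.neg_one_pow], ?_⟩
  simp [← this, g2, hS.spin_refl (q0 _), hq, (sqSign_eq_one_iff (a := (1 : F))).2 IsSquare.one]

theorem frame_max_ten (hp : (Fintype.card F).Prime) (h2 : (2 : F) ≠ 0) (hn : 10 ≤ Fintype.card ι)
    (ho : Even (Fintype.card ι)) {Q : (ι → F) → F} (hQ : Cfsg.Geo.IsNondegenerateQuadraticForm Q) {t : ℕ}
    {D : Fin t → Submodule F (ι → F)} (hD : Cfsg.Geo.IsOrthogonalMDecomposition Q 1 D) :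
    Cfsg.Geo.IsMaximalIn (Cfsg.Geo.omegaGL Q) (Cfsg.Geo.decompositionStabilizer D ⊓ Cfsg.Geo.omegaGL Q) := by
  have h : ODec (orthS (quadOf hQ)) 1 D := odec_of _ (fun x y => Iff.rfl) hD.decomp
  have hdim : t = Fintype.card ι := by
    have h1 := (DirectSum.isInternal_submodule_of_iSupIndep_of_iSup_eq_top hD.decomp.1.indep
      hD.decomp.1.iSup_eq_top)
    simpa [Module.finrank_directSum, h.dim] using
      (LinearEquiv.ofBijective (DirectSum.coeLinearMap D) h1).finrank_eq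
  have i0 : Fin t := ⟨0, by omega⟩
  obtain ⟨x, hx, hx0⟩ := exists_ne_zero_of_finrank (D i0) (by rw [h.dim]; omega)
  have hc : Q x ≠ 0 := fun h0 => hx0 (h.eq_zero' hx fun y hy => by
    obtain ⟨c, rfl⟩ := Submodule.mem_span_singleton.1 ((Submodule.eq_of_le_of_finrank_eq
      ((Submodule.span_singleton_le_iff_mem _ _).2 hx) (by rw [finrank_span_singleton hx0, h.dim])).ge hy)
    rw [map_smul, LinearMap.smul_apply, orth_h_self, show (orthS (quadOf hQ)).q x = 0 from h0]; simp)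
  choose f hf using hD.isometric i0
  have hh : ∀ y z, QuadraticMap.polar Q y z = 0 ↔ (orthS ((Q x)⁻¹ • quadOf hQ)).h y z = 0 := by
    intro y z; simp [QuadraticMap.polar_smul, hc, coe_quadOf]
  have hS : (orthS ((Q x)⁻¹ • quadOf hQ)).Nondeg := fun y hy =>
    quadOf_nondeg hQ y fun z => (hh y z).2 (hy z)
  rw [← coe_quadOf hQ, ← omegaGL_smul _ (inv_ne_zero hc), omegaGL_eq _ hS (by omega)]
  have hq : ∀ i, (orthS ((Q x)⁻¹ • quadOf hQ)).q (f i ⟨x, hx⟩) = 1 := fun i => by
    simp [coe_quadOf, hf, hc]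
  have h' := odec_of _ hh hD.decomp
  generalize orthS ((Q x)⁻¹ • quadOf hQ) = S at hS hq h'
  refine isMaximalIn_odec hS hD.decomp.1 h' ?_ fun H hH hle => frame_even0 hS hp h2 h' (by omega) (by simpa)
    (fun i => (f i ⟨x, hx⟩).2) hq H hH hle
  have hv := (f i0 ⟨x, hx⟩).2
  have qv := hq i0
  generalize (f i0 ⟨x, hx⟩ : ι → F) = v at hv qv
  obtain ⟨s, hs, h1, h3⟩ := exists_sing_top hS (iso3_orth S) [v] [] (by simp; omega)
  have h1 := h1 v (by simp)
  have e : ∀ c : F, (S.eich s v (S.q v)).1 (c • v) = c • (v - (2 : F) • s) := fun c => by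
    rw [map_smul, eich_apply_of_perp (ECond.of_q hs (S.h_swap_zero h1)) (S.h_swap_zero h1)]
    simp [orth_h_self, qv]
  refine ⟨_, S.eich_mem_E s v (S.q v), fun hp => ?_⟩
  obtain ⟨j, hj⟩ := hp i0
  have h4 := hj _ (Submodule.smul_mem _ 1 hv)
  rw [e, one_smul] at h4
  by_cases hij : i0 = j
  · subst hij
    refine h3 ((smul_eq_zero.1 (h'.eq_zero' ((Submodule.sub_mem_iff_right _ hv).1 h4)
      fun y hy => ?_)).resolve_left h2 ▸ zero_mem _)
    obtain ⟨c, rfl⟩ := Submodule.mem_span_singleton.1 ((Submodule.eq_of_le_of_finrank_eq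
      ((Submodule.span_singleton_le_iff_mem _ _).2 hv) (by
        rw [finrank_span_singleton (by rintro rfl; simp [S.orth_q_zero] at qv), h.dim])).ge hy)
    simp [h1]
  · simpa [h1, orth_h_self, qv, h2] using h'.orth i0 j hij h4 v hv

end H29
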