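import Cfsg.Agent.H29.Hom
import Cfsg.Agent.S0877

/-! A Hall `σ'`-subgroup containing a conjugate of every `σ'`-subgroup of a `σ'`-homogeneous group with `σ`-closed
`σ'`-local subgroups controls fusion (`DH.trans`, `DH.fus`) and has a normal complement (`DH.compl`). -/

set_option autoImplicit false

namespace H29
open Subgroup Cfsg H18 H1
universe u
variable {G : Type u} [Group G] [Finite G] {σ : Set ℕ} {H K L M U D : Subgroup G} {p : ℕ} {g x y : G}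

structure DH (σ : Set ℕ) (H : Subgroup G) : Prop where
  hh : Homog σ G
  hall : Hall σᶜ H ⊤
  sub : ∀ U, PiGrp σᶜ U → ∃ g, U ≤ cj g H
  clo : ∀ U : Subgroup G, U ≠ ⊥ → PiGrp σᶜ U → Clo σ N(U)

omit [Finite G] in
theorem DH.cj (h : DH σ H) (g : G) : DH σ (cj g H) :=
  ⟨h.hh, h.hall.cj_top g, fun U hU => let ⟨k, e⟩ := h.sub U hU; ⟨k * g⁻¹, by simpa [cj_cj] using e⟩, h.clo⟩

theorem DH.conj (h : DH σ H) (h' : DH σ K) : ∃ g, K = H18.cj g H :=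
  let ⟨g, e⟩ := h.sub K h'.hall.pi; ⟨g, h'.hall.eq_of_le' (h.hall.cj_top g) e⟩

theorem Clo.decomp (c : Clo σ M) (hL : Hall σᶜ L M) (hg : g ∈ M) : ∃ o ∈ O[σ](M), ∃ l ∈ L, g = o * l :=
  (mem_sup_of_norm' (hL.le.trans pcore_nml.norm)).1 ((c.sup_compl hL).ge hg)

theorem Homog.pcore_le (hh : Homog σ G) (hU : PiGrp σᶜ U) (hM : M ≤ N(U)) : O[σ](M) ≤ C(U) :=
  fun _ ho => Homog.cent hh hU (pcore_pi.elt ho) (hM (H18.pcore_le ho))

theorem DH.trans (hp : p.Prime) (hσ : p ∉ σ) (h1 : DH σ H) (h2 : DH σ K) (hD : PiGrp {p} D) (d1 : D ≠ ⊥) (l1 : D ≤ H)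
    (l2 : D ≤ K) : ∃ c ∈ C(D), K = H18.cj c H := by
  by_contra hc
  obtain ⟨D, -, ⟨hD, d1, H, K, h1, h2, l1, l2, hc⟩, mx⟩ := exists_maximal_sub (fun D : Subgroup G => PiGrp {p} D ∧
    D ≠ ⊥ ∧ ∃ H K, DH σ H ∧ DH σ K ∧ D ≤ H ∧ D ≤ K ∧ ¬ ∃ c ∈ C(D), K = H18.cj c H) ⟨hD, d1, H, K, h1, h2, l1, l2, hc⟩
  have ih : ∀ {E H K : Subgroup G}, PiGrp {p} E → D < E → DH σ H → DH σ K → E ≤ H → E ≤ K →
      ∃ c ∈ C(D), K = H18.cj c H := fun {E H K} e l a b c d => by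
    by_contra k
    exact l.ne' (mx E ⟨e, (bot_le.trans_lt l).ne', H, K, a, b, c, d, fun ⟨c, hc, s⟩ => k ⟨c, C_anti l.le hc, s⟩⟩ l.le)
  have dπ : PiGrp σᶜ D := hD.of_p hσ
  have cl := h1.clo D d1 dπ
  have oc := Homog.pcore_le h1.hh dπ le_rfl
  refine hc ?_
  by_cases hS : Hall {p} D ⊤
  · have a : ∀ {H K : Subgroup G}, DH σ H → DH σ K → D ≤ H → D ≤ K → ∃ n ∈ N(D), K = H18.cj n H := by
      intro H K h1 h2 l1 l2
      obtain ⟨g, rfl⟩ := h1.conj h2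
      obtain ⟨h, hh, e⟩ := sylow_conj hp (hS.of_le l1 le_top) ((hS.cj_top g⁻¹).of_le (le_cj_iff.1 l2) le_top)
      exact ⟨g * h, by rw [mem_N_iff_cj, cj_mul, ← e, cj_cj_inv], by rw [cj_mul, cj_eq_self_of_mem hh]⟩
    obtain ⟨L, hL⟩ := cl.exists_compl pcore_nml.norm
    obtain ⟨g, e⟩ := h1.sub L hL.pi
    obtain ⟨n, hn, e'⟩ := a h1 (h1.cj g) l1 ((hL.nml_le nml_N dπ).trans e)
    obtain ⟨m, hm, rfl⟩ := a h1 h2 l1 l2
    obtain ⟨o, ho, l, hl, rfl⟩ := Clo.decomp cl (hL.cj_mem (inv_mem hn)) hm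
    exact ⟨o, oc ho, by rw [cj_mul, cj_eq_self_of_mem (le_cj_iff.1 (e.trans e'.le) hl)]⟩
  have a : ∀ {H : Subgroup G}, DH σ H → D ≤ H → Hall σᶜ (H ⊓ N(D)) N(D) ∧ ∃ E, PiGrp {p} E ∧ D < E ∧ E ≤ H ⊓ N(D) := by
    intro H h l
    obtain ⟨P, hP, lP⟩ := exists_sylow_le hp hD l
    have lt := hP.pi.nil.lt_norm (lt_of_le_of_ne lP fun e => hS (e ▸ hP.trans_p h.hall hσ))
    have lE : P ⊓ N(D) ≤ H ⊓ N(D) := inf_le_inf_right _ hP.le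
    refine ⟨?_, _, hP.pi.inf_left, lt, lE⟩
    obtain ⟨L, hL, lL⟩ := (piSep_of_closed cl).compl.hall_superset inf_le_right (h.hall.pi.inf_left (B := N(D)))
    obtain ⟨g, e⟩ := h.sub L hL.pi
    obtain ⟨c, hc, e'⟩ := ih hP.pi.inf_left lt h (h.cj g) (lE.trans inf_le_left) (lE.trans (lL.trans e))
    have := hL.cj_mem (inv_mem (C_le_N hc))
    exact this.of_ge (le_inf (le_cj_iff.1 (e.trans e'.le)) this.le) inf_le_right h.hall.pi.inf_left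
  obtain ⟨a1, -⟩ := a h1 l1
  obtain ⟨a2, E, hE, lt, lE⟩ := a h2 l2
  obtain ⟨g, hg, e⟩ := (piSep_of_closed cl).compl.hall_conj a1 a2
  obtain ⟨o, ho, l, hl, rfl⟩ := Clo.decomp cl a1 hg
  rw [cj_mul, cj_eq_self_of_mem hl] at e
  obtain ⟨c, hc, e'⟩ := ih hE lt (h1.cj o) h2 (lE.trans (e.le.trans (cj_mono inf_le_left))) (lE.trans inf_le_left)
  exact ⟨c * o, mul_mem hc (oc ho), by rw [e', cj_cj]⟩

theorem DH.fus (h : DH σ H) (hx : x ∈ H) (hy : g * x * g⁻¹ ∈ H) : ∃ k ∈ H, k * x * k⁻¹ = g * x * g⁻¹ := by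
  by_cases x1 : x = 1
  · exact ⟨1, one_mem _, by simp [x1]⟩
  obtain ⟨z, hz, hp⟩ := exists_prime_pow_elt x1
  have hD : PiGrp {orderOf z} (zpowers z) := piGrp_of_prime hp card_zpowers'
  have zx : zpowers z ≤ zpowers x := zpowers_le.2 hz
  have zH : zpowers z ≤ H := zx.trans (zpowers_le.2 hx)
  have dπ : PiGrp σᶜ (zpowers z) := h.hall.pi.of_le zH
  have d1 : zpowers z ≠ ⊥ := ne_bot_of_prime (by rwa [card_zpowers'])
  have hσ : orderOf z ∉ σ := dπ _ hp (by rw [card_zpowers'])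
  obtain ⟨c, hc, e⟩ := h.trans hp hσ (h.cj g⁻¹) hD d1 zH (zx.trans (zpowers_le.2 (mem_cj.2 (by simpa using hy))))
  have n : g * c ∈ N(H) := by rw [mem_N_iff_cj, cj_mul, ← e, cj_cj_inv]
  obtain ⟨o, ho, k, hk, e1⟩ := Clo.decomp (h.clo H (ne_bot_of_mem hx x1) h.hall.pi) (h.hall.of_le le_N le_top) n
  have oc := Homog.pcore_le h.hh h.hall.pi le_rfl ho
  have cl : Clo σ C(zpowers z) := (h.clo _ d1 dπ).pcore_of_le C_le_N
  obtain ⟨L, hL⟩ := cl.exists_compl pcore_nml.norm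
  obtain ⟨j, e2⟩ := h.sub L hL.pi
  obtain ⟨d, hd, e3⟩ := h.trans hp hσ (h.cj j) hD d1 zH ((hL.nml_le ⟨abel_zpowers, C_le_N⟩ dπ).trans e2)
  obtain ⟨u, hu, l, hl, e4⟩ := Clo.decomp cl (hL.cj_mem (inv_mem hd)) (mul_mem (C_anti zH oc) (inv_mem hc))
  have lH : l ∈ H := le_cj_iff.1 (e2.trans e3.le) hl
  have xC : x ∈ C(zpowers z) := cent_mono abel_zpowers le_rfl zx (mem_zpowers x)
  have e5 : g = k * (u * l) := by rw [← e4, ← mul_assoc, mem_C.1 oc k hk, ← e1, mul_inv_cancel_right]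
  have m : l * x * l⁻¹ ∈ H := mul_mem (mul_mem lH hx) (inv_mem lH)
  have : u * (l * x * l⁻¹ * u⁻¹ * (l * x * l⁻¹)⁻¹) ∈ O[σ](C(zpowers z)) ⊓ H :=
    ⟨mul_mem hu (conj_mem pcore_nml.norm (conj_mem le_N ((hL.cj_mem (inv_mem hd)).le hl) xC) (inv_mem hu)), by
      have := mul_mem (mul_mem (mul_mem (inv_mem hk) hy) hk) (inv_mem m)
      rw [e5] at this
      simpa [mul_assoc] using this⟩
  rw [pcore_pi.inf_eq_bot h.hall.pi, mem_bot] at this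
  refine ⟨k * l, mul_mem hk lH, ?_⟩
  rw [e5]
  calc _ = k * (u * (l * x * l⁻¹ * u⁻¹ * (l * x * l⁻¹)⁻¹) * (l * x * l⁻¹)) * k⁻¹ := by rw [this]; group
    _ = _ := by group

theorem DH.compl (h : DH σ H) : ∃ K : Subgroup G, K.Normal ∧ K ⊔ H = ⊤ ∧ K ⊓ H = ⊥ :=
  Cfsg.Agent.S0877.result H (by simpa using h.hall.coprime)
    (fun _ hx _ hy e => by obtain ⟨g, rfl⟩ := isConj_iff.1 e; exact h.fus hx hy)
    fun E _ _ _ d => let ⟨g, e⟩ := h.sub E (h.hall.pi.of_dvd d); ⟨g⁻¹, le_cj_iff.1 e⟩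

/-- a simple group with a Hall subgroup as above and closed proper subgroups -/
theorem pi_of_simple [IsSimpleGroup G] (hh : Homog σ G) (hH : Hall σᶜ H ⊤) (hs : ∀ U, PiGrp σᶜ U → ∃ g, U ≤ cj g H)
    (hc : ∀ M : Subgroup G, M ≠ ⊤ → Clo σ M) : PiNat σ (Nat.card G) ∨ PiNat σᶜ (Nat.card G) := by
  by_contra k
  rw [not_or, ← card_top] at k
  obtain ⟨K, n, a, b⟩ := DH.compl ⟨hh, hH, hs, fun U h1 hU => hc _ fun e =>
    (norm_top_iff.1 e.ge).eq_bot_or_eq_top.elim h1 fun e => k.2 (e ▸ hU)⟩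
  obtain rfl | rfl := n.eq_bot_or_eq_top
  · rw [bot_sup_eq] at a; exact k.2 (a ▸ hH.pi)
  · rw [top_inf_eq] at b; exact k.1 (b ▸ hH).compl_of_eq_bot.of_compl_compl

end H29
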