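import Cfsg.Agent.H29.TK5

/-! Overgroups of `GU_2(q ^ 5)` in `SU_10(q)`, part 1: the structure `KX`; a proper overgroup
contains no transvection with a `K`-isotropic centre (`KX.not_tr`), no Eichler transformation inside
an isotropic `K`-line (`KX.not_ei`) and induces no transvections on such a line (`KX.not_tv`). -/

set_option autoImplicit false
set_option linter.unusedSectionVars false

namespace H29

open Module H11 H11.PForm

/-- the fixed field of `σ` -/
abbrev fxF {F : Type*} [Field F] (σ : F →+* F) : Subfield F := σ.eqLocusField (RingHom.id F)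

section
variable {F : Type*} [Field F] {σ : F →+* F}

theorem split0 {c a b : F} (hc : σ c ≠ c) {e : F} (ha : σ a = e * a) (hb : σ b = e * b) (he : e ≠ 0)
    (h : a + c * b = 0) : a = 0 ∧ b = 0 := by
  have h1 := congrArg σ h
  rw [map_add, map_mul, ha, hb, map_zero] at h1
  have : b = 0 := (mul_eq_zero.1 (by linear_combination h1 - e * h : (e * (σ c - c)) * b = 0)).resolve_left
    (mul_ne_zero he (sub_ne_zero.2 hc))
  exact ⟨by simpa [this] using h, this⟩

theorem finrank_fxF (hσ : ∀ a, σ (σ a) = a) (hne : σ ≠ RingHom.id F) : finrank (fxF σ) F = 2 := by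
  obtain ⟨c, hc⟩ := exists_σ_ne hne
  have d := sub_ne_zero.2 hc
  rw [← (LinearEquiv.ofBijective ((LinearMap.toSpanSingleton (fxF σ) F 1).coprod
    (LinearMap.toSpanSingleton _ F c)) ⟨(injective_iff_map_eq_zero _).2 fun p hp => ?_,
      fun x => ⟨(⟨x - (σ x - x) / (σ c - c) * c, ?_⟩, ⟨(σ x - x) / (σ c - c), ?_⟩), ?_⟩⟩).finrank_eq]
  · simp
  · obtain ⟨a, b⟩ := split0 hc (a := p.1.1) (b := p.2.1) (e := 1) (p.1.2.trans (one_mul _).symm)
      (p.2.2.trans (one_mul _).symm)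
      one_ne_zero (by rw [mul_comm, ← mul_one (p.1 : F)]; exact hp)
    exact Prod.ext (Subtype.ext a) (Subtype.ext b)
  · have d' : c - σ c ≠ 0 := sub_ne_zero.2 hc.symm
    simp only [RingHom.mem_eqLocusField, map_sub, map_mul, map_div₀, hσ, RingHom.id_apply]
    rw [show (x - σ x) / (c - σ c) = (σ x - x) / (σ c - c) by rw [div_eq_div_iff d' d]; ring]
    field_simp
    ring
  · have d' : c - σ c ≠ 0 := sub_ne_zero.2 hc.symm
    simp only [RingHom.mem_eqLocusField, map_sub, map_div₀, hσ, RingHom.id_apply]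
    rw [div_eq_div_iff d' d]; ring
  · exact (congrArg (· + _) (mul_one _)).trans (sub_add_cancel _ _)

theorem finrank_fxM (hσ : ∀ a, σ (σ a) = a) (hne : σ ≠ RingHom.id F) (M : Type*) [AddCommGroup M]
    [Module F M] : finrank (fxF σ) M = 2 * finrank F M := by
  rw [← finrank_mul_finrank (fxF σ) F M, finrank_fxF hσ hne]

end

variable {F K V : Type*} [Field F] [Finite F] [Field K] [Finite K] [Algebra F K]
  {σ : F →+* F} {hσ : ∀ a, σ (σ a) = a} {τ : K →+* K} {hτ : ∀ a, τ (τ a) = a}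
  [AddCommGroup V] [Module F V] [Module K V] [IsScalarTower F K V] [FiniteDimensional F V]
  [FiniteDimensional K V] {S : PForm (unitP σ hσ) V} {H : Subgroup S.Isom} {B : PForm (unitP τ hτ) V} {φ : Dual F K}
  {v v' w x y : V} {s k : K}

variable (K) in
/-- some element of `H` maps the `K`-line of `v` linearly, with `v ↦ w` -/
def Mv (H : Subgroup S.Isom) (v w : V) : Prop := ∃ g ∈ H, ∀ k : K, g.1 (k • v) = k • w

theorem Mv.trans (h : Mv K H v w) (h' : Mv K H w x) : Mv K H v x :=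
  let ⟨g, a, b⟩ := h
  let ⟨g', a', b'⟩ := h'
  ⟨g' * g, H.mul_mem a' a, fun k => by rw [isom_mul_apply, b, b']⟩

theorem Mv.ei (h : Mv K H v w) {a : F} (e : S.eich v (s • v) a ∈ H) : S.eich w (s • w) a ∈ H := by
  obtain ⟨g, hg, b⟩ := h
  have := eich_conj e hg
  rwa [b, ← one_smul K v, b, one_smul] at this

/-- a proper overgroup of `GU_2(K) ∩ SU` -/
structure KX (φ : Dual F K) (B : PForm (unitP τ hτ) V) (H : Subgroup S.Isom) : Prop where
  ne : σ ≠ RingHom.id F
  ta : ∀ a, τ (algebraMap F K a) = algebraMap F K (σ a)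
  p1 : φ 1 = 1
  sφ : ∀ k, φ (τ k) = σ (φ k)
  nd : S.Nondeg
  hB : ∀ x y, S.h x y = φ (B.h x y)
  five : finrank F K = 5
  two : finrank K V = 2
  hH : ∀ g ∈ B.E, ∃ g' ∈ H, ∀ x, g'.1 x = g.1 x
  hT : ∃ l : K, (∀ a : F, a ≠ 0 → τ (a • l) ≠ a • l) ∧ ∀ v v', B.IsHyp v v' → Mv K H v (l • v)
  nb : ¬ S.E ≤ H

namespace KX
variable (h : KX φ B H)
include h

theorem ts (a : F) (k : K) : τ (a • k) = σ a • τ k := by simp [Algebra.smul_def, h.ta]

theorem φ0 : φ ≠ 0 := fun e => by simpa [e] using h.p1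

theorem neK : τ ≠ RingHom.id K := fun e => h.ne (RingHom.ext fun a => (algebraMap F K).injective (by
  rw [← h.ta, e]; rfl))

theorem fdK : FiniteDimensional F K := finite_of_finrank_pos (by rw [h.five]; omega)

theorem ndK : B.Nondeg := fun x hx => h.nd x fun y => by rw [h.hB, hx, map_zero]

theorem ten : finrank F V = 10 := by rw [← finrank_mul_finrank F K V, h.five, h.two]

theorem pr : (finrank F K).Prime := by rw [h.five]; exact Nat.prime_five

/-- the skew elements of `K` -/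
def Sk : Submodule (fxF σ) K where
  carrier := {s | τ s = -s}
  add_mem' := fun {a b} ha hb => by rw [Set.mem_setOf_eq, map_add, ha, hb, neg_add]
  zero_mem' := by simp
  smul_mem' := fun c s hs => by
    change τ ((c : F) • s) = -((c : F) • s)
    rw [h.ts, hs, show σ c = c from c.2, smul_neg]

theorem mem_Sk : s ∈ h.Sk ↔ τ s = -s := Iff.rfl

theorem dec {c : F} (hc : σ c ≠ c) (k : K) : ∃ s s', τ s = -s ∧ τ s' = -s' ∧ k = s + c • s' := by
  have d := sub_ne_zero.2 hc.symm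
  have e : τ ((c - σ c)⁻¹ • (k + τ k)) = -((c - σ c)⁻¹ • (k + τ k)) := by
    rw [h.ts, map_add, hτ, map_inv₀, map_sub, hσ, ← neg_sub c, inv_neg, neg_smul, add_comm]
  refine ⟨k - c • (c - σ c)⁻¹ • (k + τ k), _, ?_, e, (sub_add_cancel _ _).symm⟩
  rw [map_sub, h.ts, e]
  match_scalars <;> field_simp <;> ring

theorem rk_Sk : finrank (fxF σ) h.Sk = 5 := by
  haveI := h.fdK
  obtain ⟨c, hc⟩ := exists_σ_ne h.ne
  have := (LinearEquiv.ofBijective (h.Sk.subtype.coprod (c • h.Sk.subtype))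
    ⟨(injective_iff_map_eq_zero _).2 fun p hp => ?_, fun x => ?_⟩).finrank_eq
  · rw [finrank_prod, finrank_fxM hσ h.ne, h.five] at this
    omega
  · replace hp : p.1.1 + c • p.2.1 = 0 := hp
    have h1 := congrArg τ hp
    rw [map_add, h.ts, p.1.2, p.2.2, map_zero] at h1
    have : p.2.1 = 0 := (smul_eq_zero.1 (show (c - σ c) • p.2.1 = 0 by
      linear_combination (norm := module) hp + h1)).resolve_left (sub_ne_zero.2 hc.symm)
    exact Prod.ext (Subtype.ext (by simpa [this] using hp)) (Subtype.ext this)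
  · obtain ⟨s, s', a, b, e⟩ := h.dec hc x
    exact ⟨(⟨s, a⟩, ⟨s', b⟩), e.symm⟩

theorem φsk (hs : τ s = -s) : σ (φ s) = -1 * φ s := by rw [← h.sφ, hs, map_neg, neg_one_mul]

theorem φfx (hs : τ s = s) : σ (φ s) = 1 * φ s := by rw [← h.sφ, hs, one_mul]

theorem sk0 (e : ∀ s, τ s = -s → φ (s * k) = 0) : k = 0 := eq_zero_of_dual h.φ0 fun x => by
  obtain ⟨c, hc⟩ := exists_σ_ne h.ne
  obtain ⟨s, s', a, b, rfl⟩ := h.dec hc x
  simp [add_mul, e s a, e s' b]

theorem ex_sk {M : Type*} [AddCommGroup M] [Module F M] [FiniteDimensional F M] (hM : finrank F M ≤ 2)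
    (L : K →ₗ[fxF σ] M) : ∃ s, s ≠ 0 ∧ τ s = -s ∧ L s = 0 := by
  haveI := h.fdK
  haveI : FiniteDimensional (fxF σ) F := finite_of_finrank_pos (by rw [finrank_fxF hσ h.ne]; omega)
  haveI : FiniteDimensional (fxF σ) M := Module.Finite.trans F M
  haveI : FiniteDimensional (fxF σ) K := Module.Finite.trans F K
  obtain ⟨s, a, b⟩ := Submodule.exists_mem_ne_zero_of_ne_bot (LinearMap.ker_ne_bot_of_finrank_lt
    (f := L ∘ₗ h.Sk.subtype) (by rw [h.rk_Sk, finrank_fxM hσ h.ne]; omega))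
  exact ⟨s, by simpa using b, s.2, a⟩

theorem hT' (hv : B.h v v = 0) (hs : τ s = -s) : ∃ g ∈ H, ∀ x, g.1 x = x + (s * B.h v x) • v := by
  obtain ⟨g, hg, e⟩ := h.hH _ (B.eich_mem_E v 0 (-s))
  exact ⟨g, hg, fun x => by simp [e, transv_apply (us hv) (a := -s) (by simp [mem_unitP_Λ, hs])]⟩

theorem mv_tor (Hy : B.IsHyp v v') (k0 : k ≠ 0) (hk : τ k = k) : Mv K H v (k • v) := by
  obtain ⟨g, hg, e⟩ := h.hH _ (T_le_E (Hy.unit_tor_mem_T h.neK (c := Units.mk0 k k0) hk))
  exact ⟨g, hg, fun a => by simp [e]⟩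

theorem mv_swp (Hy : B.IsHyp v v') (s0 : s ≠ 0) (hs : τ s = -s) : Mv K H v (s • v') := by
  obtain ⟨g, hg, e⟩ := h.hT' Hy.h_ff hs
  obtain ⟨g', hg', e'⟩ := h.hT' Hy.h_ee (s := -s⁻¹) (by simp [hs])
  refine ⟨g' * g, H.mul_mem hg' hg, fun a => ?_⟩
  simp only [isom_mul_apply, e, e', map_add, map_smul, smul_eq_mul, Hy.h_ee, Hy.h_ef, uone Hy.h_ef]
  match_scalars <;> field_simp <;> ring

theorem dec2 (Hy : B.IsHyp v v') (x : V) : x = B.h v' x • v + B.h v x • v' := by
  obtain ⟨w, hw, e⟩ := Hy.exists_decomp x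
  have := Hy.finrank_perp
  have := h.two
  simpa [show w = 0 from (Submodule.finrank_eq_zero.1 (by omega)).le hw] using e

theorem not_tr (hv : B.h v v = 0) (v0 : v ≠ 0) {α : F} (α0 : α ≠ 0) (hα : σ α = -α)
    (ht : S.eich v 0 α ∈ H) : False := by
  haveI := h.fdK
  obtain ⟨v', Hy⟩ := h.ndK.exists_isHyp (us hv) v0
  have Hy' : B.IsHyp v' v := ⟨Hy.2, Hy.1, uone Hy.h_ef⟩
  obtain ⟨c, hc⟩ := exists_σ_ne h.ne
  obtain ⟨l, hl, ml⟩ := h.hT
  have mα : α ∈ (unitP σ hσ).Λ := by simp [mem_unitP_Λ, hα]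
  have sg : ∀ {w : V} (k : K), B.h w w = 0 → S.Sing (k • w) := fun k hw => us (by simp [h.hB, hw])
  have hs : S.Sing v := us (by simp [h.hB, hv])
  have t1 : ∀ w, Mv K H v w → S.eich w 0 α ∈ H := fun w m => by simpa using m.ei (s := 0) (by simpa)
  have t2 : ∀ z, S.Sing z → S.eich z 0 α ∈ H → S.h z v = 0 → ∀ y ∈ BSet H hs,
      (α * S.h z y) • z ∈ BSet H hs := fun z hz e e' y hy => by
    have := sub_mem hy (BSet_map (hu' := hs) hy e (eich_apply_of_perp_perp e' (by simp)))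
    simpa [transv_apply hz mα] using this
  have t3 : ∀ k, τ k = k → S.eich (k • v) 0 α ∈ H := fun k hk => by
    obtain rfl | k0 := eq_or_ne k 0
    · exact (isom_ext fun x => by simp [transv_apply (S := S) (u := 0) (us (by simp)) mα] :
        S.eich ((0 : K) • v) 0 α = 1) ▸ H.one_mem
    · exact t1 _ (h.mv_tor Hy k0 hk)
  have t4 : ∀ k, τ k = k → α • k • v ∈ BSet H hs := fun k hk => by
    have e : S.ECond v (-(α • k • v)) 0 := ⟨hs, by simp [h.hB, hv],
      (S.unit_congr_iff _ _).2 (by simp [h.hB, hv])⟩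
    refine neg_mem_iff.1 ⟨0, e, (H.mul_mem_cancel_right (H.mul_mem ht (t3 k hk))).1
      ((isom_ext fun x => ?_ : S.eich ((1 + k) • v) 0 α = S.eich v (-(α • k • v)) 0 *
        (S.eich v 0 α * S.eich (k • v) 0 α)) ▸ t3 _ (by simp [hk]))⟩
    have b : ∀ a b : K, S.h (a • v) (b • v) = 0 := fun a b => by simp [h.hB, hv]
    have b1 : S.h v (k • v) = 0 := by simp [h.hB, hv]
    have b2 : S.h (k • v) v = 0 := by simp [h.hB, hv]
    have b3 : S.h v v = 0 := hs.h_self
    rw [transv_apply (sg _ hv) mα]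
    simp only [isom_mul_apply, transv_apply (sg _ hv) mα, transv_apply hs mα, eich_apply e, add_smul,
      one_smul, map_add, map_sub, map_smul, map_neg, LinearMap.add_apply, LinearMap.neg_apply, b, b1, b2,
      b3, h_smul_left, hα, unitP_ε, smul_eq_mul]
    module
  obtain ⟨s₁, s0, hs₁, e₁⟩ := h.ex_sk (M := F) (by simp)
    ((φ ∘ₗ LinearMap.mul F K l).restrictScalars (fxF σ))
  replace e₁ : φ (l * s₁) = 0 := e₁
  have l0 : l ≠ 0 := by rintro rfl; simpa using hl 1 one_ne_zero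
  have m₁ : Mv K H v ((l * s₁) • v') := by
    obtain ⟨g, hg, e⟩ := ml v' v Hy'
    exact (h.mv_swp Hy s0 hs₁).trans ⟨g, hg, fun k => by simp only [smul_smul, e]; congr 1; ring⟩
  have t5 : ∀ a : F, a • (l * s₁) • v' ∈ BSet H hs := fun a => by
    let I : Submodule (fxF σ) F := (LinearMap.eqLocus (⟨⟨τ, map_add τ⟩, fun c x =>
      (h.ts c x).trans (congrArg (· • τ x) (show σ c = c from c.2))⟩ : K →ₗ[fxF σ] K) .id).map
      ((φ ∘ₗ LinearMap.mul F K (τ (l * s₁))).restrictScalars (fxF σ))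
    obtain ⟨k, hk, e⟩ : a / (α * α) ∈ I := by
      by_contra m
      obtain ⟨θ, θ1, θ2⟩ := exists_dual_of_notMem I m 1
      obtain ⟨b, b0, hb⟩ : ∃ b : F, b ≠ 0 ∧ ∀ x, θ x = 0 → b * x + σ (b * x) = 0 := by
        obtain ⟨p, p1, p0⟩ := Submodule.exists_mem_ne_zero_of_ne_bot (LinearMap.ker_ne_bot_of_finrank_lt
          (f := θ) (by simp [finrank_fxF hσ h.ne]))
        refine ⟨α / p, div_ne_zero α0 p0, fun x hx => ?_⟩
        obtain ⟨r, rfl⟩ := (finrank_eq_one_iff_of_nonzero' (⟨p, p1⟩ : LinearMap.ker θ) (by simpa)).1 (by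
          have := θ.finrank_range_add_finrank_ker
          rw [finrank_fxF hσ h.ne, LinearMap.range_eq_top.2 (LinearMap.surjective_iff_ne_zero.2 fun e => by
            simp [e] at θ2), finrank_top, finrank_self] at this
          exact Nat.add_left_cancel (this.trans (by rfl : 2 = 1 + 1))) ⟨x, hx⟩ |>.imp fun _ e => congrArg Subtype.val e
        change α / p * (r * p) + σ (α / p * (r * p)) = 0
        rw [mul_left_comm, div_mul_cancel₀ _ p0, map_mul, hα, show σ r = r from r.2]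
        ring
      have e : b • τ (l * s₁) + σ b • (l * s₁) = 0 := h.sk0 fun s hs => by
        have := hb _ (θ1 _ ⟨α • s, (by simp [h.ts, hα, hs] : τ _ = _), rfl⟩)
        change b * φ (τ (l * s₁) * α • s) + σ (b * φ (τ (l * s₁) * α • s)) = 0 at this
        rw [map_mul σ, ← h.sφ, map_mul τ _ (α • s), hτ, h.ts, hα, hs] at this
        simp only [add_mul, mul_smul_comm, smul_mul_assoc, map_add, map_smul, smul_eq_mul, smul_neg,
          neg_smul, neg_neg, mul_comm s] at this ⊢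
        exact mul_left_cancel₀ α0 (by linear_combination this)
      refine hl (σ b) (by simpa) (mul_right_cancel₀ s0 ?_)
      rw [map_mul, hs₁] at e
      rw [h.ts, hσ, Algebra.smul_def, Algebra.smul_def]
      rw [Algebra.smul_def, Algebra.smul_def] at e
      linear_combination -e
    have := t2 _ (sg _ Hy.h_ff) (t1 _ m₁) (by
      simp [h.hB, uone Hy.h_ef, -map_mul, h.sφ, e₁]) _ (t4 k hk)
    replace e : φ (τ (l * s₁) * k) = a / (α * α) := e
    rwa [map_smul, h.hB, map_smul, h_smul_left, uone Hy.h_ef, mul_one, smul_eq_mul, smul_eq_mul,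
      mul_comm k, e, ← mul_assoc, mul_div_cancel₀ _ (mul_ne_zero α0 α0)] at this
  have t6 : ∀ k : K, k • v ∈ BSet H hs := fun k => by
    have a : ∀ s, τ s = -s → ∀ a : F, (a • s * (l * s₁)) • v ∈ BSet H hs := fun s e a => by
      obtain ⟨g, hg, e⟩ := h.hT' hv e
      have := sub_mem (BSet_map (hu' := hs) (t5 a) hg (by simp [e, hv])) (t5 a)
      rw [e, ← algebraMap_smul K a] at this
      simpa [-algebraMap_smul, Hy.h_ef, Algebra.smul_def, mul_left_comm, mul_assoc] using this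
    obtain ⟨s, s', a1, a2, e⟩ := h.dec hc (k / (l * s₁))
    rw [div_eq_iff (mul_ne_zero l0 s0)] at e
    simpa [e, add_mul, add_smul] using add_mem (a s a1 1) (a s' a2 c)
  have t7 : ∀ s, τ s = -s → φ s = 0 → ∀ a : F, a • s • v' ∈ BSet H hs := fun s e e' a => by
    obtain rfl | s0 := eq_or_ne s 0
    · simp
    have := t2 _ (sg _ Hy.h_ff) (t1 _ (h.mv_swp Hy s0 e)) (by simp [h.hB, uone Hy.h_ef, e, e'])
      _ (t6 (-(a / α) • s⁻¹))
    simpa [h.hB, uone Hy.h_ef, e, s0, h.p1, mul_div_cancel₀ _ α0] using this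
  have full : Full H v := full_of_BSet_mod h.nd (lmin_unit hσ h.ne) (by rw [h.ten]; omega) hs
    fun x hx => ⟨0, by
      obtain ⟨s, s', a1, a2, e⟩ := h.dec hc (B.h v x)
      obtain ⟨b1, b2⟩ := split0 hc (h.φsk a1) (h.φsk a2) (by simp) (by simpa [h.hB, e] using hx)
      rw [zero_smul, add_zero, h.dec2 Hy x, e, add_smul, smul_assoc]
      exact add_mem (t6 _) (add_mem (by simpa using t7 s a1 b1 1) (t7 s' a2 b2 c))⟩
  obtain ⟨g, hg, e⟩ := h.mv_swp Hy (s := algebraMap F K α) (by simpa) (by simp [h.ta, hα])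
  have e1 := e 1
  simp only [one_smul, algebraMap_smul] at e1
  exact h.nb (S.E_le_iff.2 fun x y a _ => full_all_of_pair h.nd hs (by simpa) full (full.map hg)
    (by simp [e1, h.hB, Hy.h_ef, h.p1, α0]) x y a)

theorem not_ei (hv : B.h v v = 0) (v0 : v ≠ 0) (hs : τ s = -s) (sF : ∀ a, algebraMap F K a ≠ s)
    (hb : s • v ∈ BSet H (us (by simp [h.hB, hv]) : S.Sing v)) : False := by
  haveI := h.fdK
  generalize (us (by simp [h.hB, hv]) : S.Sing v) = sv at hb
  obtain ⟨v', Hy⟩ := h.ndK.exists_isHyp (us hv) v0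
  obtain ⟨c, hc⟩ := exists_σ_ne h.ne
  have f := uone Hy.h_ef
  have t1 : ∀ r, r ≠ 0 → τ r = -r → φ r = 0 → φ (s * r) = 0 →
      φ (s * s * r) • r • v' ∈ BSet H sv := fun r r0 hr e1 e2 => by
    obtain ⟨a, ha, he⟩ := id hb
    have e := (h.mv_swp Hy r0 hr).ei he
    have c' : S.ECond (r • v') (s • r • v') a := ⟨us (by simp [h.hB, Hy.h_ff]), by simp [h.hB, Hy.h_ff],
      (S.unit_congr_iff _ _).2 (by simpa [h.hB, Hy.h_ff, hv] using (S.unit_congr_iff _ _).1 ha.q)⟩
    have := sub_mem hb (BSet_map (hu' := sv) hb e (eich_apply_of_perp_perp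
      (by simp [h.hB, f, hr, e1]) (by simp [h.hB, f, hr, hs, e2])))
    rw [eich_apply_of_perp c' (by simp [h.hB, f, hr, e2])] at this
    simpa [h.hB, f, hr, hs, mul_assoc] using this
  have t2 : ∀ w ∈ BSet H sv, B.h w w = 0 → ∀ r, τ r = -r →
      S.eich v ((r * B.h v w) • v) (-S.h w ((r * B.h v w) • v)) ∈ H := by
    rintro w ⟨b, c1, c2⟩ hw r hr
    obtain ⟨g, hg, e⟩ := h.hT' hv hr
    have a1 := eich_conj c2 hg
    have a2 := c1.map g
    rw [e v, hv, mul_zero, zero_smul, add_zero, e w] at a1 a2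
    have := H.mul_mem (H.inv_mem c2) a1
    rw [eich_inv c1, eich_mul c1.neg a2, neg_add_cancel_left] at this
    convert this using 2
    have := (S.unit_congr_iff _ _).1 c1.q
    simp only [map_neg, map_add, LinearMap.neg_apply, unitP_ε]
    linear_combination this
  obtain ⟨r₀, r0, hr₀, e0⟩ := h.ex_sk (M := F × F) (by simp)
    (((φ + (c * (c - σ c)) • φ ∘ₗ LinearMap.mul F K s).prod (φ ∘ₗ LinearMap.mul F K (s * s))).restrictScalars _)
  have sp : ∀ r, τ r = -r → σ (φ (s * r)) = 1 * φ (s * r) := fun r hr => h.φfx (by simp [hs, hr])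
  obtain ⟨p1, p2⟩ := split0 hc (h.φsk hr₀) (b := (c - σ c) * φ (s * r₀)) (by
    rw [map_mul, sp _ hr₀, map_sub, hσ]; ring) (by simp) (by
      simpa [mul_assoc] using congrArg Prod.fst e0)
  replace p2 := (mul_eq_zero.1 p2).resolve_left (sub_ne_zero.2 hc.symm)
  have p3 : φ (s * s * r₀) = 0 := congrArg Prod.snd e0
  obtain ⟨r₁, hr₁, q1, q2, q3⟩ : ∃ r, τ r = -r ∧ φ r = 0 ∧ φ (s * r) = 0 ∧ φ (s * s * r) ≠ 0 := by
    obtain ⟨θ, θ1, θ2⟩ := exists_dual_of_notMem (Submodule.span F {1, s}) (u := s * s) (fun m => by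
      obtain ⟨a, ha⟩ := mem_range_of_mul h.pr (Submodule.span F {1, s}) (Submodule.subset_span (by simp))
        (fun e => by
          have := finrank_span_two_le (F := F) 1 s
          rw [e, finrank_top, h.five] at this
          omega) (κ := s) fun d hd => by
        obtain ⟨a, b, rfl⟩ := Submodule.mem_span_pair.1 hd
        rw [mul_add, mul_smul_comm, mul_smul_comm, mul_one]
        exact add_mem (Submodule.smul_mem _ _ (Submodule.subset_span (by simp))) (Submodule.smul_mem _ _ m)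
      exact sF a ha) 1
    obtain ⟨κ, hκ⟩ := exists_of_dual h.φ0 θ
    obtain ⟨r, r', a1, a2, rfl⟩ := h.dec hc κ
    obtain ⟨b1, b2⟩ := split0 hc (h.φsk a1) (h.φsk a2) (by simp) (by
      simpa using (hκ 1).trans (θ1 _ (Submodule.subset_span (by simp))))
    obtain ⟨b3, b4⟩ := split0 hc (sp _ a1) (sp _ a2) (by simp) (by
      simpa [mul_add] using (hκ s).trans (θ1 _ (Submodule.subset_span (by simp))))
    by_contra! e
    simpa [mul_add, e r a1 b1 b3, e r' a2 b2 b4] using (hκ _).trans θ2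
  have r1 : r₁ ≠ 0 := by rintro rfl; simp at q3
  have r2 : r₁ + r₀ ≠ 0 := fun e => q3 (by simpa [mul_add, p3] using congrArg (fun x => φ (s * s * x)) e)
  have w1 := t1 r₁ r1 hr₁ q1 q2
  have w2 := t1 (r₁ + r₀) r2 (by simp [hr₁, hr₀, add_comm]) (by simp [q1, p1]) (by simp [mul_add, q2, p2])
  rw [mul_add, map_add, p3, add_zero] at w2
  have hγ := h.φsk (s := s * s * r₁) (by simp [hs, hr₁])
  generalize φ (s * s * r₁) = γ at *
  obtain ⟨r, hr, e⟩ : ∃ r, τ r = -r ∧ φ (r * (r₀ * r₁)) ≠ 0 := by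
    by_contra! e
    exact mul_ne_zero r0 r1 (h.sk0 e)
  have i : ∀ r : K, B.h (γ • r • v') (γ • r • v') = 0 := fun r => by
    rw [← algebraMap_smul K γ]; simp [-algebraMap_smul, Hy.h_ff]
  have j : ∀ r : K, B.h v (γ • r • v') = γ • r := fun r => by
    rw [← algebraMap_smul K γ, map_smul, map_smul, Hy.h_ef]; simp [Algebra.smul_def]
  have u1 := t2 _ w1 (i _) r hr
  have u2 := t2 _ w2 (i _) (r * r₁ / (r₁ + r₀)) (by
    rw [map_div₀, map_mul, map_add, hr, hr₁, hr₀, ← neg_add, neg_mul_neg, div_neg])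
  rw [j] at u1 u2
  rw [mul_smul_comm, div_mul_cancel₀ _ r2] at u2
  rw [mul_smul_comm] at u1
  have ec : ∀ p : K, τ p = -p → S.ECond v ((γ • (r * r₁)) • v) (-S.h (γ • p • v') ((γ • (r * r₁)) • v)) :=
    fun p hp => ⟨sv, by simp [h.hB, hv], (S.unit_congr_iff _ _).2 (by
      have := h.φsk (s := r * r₁ * p) (by simp [hr, hr₁, hp])
      simp [h.hB, hv, f, hp, hγ, this, hσ])⟩
  have := H.mul_mem u1 (H.inv_mem u2)
  rw [eich_inv (ec _ (by simp [hr₁, hr₀, add_comm])), eich_mul (ec _ hr₁)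
    (ec _ (by simp [hr₁, hr₀, add_comm])).neg, add_neg_cancel] at this
  have k1 := h.φsk (s := r * r₁ * r₁) (by simp [hr, hr₁])
  have k2 := h.φsk (s := r * r₁ * r₀) (by simp [hr, hr₁, hr₀])
  refine h.not_tr hv v0 (α := γ * γ * φ (r * r₁ * r₀)) (by
    simpa [q3, mul_assoc, mul_comm r₁] using e) (by simp [hγ, k2]) ?_
  convert this using 2
  simp [h.hB, hv, f, hr₁, hr₀, hγ, mul_add, k1, k2, hσ]
  ring

theorem not_tv (hv : B.h v v = 0) (v0 : v ≠ 0) {c : K} (c0 : c ≠ 0) {D : Submodule (fxF σ) K}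
    (h2 : 2 ≤ finrank (fxF σ) D) (hD : ∀ d ∈ D, φ (τ c * d) = 0 ∧ ∃ g ∈ H, ∀ k : K,
      g.1 (k • v) = (k + φ (τ c * k) • d) • v) : False := by
  haveI := h.fdK
  haveI : FiniteDimensional (fxF σ) F := finite_of_finrank_pos (by rw [finrank_fxF hσ h.ne]; omega)
  haveI : FiniteDimensional (fxF σ) K := Module.Finite.trans F K
  have sg : ∀ k : K, S.Sing (k • v) := fun k => us (by simp [h.hB, hv])
  obtain ⟨α, α0, hα⟩ := exists_mem_unit_Λ hσ h.ne
  rw [mem_unitP_Λ, add_comm, add_eq_zero_iff_eq_neg] at hα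
  have t1 : ∀ d ∈ D, ∀ s, τ s = -s → (s * c) • v ∈ BSet H (sg d) := fun d hd s hs => by
    obtain ⟨-, g, hg, e⟩ := hD d hd
    obtain ⟨t, ht, e'⟩ := h.hT' hv hs
    have a := h.φsk (s := τ c * (s * c)) (by simp [hs, hτ]; ring)
    have c' : S.ECond (d • v) ((s * c) • v) (-φ (τ c * (s * c))) := ⟨sg d, by simp [h.hB, hv],
      (S.unit_congr_iff _ _).2 (by simp [h.hB, hv, -map_mul, a])⟩
    refine ⟨_, c', (H.mul_mem_cancel_right ht).1 ((isom_ext fun x => ?_ : g * t * g⁻¹ =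
      S.eich (d • v) ((s * c) • v) (-φ (τ c * (s * c))) * t) ▸
      H.mul_mem (H.mul_mem hg ht) (H.inv_mem hg))⟩
    have b1 : B.h v (g⁻¹.1 x) = B.h v x + S.h (d • v) x • c := eq_of_dual h.φ0 fun k => by
      have := isom_h_left g (τ k • v) x
      rw [e, add_smul, smul_assoc, map_add, LinearMap.add_apply, h_smul_left, ← map_mul, h.sφ, hσ,
        h.hB, h.hB _ (g⁻¹.1 x)] at this
      simp only [h_smul_left, hτ] at this
      rw [← this]
      simp [mul_add, mul_comm, h.hB]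
    have b2 : φ (τ c * (s * B.h v x)) = -S.h ((s * c) • v) x := by
      simp [h.hB, hs, mul_left_comm, mul_assoc]
    have b3 : ∀ a b : K, S.h (a • v) (b • v) = 0 := fun a b => by simp [h.hB, hv]
    simp only [isom_mul_apply, e', map_add, isom_apply_inv_self, e, b1, eich_apply c', b3, mul_add,
      mul_smul_comm, map_smul, b2, add_smul, smul_assoc, unitP_ε, smul_eq_mul]
    module
  have t2 : ∀ d ∈ D, ∀ d' ∈ D, (α • d') • v ∈ BSet H (sg d) := fun d hd d' hd' => by
    obtain ⟨-, g, hg, e⟩ := hD d' hd'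
    have c1 : τ c ≠ 0 := by simpa
    have a := t1 d hd (α • (τ c * c)⁻¹) (by simp [h.ts, hα, hτ, mul_comm])
    have := sub_mem (BSet_map (hu' := sg d) a hg (by simp [e, (hD d hd).1])) a
    rw [e, add_smul, add_sub_cancel_left, show τ c * (α • (τ c * c)⁻¹ * c) = α • (1 : K) by
      rw [smul_mul_assoc, mul_smul_comm]; congr 1; field_simp] at this
    simpa [h.p1] using this
  let m : K → K →ₗ[fxF σ] K := fun k => (LinearMap.mul F K k).restrictScalars _
  have rk : ∀ k, k ≠ 0 → ∀ P : Submodule (fxF σ) K, finrank (fxF σ) (P.map (m k)) = finrank (fxF σ) P :=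
    fun k k0 P => (Submodule.equivMapOfInjective _ (mul_right_injective₀ k0) P).finrank_eq.symm
  let U := D.map (m (algebraMap F K α)) ⊔ h.Sk.map (m c)
  obtain ⟨d, hd, d0, a⟩ : ∃ d ∈ D, d ≠ 0 ∧ 2 ≤ finrank (fxF σ) (U ⊓ h.Sk.map (m d) : Submodule _ _) := by
    by_cases e : D.map (m (algebraMap F K α)) ⊓ h.Sk.map (m c) = ⊥
    · obtain ⟨d, hd, d0⟩ := Submodule.exists_mem_ne_zero_of_ne_bot (p := D) fun e => by
        rw [e, finrank_bot] at h2; omega
      have a1 := Submodule.finrank_sup_add_finrank_inf_eq (D.map (m (algebraMap F K α))) (h.Sk.map (m c))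
      have a2 := Submodule.finrank_sup_add_finrank_inf_eq U (h.Sk.map (m d))
      have a3 := Submodule.finrank_le (U ⊔ h.Sk.map (m d))
      rw [e, finrank_bot, rk _ (by simpa), rk _ c0, h.rk_Sk] at a1
      rw [rk _ d0, h.rk_Sk] at a2
      rw [finrank_fxM hσ h.ne K, h.five] at a3
      exact ⟨d, hd, d0, by simp only [U] at *; omega⟩
    obtain ⟨_, ⟨⟨d, hd, rfl⟩, s, hs, e⟩, d0⟩ := Submodule.exists_mem_ne_zero_of_ne_bot e
    replace e : c * s = algebraMap F K α * d := e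
    replace d0 : algebraMap F K α * d ≠ 0 := d0
    have a0 := left_ne_zero_of_mul d0
    refine ⟨d, hd, right_ne_zero_of_mul d0, le_trans (by rw [rk _ (right_ne_zero_of_mul d0), h.rk_Sk]; omega)
      (Submodule.finrank_mono (le_inf ?_ le_rfl))⟩
    rintro _ ⟨r, hr, rfl⟩
    refine Submodule.mem_sup_right ⟨s * r / algebraMap F K α, ?_, ?_⟩
    · change τ _ = _
      rw [map_div₀, map_mul, h.ta, hα, map_neg, hs, hr, neg_mul_neg, div_neg]
    · change c * _ = d * r
      rw [← mul_div_assoc, ← mul_assoc, e]; field_simp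
  obtain ⟨_, ⟨u1, s, hs, rfl⟩, u2, -⟩ := exists_mem_ker_notMem [] (U ⊓ h.Sk.map (m d))
    (fxF σ ∙ (algebraMap F K α * d)) (by
      have := finrank_span_one_le (F := fxF σ) (algebraMap F K α * d)
      simp only [List.length_nil]; omega)
  refine h.not_ei (v := d • v) (by simp [hv]) (smul_ne_zero d0 v0) hs (fun a ha => u2 ?_) ?_
  · have : σ a = -a := (algebraMap F K).injective (by rw [← h.ta, map_neg, ha]; exact hs)
    refine Submodule.mem_span_singleton.2 ⟨⟨a / α, by simp [this, hα]⟩, ?_⟩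
    change (a / α) • (algebraMap F K α * d) = d * s
    rw [← ha, Algebra.smul_def, ← mul_assoc, ← map_mul, div_mul_cancel₀ _ α0, mul_comm]
  · obtain ⟨_, ⟨d', hd', rfl⟩, _, ⟨r, hr, rfl⟩, e⟩ := Submodule.mem_sup.1 u1
    replace e : algebraMap F K α * d' + c * r = d * s := e
    have := add_mem (t2 d hd d' hd') (t1 d hd r hr)
    rwa [← add_smul, Algebra.smul_def, mul_comm r, e, mul_comm, mul_smul] at this

end KX

end H29
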