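import Cfsg.Agent.H29.KX1

/-! Overgroups of `GU_2(q ^ 5)` in `SU_10(q)`, part 2: maximal intersections of the images of the
isotropic `K`-lines (`KX.core`), `KX.semi` and the maximality `su_fld_two`. -/

set_option autoImplicit false
set_option linter.unusedSectionVars false

namespace H29

open Module H11 H11.PForm

variable {F K V : Type*} [Field F] [Finite F] [Field K] [Finite K] [Algebra F K]
  {σ : F →+* F} {hσ : ∀ a, σ (σ a) = a} {τ : K →+* K} {hτ : ∀ a, τ (τ a) = a}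
  [AddCommGroup V] [Module F V] [Module K V] [IsScalarTower F K V] [FiniteDimensional F V]
  [FiniteDimensional K V] {S : PForm (unitP σ hσ) V} {H : Subgroup S.Isom} {B : PForm (unitP τ hτ) V}
  {φ : Dual F K} {u x y : V} {X Y D : Submodule F V} {d : ℕ} {g : S.Isom}

/-- images of isotropic `K`-lines -/
def KN (B : PForm (unitP τ hτ) V) (H : Subgroup S.Isom) (X : Submodule F V) : Prop :=
  ∃ g ∈ H, ∃ u, u ≠ 0 ∧ B.h u u = 0 ∧ X = (KL F K u).map (g.1 : V →ₗ[F] V)

/-- distinct members meet in dimension at most `d` -/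
def KO (B : PForm (unitP τ hτ) V) (H : Subgroup S.Isom) (d : ℕ) : Prop :=
  ∀ X Y, KN B H X → KN B H Y → d < finrank F (X ⊓ Y : Submodule F V) → X = Y

theorem kn_kl (hu0 : u ≠ 0) (hu : B.h u u = 0) : KN B H (KL F K u) :=
  ⟨1, H.one_mem, u, hu0, hu, (Submodule.map_id _).symm⟩

theorem KN.map (h : KN B H X) (hg : g ∈ H) : KN B H (X.map (g.1 : V →ₗ[F] V)) := by
  obtain ⟨k, hk, w, hw, hs, rfl⟩ := h
  exact ⟨g * k, H.mul_mem hg hk, w, hw, hs, (Submodule.map_comp _ _ _).symm⟩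

theorem KN.finrank (h : KN B H X) : finrank F X = finrank F K := by
  obtain ⟨g, -, w, hw, -, rfl⟩ := h
  rw [LinearEquiv.finrank_map_eq, finrank_KL hw]

theorem KO.nml (hM : KO B H d) (hX : KN B H X) (hD : D ≤ X) (hd : d ≤ finrank F D) (hg : g ∈ H)
    (h1 : ∀ y ∈ D, g.1 y = y) (hx : x ∈ X) (hx' : g.1 x ∈ X) (hxD : x ∉ D) : ∀ z ∈ X, g.1 z ∈ X :=
  fun z hz => by
  rw [hM X _ hX (hX.map hg) (hd.trans_lt (Submodule.finrank_lt_finrank_of_lt (lt_of_le_of_ne
    (le_inf hD fun y hy => ⟨y, hD hy, h1 y hy⟩) fun e' => hxD (by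
      have a : g.1 x ∈ D := e' ▸ ⟨hx', x, hx, rfl⟩
      exact g.1.injective (h1 _ a) ▸ a))))]
  exact ⟨z, hz, rfl⟩

namespace KX
variable (h : KX φ B H)
include h

theorem ti (hX : KN B H X) (hx : x ∈ X) (hy : y ∈ X) : S.h x y = 0 := by
  obtain ⟨g, -, w, -, hs, rfl⟩ := hX
  obtain ⟨_, ⟨a, rfl⟩, rfl⟩ := hx
  obtain ⟨_, ⟨b, rfl⟩, rfl⟩ := hy
  exact (isom_h g _ _).trans (by simp [h.hB, hs])

theorem core (hM : KO B H (d + 1)) (u0 : u ≠ 0) (hu : B.h u u = 0) (hY : KN B H Y)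
    (hd : d < finrank F (KL F K u ⊓ Y : Submodule F V)) : KL F K u = Y := by
  haveI := h.fdK
  haveI : FiniteDimensional (fxF σ) F := finite_of_finrank_pos (by rw [finrank_fxF hσ h.ne]; omega)
  haveI : FiniteDimensional (fxF σ) K := Module.Finite.trans F K
  by_contra hne
  obtain ⟨u', Hy⟩ := h.ndK.exists_isHyp (us hu) u0
  let β : V →ₗ[F] K := (B.h u).restrictScalars F
  let j : K →ₗ[F] V := (LinearMap.toSpanSingleton K V u).restrictScalars F
  have kβ : LinearMap.ker β = KL F K u := Submodule.ext fun y => ⟨fun e => ⟨B.h u' y, by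
    conv_rhs => rw [h.dec2 Hy y, show B.h u y = 0 from e, zero_smul, add_zero]
    rfl⟩, by rintro ⟨k, rfl⟩; simp [β, hu]⟩
  obtain ⟨E, hE⟩ : ∃ E, E = Y.map β := ⟨_, rfl⟩
  obtain ⟨D, hD⟩ : ∃ D, D = Y.comap j := ⟨_, rfl⟩
  have mE : ∀ e, e ∈ E ↔ ∃ y ∈ Y, B.h u y = e := fun e => hE ▸ Iff.rfl
  have mD : ∀ k, k ∈ D ↔ k • u ∈ Y := fun k => hD ▸ Iff.rfl
  have r1 : finrank F D = finrank F (KL F K u ⊓ Y : Submodule F V) := by
    rw [(Submodule.equivMapOfInjective j (smul_left_injective K u0) D).finrank_eq, hD,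
      Submodule.map_comap_eq]; rfl
  have r2 : finrank F E + finrank F D = 5 := by
    have := (β ∘ₗ Y.subtype).finrank_range_add_finrank_ker
    rwa [LinearMap.range_comp, Submodule.range_subtype, ← hE, hY.finrank, h.five, LinearMap.ker_comp,
      ← Submodule.finrank_map_subtype_eq, Submodule.map_comap_subtype, kβ, inf_comm, ← r1] at this
  have r3 : 0 < finrank F E := Nat.pos_of_ne_zero fun e => hne (Submodule.eq_of_le_of_finrank_eq
    (fun y hy => kβ.le ((Submodule.finrank_eq_zero.1 e).le ((mE _).2 ⟨y, hy, rfl⟩)))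
    (by rw [finrank_KL u0, hY.finrank])).symm
  have key : ∀ s, τ s = -s → ∀ e ∈ E, e ≠ 0 → s * e ∈ D → ∀ e' ∈ E, s * e' ∈ D := by
    intro s hs e he e0 a e' he'
    obtain ⟨y, hy, rfl⟩ := (mE e).1 he
    obtain ⟨y', hy', rfl⟩ := (mE e').1 he'
    obtain ⟨t, ht, et⟩ := h.hT' hu hs
    have := hM.nml hY inf_le_right hd ht (by rintro _ ⟨⟨k, rfl⟩, -⟩; simp [et, hu]) hy
      (et y ▸ add_mem hy ((mD _).1 a)) (fun a => e0 (kβ.ge a.1)) y' hy'
    rwa [et, Y.add_mem_iff_right hy', ← mD] at this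
  have ort : ∀ e ∈ E, ∀ k ∈ D, φ (τ e * k) = 0 := fun e he k hk => by
    obtain ⟨y, hy, rfl⟩ := (mE e).1 he
    simpa [h.hB, ← B.unit_symm, mul_comm] using h.ti hY hy ((mD k).1 hk)
  let m : K → K →ₗ[fxF σ] K := fun k => (LinearMap.mul F K k).restrictScalars _
  have rk : ∀ k, k ≠ 0 → finrank (fxF σ) (h.Sk.map (m k)) = 5 :=
    fun k k0 => (Submodule.equivMapOfInjective _ (mul_right_injective₀ k0) _).finrank_eq.symm.trans h.rk_Sk
  have rkF : ∀ k, k ≠ 0 → finrank F (E.map (LinearMap.mul F K k)) = finrank F E :=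
    fun k k0 => (Submodule.equivMapOfInjective _ (mul_right_injective₀ k0) _).finrank_eq.symm
  have rs : ∀ P : Submodule F K, finrank (fxF σ) (P.restrictScalars (fxF σ)) = 2 * finrank F P :=
    fun P => finrank_fxM hσ h.ne P
  have r10 : finrank (fxF σ) K = 10 := by rw [finrank_fxM hσ h.ne K, h.five]
  have le : ∀ s, (∀ e' ∈ E, s * e' ∈ D) → E.map (LinearMap.mul F K s) ≤ D := by
    rintro s a _ ⟨e, he, rfl⟩; exact a e he
  by_cases m3 : 3 ≤ finrank F E
  · obtain ⟨k, hk, k0⟩ := Submodule.exists_mem_ne_zero_of_ne_bot (p := D) fun e => by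
      rw [e, finrank_bot] at r1; omega
    obtain ⟨_, ⟨he, s, hs, rfl⟩, e0⟩ := Submodule.exists_mem_ne_zero_of_ne_bot
      (p := E.restrictScalars (fxF σ) ⊓ h.Sk.map (m k)) fun e => by
        have a1 := Submodule.finrank_sup_add_finrank_inf_eq (E.restrictScalars (fxF σ)) (h.Sk.map (m k))
        have a2 := Submodule.finrank_le (E.restrictScalars (fxF σ) ⊔ h.Sk.map (m k))
        rw [e, finrank_bot, rk k k0] at a1
        erw [rs E] at a1
        omega
    have s0 : s ≠ 0 := right_ne_zero_of_mul (show k * s ≠ 0 from e0)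
    have := Submodule.finrank_mono (le _ (key s⁻¹ (by rw [map_inv₀, hs, inv_neg]) _ he e0 (by
      rwa [show s⁻¹ * m k s = k from show s⁻¹ * (k * s) = k by field_simp])))
    rw [rkF _ (inv_ne_zero s0)] at this
    omega
  obtain ⟨e₁, he₁, e0⟩ := Submodule.exists_mem_ne_zero_of_ne_bot (p := E) fun e => by
    rw [e, finrank_bot] at r3; omega
  let P := D.restrictScalars (fxF σ) ⊓ h.Sk.map (m e₁)
  have r4 : 2 ≤ finrank (fxF σ) P := by
    have a1 := Submodule.finrank_sup_add_finrank_inf_eq (D.restrictScalars (fxF σ)) (h.Sk.map (m e₁))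
    have a2 := Submodule.finrank_lt (s := D.restrictScalars (fxF σ) ⊔ h.Sk.map (m e₁)) fun e => by
      obtain ⟨θ, hθ⟩ := exists_trace_one hσ h.ne
      obtain ⟨k, hk, _, ⟨s, hs, rfl⟩, a⟩ := Submodule.mem_sup.1 (e.ge trivial : θ • (τ e₁)⁻¹ ∈ _)
      have b1 := congrArg (fun x => φ (τ e₁ * x)) a
      have b2 := h.φsk (s := τ e₁ * (e₁ * s)) (by rw [map_mul, map_mul, hτ, hs]; ring)
      simp only [mul_add, map_add, ort e₁ he₁ k hk, zero_add, mul_smul_comm, map_smul,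
        mul_inv_cancel₀ (show τ e₁ ≠ 0 by simpa), h.p1, smul_eq_mul, mul_one] at b1
      rw [show φ (τ e₁ * (e₁ * s)) = θ from b1] at b2
      exact one_ne_zero (by linear_combination b2 - hθ : (1 : F) = 0)
    rw [rk e₁ e0] at a1
    erw [rs D] at a1
    simp only [P]; omega
  have mP : ∀ p ∈ P, ∃ s, τ s = -s ∧ p = s * e₁ ∧ ∀ e' ∈ E, s * e' ∈ D := by
    rintro _ ⟨a, s, hs, rfl⟩
    exact ⟨s, hs, mul_comm _ _, key s hs e₁ he₁ e0 (mul_comm e₁ s ▸ a)⟩
  by_cases m2 : finrank F E = 2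
  · obtain ⟨p₂, q1, q2⟩ := Submodule.exists_mem_ne_zero_of_ne_bot (p := P) fun e => by
      rw [e, finrank_bot] at r4; omega
    obtain ⟨p₁, q3, q4, -⟩ := exists_mem_ker_notMem [] P (fxF σ ∙ p₂) (by
      have := finrank_span_one_le (F := fxF σ) p₂
      simp only [List.length_nil]; omega)
    obtain ⟨s₁, a1, rfl, a2⟩ := mP _ q3
    obtain ⟨s₂, a3, rfl, a4⟩ := mP _ q1
    have s2 := left_ne_zero_of_mul q2
    have s1 : s₁ ≠ 0 := by rintro rfl; simp at q4
    obtain ⟨_, ⟨⟨e', he', rfl⟩, e, he, a5⟩, a6⟩ := Submodule.exists_mem_ne_zero_of_ne_bot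
      (p := E.map (LinearMap.mul F K s₁) ⊓ E.map (LinearMap.mul F K s₂)) fun e => by
        have b1 := Submodule.finrank_sup_add_finrank_inf_eq (E.map (LinearMap.mul F K s₁))
          (E.map (LinearMap.mul F K s₂))
        have b2 := Submodule.finrank_mono (sup_le (le _ a2) (le _ a4))
        rw [e, finrank_bot, rkF _ s1, rkF _ s2] at b1
        omega
    replace a5 : s₂ * e = s₁ * e' := a5
    have e1 : e' ≠ 0 := right_ne_zero_of_mul (show s₁ * e' ≠ 0 from a6)
    have e2 : e ≠ 0 := right_ne_zero_of_mul (show s₂ * e ≠ 0 from a5 ▸ a6)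
    have t1 : τ (s₁ / s₂) = s₁ / s₂ := by rw [map_div₀, a1, a3, neg_div_neg_eq]
    obtain ⟨a, ha⟩ := mem_range_of_mul h.pr (Submodule.span F {x | τ (x * s₁) = -(x * s₁) ∧
      ∀ e ∈ E, x * s₁ * e ∈ D}) (Submodule.subset_span ⟨by simpa, by simpa⟩) (fun a => by
        have : ⊤ ≤ D.comap (LinearMap.mulRight F (s₁ * e)) := a ▸ Submodule.span_le.2 fun x hx => by
          simpa [mul_assoc] using hx.2 e he
        have b : D = ⊤ := Submodule.eq_top_iff'.2 fun x => by
          have b : x / (s₁ * e) * (s₁ * e) ∈ D := this (x := x / (s₁ * e)) trivial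
          rwa [div_mul_cancel₀ _ (mul_ne_zero s1 e2)] at b
        rw [b, finrank_top, h.five] at r2
        omega) (κ := s₁ / s₂) fun x hx => by
        induction hx using Submodule.span_induction with
        | mem x hx =>
          have b : τ (s₁ / s₂ * x * s₁) = -(s₁ / s₂ * x * s₁) := by
            rw [mul_assoc, map_mul, t1, hx.1, mul_neg]
          refine Submodule.subset_span ⟨b, key _ b e' he' e1 ?_⟩
          convert hx.2 e he using 1
          field_simp
          linear_combination -x * a5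
        | zero => simp
        | add x y _ _ a b => rw [mul_add]; exact add_mem a b
        | smul a x _ b => rw [mul_smul_comm]; exact Submodule.smul_mem _ _ b
    have : σ a = a := (algebraMap F K).injective (by rw [← h.ta, ha, t1])
    refine q4 (Submodule.mem_span_singleton.2 ⟨⟨a, this⟩, ?_⟩)
    change a • (s₂ * e₁) = _
    rw [Algebra.smul_def, ha, ← mul_assoc, div_mul_cancel₀ _ s2]
  obtain ⟨g, hg, w, w0, hw, rfl⟩ := hY
  obtain ⟨w', Hw⟩ := h.ndK.exists_isHyp (us hw) w0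
  obtain ⟨θ, hθ⟩ := ex_one' (F := F) e0
  have c1 : ∀ e ∈ E, e = θ e • e₁ := fun e he => by
    obtain ⟨r, hr⟩ := (finrank_eq_one_iff_of_nonzero' (⟨e₁, he₁⟩ : E) (by simpa)).1
      (show finrank F E = 1 by omega) ⟨e, he⟩
    obtain rfl : r • e₁ = e := congrArg Subtype.val hr
    simp [hθ]
  obtain ⟨a, ha⟩ := exists_of_dual h.φ0 (θ ∘ₗ β ∘ₗ (g.1 : V →ₗ[F] V) ∘ₗ
    (LinearMap.toSpanSingleton K V w).restrictScalars F)
  replace ha : ∀ k, φ (k * a) = θ (B.h u (g.1 (k • w))) := ha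
  let L := (((B.h w').restrictScalars F ∘ₗ (g⁻¹.1 : V →ₗ[F] V) ∘ₗ j).restrictScalars (fxF σ)) ∘ₗ P.subtype
  have c2 : ∀ p : P, g.1 (L p • w) = p.1 • u := fun p => by
    obtain ⟨_, ⟨k, rfl⟩, e⟩ := (mD _).1 p.2.1
    replace e : g.1 (k • w) = p.1 • u := e
    rw [show L p = B.h w' (g⁻¹.1 (p.1 • u)) from rfl, ← e]
    simp [uone Hw.h_ef]
  refine h.not_tv hw w0 (c := τ a) (fun e => ?_) (D := LinearMap.range L) (by
    rwa [LinearMap.finrank_range_of_inj ((injective_iff_map_eq_zero _).2 fun p hp => by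
      simpa [hp, u0] using (c2 p).symm)]) ?_
  · obtain ⟨_, ⟨_, ⟨k, rfl⟩, rfl⟩, e1⟩ := (mE _).1 he₁
    have := ha k
    rw [show a = 0 by simpa using e, show B.h u (g.1 (k • w)) = e₁ from e1] at this
    simp [hθ] at this
  rintro _ ⟨p, rfl⟩
  obtain ⟨s, hs, e, -⟩ := mP _ p.2
  obtain ⟨t, ht, et⟩ := h.hT' hu hs
  refine ⟨by simp [hτ, mul_comm a, ha, c2, hu], g⁻¹ * (t * g), H.mul_mem (H.inv_mem hg) (H.mul_mem ht hg),
    fun k => g.1.injective ?_⟩
  have := c1 (B.h u (g.1 (k • w))) ((mE _).2 ⟨_, ⟨_, smul_mem_KL k w, rfl⟩, rfl⟩)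
  rw [isom_mul_apply, isom_apply_inv_self, isom_mul_apply, et, add_smul, map_add, smul_assoc,
    g.1.map_smul, c2, e, hτ, mul_comm a, ha]
  generalize θ (B.h u (g.1 (k • w))) = r at this
  rw [this, mul_smul_comm, smul_assoc]

theorem ko : KO B H 0 := by
  refine Nat.decreasingInduction' (P := KO B H) (fun d _ _ hM => ?_) (Nat.zero_le (finrank F V))
    fun X Y _ _ hd => (hd.not_ge (Submodule.finrank_le _)).elim
  rintro _ Y ⟨g, hg, u, u0, hu, rfl⟩ hY hd
  have e : Y = (Y.map (g⁻¹.1 : V →ₗ[F] V)).map (g.1 : V →ₗ[F] V) := by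
    rw [← Submodule.map_comp]; exact (Submodule.map_id _).symm.trans (congrArg Y.map (by ext; simp))
  rw [e, ← Submodule.map_inf _ g.1.injective, LinearEquiv.finrank_map_eq] at hd
  rw [h.core hM u0 hu (hY.map (H.inv_mem hg)) hd, ← e]

theorem pure (hY : KN B H Y) : ∃ y, Y = KL F K y := by
  haveI := h.fdK
  haveI : FiniteDimensional (fxF σ) F := finite_of_finrank_pos (by rw [finrank_fxF hσ h.ne]; omega)
  haveI : FiniteDimensional (fxF σ) K := Module.Finite.trans F K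
  haveI : FiniteDimensional (fxF σ) Y := Module.Finite.trans F Y
  obtain ⟨c, hc⟩ := exists_σ_ne h.ne
  have b1 : ∀ (a : F) x y, B.h (a • x) y = σ a • B.h x y := fun a x y => by
    rw [← algebraMap_smul K a, h_smul_left, h.ta, Algebra.smul_def]
  have b2 : ∀ (a : F) x y, B.h x (a • y) = a • B.h x y := fun a x y => by
    rw [← algebraMap_smul K a, map_smul, smul_eq_mul, ← Algebra.smul_def]
  let W := h.Sk ⊓ LinearMap.ker (φ.restrictScalars (fxF σ))
  obtain ⟨y, y0, hy⟩ := cw2 (F := fxF σ) (V := Y) (W := W) (LinearMap.mk₂ _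
    (fun x y => ⟨c • B.h x y - τ (c • B.h x y), by simp [h.mem_Sk, hτ], by
      simp [h.sφ, ← h.hB, h.ti hY x.2 y.2]⟩)
    (fun _ _ _ => Subtype.ext (by simp; abel))
    (fun a x y => Subtype.ext (by
      change c • B.h (a.1 • x.1) y - τ (c • B.h (a.1 • x.1) y) = a.1 • (_ - _)
      simp only [b1, h.ts, show σ a = a from a.2]; module))
    (fun _ _ _ => Subtype.ext (by simp; abel))
    (fun a x y => Subtype.ext (by
      change c • B.h x (a.1 • y.1) - τ (c • B.h x (a.1 • y.1)) = a.1 • (_ - _)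
      simp only [b2, h.ts, show σ a = a from a.2]; module))) 0 (by
      have := Submodule.finrank_lt_finrank_of_lt (show W < h.Sk from lt_of_le_of_ne inf_le_left fun e =>
        hc.symm (sub_eq_zero.1 (by simpa [h.p1] using (e.ge (show (c - σ c) • (1 : K) ∈ h.Sk by
          simp [h.mem_Sk, h.ts, hσ, ← neg_smul])).2)))
      rw [finrank_fxM hσ h.ne Y, hY.finrank, h.five, h.rk_Sk] at *
      omega)
  have e : B.h y y = 0 := by
    have : c • B.h y y - τ (c • B.h y y) = 0 := by simpa using congrArg Subtype.val hy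
    rw [h.ts, B.unit_h_self_fixed, ← sub_smul] at this
    exact (smul_eq_zero.1 this).resolve_left (sub_ne_zero.2 hc.symm)
  have y1 : y.1 ≠ 0 := by simpa using y0
  exact ⟨y, h.ko _ _ hY (kn_kl y1 e) (finrank_pos_iff_exists_ne_zero.2
    ⟨⟨y, y.2, 1, one_smul _ _⟩, fun e => y1 (congrArg Subtype.val e)⟩)⟩

theorem semi (hg : g ∈ H) (k : K) : ∃ l : K, ∀ x, g.1 (k • x) = l • g.1 x := by
  let A : V →ₗ[F] V := (g.1 : V →ₗ[F] V) ∘ₗ (k • LinearMap.id) ∘ₗ (g⁻¹.1 : V →ₗ[F] V)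
  have hA : ∀ x, B.h x x = 0 → ∃ l : K, l • x = A x := fun x hx => by
    obtain rfl | x0 := eq_or_ne x 0
    · exact ⟨0, by simp⟩
    obtain ⟨y, e⟩ := h.pure ((kn_kl x0 hx).map (H.inv_mem hg))
    obtain ⟨a, ha⟩ := mem_KL.1 (e.le ⟨x, ⟨1, one_smul _ _⟩, rfl⟩)
    obtain ⟨_, ⟨l, rfl⟩, hl⟩ := e.ge (smul_mem_KL (k * a) y)
    replace hl : g⁻¹.1 (l • x) = (k * a) • y := hl
    exact ⟨l, by rw [← isom_apply_inv_self g (l • x), hl, mul_smul, ha]; rfl⟩
  obtain ⟨v, v', Hy⟩ := h.ndK.unit_exists_hyp h.neK h.two.ge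
  have f := uone Hy.h_ef
  have a1 : ∀ μ : K, A (μ • v) = B.h v' (A (μ • v)) • v := fun μ => by
    obtain ⟨l, hl⟩ := hA (μ • v) (by simp [Hy.h_ee])
    simp [← hl, f, mul_smul]
  have a2 : ∀ μ : K, A (μ • v') = B.h v (A (μ • v')) • v' := fun μ => by
    obtain ⟨l, hl⟩ := hA (μ • v') (by simp [Hy.h_ff])
    simp [← hl, Hy.h_ef, mul_smul]
  have a3 : ∀ μ s : K, τ s = -s → A ((μ * s) • v) = (s * B.h v (A (μ • v'))) • v := fun μ s hs => by
    obtain ⟨l, hl⟩ := hA (μ • v' + (μ * s) • v) (by simp [Hy.h_ee, Hy.h_ff, Hy.h_ef, f, hs]; ring)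
    rw [map_add, a1, a2] at hl
    have b1 := congrArg (B.h v) hl
    have b2 := congrArg (B.h v') hl
    simp [Hy.h_ee, Hy.h_ff, Hy.h_ef, f] at b1 b2
    rw [a1, ← b1, ← b2]; congr 1; ring
  obtain ⟨c, hc⟩ := exists_σ_ne h.ne
  have a4 : ∀ μ : K, A (μ • v) = (μ * B.h v (A ((1 : K) • v'))) • v := fun μ => by
    obtain ⟨s, s', b1, b2, rfl⟩ := h.dec hc μ
    have := a3 1 s b1
    have := a3 1 s' b2
    simp only [one_mul] at *
    rw [add_smul, smul_assoc, map_add, A.map_smul, add_mul, add_smul, smul_mul_assoc, smul_assoc]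
    congr
  refine ⟨B.h v (A ((1 : K) • v')), fun x => ?_⟩
  obtain ⟨s, s0, hs, -⟩ := h.ex_sk (M := F) (by simp) 0
  have := smul_left_injective K (show v ≠ 0 by rintro rfl; simpa using Hy.h_ef)
    ((a3 (B.h v (g.1 x)) s hs).symm.trans (a4 _))
  have b := a2 (B.h v (g.1 x))
  rw [mul_left_cancel₀ s0 (this.trans (by ring) : _ = s * (B.h v (g.1 x) * B.h v (A ((1 : K) • v'))))] at b
  have b' := a4 (B.h v' (g.1 x))
  generalize B.h v (A ((1 : K) • v')) = l at b b'
  have b'' := h.dec2 Hy (g.1 x)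
  rw [show g.1 (k • x) = A (g.1 x) by simp [A]]
  generalize B.h v (g.1 x) = r at b b''
  generalize B.h v' (g.1 x) = r' at b' b''
  rw [b'', map_add, b, b']
  module

end KX

omit [FiniteDimensional K V] in
theorem su_ext2 (hne : σ ≠ RingHom.id F) {q : ℕ} (hF : Nat.card F = q ^ 2)
    (hS : S.Nondeg) (h3 : finrank F K = 5) (hn : finrank F V = 10)
    (h : ∀ k : K, ∃ k' : K, ∀ x y, S.h (k • x) y = S.h x (k' • y))
    (hH : ∀ g ∈ S.E, (∀ (k : K) x, g.1 (k • x) = k • g.1 x) → g ∈ H) (hE : ¬ S.E ≤ H)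
    (hg : g ∈ H) (k : K) : ∃ l : K, ∀ x, g.1 (k • x) = l • g.1 x := by
  haveI : FiniteDimensional F K := finite_of_finrank_pos (by omega)
  haveI := nontrivial_of_finrank_pos (show 0 < finrank F V by omega)
  obtain ⟨v, hv⟩ := hS.unit_exists_norm hne (map_one σ)
  have v0 : v ≠ 0 := by rintro rfl; simp at hv
  choose t ht using h
  have h2 : ∀ a b : K, (∀ x y, S.h x (a • y) = S.h x (b • y)) → a = b := fun a b h =>
    smul_left_injective K v0 (hS.ext_right fun x => h x v)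
  let τ : K →+* K :=
    { toFun := t
      map_one' := h2 _ _ fun x y => by rw [← ht, one_smul, one_smul]
      map_mul' := fun a b => h2 _ _ fun x y => by rw [← ht, mul_smul, ht, ht, smul_smul, mul_comm]
      map_zero' := h2 _ _ fun x y => by rw [← ht]; simp
      map_add' := fun a b => h2 _ _ fun x y => by rw [← ht]; simp [add_smul, ht] }
  replace ht : ∀ k x y, S.h (k • x) y = S.h x (τ k • y) := ht
  have hτ : ∀ k, τ (τ k) = k := fun k => h2 _ _ fun x y => by
    rw [← ht, S.unit_symm, ← ht, ← S.unit_symm]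
  have ta : ∀ a, τ (algebraMap F K a) = algebraMap F K (σ a) := fun a => h2 _ _ fun x y => by
    rw [← ht]; simp
  have hne' : τ ≠ RingHom.id K := fun e => hne (RingHom.ext fun a => (algebraMap F K).injective (by
    rw [← ta, e]; rfl))
  clear_value τ
  let t : V →ₗ[F] K →ₗ[F] V := LinearMap.mk₂ F (fun w u => u • w)
    (fun _ _ _ => smul_add _ _ _) (fun _ _ _ => smul_comm _ _ _) (fun _ _ _ => add_smul _ _ _)
    fun _ _ _ => smul_assoc _ _ _
  have et : ∀ w u, t w u = u • w := fun _ _ => rfl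
  let φ : Dual F K := S.h v ∘ₗ t v
  have eφ : ∀ k, φ k = S.h v (k • v) := fun _ => rfl
  have hφ : φ ≠ 0 := fun e => by simpa [eφ, hv] using LinearMap.congr_fun e 1
  have sφ : ∀ k, φ (τ k) = σ (φ k) := fun k => by rw [eφ, eφ, ← ht, S.unit_symm]
  obtain ⟨B₀, hB⟩ := lift_sesq hφ S.h τ ht
  have hB' : ∀ k x y, φ (k * B₀ x y) = S.h x (k • y) := fun k x y => by rw [← hB, map_smul, smul_eq_mul]
  let B := unitS hτ hne' B₀ ⟨fun x y => eq_of_dual hφ fun k => by
    rw [← hτ k, ← map_mul, sφ, hB', hB', hτ, ← S.unit_symm, ht, hτ]⟩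
  let ρ : B.Isom →* S.Isom :=
    { toFun := fun g => ⟨g.1.restrictScalars F, unit_isIsom fun x y => by
        rw [← hB, ← hB]; exact congrArg φ (isom_h g x y)⟩
      map_one' := rfl
      map_mul' := fun _ _ => rfl }
  have h4 := Module.finrank_mul_finrank F K V
  rw [h3, hn] at h4
  haveI : FiniteDimensional K V := Module.Finite.of_restrictScalars_finite F K _
  have hB1 : B.Nondeg := fun x hx => hS x fun y => by rw [← hB]; exact (congrArg φ (hx y)).trans (map_zero φ)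
  have hq := two_le_of_card_sq hF
  have n1 := card_normOne_unit hσ hne hF
  have n2 := card_normOne_unit hτ hne' (q := q ^ 5) (by
    rw [Module.natCard_eq_pow_finrank (K := F), hF, h3]; ring)
  obtain ⟨μ, hμ⟩ : ∃ μ : Kˣ, ∀ a : F, a ≠ 0 → τ (a • (μ ^ (q + 1)).1) ≠ a • (μ ^ (q + 1)).1 := by
    by_contra! e
    obtain ⟨z, hz⟩ := IsCyclic.exists_ofOrder_eq_natCard (α := normOne τ)
    obtain ⟨μ, hμ⟩ := h90 hτ hne' z.2
    obtain ⟨a, a0, ha⟩ := e μ
    have a1 : σ a ≠ 0 := by simpa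
    let b : normOne σ := ⟨Units.mk0 (a / σ a) (div_ne_zero a0 a1), by simp [mem_normOne, hσ, a0]⟩
    have b1 : (a / σ a) ^ (q + 1) = 1 := congrArg (fun x : normOne σ => (x.1 : F)) (n1 ▸ pow_card_eq_one' (x := b))
    have b2 : (z.1 : K) ^ (q + 1) = algebraMap F K (a / σ a) := by
      have m0 : τ μ ≠ 0 := by simp
      have : algebraMap F K (σ a) ≠ 0 := by simpa
      rw [Algebra.smul_def, map_mul, ta, Units.val_pow_eq_pow_val, map_pow] at ha
      rw [eq_inv_of_mul_eq_one_left hμ, map_div₀, mul_inv, inv_inv, mul_pow, eq_div_iff this, inv_pow]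
      field_simp
      linear_combination ha
    have b3 : z ^ ((q + 1) * (q + 1)) = 1 := Subtype.ext (Units.ext (by
      simp only [pow_mul, SubmonoidClass.coe_pow, Units.val_pow_eq_pow_val, b2, ← map_pow, b1, map_one]; rfl))
    have := Nat.le_of_dvd (by positivity) (orderOf_dvd_of_pow_eq_one b3)
    rw [hz, n2] at this
    have : 2 * 2 * 2 * (q * q) ≤ q * q * q * (q * q) := by gcongr
    nlinarith
  refine KX.semi (φ := φ) (B := B) ⟨hne, ta, by simp [eφ, hv], sφ, hS, fun x y => (hB x y).symm, h3,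
    by omega, fun g hg => ⟨ρ g, hH _ ((u_memE hne hS (by omega) _).2 ?_) (map_smul g.1), fun _ => rfl⟩,
    ⟨_, hμ, fun v v' Hy => ⟨ρ (Hy.tor (μ ^ (q + 1))), hH _ ((u_memE hne hS (by omega) _).2 ?_)
      (map_smul (Hy.tor _).1), fun k => (map_smul (Hy.tor _).1 k v).trans (by rw [Hy.tor_e])⟩⟩, hE⟩ hg k
  · rw [u_memE hne' hB1 (by omega), detHom_apply, LinearEquiv.coe_det] at hg
    rw [detHom_apply, LinearEquiv.coe_det]
    exact (LinearMap.det_restrictScalars (R := F) (f := (g.1 : V →ₗ[K] V))).trans (by rw [hg, map_one])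
  · rw [map_pow, map_pow, map_pow, ← n1]
    exact congrArg (fun x : normOne σ => (x.1 : F))
      (pow_card_eq_one' (x := (⟨_, hS.det_mem_normOne (ρ (Hy.tor μ))⟩ : normOne σ)))

open Matrix Cfsg.Geo

theorem su_fld_two {F : Type*} [Field F] [Fintype F] {n q : ℕ} (hF : Fintype.card F = q ^ 2)
    (hn : n = 10) {K : Subalgebra F (Matrix (Fin n) (Fin n) F)} (hK : IsFieldSubalgebra 5 K)
    (hac : IsAdjointClosedFor (Cfsg.hermForm n F q) K) :
    IsMaximalIn (Cfsg.GU n F q ⊓ specialLinear (Fin n) F)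
      (subalgebraNormalizer K ⊓ (Cfsg.GU n F q ⊓ specialLinear (Fin n) F)) := by
  obtain ⟨σ, hq, hσ, hne⟩ := H11.exists_frob hF
  have hb := big_su (hf_one hσ (κ := Fin n)) hne (by simp; omega) (by simp; omega)
  haveI := hb.nonempty
  have h1 := hb.not_field hK (by omega)
  rw [← GU_iso hq n, su_eq hσ hne hq (by omega)] at h1
  rw [su_eq hσ hne hq (by omega)]
  letI := (isField_of hK).toField
  haveI : Finite K := Subtype.finite
  refine isMaximalIn_of_not_le _ h1 fun H hH => or_iff_not_imp_left.2 fun hE => le_nml ?_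
  rintro _ ⟨g, hg, rfl⟩
  simp only [toGL_mulVec]
  refine su_ext2 hne (by rw [Nat.card_eq_fintype_card, hF]) (stdUnit_nondeg hσ hne (Fin n)) hK.finrank_eq (by simpa) (fun k => ?_)
    (fun g a b => hH g a (mem_nml_of_comm fun k x => by rw [toGL_mulVec, toGL_mulVec]; exact b k x)) hE hg
  obtain ⟨k', a, e⟩ := hac k k.2
  refine ⟨⟨k', a⟩, fun x y => ?_⟩
  rw [unit_symm, unit_symm _ (_ • y), stdUnit_h_eq hσ hne hq, stdUnit_h_eq hσ hne hq]
  exact congrArg σ (e x y)

end H29
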