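import Cfsg.Agent.H29.TK5

/-! Subfield subgroups of `SU_n(q)` for `n ≥ 9` (the argument of `RatB` with a totally singular
subspace of dimension `4`). -/

set_option autoImplicit false
set_option linter.unusedSectionVars false

namespace H29

open Module H11 H11.PForm Matrix

section
variable {F : Type*} [Field F] {σ : F →+* F} {P : FParam σ} {V : Type*} [AddCommGroup V]
  [Module F V] {ι : Type*} [Fintype ι] {F₀ : Subfield F} {b : Basis ι F V} {S : PForm P V}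
  {H : Subgroup S.Isom} [FiniteDimensional F V] [Finite F]

namespace Rat

variable (R : Rat S F₀ b)
include R

theorem exists_irr_ts9 (hS : S.Nondeg) (hn : 9 ≤ finrank F V) {τ : F →+* F}
    (hτ : ∀ x, τ x = x ↔ x ∈ F₀) {u : V} (hu : tau τ b u ∉ F ∙ u) :
    ∃ U : Submodule F V, S.TS U ∧ RatSub F₀ b U ∧ finrank F U = 4 ∧ ∃ e₁ ∈ U, ∃ e₂ ∈ U,
      e₁ ∈ V0 F₀ b ∧ e₂ ∈ V0 F₀ b ∧ S.h u e₂ ≠ 0 ∧ S.h u e₁ / S.h u e₂ ∉ F₀ := by
  obtain ⟨e₁, h1, e₂, h2, s1, s2, h12, a1, a2⟩ := R.exists_irr_pair hS (by omega) hτ hu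
  have he0 : e₂ ≠ 0 := by rintro rfl; simp at a1
  have hi : e₁ ∉ F ∙ e₂ := fun h => by
    obtain ⟨c, rfl⟩ := Submodule.mem_span_singleton.1 h
    apply a2
    rw [map_smul, smul_eq_mul, mul_div_cancel_right₀ _ a1]
    exact mem_of_smul_mem_V0 h2 he0 h1
  have e : Submodule.span F {x | x ∈ [e₂, e₁]} = (⊥ ⊔ F ∙ e₂) ⊔ F ∙ e₁ := by
    rw [bot_sup_eq, list_set_two, Submodule.span_insert]
  obtain ⟨U, b1, b2, b3, b4⟩ := R.exists_ts_ext hS 2 [e₂, e₁] (by simp [h1, h2])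
    (e ▸ (ts_bot.sup_span s2 (by simp)).sup_span s1
      (by rw [bot_sup_eq, S.mem_perp_singleton]; exact S.h_swap_zero h12)) (by simp; omega)
  refine ⟨U, b1, b2, ?_, e₁, b3 _ (by simp), e₂, b3 _ (by simp), h1, h2, a1, a2⟩
  rw [b4, e, Submodule.finrank_sup_span_singleton (by rwa [bot_sup_eq]), bot_sup_eq,
    finrank_span_singleton he0]

theorem point_rat_transv9 (hS : S.Nondeg) (hn : 9 ≤ finrank F V) (hH : HR F₀ b H)
    (hB : BR F₀ b H) {τ : F →+* F} (hτ : ∀ x, τ x = x ↔ x ∈ F₀) (hσ : ∀ x, σ (τ x) = τ (σ x))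
    {a : F} (ha0 : a ≠ 0) (ha : a ∈ F₀) (haΛ : a ∈ P.Λ)
    (hθ : σ = RingHom.id F ∨ ∃ θ ∈ F₀, σ θ ≠ θ) {g : S.Isom} (hg : g ∈ H) {e : V}
    (he : e ∈ V0 F₀ b) (hs : S.Sing e) : tau τ b (g.1 e) ∈ F ∙ g.1 e := by
  by_contra hu
  set u := g.1 e with hue
  have hus : S.Sing u := by simpa [hue]
  obtain ⟨U, hU, hUr, h5, e₁, a1, e₂, a2, b1, b2, c2, c3⟩ := R.exists_irr_ts9 hS hn hτ hu
  have hx : S.eich u 0 a ∈ H := by
    have := H.mul_mem (H.mul_mem hg (hH e he 0 (Submodule.zero_mem _) a ha)) (H.inv_mem hg)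
    rwa [conj_eich, map_zero] at this
  let φ : V →ₗ[F] V := ((-(P.ε * a)) • S.h u).smulRight u
  have hφ : ∀ z, φ z = (-(P.ε * a) * S.h u z) • u := fun z => rfl
  have hker : ∀ z, φ z = 0 ↔ S.h u z = 0 := fun z => by
    have : u ≠ 0 := by rintro h; simp [h] at c2
    simp [hφ, this, P.ε_ne_zero, ha0]
  have ho : ∀ w ∈ U, OppRoot U φ (S.eich w 0 a).1 (a * a * (P.ε * (σ (S.h u w) * S.h u w))) := by
    intro w hw
    refine ⟨fun y hy => eich_apply_of_perp_perp (hU.h_eq hw hy) (by simp), fun y hy => ?_⟩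
    rw [transv_apply (hU.1 w hw) haΛ, sub_sub_cancel_left]
    refine ⟨U.neg_mem (U.smul_mem _ hw), ?_⟩
    simp only [hφ, map_neg, map_smul, smul_eq_mul, S.symm u w, smul_smul, ← neg_smul]
    congr 1
    linear_combination (-(a ^ 3 * S.h u y * σ (S.h u w) * S.h u w * P.ε ^ 2)) * P.εε
  have hβ : ∀ w, S.h u w ≠ 0 → a * a * (P.ε * (σ (S.h u w) * S.h u w)) ≠ 0 := fun w hw => by
    simp [ha0, P.ε_ne_zero, hw]
  obtain ⟨u', hu'⟩ := tau_surjective (φ := τ) (b := b) u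
  have hy : ∃ y ∈ U ⊓ LinearMap.ker φ, y ≠ 0 ∧ tau τ b y ∈ U ⊓ LinearMap.ker φ := by
    obtain ⟨y, d1, d2, d3⟩ := exists_mem_ker_notMem [S.h u, S.h u'] U ⊥ (by simp; omega)
    simp only [List.mem_cons, List.not_mem_nil, or_false, forall_eq_or_imp, forall_eq] at d3
    refine ⟨y, ⟨d1, (hker y).2 d3.1⟩, by simpa using d2, hUr.tau_mem hτ d1, (hker _).2 ?_⟩
    rw [← hu', R.h_tau hτ hσ, d3.2, map_zero]
  set w := S.h u e₁ / S.h u e₂ with hw
  obtain ⟨c, hc, hne⟩ : ∃ c ∈ F₀, σ (w + c) * (w + c) ≠ 1 ∨ (2 : F) ≠ 0 := by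
    by_contra hcon
    push Not at hcon
    have k0 := (hcon 0 F₀.zero_mem).1
    have k1 := (hcon 1 F₀.one_mem).1
    have h2 := (hcon 1 F₀.one_mem).2
    simp only [add_zero, map_add, map_one] at k0 k1
    rcases hθ with rfl | ⟨θ, hθ, hθ'⟩
    · simp only [RingHom.id_apply] at k0 k1
      exact one_ne_zero (α := F) (by linear_combination k1 - k0 - w * h2)
    · have k2 := (hcon θ hθ).1
      rw [map_add] at k2
      apply c3
      have : w = (θ - σ θ * θ) / (σ θ - θ) := by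
        rw [eq_div_iff (sub_ne_zero.2 hθ')]
        linear_combination k2 - k0 - θ * k1 + θ * k0
      rw [this]
      exact F₀.div_mem (F₀.sub_mem hθ (F₀.mul_mem (R.σ_mem _ hθ) hθ))
        (F₀.sub_mem (R.σ_mem _ hθ) hθ)
  have key : ∀ y ∈ U ⊓ LinearMap.ker φ, tau τ b y ∈ U ⊓ LinearMap.ker φ := by
    have hxφ : ∀ z, (S.eich u 0 a).1 z = z + φ z := fun z => by
      rw [transv_apply hus haΛ, hφ]; module
    have hφφ : ∀ z, φ (φ z) = 0 := fun z => by simp [hφ, hus.h_self]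
    have z0 := Submodule.zero_mem (V0 F₀ b)
    rcases hne with hne | h2
    · have e1 : S.h u (e₁ + c • e₂) = (w + c) * S.h u e₂ := by
        rw [map_add, map_smul, smul_eq_mul, hw]; field_simp
      have e2 : w + c ≠ 0 := fun h => c3 (by
        rw [eq_neg_of_add_eq_zero_left h]; exact F₀.neg_mem hc)
      refine R.torus_lemma hS hH hB hτ hU hUr (by omega) φ hφφ hx hxφ
        (hH _ ((V0 F₀ b).add_mem b1 (V0_smul hc b2)) 0 z0 a ha) (hH _ b2 0 z0 a ha)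
        (ho _ (U.add_mem a1 (U.smul_mem c a2))) (ho _ a2) (hβ _ (by simp [e1, e2, c2]))
        (hβ _ c2) (fun h => hne ?_) hy
      rw [e1, map_mul] at h
      exact mul_right_cancel₀ (hβ _ c2) (by linear_combination h)
    · have o := ho _ a2
      have o' : OppRoot U φ (S.eich e₂ 0 a)⁻¹.1
          (-(a * a * (P.ε * (σ (S.h u e₂) * S.h u e₂)))) := by
        rw [transv_inv (hU.1 _ a2) haΛ]
        refine ⟨fun y hy => eich_apply_of_perp_perp (hU.h_eq a2 hy) (by simp), fun y hy => ?_⟩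
        have := o.2 y hy
        rw [transv_apply (hU.1 _ a2) haΛ, sub_sub_cancel_left] at this
        rw [transv_apply (hU.1 _ a2) (P.Λ.neg_mem haΛ), sub_sub_cancel_left]
        refine ⟨U.neg_mem (U.smul_mem _ a2), ?_⟩
        rw [neg_smul, ← this.2, ← map_neg]
        congr 1
        module
      exact R.torus_lemma hS hH hB hτ hU hUr (by omega) φ hφφ hx hxφ
        (hH _ b2 0 z0 a ha) (H.inv_mem (hH _ b2 0 z0 a ha)) o o' (hβ _ c2)
        (neg_ne_zero.2 (hβ _ c2)) (fun h => hβ _ c2 (mul_left_cancel₀ h2 (by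
          linear_combination h))) hy
  have := (hker _).1 (key (S.h u e₂ • e₁ - S.h u e₁ • e₂)
    ⟨U.sub_mem (U.smul_mem _ a1) (U.smul_mem _ a2), (hker _).2 (by simp [mul_comm])⟩).2
  rw [map_sub, tau_smul, tau_smul, (tau_eq_self_iff hτ).2 b1, (tau_eq_self_iff hτ).2 b2] at this
  simp only [map_sub, map_smul, smul_eq_mul] at this
  apply c3
  rw [← hτ, hw, map_div₀, div_eq_div_iff (by simpa using c2) c2]
  linear_combination -this

theorem final9 (hS : S.Nondeg) (hn : 9 ≤ finrank F V) (hr : (finrank F₀ F).Prime)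
    (hc : finrank F₀ F = 2 ∨ ((∃ a, a ≠ 0 ∧ a ∈ F₀ ∧ a ∈ P.Λ) ∧
      (σ = RingHom.id F ∨ ∃ θ ∈ F₀, σ θ ≠ θ))) (hH : HR F₀ b H) :
    S.E ≤ H ∨ ∀ g ∈ H, ∃ c : F, c ≠ 0 ∧ ∀ x ∈ V0 F₀ b, c⁻¹ • g.1 x ∈ V0 F₀ b := by
  refine (R.dichotomy hS (by omega) hr hH).imp_right fun hB g hg => ?_
  obtain ⟨τ, hτ, hσ⟩ := exists_frob_sub F₀
  refine R.exists_scale hS (by omega) g.1 fun e he hs => exists_rat_of_tau hτ ?_
  rcases hc with h | ⟨⟨a, h1, h2, h3⟩, h4⟩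
  · exact R.point_rat_two hS (by omega) hH hB hτ h hg he hs
  · exact R.point_rat_transv9 hS hn hH hB hτ (hσ σ) h1 h2 h3 h4 hg he hs

end Rat
end

section
variable {F : Type*} [Field F] {σ : F →+* F} {P : FParam σ} {ι : Type} [Fintype ι] [DecidableEq ι]

theorem isMaximalIn_rat9 [Finite F] {S : PForm P (ι → F)} (hS : S.Nondeg)
    (hn : 9 ≤ Fintype.card ι) {F₀ : Subfield F} {A : GL ι F} (R : Rat S F₀ (basisOf A))
    (hr : (finrank F₀ F).Prime)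
    (hc : finrank F₀ F = 2 ∨ ((∃ a, a ≠ 0 ∧ a ∈ F₀ ∧ a ∈ P.Λ) ∧
      (σ = RingHom.id F ∨ ∃ θ ∈ F₀, σ θ ≠ θ))) :
    Cfsg.Geo.IsMaximalIn (EGL S) (Cfsg.Geo.subfieldSubgroup F₀ A ⊓ EGL S) := by
  have hn' : 9 ≤ finrank F (ι → F) := by simpa using hn
  refine isMaximalIn_EGL S _ ?_ fun H h1 _ => ?_
  · obtain ⟨g, hg, h⟩ := R.exists_E_irr hS (by omega) hr
    exact ⟨g, hg, fun h' => h (by simpa [mem_subfieldSubgroup_iff] using h')⟩
  · refine (R.final9 hS hn' hr hc fun u hu v hv a ha => h1 ⟨?_, S.eich_mem_E u v a⟩).imp_right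
      fun h g hg => ?_
    · exact mem_subfieldSubgroup_iff.2 ⟨1, one_ne_zero, fun x hx => by simpa using R.eich_mem hu hv ha hx⟩
    · rw [Subgroup.mem_comap, mem_subfieldSubgroup_iff]
      simpa using h g hg

end

theorem su_rat_odd9 {F : Type*} [Field F] [Fintype F] {n q : ℕ} (hF : Fintype.card F = q ^ 2) (hn : 9 ≤ n) (F₀ : Subfield F) (r : ℕ) (hr : r.Prime) (hro : Odd r) (hcard : Fintype.card F = Nat.card F₀ ^ r) (P : Matrix.GeneralLinearGroup (Fin n) F) (hP : Cfsg.Geo.IsFormRationalStructure (Cfsg.hermForm n F q) F₀ 1 P) : Cfsg.Geo.IsMaximalIn (Cfsg.GU n F q ⊓ Cfsg.Geo.specialLinear (Fin n) F) (Cfsg.Geo.subfieldSubgroup F₀ P ⊓ (Cfsg.GU n F q ⊓ Cfsg.Geo.specialLinear (Fin n) F)) := by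
  have hr' := finrank_of_card (F₀ := F₀) (by rwa [Nat.card_eq_fintype_card])
  obtain ⟨σ, hq, hσ, hne⟩ := H11.exists_frob hF
  rw [H29.su_eq hσ hne hq (by omega)]
  obtain ⟨θ, hθ, hθ'⟩ := exists_σ_ne_of_odd (F₀ := F₀) hσ hne (hr' ▸ hro)
  have hm := F₀.sub_mem hθ (pow_card_mem hq hθ)
  have h0 : θ - σ θ ≠ 0 := sub_ne_zero.2 hθ'.symm
  refine isMaximalIn_rat9 (stdUnit_nondeg hσ hne _) (by simp; omega)
    (rat_of_h (fun c hc => pow_card_mem hq hc) (fun x hx y hy => ?_) (F₀.div_mem hθ hm) ?_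
      fun a ha => by simpa [mem_unitP_Λ] using ha)
    (hr' ▸ hr) (Or.inr ⟨⟨θ - σ θ, h0, hm, by simp [mem_unitP_Λ, hσ]⟩,
      Or.inr ⟨θ, hθ, hθ'⟩⟩)
  · obtain ⟨u, hu, rfl⟩ := mem_V0_basisOf'.1 hx
    obtain ⟨v, hv, rfl⟩ := mem_V0_basisOf'.1 hy
    rw [stdUnit_h_eq hσ hne hq]
    simpa using hP v u hv hu
  · rw [map_div₀, map_sub, hσ, ← neg_sub θ, div_neg, ← sub_eq_add_neg, ← sub_div, div_self h0]

theorem su_rat_orth9 {F : Type*} [Field F] [Fintype F] {n q : ℕ} (hF : Fintype.card F = q ^ 2) (hn : 9 ≤ n) (hodd : Odd q) (F₀ : Subfield F) (hcard : Fintype.card F = Nat.card F₀ ^ 2) (P : Matrix.GeneralLinearGroup (Fin n) F) (hP : Cfsg.Geo.IsFormRationalStructure (Cfsg.hermForm n F q) F₀ 1 P) : Cfsg.Geo.IsMaximalIn (Cfsg.GU n F q ⊓ Cfsg.Geo.specialLinear (Fin n) F) (Cfsg.Geo.subfieldSubgroup F₀ P ⊓ (Cfsg.GU n F q ⊓ Cfsg.Geo.specialLinear (Fin n) F)) := by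
  have hr' := finrank_of_card (F₀ := F₀) (by rwa [Nat.card_eq_fintype_card])
  obtain ⟨σ, hq, hσ, hne⟩ := H11.exists_frob hF
  rw [H29.su_eq hσ hne hq (by omega)]
  have h2 : (2 : F) ≠ 0 := two_ne_zero_of_odd (by rw [hF]; exact hodd.pow)
  refine isMaximalIn_rat9 (stdUnit_nondeg hσ hne _) (by simp; omega)
    (rat_of_h (fun c hc => pow_card_mem hq hc) (fun x hx y hy => ?_) (θ := 2⁻¹)
      (F₀.inv_mem (by exact_mod_cast natCast_mem F₀ 2)) ?_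
      fun a ha => by simpa [mem_unitP_Λ] using ha)
    (hr' ▸ Nat.prime_two) (Or.inl hr')
  · obtain ⟨u, hu, rfl⟩ := mem_V0_basisOf'.1 hx
    obtain ⟨v, hv, rfl⟩ := mem_V0_basisOf'.1 hy
    rw [stdUnit_h_eq hσ hne hq]
    simpa using hP v u hv hu
  · rw [map_inv₀, map_ofNat]; field_simp; norm_num

theorem su_rat_symp9 {F : Type*} [Field F] [Fintype F] {n q : ℕ} (hF : Fintype.card F = q ^ 2) (hn : 9 ≤ n) (F₀ : Subfield F) (hcard : Fintype.card F = Nat.card F₀ ^ 2) (ζ : F) (hζ0 : ζ ≠ 0) (hζ : ζ + ζ ^ q = 0) (P : Matrix.GeneralLinearGroup (Fin n) F) (hP : Cfsg.Geo.IsFormRationalStructure (Cfsg.hermForm n F q) F₀ ζ P) (halt : ∀ u : Fin n → F, (∀ i, u i ∈ F₀) → Cfsg.hermForm n F q (Matrix.mulVec (P : Matrix (Fin n) (Fin n) F) u) (Matrix.mulVec (P : Matrix (Fin n) (Fin n) F) u) = 0) : Cfsg.Geo.IsMaximalIn (Cfsg.GU n F q ⊓ Cfsg.Geo.specialLinear (Fin n) F) (Cfsg.Geo.subfieldSubgroup F₀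 P ⊓ (Cfsg.GU n F q ⊓ Cfsg.Geo.specialLinear (Fin n) F)) := by
  have hr' := finrank_of_card (F₀ := F₀) (by rwa [Nat.card_eq_fintype_card])
  obtain ⟨σ, hq, hσ, hne⟩ := H11.exists_frob hF
  have hη : σ ζ = -1 * ζ := by rw [hq]; linear_combination hζ
  rw [H29.su_eq hσ hne hq (by omega), EGL_scale _ hζ0 hη (by simp)]
  refine isMaximalIn_rat9 (scale_nondeg (stdUnit_nondeg hσ hne _)) (by simp; omega)
    ⟨fun c hc => pow_card_mem hq hc, fun x hx y hy => ?_, fun x hx => ⟨0, F₀.zero_mem, ?_⟩⟩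
    (hr' ▸ Nat.prime_two) (Or.inl hr')
  · obtain ⟨u, hu, rfl⟩ := mem_V0_basisOf'.1 hx
    obtain ⟨v, hv, rfl⟩ := mem_V0_basisOf'.1 hy
    rw [scale_h, stdUnit_h_eq hσ hne hq]
    exact hP v u hv hu
  · obtain ⟨u, hu, rfl⟩ := mem_V0_basisOf'.1 hx
    have := (unit_sing (stdUnit hσ hne (Fin n)) _).2 ((stdUnit_h_eq hσ hne hq n _ _).trans (halt u hu))
    rw [mem_scaleP, scale_q, zero_sub, mul_neg, ← mul_assoc, inv_mul_cancel₀ hζ0, one_mul]
    exact AddSubgroup.neg_mem _ this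

end H29
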