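import Cfsg.Agent.H29.O5
import Cfsg.Agent.H29.Fr6
import Cfsg.Agent.H29.ExtU5
import Cfsg.Agent.H29.ExtO2
import Cfsg.Agent.H29.TenS2
import Cfsg.Agent.H29.RatC

/-! The rows of the lists of geometric maximal subgroups of `Ω_n^±(q)`, `n = 10, 12`, in the form of
the statements. -/

set_option autoImplicit false

namespace H29

open Cfsg H11 H11.PForm Matrix Module

theorem oo_ts_plus {F : Type*} [Field F] [Fintype F] {n : ℕ} (hn : 7 ≤ n) (heven : Even n) (Q : (Fin n → F) → F) (hQ : Cfsg.Geo.IsNondegenerateQuadraticForm Q) (W : Submodule F (Fin n → F)) (hW0 : W ≠ ⊥) (hW : Cfsg.Geo.IsTotallySingularQuad Q W) (hdim : 2 * (Module.finrank F W + 1) ≠ n) : Cfsg.Geo.IsMaximalIn (Cfsg.Geo.omegaGL Q) (Cfsg.Geo.subspaceStabilizer W ⊓ Cfsg.Geo.omegaGL Q) := by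
  have hS := H29.quadOf_nondeg hQ
  rw [← H29.coe_quadOf hQ, H29.omegaGL_eq _ hS (by simp; omega)]
  have hU : (H11.orthS (H29.quadOf hQ)).TS W := H29.orth_ts hW
  refine H29.isMaximalIn_ts hS (by simp; omega) hU hW0 (Or.inr ?_)
  by_cases h : 2 * Module.finrank F W + 2 < Module.finrank F (Fin n → F)
  · exact Or.inl h
  · refine Or.inr fun U' hU' hle => (Submodule.eq_of_le_of_finrank_le hle ?_).ge
    have := hU'.two_mul_finrank_le hS
    obtain ⟨k, rfl⟩ := heven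
    simp at h this
    omega

theorem oo_ts_minus {F : Type*} [Field F] [Fintype F] {n : ℕ} (hn : 7 ≤ n) (heven : Even n) (Q : (Fin n → F) → F) (hQ : Cfsg.Geo.IsNondegenerateQuadraticForm Q) (hminus : ¬ Cfsg.Geo.IsPlusTypeOn Q ⊤) (W : Submodule F (Fin n → F)) (hW0 : W ≠ ⊥) (hW : Cfsg.Geo.IsTotallySingularQuad Q W) : Cfsg.Geo.IsMaximalIn (Cfsg.Geo.omegaGL Q) (Cfsg.Geo.subspaceStabilizer W ⊓ Cfsg.Geo.omegaGL Q) := by
  have hS := H29.quadOf_nondeg hQ
  rw [← H29.coe_quadOf hQ, H29.omegaGL_eq _ hS (by simp; omega)]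
  have hU : (H11.orthS (H29.quadOf hQ)).TS W := H29.orth_ts hW
  refine H29.isMaximalIn_ts hS (by simp; omega) hU hW0 (Or.inr ?_)
  by_cases h : 2 * Module.finrank F W + 2 < Module.finrank F (Fin n → F)
  · exact Or.inl h
  · refine Or.inr fun U' hU' hle => (Submodule.eq_of_le_of_finrank_le hle ?_).ge
    have := hU'.two_mul_finrank_le hS
    have h2 : 2 * Module.finrank F U' ≠ n := fun h2 => hminus ⟨U', le_top,
      fun w hw => (H11.PForm.orth_sing _ w).1 (hU'.sing w hw), by simpa using h2⟩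
    obtain ⟨k, rfl⟩ := heven
    simp at h this
    omega

theorem oo_tsdec {F : Type*} [Field F] [Fintype F] {n : ℕ} (hn : 10 ≤ n) (Q : (Fin n → F) → F) (hQ : Cfsg.Geo.IsNondegenerateQuadraticForm Q) (k : ℕ) (hk : 2 * k = n) (hke : Even k) (D : Fin 2 → Submodule F (Fin n → F)) (hD : Cfsg.Geo.IsMDecomposition k D) (hts : ∀ i, Cfsg.Geo.IsTotallySingularQuad Q (D i)) : Cfsg.Geo.IsMaximalIn (Cfsg.Geo.omegaGL Q) (Cfsg.Geo.decompositionStabilizer D ⊓ Cfsg.Geo.omegaGL Q) := by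
  have hS := quadOf_nondeg hQ
  rw [← coe_quadOf hQ, omegaGL_eq _ hS (by simp; omega)]
  have hts' : ∀ i, (orthS (quadOf hQ)).TS (D i) := fun i => orth_ts (hts i)
  have h := tsdec_of_mdec hD (hts' 0) (hts' 1)
  exact isMaximalIn_tsdec hS lmin_orth (by omega) hD h
    (h.exists_swap_orth hS (iso3_orth _) (by simp; omega) (by rwa [hD.finrank_eq]))

theorem oo_rat_eleven {F : Type*} [Field F] [Fintype F] {n : ℕ} (hn : 11 ≤ n) (Q : (Fin n → F) → F) (hQ : Cfsg.Geo.IsNondegenerateQuadraticForm Q) (F₀ : Subfield F) (r : ℕ) (hr : r.Prime) (hcard : Fintype.card F = Nat.card F₀ ^ r) (P : Matrix.GeneralLinearGroup (Fin n) F) (ζ : F) (hζ : ζ ≠ 0) (hP : Cfsg.Geo.IsQuadFormRationalStructure (fun v : Fin n → F => ζ * Q v) F₀ P) : Cfsg.Geo.IsMaximalIn (Cfsg.Geo.omegaGL Q) (Cfsg.Geo.subfieldSubgroup F₀ P ⊓ Cfsg.Geo.omegaGL Q) := by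
  have hr' := finrank_of_card (F₀ := F₀) (by rwa [Nat.card_eq_fintype_card])
  have hS := H29.quadOf_nondeg hQ
  have hq : ∀ x ∈ V0 F₀ (basisOf P), ζ * Q x ∈ F₀ := fun x hx => by
    obtain ⟨u, hu, rfl⟩ := mem_V0_basisOf'.1 hx
    exact hP u hu
  rw [← H29.coe_quadOf hQ, H29.omegaGL_eq _ hS (by simp; omega),
    EGL_scale _ (η := 1) hζ (by simp) (by simp)]
  refine isMaximalIn_rat (scale_nondeg hS) (by simp; omega)
    ⟨fun c hc => hc, fun x hx y hy => ?_, fun x hx => ⟨_, hq x hx, by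
      simp [mem_scaleP, scale_q, coe_quadOf]⟩⟩ (hr' ▸ hr) (Or.inr (Or.inl ?_))
  · convert F₀.sub_mem (F₀.sub_mem (hq _ (Submodule.add_mem _ hx hy)) (hq x hx)) (hq y hy) using 1
    rw [scale_h, orthS_h, QuadraticMap.polar, coe_quadOf]
    ring
  · ext a
    simp [mem_scaleP, hζ]

theorem oo_nd_of {F : Type*} [Field F] [Fintype F] {n : ℕ} (hn : 9 ≤ n) {Q : (Fin n → F) → F}
    (hQ : Cfsg.Geo.IsNondegenerateQuadraticForm Q) {W : Submodule F (Fin n → F)}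
    (hW : Cfsg.Geo.IsNondegenerateOn (QuadraticMap.polar Q) W) (h0 : 0 < finrank F W)
    (h1 : finrank F W < n) (h2 : 2 * finrank F W ≠ n) (h3 : finrank F W + 2 ≠ n)
    (h4 : finrank F W = 2 → Cfsg.Geo.IsPlusTypeOn Q W → 4 ≤ Fintype.card F) :
    Cfsg.Geo.IsMaximalIn (Cfsg.Geo.omegaGL Q) (Cfsg.Geo.subspaceStabilizer W ⊓ Cfsg.Geo.omegaGL Q) := by
  refine oo_nd_max hn hQ W (by rintro rfl; simp at h0) (by rintro rfl; simp at h1) hW
    (fun h => absurd h h2) ?_ _ (comap_subspaceStabilizer _ W)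
  rintro ⟨a, U, b, -, c, rfl | d⟩
  · have := h4 b c; omega
  · omega

theorem oo_nd_odd {F : Type*} [Field F] [Fintype F] {n : ℕ} (hn : 9 ≤ n) (he : Even n)
    {Q : (Fin n → F) → F} (hQ : Cfsg.Geo.IsNondegenerateQuadraticForm Q) (W : Submodule F (Fin n → F))
    (h0 : Odd (finrank F W)) (h2 : 2 * finrank F W ≠ n)
    (hW : Cfsg.Geo.IsNondegenerateOn (QuadraticMap.polar Q) W) :
    Cfsg.Geo.IsMaximalIn (Cfsg.Geo.omegaGL Q) (Cfsg.Geo.subspaceStabilizer W ⊓ Cfsg.Geo.omegaGL Q) := by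
  have := W.finrank_le
  rw [finrank_fin_fun] at this
  obtain ⟨a, ha⟩ := h0
  obtain ⟨b, hb⟩ := he
  exact oo_nd_of hn hQ hW (by omega) (by omega) h2 (by omega) (by omega)

end H29
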