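import Cfsg.Agent.H8.Cod
/-! Counting step for S4930: sums of squares of `p'`-degrees in a subgroup of `p'`-index. -/
set_option autoImplicit false
open H5 Cfsg H5.Cfsg
namespace H29.OdI

/-- sum of the squares of the `p'`-degrees -/
noncomputable def S (p : ℕ) (G : Type*) [Group G] : ℕ :=
  ∑ᶠ χ : {χ : IrrCharacter G // ¬ p ∣ charDegree (χ : G → ℂ)}, charDegree (χ.1 : G → ℂ) ^ 2

theorem pIE {G : Type*} [Group G] [Finite G] (p : ℕ) (hp : p.Prime) (H : Subgroup G) (hH : ¬ p ∣ H.index) :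
    S p H ≤ S p G ∧ (S p H = S p G → ∀ θ : IrrCharacter H, ¬ p ∣ charDegree (θ : H → ℂ) →
      ∃ χ : IrrCharacter G, ∀ x : H, (χ : G → ℂ) x = (θ : H → ℂ) x) := by
  classical
  haveI := Fintype.ofFinite G
  haveI := Fintype.ofFinite H
  have ex : ∀ η : {η : IrrCharacter H // ¬ p ∣ charDegree (η : H → ℂ)},
      ∃ χ : {χ : IrrCharacter G // ¬ p ∣ charDegree (χ : G → ℂ)},
        classInner (fun h : H => (χ.1 : G → ℂ) h) η.1 ≠ 0 := by
    intro η
    obtain ⟨ψ, h1, h2⟩ := H8.exists_constituent_not_dvd (η.1.2.isCharacter.indFun) (n := p) (by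
      rw [H8.deg_ind η.1.2.isCharacter]
      exact fun h => (hp.dvd_mul.1 h).elim hH η.2)
    refine ⟨⟨ψ, h2⟩, ?_⟩
    rw [frobenius_reciprocity _ _ ψ.2.isClassFunction] at h1
    exact fun h => h1 ((classInner_eq_zero_comm _ _).1 h)
  choose f hf using ex
  have rc : ∀ χ : IrrCharacter G, IsCharacter H (fun h : H => (χ : G → ℂ) h) :=
    fun χ => χ.2.isCharacter.comp H.subtype
  have rd : ∀ χ : IrrCharacter G, charDegree (fun h : H => (χ : G → ℂ) h) = charDegree (χ : G → ℂ) :=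
    fun χ => rfl
  have key : ∀ χ, ∑ η with f η = χ, charDegree (η.1 : H → ℂ) ≤ charDegree (χ.1 : G → ℂ) := by
    intro χ
    obtain ⟨m, h1, h2⟩ := H8.deg_eq_sum (rc χ.1)
    rw [← rd, h2]
    calc ∑ η with f η = χ, charDegree (η.1 : H → ℂ)
        ≤ ∑ η with f η = χ, m η.1 * charDegree (η.1 : H → ℂ) := Finset.sum_le_sum fun η hη => by
          have e := hf η
          rw [(Finset.mem_filter.1 hη).2, h1] at e
          exact Nat.le_mul_of_pos_left _ (Nat.pos_of_ne_zero (by exact_mod_cast e))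
      _ = ∑ η ∈ (Finset.univ.filter fun η => f η = χ).map (Function.Embedding.subtype _),
            m η * charDegree (η : H → ℂ) := by rw [Finset.sum_map]; rfl
      _ ≤ _ := Finset.sum_le_sum_of_subset (Finset.subset_univ _)
  have le1 : ∀ η, charDegree (η.1 : H → ℂ) ≤ charDegree ((f η).1 : G → ℂ) := fun η =>
    le_trans (Finset.single_le_sum (f := fun η : {η : IrrCharacter H // ¬ p ∣ charDegree (η : H → ℂ)} =>
      charDegree (η.1 : H → ℂ)) (fun _ _ => Nat.zero_le _) (by simp)) (key (f η))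
  have A : ∀ η ∈ (Finset.univ : Finset {η : IrrCharacter H // ¬ p ∣ charDegree (η : H → ℂ)}),
      charDegree (η.1 : H → ℂ) ^ 2 ≤ charDegree (η.1 : H → ℂ) * charDegree ((f η).1 : G → ℂ) :=
    fun η _ => by rw [sq]; exact Nat.mul_le_mul_left _ (le1 η)
  have B : ∑ η, charDegree (η.1 : H → ℂ) * charDegree ((f η).1 : G → ℂ) ≤ S p G := by
    rw [S, finsum_eq_sum_of_fintype, ← Finset.sum_fiberwise Finset.univ f]
    refine Finset.sum_le_sum fun χ _ => ?_
    rw [Finset.sum_congr rfl (g := fun η => charDegree (η.1 : H → ℂ) * charDegree (χ.1 : G → ℂ))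
      (fun η hη => by rw [(Finset.mem_filter.1 hη).2]), ← Finset.sum_mul, sq]
    exact Nat.mul_le_mul_right _ (key χ)
  have C := Finset.sum_le_sum A
  have e0 : S p H = ∑ η : {η : IrrCharacter H // ¬ p ∣ charDegree (η : H → ℂ)},
      charDegree (η.1 : H → ℂ) ^ 2 := by rw [S, finsum_eq_sum_of_fintype]
  refine ⟨e0 ▸ C.trans B, fun he θ hθ => ?_⟩
  have D := (Finset.sum_eq_sum_iff_of_le A).1 (le_antisymm C (by rw [← e0, he]; exact B)) ⟨θ, hθ⟩
    (Finset.mem_univ _)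
  have pos : 0 < charDegree (θ : H → ℂ) := Nat.pos_of_ne_zero fun h => hθ (h ▸ dvd_zero p)
  rw [sq] at D
  have E := Nat.eq_of_mul_eq_mul_left pos D
  have h0 := ((rc (f ⟨θ, hθ⟩).1).sub_irr θ.2 (hf ⟨θ, hθ⟩)).eq_zero_of_apply_one (by
    have a1 := θ.2.isCharacter.coe_charDegree
    have a2 := (f ⟨θ, hθ⟩).1.2.isCharacter.coe_charDegree
    simp only [Pi.sub_apply, OneMemClass.coe_one]
    rw [← a1, ← a2, ← E, sub_self])
  exact ⟨(f ⟨θ, hθ⟩).1, fun x => sub_eq_zero.1 (congrFun h0 x)⟩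

end H29.OdI
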