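import Cfsg.Agent.H29.RatC
import Cfsg.Agent.H29.LinAux

/-! Subfield subgroups of `SL`: rational functionals `D0`, and the alternative `ratL_final`. -/

set_option autoImplicit false
set_option linter.unusedSectionVars false

namespace H29

open Module H11

variable {F : Type*} [Field F] {V : Type*} [AddCommGroup V] [Module F V] {ι : Type*} [Fintype ι]
  {F₀ : Subfield F} {b : Basis ι F V}

/-- rational functionals -/
def D0 (F₀ : Subfield F) (b : Basis ι F V) (ψ : Dual F V) : Prop := ∀ x ∈ V0 F₀ b, ψ x ∈ F₀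

theorem D0.sub {ψ χ : Dual F V} (h : D0 F₀ b ψ) (h' : D0 F₀ b χ) : D0 F₀ b (ψ - χ) :=
  fun x hx => F₀.sub_mem (h x hx) (h' x hx)

theorem D0.add {ψ χ : Dual F V} (h : D0 F₀ b ψ) (h' : D0 F₀ b χ) : D0 F₀ b (ψ + χ) :=
  fun x hx => F₀.add_mem (h x hx) (h' x hx)

theorem D0.smul {ψ : Dual F V} (h : D0 F₀ b ψ) {c : F} (hc : c ∈ F₀) : D0 F₀ b (c • ψ) :=
  fun x hx => F₀.mul_mem hc (h x hx)

theorem d0_coord (i : ι) : D0 F₀ b (b.coord i) := fun _ hx => mem_V0.1 hx i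

theorem D0.ratSub_ker {χ : Dual F V} (h : D0 F₀ b χ) : RatSub F₀ b (LinearMap.ker χ) := by
  intro T hT x hx
  by_cases h0 : ∀ y ∈ V0 F₀ b, χ y = 0
  · exact V0_induction T (fun y hy => hT y (h0 y hy) hy) x
  push Not at h0
  obtain ⟨f, hf, hf0⟩ := h0
  have : x ∈ T.comap (LinearMap.id - ((χ f)⁻¹ • χ).smulRight f) := by
    apply V0_induction (F₀ := F₀) (b := b)
    intro y hy
    apply hT
    · simp [hf0]; field_simp; ring
    · exact (V0 F₀ b).sub_mem hy (V0_smul (F₀.mul_mem (F₀.inv_mem (h f hf)) (h y hy)) hf)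
  simpa [LinearMap.mem_ker.1 hx] using this

theorem exists_coord_ne {x : V} (hx : x ≠ 0) : ∃ i, b.coord i x ≠ 0 := by
  by_contra hc
  push Not at hc
  exact hx (b.repr.injective (by ext i; simpa using hc i))

theorem exists_d0_list (m : List V) (hm : ∀ x ∈ m, x ∈ V0 F₀ b) :
    ∀ {u : V}, u ∉ Submodule.span F {x | x ∈ m} →
      ∃ χ, D0 F₀ b χ ∧ (∀ x ∈ m, χ x = 0) ∧ χ u ≠ 0 := by
  induction m with
  | nil =>
    intro u hu
    obtain ⟨i, hi⟩ := exists_coord_ne (b := b) (ne_zero_of_notMem hu)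
    exact ⟨_, d0_coord i, by simp, hi⟩
  | cons a m ih =>
    intro u hu
    have hle : Submodule.span F {x | x ∈ m} ≤ Submodule.span F {x | x ∈ a :: m} :=
      Submodule.span_mono fun x hx => List.mem_cons_of_mem _ hx
    have ha : a ∈ Submodule.span F {x | x ∈ a :: m} := Submodule.subset_span (by simp)
    have hm' : ∀ x ∈ m, x ∈ V0 F₀ b := fun x hx => hm x (List.mem_cons_of_mem _ hx)
    have ha0 := hm a (by simp)
    by_cases h : a ∈ Submodule.span F {x | x ∈ m}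
    · obtain ⟨χ, h1, h2, h3⟩ := ih hm' (u := u) fun h => hu (hle h)
      refine ⟨χ, h1, ?_, h3⟩
      simp only [List.mem_cons, forall_eq_or_imp]
      exact ⟨(Submodule.span_le (p := LinearMap.ker χ)).2 h2 h, h2⟩
    · obtain ⟨f, f1, f2, f3⟩ := ih hm' h
      obtain ⟨χ, h1, h2, h3⟩ := ih hm' (u := u - (f u / f a) • a) fun h =>
        hu (by simpa using Submodule.add_mem _ (hle h) (Submodule.smul_mem _ (f u / f a) ha))
      refine ⟨χ - (χ a / f a) • f, h1.sub (f1.smul (F₀.div_mem (h1 a ha0) (f1 a ha0))), ?_, ?_⟩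
      · simp only [List.mem_cons, forall_eq_or_imp]
        exact ⟨by simp [f3], fun x hx => by simp [h2 x hx, f2 x hx]⟩
      · convert h3 using 1
        simp only [LinearMap.sub_apply, LinearMap.smul_apply, smul_eq_mul, map_sub, map_smul]
        ring

theorem exists_d0_one (m : List V) (hm : ∀ x ∈ m, x ∈ V0 F₀ b) {u : V} (hu0 : u ∈ V0 F₀ b)
    (hu : u ∉ Submodule.span F {x | x ∈ m}) :
    ∃ χ, D0 F₀ b χ ∧ (∀ x ∈ m, χ x = 0) ∧ χ u = 1 := by
  obtain ⟨χ, h1, h2, h3⟩ := exists_d0_list m hm hu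
  exact ⟨(χ u)⁻¹ • χ, h1.smul (F₀.inv_mem (h1 u hu0)), fun x hx => by simp [h2 x hx], by simp [h3]⟩

theorem exists_rat_ker [FiniteDimensional F V] {χ χ' : Dual F V} (h : D0 F₀ b χ) (h' : D0 F₀ b χ')
    {A : Submodule F V} (hA : finrank F A + 2 < finrank F V) :
    ∃ e ∈ V0 F₀ b, χ e = 0 ∧ χ' e = 0 ∧ e ∉ A := by
  by_contra hc
  push Not at hc
  have h1 := finrank_le_inf_ker (⊤ : Submodule F V) χ
  rw [top_inf_eq, finrank_top] at h1
  by_cases h0 : ∀ y ∈ V0 F₀ b, χ y = 0 → χ' y = 0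
  · have := Submodule.finrank_mono (h.ratSub_ker A fun e he he0 => hc e he0 he (h0 e he0 he))
    omega
  push Not at h0
  obtain ⟨f, hf, hf1, hf0⟩ := h0
  have : LinearMap.ker χ ≤ A ⊔ F ∙ f := h.ratSub_ker _ fun e he he0 => by
    have := hc (e - (χ' e / χ' f) • f)
      ((V0 F₀ b).sub_mem he0 (V0_smul (F₀.div_mem (h' e he0) (h' f hf)) hf))
      (by simp [LinearMap.mem_ker.1 he, hf1]) (by simp [hf0])
    simpa using Submodule.add_mem _ (Submodule.mem_sup_left this) (Submodule.mem_sup_right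
      (Submodule.smul_mem _ (χ' e / χ' f) (Submodule.mem_span_singleton_self f)))
  have h2 := Submodule.finrank_mono this
  have h3 := Submodule.finrank_add_le_finrank_add_finrank A (F ∙ f)
  have h4 := finrank_span_one_le (F := F) f
  omega

theorem HasTv.symm_apply {g : V ≃ₗ[F] V} {φ : Dual F V} {u : V} (h : ∀ x, g x = x + φ x • u)
    (hu : φ u = 0) (x : V) : g.symm x = x - φ x • u := by
  rw [LinearEquiv.symm_apply_eq, h]; simp [hu]

theorem HasTv.sub {H : Subgroup (V ≃ₗ[F] V)} {φ ψ : Dual F V} {u : V} (h : HasTv H φ u)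
    (h' : HasTv H ψ u) (hu : φ u = 0) (hu' : ψ u = 0) : HasTv H (φ - ψ) u := by
  rw [sub_eq_add_neg]; exact h.add (h'.neg hu') hu

theorem HasTv.sub_right {H : Subgroup (V ≃ₗ[F] V)} {φ : Dual F V} {u v : V} (h : HasTv H φ u)
    (h' : HasTv H φ v) (hv : φ v = 0) : HasTv H φ (u - v) := by
  rw [sub_eq_add_neg]
  refine h.add_right ?_ (by simp [hv])
  rw [← neg_one_smul F, ← HasTv.smul_swap]
  convert h'.neg hv using 1
  ext x; simp

/-- `H` contains the rational transvections -/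
def HRL (F₀ : Subfield F) (b : Basis ι F V) (H : Subgroup (V ≃ₗ[F] V)) (l : F) : Prop :=
  ∀ e ∈ V0 F₀ b, ∀ χ, D0 F₀ b χ → χ e = 0 → HasTv H (l • χ) e

variable {H : Subgroup (V ≃ₗ[F] V)} [FiniteDimensional F V]

theorem HRL.tv (hH : HRL F₀ b H 1) {e : V} (he : e ∈ V0 F₀ b) {χ : Dual F V} (h : D0 F₀ b χ)
    (h0 : χ e = 0) : HasTv H χ e := by simpa using hH e he χ h h0

theorem HRL.move_vec (hH : HRL F₀ b H 1) (hn : 4 ≤ finrank F V) {l : F} {e : V} {χ : Dual F V}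
    (he : e ∈ V0 F₀ b) (he0 : e ≠ 0) (hχ : D0 F₀ b χ) (h0 : χ e = 0) (h : HasTv H (l • χ) e)
    {e' : V} (he' : e' ∈ V0 F₀ b) (h0' : χ e' = 0) : HasTv H (l • χ) e' := by
  have key : ∀ w ∈ V0 F₀ b, χ w = 0 → w ∉ F ∙ e → HasTv H (l • χ) w := by
    intro w hw hw0 hwe
    obtain ⟨χ', a1, a2, a3⟩ := exists_d0_one [w] (by simpa) he
      (notMem_span_one.2 (notMem_symm he0 hwe))
    obtain ⟨t, ht, h1⟩ := hH.tv hw a1 (a2 w (by simp))
    have h2 := h.conj ht
    have : (l • χ) ∘ₗ (t.symm : V →ₗ[F] V) = l • χ := by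
      ext x; simp [HasTv.symm_apply h1 (a2 w (by simp)), hw0]
    rw [this, h1, a3, one_smul] at h2
    simpa using h2.sub_right h (by simp [h0])
  by_cases hm : e' ∈ F ∙ e
  · obtain ⟨w, hw, h1, -, h2⟩ := exists_rat_ker hχ hχ (A := F ∙ e)
      (by have := finrank_span_one_le (F := F) e; omega)
    simpa using (key (e' + w) ((V0 F₀ b).add_mem he' hw) (by simp [h0', h1])
      (fun h => h2 (by simpa using Submodule.sub_mem _ h hm))).sub_right (key w hw h1 h2)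
      (by simp [h1])
  · exact key e' he' h0' hm

theorem HRL.move_dual (hH : HRL F₀ b H 1) {e : V} {ψ : Dual F V} (h0 : ψ e = 0)
    (h : HasTv H ψ e) {v : V} (hv : v ∈ V0 F₀ b) {χ : Dual F V} (hχ : D0 F₀ b χ) (h1 : χ e = 0)
    (h2 : χ v = 0) : HasTv H (ψ v • χ) e := by
  obtain ⟨t, ht, a1⟩ := hH.tv hv hχ h2
  have a2 := h.conj ht
  rw [a1, h1, zero_smul, add_zero] at a2
  convert h.sub a2 h0 (by simp [HasTv.symm_apply a1 h2, h0, h1]) using 1
  ext x
  simp [HasTv.symm_apply a1 h2, mul_comm]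

theorem HRL.of_one (hH : HRL F₀ b H 1) (hn : 4 ≤ finrank F V) {l : F} {e : V} {χ : Dual F V}
    (he : e ∈ V0 F₀ b) (he0 : e ≠ 0) (hχ : D0 F₀ b χ) (h0 : χ e = 0) {v : V} (hv : v ∈ V0 F₀ b)
    (hv1 : χ v = 1) (h : HasTv H (l • χ) e) : HRL F₀ b H l := by
  have key : ∀ χ', D0 F₀ b χ' → χ' v = 0 → ∀ e' ∈ V0 F₀ b, χ' e' = 0 → HasTv H (l • χ') e' := by
    intro χ' hχ' h1 e' he' h2
    obtain ⟨w, hw, a1, a2, a3⟩ := exists_rat_ker hχ hχ' (A := ⊥) (by simp; omega)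
    have b1 := hH.move_vec hn he he0 hχ h0 h hw a1
    have b2 := hH.move_dual (by simp [a1]) b1 hv hχ' a2 h1
    simp only [LinearMap.smul_apply, hv1, smul_eq_mul, mul_one] at b2
    exact hH.move_vec hn hw (by simpa using a3) hχ' a2 b2 he' h2
  intro e' he' χ' hχ' h1
  obtain ⟨w, hw, a1, a2, a3⟩ := exists_rat_ker hχ hχ' (A := ⊥) (by simp; omega)
  refine hH.move_vec hn hw (by simpa using a3) hχ' a2 ?_ he' h1
  have b1 := key (χ' - χ' v • χ) (hχ'.sub (hχ.smul (hχ' v hv))) (by simp [hv1]) w hw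
    (by simp [a1, a2])
  have b2 := hH.move_vec hn he he0 hχ h0 h (V0_smul (hχ' v hv) hw) (by simp [a1])
  rw [← HasTv.smul_swap] at b2
  convert b1.add b2 (by simp [a1, a2]) using 1
  module

/-- the transvections of `H` at rational points are rational -/
def BRL (F₀ : Subfield F) (b : Basis ι F V) (H : Subgroup (V ≃ₗ[F] V)) : Prop :=
  ∀ e ∈ V0 F₀ b, e ≠ 0 → ∀ ψ : Dual F V, ψ e = 0 → HasTv H ψ e → D0 F₀ b ψ

theorem HRL.dichotomy [Finite F] (hH : HRL F₀ b H 1) (hn : 4 ≤ finrank F V)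
    (hr : (finrank F₀ F).Prime) : (∀ x, LFull H x) ∨ BRL F₀ b H := by
  by_cases hB : BRL F₀ b H
  · exact Or.inr hB
  left
  have aux : ∀ e ∈ V0 F₀ b, ∀ v ∈ V0 F₀ b, ∃ χ, D0 F₀ b χ ∧ χ e = 0 ∧ χ v = 0 ∧
      ∃ w ∈ V0 F₀ b, χ w = 1 := by
    intro e he v hv
    obtain ⟨w, hw, hwe⟩ : ∃ w ∈ V0 F₀ b, w ∉ Submodule.span F {e, v} := by
      by_contra hc
      push Not at hc
      have h1 := Submodule.finrank_mono (show ⊤ ≤ _ from fun x _ => V0_induction _ hc x)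
      have h2 := finrank_span_two_le (F := F) e v
      rw [finrank_top] at h1
      omega
    obtain ⟨χ, a1, a2, a3⟩ := exists_d0_one [e, v] (by simp [he, hv]) hw (notMem_span_two.2 hwe)
    exact ⟨χ, a1, a2 e (by simp), a2 v (by simp), w, hw, a3⟩
  unfold BRL D0 at hB
  push Not at hB
  obtain ⟨e, he, he0, ψ, h0, h, v, hv, hl0⟩ := hB
  obtain ⟨χ, a1, a2, a3, w, hw, a4⟩ := aux e he v hv
  have hl := hH.of_one hn he he0 a1 a2 hw a4 (hH.move_dual h0 h hv a1 a2 a3)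
  have h0 : ∀ c ∈ F₀, HRL F₀ b H c := fun c hc e he χ hχ h => hH.tv he (hχ.smul hc) (by simp [h])
  let L : Subring F :=
    { carrier := {l | HRL F₀ b H l}
      mul_mem' := fun {x y} hx hy => by
        obtain ⟨χ', b1, b2, b3, w', hw', b4⟩ := aux e he w hw
        obtain ⟨t, ht, c1⟩ := hy w hw χ' b1 b3
        have c2 := hx e he χ a1 a2
        have c3 := c2.conj ht
        have c4 : (y • χ') w = 0 := by simp [b3]
        rw [c1] at c3
        simp only [LinearMap.smul_apply, b2, smul_zero, zero_smul, add_zero] at c3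
        refine hH.of_one hn he he0 b1 b2 hw' b4 ?_
        convert c2.sub c3 (by simp [a2]) (by simp [HasTv.symm_apply c1 c4, a2, b2]) using 1
        ext z
        simp [HasTv.symm_apply c1 c4, a4]
        ring
      one_mem' := hH
      add_mem' := fun {x y} hx hy e he χ hχ h => by
        rw [add_smul]
        exact (hx e he χ hχ h).add (hy e he χ hχ h) (by simp [h])
      zero_mem' := h0 0 F₀.zero_mem
      neg_mem' := fun {x} hx e he χ hχ h => by
        convert (hx e he χ hχ h).neg (by simp [h]) using 1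
        ext x; simp }
  have hL : ∀ l, HRL F₀ b H l := fun x => by
    have : x ∈ L := (subring_eq_top hr L h0 hl hl0) ▸ Subring.mem_top x
    exact this
  refine V0_induction (F₀ := F₀) (b := b) (lfullSub H) fun x hx φ hφ => ?_
  by_cases hx0 : x = 0
  · exact ⟨1, H.one_mem, by simp [hx0]⟩
  obtain ⟨f, f1, -, f2⟩ := exists_d0_one [] (by simp) hx (by simpa using hx0)
  have : φ = ∑ i, φ (b i) • (b.coord i - b.coord i x • f) := by
    simp only [smul_sub, Finset.sum_sub_distrib, smul_smul, ← Finset.sum_smul]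
    have e1 : ∑ i, φ (b i) * b.coord i x = 0 := by
      have := congrArg φ (b.sum_repr x)
      simp only [map_sum, map_smul, smul_eq_mul] at this
      rw [← hφ, ← this]
      simp [mul_comm]
    rw [e1, zero_smul, sub_zero]
    refine b.ext fun j => ?_
    classical
    simp [Finsupp.single_apply]
  rw [this]
  refine (Finset.sum_induction _ (fun ψ : Dual F V => HasTv H ψ x ∧ ψ x = 0)
    (fun ψ ψ' h h' => ⟨h.1.add h'.1 h.2, by simp [h.2, h'.2]⟩) ⟨hasTv_zero H x, rfl⟩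
    fun i _ => ⟨hL _ x hx _ ((d0_coord i).sub (f1.smul (d0_coord i x hx))) (by simp [f2]),
      by simp [f2]⟩).1

theorem HRL.rat2 (hH : HRL F₀ b H 1) (hB : BRL F₀ b H) {e₁ e₂ : V} (h₁ : e₁ ∈ V0 F₀ b)
    (h₂ : e₂ ∈ V0 F₀ b) (i₁ : e₁ ≠ 0) (i₂ : e₂ ∉ F ∙ e₁) {k : V ≃ₗ[F] V} (hk : k ∈ H)
    (k₁ : k e₁ = e₁) (k₂ : k e₂ = e₂) {v : V} (hv : v ∈ V0 F₀ b) : k v ∈ V0 F₀ b := by
  have key : ∀ e ∈ V0 F₀ b, e ≠ 0 → k e = e → ∀ ψ, D0 F₀ b ψ → ψ e = 0 → ψ (k v) ∈ F₀ := by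
    intro e he he0 hke ψ hψ h0
    have h1 := (hH.tv he hψ h0).conj (H.inv_mem hk)
    have h2 : k⁻¹ e = e := by
      conv_lhs => rw [← hke]
      exact k.symm_apply_apply e
    rw [h2] at h1
    exact hB e he he0 _ (by change ψ (k e) = 0; rw [hke, h0]) h1 v hv
  obtain ⟨f, f1, f2, f3⟩ := exists_d0_one [e₂] (by simpa) h₁ (notMem_span_one.2 (notMem_symm i₁ i₂))
  rw [mem_V0]
  intro i
  have m := f1.smul (d0_coord i e₁ h₁)
  simpa using F₀.add_mem (key e₁ h₁ i₁ k₁ _ ((d0_coord i).sub m) (by simp [f3]))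
    (key e₂ h₂ (ne_zero_of_notMem i₂) k₂ _ m (by simp [f2 e₂ (by simp)]))

theorem HRL.dual_rat [Finite F] (hH : HRL F₀ b H 1) (hB : BRL F₀ b H) (hn : 6 ≤ finrank F V)
    {g : V ≃ₗ[F] V} (hg : g ∈ H) {χ₀ : Dual F V} (hχ₀ : D0 F₀ b χ₀) :
    ∃ c : F, c ≠ 0 ∧ D0 F₀ b (c⁻¹ • χ₀ ∘ₗ (g.symm : V →ₗ[F] V)) := by
  obtain ⟨τ, hτ, -⟩ := exists_frob_sub F₀
  set ψ := χ₀ ∘ₗ (g.symm : V →ₗ[F] V) with hψ
  by_contra hc
  push Not at hc
  obtain ⟨e₂, h2, c2⟩ : ∃ e ∈ V0 F₀ b, ψ e ≠ 0 := by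
    by_contra h
    push Not at h
    exact hc 1 one_ne_zero fun x hx => by simp [h x hx]
  obtain ⟨e₁, h1, c3⟩ : ∃ e ∈ V0 F₀ b, ψ e / ψ e₂ ∉ F₀ := by
    by_contra h
    push Not at h
    exact hc _ c2 fun x hx => by simpa [div_eq_inv_mul] using h x hx
  have he0 : e₂ ≠ 0 := by rintro rfl; simp at c2
  have hi : e₁ ∉ F ∙ e₂ := fun h => by
    obtain ⟨c, rfl⟩ := Submodule.mem_span_singleton.1 h
    apply c3
    rw [map_smul, smul_eq_mul, mul_div_cancel_right₀ _ c2]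
    exact mem_of_smul_mem_V0 h2 he0 h1
  obtain ⟨e₃, h3, -, -, hi'⟩ := exists_rat_ker hχ₀ hχ₀ (A := Submodule.span F {e₂, e₁})
    (by have := finrank_span_two_le (F := F) e₂ e₁; omega)
  set U := Submodule.span F {x | x ∈ [e₂, e₁, e₃]} with hU
  have hl : ∀ x ∈ [e₂, e₁, e₃], x ∈ V0 F₀ b := by simp [h1, h2, h3]
  have hUr : RatSub F₀ b U := ratSub_span hl
  have a1 : e₁ ∈ U := Submodule.subset_span (by simp)
  have a2 : e₂ ∈ U := Submodule.subset_span (by simp)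
  have hU3 : finrank F U = 3 := by
    have : U = ((F ∙ e₂) ⊔ F ∙ e₁) ⊔ F ∙ e₃ := by
      rw [hU, list_set_three, Submodule.span_insert, Submodule.span_insert, sup_assoc]
    rw [this, Submodule.finrank_sup_span_singleton (by rwa [← Submodule.span_insert]),
      Submodule.finrank_sup_span_singleton hi, finrank_span_singleton he0]
  obtain ⟨e₀, h0, c0, -, hu⟩ := exists_rat_ker hχ₀ hχ₀ (A := U.map (g.symm : V →ₗ[F] V))
    (by rw [LinearEquiv.finrank_map_eq]; omega)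
  have hu' : g e₀ ∉ U := fun h => hu ⟨g e₀, h, by simp⟩
  obtain ⟨χ, d1, d2, d3⟩ := exists_d0_list _ hl hu'
  have d4 : ∀ y ∈ U, χ y = 0 := fun y hy => (Submodule.span_le (p := LinearMap.ker χ)).2 d2 hy
  obtain ⟨x, hx, hxφ⟩ := (hH.tv h0 hχ₀ c0).conj hg
  set u := g e₀ with hue
  have hψu : ψ u = 0 := by simp [hψ, hue, c0]
  have hu0 : u ≠ 0 := ne_zero_of_notMem hu'
  have hker : ∀ z, z ∈ LinearMap.ker (ψ.smulRight u) ↔ ψ z = 0 := fun z => by simp [hu0]
  obtain ⟨r₁, r1, r1'⟩ := hH.tv h1 d1 (d4 _ a1)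
  obtain ⟨r₂, r2, r2'⟩ := hH.tv h2 d1 (d4 _ a2)
  have ho : ∀ e ∈ U, ∀ r : V ≃ₗ[F] V, (∀ z, r z = z + χ z • e) →
      OppRoot U (ψ.smulRight u) r (χ u * ψ e) := fun e he r hr =>
    ⟨fun y hy => by simp [hr, d4 y hy], fun y hy => by
      rw [hr, add_sub_cancel_left]
      refine ⟨U.smul_mem _ he, ?_⟩
      simp only [LinearMap.smulRight_apply, map_smul, smul_eq_mul]
      module⟩
  obtain ⟨k, hk, s, hs, k1, k2⟩ := exists_torus H U (ψ.smulRight u) (fun z => by simp [hψu]) hx hxφ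
    r1 r2 (ho _ a1 _ r1') (ho _ a2 _ r2')
    (mul_ne_zero d3 fun h => c3 (by rw [h, zero_div]; exact F₀.zero_mem)) (mul_ne_zero d3 c2)
    (fun h => c3 (by rw [mul_left_cancel₀ d3 h, div_self c2]; exact F₀.one_mem))
  have hkU : U.map (k : V →ₗ[F] V) = U := map_eq_of_le k (fun e he => by
    simpa using U.add_mem (k2 e he).1 (U.smul_mem s he)) le_rfl
  have key := hUr.tau_fixed hτ k (fun e he he' => ?_) inf_le_left k1 hs k2 ?_
  · have := (hker _).1 (key (ψ e₂ • e₁ - ψ e₁ • e₂)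
      ⟨U.sub_mem (U.smul_mem _ a1) (U.smul_mem _ a2), (hker _).2 (by simp [mul_comm])⟩).2
    rw [map_sub, tau_smul, tau_smul, (tau_eq_self_iff hτ).2 h1, (tau_eq_self_iff hτ).2 h2] at this
    simp only [map_sub, map_smul, smul_eq_mul] at this
    apply c3
    rw [← hτ, map_div₀, div_eq_div_iff (by simpa using c2) c2]
    linear_combination -this
  · obtain ⟨t, ht, t1⟩ := (hH.tv he' d1 (d4 e he)).conj hk
    have t2 : ∀ y ∈ U, t y = y := fun y hy => by
      rw [← hkU] at hy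
      obtain ⟨y, hy, rfl⟩ := hy
      simp [t1, d4 y hy]
    have t3 := tau_comm hτ (k := (t : V →ₗ[F] V))
      (fun z hz => hH.rat2 hB h2 h1 he0 hi ht (t2 _ a2) (t2 _ a1) hz) ((χ u)⁻¹ • k u)
    simp only [LinearEquiv.coe_coe] at t3
    rw [t1, t1, map_add, add_right_inj] at t3
    simp only [map_smul, LinearMap.comp_apply, LinearEquiv.coe_coe, LinearEquiv.symm_apply_apply,
      smul_eq_mul, inv_mul_cancel₀ d3, one_smul] at t3
    rw [t3]
    exact Submodule.smul_mem _ _ (Submodule.mem_span_singleton_self _)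
  · have hτs : Function.Surjective τ := Finite.injective_iff_surjective.1 τ.injective
    choose c hc using fun i => hτs (ψ (b i))
    have e1 : ∀ y, ψ (tau τ b y) = τ (b.constr F c y) := fun y => by
      simp [tau, Basis.constr_apply_fintype, hc, mul_comm]
    obtain ⟨y, f1, f2, f3⟩ := exists_mem_ker_notMem [ψ, b.constr F c] U ⊥ (by simp; omega)
    simp only [List.mem_cons, List.not_mem_nil, or_false, forall_eq_or_imp, forall_eq] at f3
    exact ⟨y, ⟨f1, (hker y).2 f3.1⟩, by simpa using f2, hUr.tau_mem hτ f1,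
      (hker _).2 (by rw [e1, f3.2, map_zero])⟩

theorem HRL.final [Finite F] (hH : HRL F₀ b H 1) (hn : 6 ≤ finrank F V)
    (hr : (finrank F₀ F).Prime) :
    (∀ x, LFull H x) ∨ ∀ g ∈ H, ∃ c : F, c ≠ 0 ∧ ∀ x ∈ V0 F₀ b, c⁻¹ • g x ∈ V0 F₀ b := by
  refine (hH.dichotomy (by omega) hr).imp_right fun hB g hg => ?_
  have key : ∀ χ, D0 F₀ b χ → ∃ c : F, c ≠ 0 ∧ D0 F₀ b (c⁻¹ • χ ∘ₗ (g : V →ₗ[F] V)) :=
    fun χ hχ => hH.dual_rat hB hn (H.inv_mem hg) hχ
  have : Nonempty ι := by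
    rw [finrank_eq_card_basis b] at hn
    exact Fintype.card_pos_iff.1 (by omega)
  obtain ⟨i₀⟩ := this
  choose c hc h using fun i => key _ (d0_coord i)
  have aux : ∀ i j, i ≠ j → ∀ d : F,
      D0 F₀ b (d⁻¹ • (b.coord i + b.coord j) ∘ₗ (g : V →ₗ[F] V)) → c i / d ∈ F₀ := by
    intro i j hij d hd
    obtain ⟨x, x1, x2, x3⟩ : ∃ x ∈ V0 F₀ b, b.coord j (g x) = 0 ∧ b.coord i (g x) ≠ 0 := by
      by_contra hcon
      push Not at hcon
      have := (h j).ratSub_ker (LinearMap.ker (b.coord i ∘ₗ (g : V →ₗ[F] V)))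
        (fun x hx hx0 => hcon x hx0 (by simpa [hc j] using hx)) (x := g.symm (b i))
        (by simp [Finsupp.single_apply, hij])
      simp at this
    convert F₀.div_mem (hd x x1) (h i x x1) using 1
    simp only [LinearMap.smul_apply, LinearMap.comp_apply, LinearEquiv.coe_coe,
      LinearMap.add_apply, x2, smul_eq_mul, add_zero]
    have := hc i
    field_simp
  refine ⟨c i₀, hc i₀, fun x hx => mem_V0.2 fun i => ?_⟩
  have h1 : c i / c i₀ ∈ F₀ := by
    by_cases hi : i = i₀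
    · rw [hi, div_self (hc i₀)]; exact F₀.one_mem
    · obtain ⟨d, hd, h2⟩ := key _ ((d0_coord i).add (d0_coord i₀))
      convert F₀.div_mem (aux i i₀ hi d h2) (aux i₀ i (Ne.symm hi) d (by rwa [add_comm])) using 1
      have := hc i₀
      field_simp
  convert F₀.mul_mem h1 (h i x hx) using 1
  simp only [map_smul, Finsupp.smul_apply, smul_eq_mul, LinearMap.smul_apply, LinearMap.comp_apply,
    LinearEquiv.coe_coe, Basis.coord_apply]
  have := hc i
  field_simp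

end H29
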