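import Cfsg.Agent.S3289
import Cfsg.Agent.S1225

/-! An elementary abelian `2`-subgroup `A` strongly closed in a proper subgroup `M` which contains
its normaliser and the centralisers of its involutions: all involutions of `A` are conjugate
(`ti_conj`; modulo a central involution: `ti_quot`). -/

set_option autoImplicit false

namespace H29

open Subgroup

variable {G : Type*} [Group G] [Finite G]

theorem ti_conj {A M : Subgroup G} (hM : M ≠ ⊤) (h2 : ∀ a ∈ A, a * a = 1)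
    (hs : ∀ a ∈ A, ∀ g, g * a * g⁻¹ ∈ M → g * a * g⁻¹ ∈ A)
    (hC : ∀ a ∈ A, a ≠ 1 → ∀ g, g * a * g⁻¹ = a → g ∈ M)
    (hN : ∀ g, (∀ a ∈ A, g * a * g⁻¹ ∈ A) → g ∈ M) {a b : G} (ha : a ∈ A) (hb : b ∈ A) (a1 : a ≠ 1)
    (b1 : b ≠ 1) : IsConj a b := by
  have hp : IsPGroup 2 A := fun g => ⟨1, Subtype.ext (by simpa [sq] using h2 g g.2)⟩
  obtain ⟨T, hT⟩ := hp.exists_le_sylow
  have hTM : (T : Subgroup G) ≤ M := by
    haveI := T.isPGroup'.isNilpotent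
    by_contra hc
    obtain ⟨t, t1, t2⟩ := SetLike.exists_of_lt (normalizerCondition_of_isNilpotent (M.subgroupOf T)
      (lt_top_iff_ne_top.2 fun e => hc (subgroupOf_eq_top.1 e)))
    have hAM : A ≤ M := fun x hx => by
      by_cases e : x = 1
      exacts [e ▸ M.one_mem, hC x hx e x (by simp)]
    exact t2 (hN _ fun x hx => hs x hx _ ((mem_normalizer_iff.1 t1 ⟨x, hT hx⟩).1 (hAM hx)))
  have h := (Cfsg.Agent.S3289.result T A (fun e => a1 (by simpa [e] using ha))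
    ⟨hT, fun x hx g hg => hs x hx g (hTM hg)⟩ M hM
    (fun s hs s1 g hg => hC s hs s1 g (by rw [mem_centralizer_singleton_iff.1 hg, mul_inv_cancel_right]))
    (fun g hg => hN g fun x hx => closure_le A |>.2 (fun y hy => hy.1)
      ((mem_set_normalizer_iff.1 hg x).1 (subset_closure ⟨hx, by simpa [sq] using h2 x hx⟩)))).1
  obtain ⟨u, u1, u2⟩ : ∃ u ∈ Group.conjugatesOfSet (A : Set G), u ∉ M := by
    by_contra! hc
    exact h.1 (subgroupOf_eq_top.2 (le_inf ((closure_le _).2 hc) le_rfl))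
  have o : ∀ x : normalClosure (A : Set G), x.1 * x.1 = 1 → x.1 ≠ 1 → orderOf x = 2 := fun x h1 h2 =>
    orderOf_eq_prime (Subtype.ext (by simpa [sq])) fun e => h2 (congrArg Subtype.val e)
  have m := fun x hx => subset_normalClosure (s := (A : Set G)) (a := x) hx
  have a2 := o ⟨a, m a ha⟩ (h2 a ha) a1
  have aM : (⟨a, m a ha⟩ : normalClosure (A : Set G)) ∈
      (M ⊓ normalClosure (A : Set G)).subgroupOf (normalClosure (A : Set G)) := ⟨hTM (hT ha), m a ha⟩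
  exact (normalClosure (A : Set G)).subtype.map_isConj ((Cfsg.Agent.S1225.result _ h
    ⟨u, conjugatesOfSet_subset_normalClosure u1⟩ (o _ (by
      obtain ⟨x, hx, c⟩ := Group.mem_conjugatesOfSet_iff.1 u1
      obtain ⟨g, rfl⟩ := isConj_iff.1 c
      simp only [conj_mul, h2 x hx, mul_one, mul_inv_cancel]) fun e => u2 ((show u = 1 from e) ▸ M.one_mem))
    (fun e => u2 e.1) _ _ a2 aM a2 aM).2 _ _ a2 (o ⟨b, m b hb⟩ (h2 b hb) b1))

theorem ti_quot {A M : Subgroup G} {z : G} (hz : ∀ g, g * z = z * g) (hzA : z ∈ A) (hAM : A ≤ M)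
    (hM : M ≠ ⊤) (h2 : ∀ a ∈ A, a * a = 1) (hs : ∀ a ∈ A, ∀ g, g * a * g⁻¹ ∈ M → g * a * g⁻¹ ∈ A)
    (hC : ∀ a ∈ A, a ≠ 1 → a ≠ z → ∀ g, g * a * g⁻¹ = a ∨ g * a * g⁻¹ = a * z → g ∈ M)
    (hN : ∀ g, (∀ a ∈ A, g * a * g⁻¹ ∈ A) → g ∈ M) {a b : G} (ha : a ∈ A) (hb : b ∈ A) (a1 : a ≠ 1)
    (a2 : a ≠ z) (b1 : b ≠ 1) (b2 : b ≠ z) : ∃ g, g * a * g⁻¹ = b ∨ g * a * g⁻¹ = b * z := by
  have zz := h2 z hzA
  let Z : Subgroup G :=
    { carrier := {x | x = 1 ∨ x = z}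
      one_mem' := Or.inl rfl
      mul_mem' := by rintro _ _ (rfl | rfl) (rfl | rfl) <;> simp [zz]
      inv_mem' := by rintro _ (rfl | rfl) <;> simp [inv_eq_of_mul_eq_one_left zz] }
  haveI : Z.Normal := ⟨by rintro _ (rfl | rfl) g <;> simp [Z, hz]⟩
  have ZA : Z ≤ A := by rintro _ (rfl | rfl); exacts [A.one_mem, hzA]
  have k : ∀ {B : Subgroup G}, Z ≤ B → ∀ x : G, (x : G ⧸ Z) ∈ B.map (QuotientGroup.mk' Z) ↔ x ∈ B :=
    fun hB x => by
      rw [← QuotientGroup.mk'_apply, ← mem_comap, comap_map_eq_self (by rwa [QuotientGroup.ker_mk'])]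
  have k2 : ∀ x y : G, (x : G ⧸ Z) = y → x = y ∨ x = y * z := fun x y h => by
    rcases QuotientGroup.eq.1 h.symm with h | h
    exacts [Or.inl (inv_mul_eq_one.1 h).symm, Or.inr (inv_mul_eq_iff_eq_mul.1 h)]
  have k3 : ∀ x : G, x ≠ 1 → x ≠ z → (x : G ⧸ Z) ≠ 1 := fun x h1 h2 h => by
    rcases (QuotientGroup.eq_one_iff x).1 h with h | h <;> contradiction
  obtain ⟨g, hg⟩ := isConj_iff.1 (ti_conj (A := A.map (QuotientGroup.mk' Z)) (M := M.map (QuotientGroup.mk' Z))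
    (fun e => hM (eq_top_iff.2 fun x _ => (k (ZA.trans hAM) x).1 (e ▸ mem_top _)))
    (by rintro _ ⟨x, hx, rfl⟩; rw [← map_mul, h2 x hx, map_one])
    (by
      rintro _ ⟨x, hx, rfl⟩ ⟨g⟩ hg
      exact (k ZA _).2 (hs x hx g ((k (ZA.trans hAM) _).1 hg)))
    (by
      rintro _ ⟨x, hx, rfl⟩ x1 ⟨g⟩ hg
      exact (k (ZA.trans hAM) _).2 (hC x hx (by rintro rfl; exact x1 rfl) (by
        rintro rfl; exact x1 ((QuotientGroup.eq_one_iff _).2 (Or.inr rfl))) g (k2 _ _ hg)))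
    (by
      rintro ⟨g⟩ hg
      exact (k (ZA.trans hAM) _).2 (hN g fun x hx => (k ZA _).1 (hg _ ⟨x, hx, rfl⟩)))
    ⟨a, ha, rfl⟩ ⟨b, hb, rfl⟩ (k3 a a1 a2) (k3 b b1 b2))
  obtain ⟨g, rfl⟩ := QuotientGroup.mk_surjective g
  exact ⟨g, k2 _ _ hg⟩

end H29
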