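import Cfsg.Agent.H29.TU4

/-! Overgroups of `SU(W)`, `W` of dimension four over an extension field `K`, acting on `W ⊗[K] U`,
part 1: the structure `TK`, levels `TKL` and `TK.E_le`. -/

set_option autoImplicit false
set_option linter.unusedSectionVars false

namespace H29

open Module H11 H11.PForm

section Un
variable {F : Type*} [Field F] [Finite F] {σ : F →+* F} {hσ : ∀ a, σ (σ a) = a} {V : Type*}
  [AddCommGroup V] [Module F V] [FiniteDimensional F V] {S : PForm (unitP σ hσ) V} {x y v z : V}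

theorem h90 (hσ : ∀ a, σ (σ a) = a) (hne : σ ≠ RingHom.id F) {d : F} (hd : σ d * d = 1) :
    ∃ c : Fˣ, d * (c * (σ c)⁻¹) = 1 := by
  have d0 : d ≠ 0 := right_ne_zero_of_mul_eq_one hd
  by_cases e : 1 + σ d = 0
  · obtain ⟨s, s0, hs⟩ := exists_mem_unit_Λ hσ hne
    rw [mem_unitP_Λ, add_comm, add_eq_zero_iff_eq_neg] at hs
    refine ⟨Units.mk0 s s0, ?_⟩
    have : d = -1 := by linear_combination d * e - hd
    simp [hs, this, s0]
  · refine ⟨Units.mk0 _ e, ?_⟩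
    have e' : 1 + d ≠ 0 := fun a => e (by simpa using congrArg σ a)
    simp only [Units.val_mk0, map_add, map_one, hσ]
    field_simp
    linear_combination hd

theorem upart (hS : S.Nondeg) (hz : S.h z z = 0) (h1 : S.h v z = 0) (h2 : z ∉ F ∙ v) :
    ∃ z', S.IsHyp z z' ∧ S.h v z' = 0 := by
  obtain ⟨r, r1, r2⟩ := usep hS h2
  obtain ⟨d, hd⟩ := exists_sing_add' (x := r) (us hz) (by simp [uone r2])
  exact ⟨_, ⟨us hz, hd, by simp [uone r2, hz]⟩, by simp [h1, S.h_swap_zero r1]⟩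

theorem utor (hne : σ ≠ RingHom.id F) (hS : S.Nondeg) (h : 2 ≤ finrank F V) (v0 : v ≠ 0)
    (hv : S.h v v = 0) (hz : S.h z z = 0) (h1 : S.h v z = 0) (h2 : z ∉ F ∙ v) {a b : F} (ha : a ≠ 0)
    (hb : b ≠ 0) (e : σ (a * b) = a * b) : ∃ g ∈ S.E, g.1 v = a • v ∧ g.1 z = b • z := by
  obtain ⟨z', Hz, e1⟩ := upart hS hz h1 h2
  obtain ⟨v', Hv, e2⟩ := upart hS hv (S.h_swap_zero h1) (nm_swap v0 h2)
  refine ⟨Hv.tor (Units.mk0 a ha) * Hz.tor (Units.mk0 b hb), (u_memE hne hS h _).2 ?_, ?_, ?_⟩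
  · rw [map_mul, Units.val_mul, Hv.det_tor, Hz.det_tor, Units.val_mk0, Units.val_mk0, mul_mul_mul_comm,
      ← mul_inv, ← map_mul, e, mul_inv_cancel₀ (mul_ne_zero ha hb)]
  · simp [Hz.tor_perp _ (S.mem_perp_pair.2 ⟨S.h_swap_zero h1, S.h_swap_zero e1⟩)]
  · simp [Hv.tor_perp _ (S.mem_perp_pair.2 ⟨h1, S.h_swap_zero e2⟩)]

theorem utrans4 (hne : σ ≠ RingHom.id F) (hS : S.Nondeg) (h : 2 ≤ finrank F V) {v' z' : V} (v0 : v ≠ 0)
    (v0' : v' ≠ 0) (hv : S.h v v = 0) (hv' : S.h v' v' = 0) (hz : S.h z z = 0) (hz' : S.h z' z' = 0)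
    (h1 : S.h v z = 0) (h1' : S.h v' z' = 0) (h2 : z ∉ F ∙ v) (h2' : z' ∉ F ∙ v') :
    ∃ g ∈ S.E, ∃ a : F, a ≠ 0 ∧ g.1 v = v' ∧ g.1 z = a • z' := by
  obtain ⟨g, e⟩ := hS.witt_vec v0 v0' ((S.unit_q_congr_iff S _ _).2 (hv'.trans hv.symm))
  obtain ⟨k, k1, k2⟩ := hS.witt_fix (F ∙ v') (u := g.1 z) (fun m => h2 (by
      obtain ⟨a, ha⟩ := Submodule.mem_span_singleton.1 m
      exact Submodule.mem_span_singleton.2 ⟨a, g.1.injective (by rw [map_smul, e, ha])⟩)) h2'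
    ((S.unit_q_congr_iff S _ _).2 (by simp [hz, hz'])) fun x hx => by
      obtain ⟨a, rfl⟩ := Submodule.mem_span_singleton.1 hx
      have : S.h v' (g.1 z) = 0 := by simp [← e, h1]
      simp [h1', this]
  obtain ⟨y, Hz, e1⟩ := upart hS hz h1 h2
  obtain ⟨d, hd⟩ := h90 hσ hne (hS.det_mem_normOne (k * g))
  exact ⟨k * g * Hz.tor d, (u_memE hne hS h _).2 (by rw [map_mul, Units.val_mul, Hz.det_tor, hd]), d,
    d.ne_zero, by simp [Hz.tor_perp _ (S.mem_perp_pair.2 ⟨S.h_swap_zero h1, S.h_swap_zero e1⟩), e,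
      k1 v' (Submodule.mem_span_singleton_self _)], by simp [k2]⟩

theorem uspan4 (hne : σ ≠ RingHom.id F) (hS : S.Nondeg) (h : 4 ≤ finrank F V) (v0 : v ≠ 0)
    (hv : S.h v v = 0) (T : AddSubgroup V) (hT : ∀ x, S.h v x = 0 → S.h x x = 0 → x ∈ T)
    (hx : S.h v x = 0) : x ∈ T := by
  obtain ⟨v', Hy⟩ := hS.exists_isHyp (us hv) v0
  obtain ⟨z, z', Hz, a1, -, a2, -⟩ := uframe hne hS h Hy
  exact span_sing (S.perp (F ∙ v)) (S.mem_perp_singleton.2 a1) (S.mem_perp_singleton.2 a2) Hz.sing_e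
    (by simp [Hz.h_ef]) T (fun x h1 h2 => hT x (S.mem_perp_singleton.1 h1) h2.h_self) x
    (S.mem_perp_singleton.2 hx)

theorem frame4 (h : finrank F V = 4) {v' z' : V} (Hy : S.IsHyp v v') (Hz : S.IsHyp z z')
    (a1 : S.h v z = 0) (a2 : S.h v' z = 0) (a3 : S.h v z' = 0) (a4 : S.h v' z' = 0) (y : V) :
    y = S.h v' y • v + S.h v y • v' + S.h z' y • z + S.h z y • z' := by
  have b1 := Hy.finrank_perp
  let z₁ : S.perp (Submodule.span F {v, v'}) := ⟨z, S.mem_perp_pair.2 ⟨a1, a2⟩⟩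
  let z₂ : S.perp (Submodule.span F {v, v'}) := ⟨z', S.mem_perp_pair.2 ⟨a3, a4⟩⟩
  have Hz' : (S.restrict _).IsHyp z₁ z₂ := ⟨Hz.1, Hz.2, Hz.3⟩
  have b2 := Hz'.finrank_perp
  refine sub_eq_zero.1 (congrArg Subtype.val (Submodule.finrank_eq_zero.1 (show finrank F
    ((S.restrict _).perp (Submodule.span F {z₁, z₂})) = 0 by omega) |>.le (x := ⟨_, S.mem_perp_pair.2 ?_⟩)
    ((S.restrict _).mem_perp_pair.2 ?_)))
  · simp [Hy.h_ee, Hy.h_ff, Hy.h_ef, uone Hy.h_ef, a1, a2, a3, a4]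
  · change S.h z _ = 0 ∧ S.h z' _ = 0
    simp [Hz.h_ee, Hz.h_ff, Hz.h_ef, uone Hz.h_ef, S.h_swap_zero a1, S.h_swap_zero a2, S.h_swap_zero a3,
      S.h_swap_zero a4]

theorem ex_circ (hσ : ∀ a, σ (σ a) = a) (hne : σ ≠ RingHom.id F) :
    ∃ c : F, c ≠ 0 ∧ c * c ≠ σ c * σ c := by
  obtain ⟨c, hc⟩ := exists_σ_ne hne
  by_cases e : c + σ c = 0
  · refine ⟨c + 1, fun a => hc (by simp [eq_neg_of_add_eq_zero_left a]), fun a => ?_⟩
    rw [map_add, map_one] at a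
    have h2 : (2 : F) ≠ 0 := fun h2 => hc (by linear_combination e - c * h2)
    exact hc (mul_left_cancel₀ h2 (by linear_combination -a + (c - σ c) * e))
  · exact ⟨c, by rintro rfl; simp at e, fun a => e ((mul_eq_zero.1
      (by linear_combination a : (c + σ c) * (c - σ c) = 0)).resolve_right (sub_ne_zero.2 hc.symm))⟩

end Un

variable {F K U W V : Type*} [Field F] [Finite F] [Field K] [Finite K] [Algebra F K]
  {σ : F →+* F} {hσ : ∀ a, σ (σ a) = a} {τ : K →+* K} {hτ : ∀ a, τ (τ a) = a}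
  [AddCommGroup U] [Module F U] [Module K U] [IsScalarTower F K U]
  [AddCommGroup W] [Module F W] [Module K W] [IsScalarTower F K W]
  [AddCommGroup V] [Module F V] [FiniteDimensional F U] [FiniteDimensional F W]
  [FiniteDimensional K W] [FiniteDimensional F V] {S : PForm (unitP σ hσ) V} {H : Subgroup S.Isom}
  {A : PForm (unitP σ hσ) U} {B : PForm (unitP τ hτ) W} {t : W →ₗ[F] U →ₗ[F] V}
  {c : W →ₛₗ[σ] V →ₗ[F] U} {v z : W} {φ φ' : V →ₗ[F] U} {E E' : U →ₗ[F] U}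

/-- `E` lies in the level of `H` -/
def TKL (B : PForm (unitP τ hτ) W) (t : W →ₗ[F] U →ₗ[F] V) (c : W →ₛₗ[σ] V →ₗ[F] U)
    (H : Subgroup S.Isom) (E : U →ₗ[F] U) : Prop :=
  ∀ v z, B.h v v = 0 → B.h v z = 0 → ULv t c H v (E ∘ₗ c z)

theorem TKL.congr (h : TKL B t c H E) (e : ∀ x, E' x = E x) : TKL B t c H E' := by
  rwa [LinearMap.ext e]

theorem TKL.sub (h : TKL B t c H E) (h' : TKL B t c H E') : TKL B t c H (E - E') := fun v z hv h0 =>
  ((h v z hv h0).sub (h' v z hv h0)).congr fun x _ => by simp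

theorem TKL.zero : TKL B t c H 0 := fun _ _ _ _ => .zero fun _ _ => by simp

/-- an overgroup of `SU(W)` acting on `W ⊗[K] U` -/
structure TK (A : PForm (unitP σ hσ) U) (B : PForm (unitP τ hτ) W) (t : W →ₗ[F] U →ₗ[F] V)
    (c : W →ₛₗ[σ] V →ₗ[F] U) (H : Subgroup S.Isom) : Prop where
  ne : σ ≠ RingHom.id F
  ta : ∀ a, τ (algebraMap F K a) = algebraMap F K (σ a)
  nd : S.Nondeg
  ndU : A.Nondeg
  ndW : B.Nondeg
  tk : ∀ (a : K) w u, t (a • w) u = t w (a • u)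
  ck : ∀ (a : K) z x, c (a • z) x = τ a • c z x
  ct : ∀ z w u, c z (t w u) = B.h z w • u
  ext : ∀ T : AddSubgroup V, (∀ w u, t w u ∈ T) → ∀ x, x ∈ T
  hh : ∀ w u x, S.h (t w u) x = A.h u (c w x)
  hW : ∀ ρ ∈ B.E, ∃ g ∈ H, ∀ w u, g.1 (t w u) = t (ρ.1 w) u
  four : finrank K W = 4
  lt : finrank F U < finrank F W
  two : 2 ≤ finrank F U
  dim : finrank F V = 4 * finrank F U
  quad : ∀ ψ γ : U →ₗ[F] U, Function.Injective ψ → Function.Injective γ →
    (∀ ν : K, ∃ κ : K, ∀ u, u - γ (ψ u) + γ (ν • u) = κ • ψ u) →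
    ∃ (l : K) (D : Submodule F U), (∀ u ∈ D, ψ u = l • u) ∧ finrank F U ≤ finrank F D + 1

namespace TK
variable (h : TK A B t c H)
include h

theorem neK : τ ≠ RingHom.id K := fun e => h.ne (RingHom.ext fun a => (algebraMap F K).injective (by
  rw [← h.ta, e]; rfl))

theorem lext {M : Type*} [AddCommGroup M] [Module F M] {f g : V →ₗ[F] M}
    (e : ∀ w u, f (t w u) = g (t w u)) (x : V) : f x = g x :=
  sub_eq_zero.1 (h.ext (f - g).toAddMonoidHom.ker (fun w u => sub_eq_zero.2 (e w u)) x)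

theorem tt (w w' : W) (u u' : U) : S.h (t w u) (t w' u') = A.h u (B.h w w' • u') := by rw [h.hh, h.ct]

theorem inj (hv : v ≠ 0) {u : U} (e : t v u = 0) : u = 0 := by
  obtain ⟨y, hy⟩ := h.ndW.exists_h_eq_one hv
  simpa [h.ct, uone hy] using congrArg (c y) e

theorem cinj {x : V} (e : ∀ y, c y x = 0) : x = 0 :=
  h.nd.eq_zero' (h.ext (S.h.flip x).toAddMonoidHom.ker fun w u => by simp [h.hh, e])

theorem span (hv : v ≠ 0) (T : AddSubgroup V) (e : ∀ y, B.h v y = 0 → ∀ u, t y u ∈ T) {x : V}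
    (hx : c v x = 0) : x ∈ T := by
  obtain ⟨y, hy⟩ := h.ndW.exists_h_eq_one hv
  have := h.ext (T.comap (LinearMap.id - t y ∘ₗ c v : V →ₗ[F] V).toAddMonoidHom)
    (fun w u => by simpa [h.ct, h.tk] using e (w - B.h v w • y) (by simp [hy]) u) x
  replace this : x - t y (c v x) ∈ T := this
  simpa [hx] using this

theorem eq_t {η : W} (hη : B.h η z = 1) {x : V} (e : ∀ y, B.h z y = 0 → c y x = 0) :
    x = t z (c η x) := sub_eq_zero.1 (h.cinj fun y => by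
  simpa [h.ct, h.ck, ← B.unit_symm] using e (y - B.h z y • η) (by simp [uone hη]))

theorem c_inv {g : S.Isom} {v' : W} {γ : U → U} (e : ∀ u, g.1 (t v u) = t v' (γ u)) (u : U) (x : V) :
    A.h u (c v (g⁻¹.1 x)) = A.h (γ u) (c v' x) := by
  rw [← h.hh, ← isom_h_left, e, h.hh]

theorem conj (hf : ULv t c H v φ) {g : S.Isom} (hg : g ∈ H) {v' : W} {γ : U →ₗ[F] U}
    (e : ∀ u, g.1 (t v u) = t v' (γ u)) (hγ : Function.Surjective γ) :
    ULv t c H v' (γ ∘ₗ φ ∘ₗ (g⁻¹.1 : V →ₗ[F] V)) := by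
  obtain ⟨k, a, b, d⟩ := hf
  refine ⟨g * k * g⁻¹, H.mul_mem (H.mul_mem hg a) (H.inv_mem hg), fun u => by
    obtain ⟨u, rfl⟩ := hγ u
    rw [← e]; simp [b], fun x hx => ?_⟩
  rw [isom_mul_apply, isom_mul_apply, d _ (h.ndU.eq_zero' fun u => by
    rw [h.c_inv e, hx, map_zero]), map_add, e, isom_apply_inv_self]
  rfl

theorem comp (hf : ULv t c H v φ) {g : S.Isom} (hg : g ∈ H) (e : ∀ u, g.1 (t v u) = t v u) :
    ULv t c H v (φ ∘ₗ (g.1 : V →ₗ[F] V)) :=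
  h.conj hf (H.inv_mem hg) (γ := .id) (fun u => g.1.injective (by simp [e])) Function.surjective_id

theorem move (hf : ULv t c H v (E ∘ₗ c z)) {ρ : B.Isom} (hρ : ρ ∈ B.E) :
    ULv t c H (ρ.1 v) (E ∘ₗ c (ρ.1 z)) := by
  obtain ⟨k, hk, e⟩ := h.hW ρ hρ
  exact (h.conj hf hk (γ := .id) (e v) Function.surjective_id).congr
    fun x _ => congrArg E (h.ndU.ext_right fun u => (h.c_inv (γ := id) (e z) u x).symm)

theorem scale {a : K} (ha : a ≠ 0) (hf : ULv t c H (a • v) φ) : ULv t c H v (a • φ) := by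
  obtain ⟨k, a1, b, d⟩ := hf
  exact ⟨k, a1, fun u => by simpa [h.tk, ha] using b (a⁻¹ • u), fun x hx => by
    simp [d x (by simp [h.ck, hx]), h.tk]⟩

theorem lsm (hE : TKL B t c H E) (a : K) : TKL B t c H (a • E) := fun v z hv h0 => by
  obtain rfl | ha := eq_or_ne a 0
  · exact .zero fun _ _ => by simp
  · exact h.scale ha (hE (a • v) z (by simp [hv]) (by simp [h0]))

theorem fsm (hE : TKL B t c H E) (a : F) : TKL B t c H (a • E) :=
  (h.lsm hE (algebraMap F K a)).congr fun x => by simp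

theorem rsm (hE : TKL B t c H E) (a : K) (e : ∀ x, E' x = E (a • x)) : TKL B t c H E' :=
  fun v z hv h0 => (hE v (τ a • z) hv (by simp [h0])).congr fun x _ => by simp [h.ck, hτ, e]

theorem hE {a : K} (e : B.ECond v z a) : ∃ g ∈ H, ∀ x,
    g.1 x = x + t z (c v x) - t v (c z x) - t v (a • c v x) := by
  obtain ⟨g, hg, e'⟩ := h.hW _ (B.eich_mem_E v z a)
  exact ⟨g, hg, h.lext (f := g.1) (g := .id + t z ∘ₗ c v - t v ∘ₗ c z - t v ∘ₗ (a • c v)) fun w u => by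
    simp [e', eich_apply e, h.ct, h.tk, add_smul, smul_smul, sub_sub, mul_comm]⟩

theorem hT (hv : B.h v v = 0) {s : F} (hs : s + σ s = 0) :
    ∃ g ∈ H, ∀ x, g.1 x = x + s • t v (c v x) := by
  obtain ⟨g, hg, e⟩ := h.hE (.of_mem (us hv) (a := -algebraMap F K s) (neg_mem (by
    rw [mem_unitP_Λ, h.ta, ← map_add, hs, map_zero])))
  exact ⟨g, hg, fun x => by simp [e]⟩

theorem lv_id : TKL B t c H .id := fun v z hv h0 => by
  obtain ⟨k, a, b⟩ := h.hE (.of_q (us hv) (v := -z) (by simp [h0]))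
  exact ⟨k, a, fun u => by simp [b, h.ct, hv, B.h_swap_zero h0], fun x hx => by simp [b, hx]⟩

theorem lv0 (hf : ULv t c H v φ) (v0 : v ≠ 0) (hv : B.h v v = 0) (u : U) : φ (t v u) = 0 := by
  obtain ⟨k, -, b, d⟩ := hf
  have := d (t v u) (by simp [h.ct, hv])
  rw [b, left_eq_add] at this
  exact h.inj v0 this

theorem lv_sc (v0 : v ≠ 0) (hv : B.h v v = 0) (zz : B.h z z = 0) (hz : B.h v z = 0) (m : z ∉ K ∙ v)
    (hf : ULv t c H v (E ∘ₗ c z)) (κ : K) : ULv t c H v (E ∘ₗ c (κ • z)) := by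
  have h4 := h.four
  have a1 : ∀ κ : K, ULv t c H v (E ∘ₗ c (κ • z)) → ∀ a : K, τ a = a →
      ULv t c H v (E ∘ₗ c ((a * κ) • z)) := fun κ hf a ha => by
    obtain e | e := eq_or_ne a 0
    · exact .zero fun x _ => by simp [e]
    obtain ⟨ρ, hρ, r1, r2⟩ := utor h.neK h.ndW (by omega) v0 hv zz hz m one_ne_zero e (by simpa)
    simpa [r1, r2, smul_smul, mul_comm] using h.move hf hρ
  obtain ⟨d, d0, hd⟩ := ex_circ hσ h.ne
  have d1 : algebraMap F K d ≠ 0 := by simpa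
  have d2 : algebraMap F K (σ d) ≠ 0 := by simpa
  have d3 : algebraMap F K d * algebraMap F K d - algebraMap F K (σ d) * algebraMap F K (σ d) ≠ 0 :=
    fun e => hd ((algebraMap F K).injective (by simpa [sub_eq_zero] using e))
  obtain ⟨ρ, hρ, r1, r2⟩ := utor h.neK h.ndW (by omega) v0 hv zz hz m d1 (inv_ne_zero d1) (by simp [d1])
  have a2 := h.move hf hρ
  rw [r1, r2] at a2
  have a3 : ULv t c H v (E ∘ₗ c ((algebraMap F K (σ d) / algebraMap F K d) • z)) :=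
    (h.scale d1 a2).congr fun x _ => by
      simp only [LinearMap.comp_apply, LinearMap.smul_apply, h.ck, map_div₀, map_inv₀, h.ta, hσ]
      rw [algebraMap_smul, ← E.map_smul, ← algebraMap_smul K d, smul_smul, div_eq_mul_inv]
  generalize hp : algebraMap F K d = p at *
  have tp : τ p = algebraMap F K (σ d) := hp ▸ h.ta d
  generalize algebraMap F K (σ d) = p' at *
  have tp' : τ p' = p := by rw [← tp, hτ]
  refine ((a1 1 (by simpa) ((κ * p * p - τ κ * p' * p') / (p * p - p' * p')) ?_).sub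
    (a1 _ a3 ((κ - τ κ) * p * p' / (p * p - p' * p')) ?_)).congr fun x _ => ?_
  · have : p' * p' - p * p ≠ 0 := fun e => d3 (by linear_combination -e)
    simp only [map_div₀, map_sub, map_mul, tp, tp', hτ]
    rw [div_eq_div_iff this d3]
    ring
  · have : p' * p' - p * p ≠ 0 := fun e => d3 (by linear_combination -e)
    simp only [map_div₀, map_sub, map_mul, tp, tp', hτ]
    rw [div_eq_div_iff this d3]
    ring
  · rw [LinearMap.sub_apply, LinearMap.comp_apply, LinearMap.comp_apply, LinearMap.comp_apply, ← map_sub,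
      ← LinearMap.sub_apply, ← map_sub, ← sub_smul]
    congr 4
    have : p ^ 2 - p' ^ 2 ≠ 0 := by rwa [sq, sq]
    field_simp
    ring

theorem lv_of (hf : ULv t c H v φ) (v0 : v ≠ 0) (hv : B.h v v = 0) (hz : B.h v z = 0) :
    TKL B t c H (φ ∘ₗ t z) := by
  have h4 := h.four
  refine uspan4 h.neK h.ndW (by omega) v0 hv (subT (fun z => TKL B t c H (φ ∘ₗ t z))
    (TKL.zero.congr fun x => by simp) fun x y a b => (a.sub b).congr fun x => by simp)
    (fun z hz zz => ?_) hz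
  by_cases m : z ∈ K ∙ v
  · obtain ⟨a, rfl⟩ := Submodule.mem_span_singleton.1 m
    exact TKL.zero.congr fun x => by simp [h.tk, h.lv0 hf v0 hv]
  obtain ⟨s, s0, hs⟩ := exists_mem_unit_Λ hσ h.ne
  obtain ⟨g, hg, e⟩ := h.hT zz hs
  have a1 : ULv t c H v ((s • φ ∘ₗ t z) ∘ₗ c z) :=
    ((h.comp hf hg fun u => by simp [e, h.ct, B.h_swap_zero hz]).sub hf).congr fun x _ => by simp [e]
  refine (h.fsm (E := s • φ ∘ₗ t z) (fun v' z' hv' h1 => ?_) s⁻¹).congr fun x => by simp [s0]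
  obtain rfl | v0' := eq_or_ne v' 0
  · exact .zero fun x _ => by simp
  refine uspan4 h.neK h.ndW (by omega) v0' hv' (subT (fun y => ULv t c H v' ((s • φ ∘ₗ t z) ∘ₗ c y))
    (.zero fun x _ => by simp) fun x y a b => (a.sub b).congr fun x _ => by simp [smul_sub])
    (fun y hy yy => ?_) h1
  by_cases m' : y ∈ K ∙ v'
  · obtain ⟨a, rfl⟩ := Submodule.mem_span_singleton.1 m'
    exact .zero fun x hx => by simp [h.ck, hx]
  obtain ⟨ρ, hρ, a, a0, r1, r2⟩ := utrans4 h.neK h.ndW (by omega) v0 v0' hv hv' zz yy hz hy m m'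
  have := h.move (h.lv_sc v0 hv zz hz m a1 a⁻¹) hρ
  rwa [r1, map_smul, r2, inv_smul_smul₀ a0] at this

theorem hyp : ∃ v v', B.IsHyp v v' := h.ndW.unit_exists_hyp h.neK (by have := h.four; omega)

theorem cfix {k : S.Isom} (e : ∀ u, k.1 (t z u) = t z u) (x : V) : c z (k.1 x) = c z x :=
  h.ndU.ext_right fun w => by rw [← h.hh, ← h.hh, ← isom_h k _ x, e]

theorem lv_mul (hE : TKL B t c H E) (hE' : TKL B t c H E') : TKL B t c H (E ∘ₗ E') := by
  obtain ⟨v, v', Hy⟩ := h.hyp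
  have := h.four
  obtain ⟨z, z', Hz, a1, a3, a2, a4⟩ := uframe h.neK h.ndW (by omega) Hy
  obtain ⟨k, hk, b0, b⟩ := hE' z v Hz.h_ee (B.h_swap_zero a1)
  have D : ∀ l : F, TKL B t c H (σ l • E ∘ₗ c v' ∘ₗ (k.1 : V →ₗ[F] V) ∘ₗ t z' + l • E ∘ₗ E') := fun l => by
    obtain ⟨g, hg, e⟩ := h.hE (.of_q (us Hz.h_ee) (v := -(l • v')) (by
      rw [← algebraMap_smul K l]; simp [B.h_swap_zero a3]))
    have g0 : ∀ u, g.1 (t z u) = t z u := fun u => by simp [e, h.ct, Hz.h_ee, a3]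
    have g1 : ∀ x, c z x = 0 → g.1 x = x + σ l • t z (c v' x) := fun x hx => by simp [e, hx]
    have kv : ∀ u, k.1 (t v u) = t v u := fun u => by
      simp [b _ (show c z (t v u) = 0 by simp [h.ct, B.h_swap_zero a1]), h.ct, Hy.h_ee]
    have e1 : ∀ x, g.1 (k.1 x) = k.1 (g.1 x) + t z (σ l • c v' (k.1 x - x) - E' (c v (g.1 x - x))) :=
      fun x => by
      have p1 := g1 (k.1 x - x) (by simp [h.cfix b0])
      have p2 := b (g.1 x - x) (by simp [h.cfix g0])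
      rw [map_sub g.1] at p1
      rw [map_sub k.1] at p2
      rw [map_sub (t z), map_smul]
      simp only [LinearMap.comp_apply] at p2
      linear_combination (norm := module) p1 - p2
    have e2 : ∀ x, ((k * g)⁻¹ * (g * k)).1 x =
        x + t z (σ l • c v' (k.1 x - x) - E' (c v (g.1 x - x))) := fun x => (k * g).1.injective (by
      rw [isom_mul_apply (k * g)⁻¹, isom_apply_inv_self, isom_mul_apply, e1, map_add, isom_mul_apply,
        isom_mul_apply _ _ (t _ _), g0, b0])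
    refine (h.lv_of (h.comp (hE v z' Hy.h_ee a2) (H.mul_mem (H.inv_mem (H.mul_mem hk hg))
      (H.mul_mem hg hk)) fun u => ?_) (by rintro rfl; simpa using Hy.h_ef) Hy.h_ee a2).congr fun u => ?_
    · rw [e2]
      simp [kv, g1 _ (show c z (t v u) = 0 by simp [h.ct, B.h_swap_zero a1]), h.ct, a1]
    · simp only [LinearMap.comp_apply, LinearEquiv.coe_coe, e2]
      simp [e, h.ct, Hz.h_ef, uone Hz.h_ef, Hz.h_ff, a1, a2, a4, Hy.h_ef, Hy.h_ee]
  obtain ⟨l, hl⟩ := exists_σ_ne h.ne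
  refine (h.fsm ((D l).sub (h.fsm (D 1) (σ l))) (l - σ l)⁻¹).congr fun u => ?_
  have := sub_ne_zero.2 hl.symm
  simp only [LinearMap.smul_apply, LinearMap.sub_apply, LinearMap.add_apply, map_one]
  match_scalars <;> field_simp <;> ring

theorem mem_p {x : V} : x ∈ S.perp (LinearMap.range (t v)) ↔ c v x = 0 :=
  ⟨fun e => h.ndU.eq_zero' fun u => by rw [← h.hh, e _ ⟨u, rfl⟩],
    by rintro e _ ⟨u, rfl⟩; rw [h.hh, e, map_zero]⟩

theorem E_le (hL : ∀ a b, TKL B t c H ((A.h a).smulRight b)) : S.E ≤ H := by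
  have hq : ∀ v, B.h v v = 0 → ∀ x ∈ LinearMap.range (t v), ∀ y ∈ LinearMap.range (t v),
      S.h x y = 0 := by
    rintro v hv _ ⟨u, rfl⟩ _ ⟨u', rfl⟩; simp [h.tt, hv]
  obtain ⟨u, u', Hu⟩ := h.ndU.unit_exists_hyp h.ne h.two
  have C : ∀ v v', B.IsHyp v v' → ∀ a, Full H (t v a) := fun v v' Hy a => by
    obtain ⟨y, y', Hz, a1, a2, a3, a4⟩ := uframe h.neK h.ndW (by have := h.four; omega) Hy
    have y1 : S.h (t y u) (t y' u') = 1 := by simp [h.tt, Hz.h_ef, Hu.h_ef]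
    have R : ∀ v, v ≠ 0 → B.h v v = 0 → B.h v y = 0 → B.h v y' = 0 → ∀ b ∈ LinearMap.range (t v),
        (∀ a, S.eich b 0 a ∈ H) ∧ ∀ z ∈ S.perp (LinearMap.range (t v)), S.eich b z (S.q z) ∈ H :=
      fun v v0 hv b1 b2 => urad_eich h.ne h.nd (hq v hv) (h.mem_p.2 (by simp [h.ct, b1]))
        (h.mem_p.2 (by simp [h.ct, b2])) y1 (by
        rintro w hw _ ⟨b, rfl⟩
        obtain ⟨k, k1, k2, k3⟩ := h.span v0 (subT (fun w => ULv t c H v ((S.h w).smulRight b))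
          (.zero fun x _ => by simp) fun x y a b => (a.sub b).congr fun x _ => by simp [sub_smul])
          (fun y hy u => (hL u b v y hv hy).congr fun x _ => by simp [h.hh]) (h.mem_p.1 hw)
        exact ⟨k, k1, by rintro _ ⟨u, rfl⟩; exact k2 u, fun x hx => by simp [k3 x (h.mem_p.1 hx)]⟩)
    exact urad_full (fun x hx => hq v Hy.h_ee x hx x hx) (fun x hx => hq v' Hy.h_ff x hx x hx)
      (R v (by rintro rfl; simpa using Hy.h_ef) Hy.h_ee a1 a3)
      (fun b hb => (R v' (by rintro rfl; simpa using Hy.h_ef) Hy.h_ff a2 a4 b hb).2)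
      (h.mem_p.2 (by simp [h.ct, a1])) (h.mem_p.2 (by simp [h.ct, a2]))
      (h.mem_p.2 (by simp [h.ct, a3])) (h.mem_p.2 (by simp [h.ct, a4])) y1
      (fun x => ⟨_, ⟨c v x, rfl⟩, h.mem_p.2 (by simp [h.ct, Hy.h_ef])⟩) ⟨a, rfl⟩
  obtain ⟨z, z₁, Hy⟩ := h.hyp
  exact S.E_le_iff.2 fun x y a _ => full_all_of_pair h.nd (us (by simp [h.tt, Hy.h_ee]))
    (us (by simp [h.tt, Hy.h_ff])) (C z z₁ Hy u) (C z₁ z ⟨Hy.2, Hy.1, uone Hy.h_ef⟩ u')
    (by simp [h.tt, Hy.h_ef, Hu.h_ef]) x y a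

end TK

end H29
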