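import Cfsg.Agent.H29.TK2

/-! Overgroups of `SU(W)` acting on `W ⊗[K] U`, part 3: the images of `v ⊗ U` are pure, by an
involution argument in characteristic two (`TK.even`) and by maximal intersections and Dickson's
lemma in odd characteristic (`TK.odd`); `TK.dich`. -/

set_option autoImplicit false
set_option linter.unusedSectionVars false

namespace H29

open Module H11 H11.PForm

variable {F K U W V : Type*} [Field F] [Finite F] [Field K] [Finite K] [Algebra F K]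
  {σ : F →+* F} {hσ : ∀ a, σ (σ a) = a} {τ : K →+* K} {hτ : ∀ a, τ (τ a) = a}
  [AddCommGroup U] [Module F U] [Module K U] [IsScalarTower F K U]
  [AddCommGroup W] [Module F W] [Module K W] [IsScalarTower F K W]
  [AddCommGroup V] [Module F V] [FiniteDimensional F U] [FiniteDimensional F W]
  [FiniteDimensional K W] [FiniteDimensional F V] {S : PForm (unitP σ hσ) V} {H : Subgroup S.Isom}
  {A : PForm (unitP σ hσ) U} {B : PForm (unitP τ hτ) W} {t : W →ₗ[F] U →ₗ[F] V}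
  {c : W →ₛₗ[σ] V →ₗ[F] U} {v w y z : W} {g k : S.Isom} {x : V} {s : F} {X Y D : Submodule F V}
  {d : ℕ}

/-- distinct images of the subspaces `U ⊗ v` meet in dimension at most `d` -/
def KMx (B : PForm (unitP τ hτ) W) (t : W →ₗ[F] U →ₗ[F] V) (H : Subgroup S.Isom) (d : ℕ) : Prop :=
  ∀ g ∈ H, ∀ k ∈ H, ∀ v w, v ≠ 0 → B.h v v = 0 → w ≠ 0 → B.h w w = 0 →
    d < finrank F (UX t g v ⊓ UX t k w : Submodule F V) → UX t g v = UX t k w

theorem KMx.nml (hM : KMx B t H d) (hg : g ∈ H) (v0 : v ≠ 0) (hv : B.h v v = 0) (hD : D ≤ UX t g v)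
    (hd : d ≤ finrank F D) (hk : k ∈ H) (h1 : ∀ y ∈ D, k.1 y = y) (hx : x ∈ UX t g v)
    (hx' : k.1 x ∈ UX t g v) (hxD : x ∉ D) : UX t (k * g) v = UX t g v :=
  hM _ (H.mul_mem hk hg) _ hg _ _ v0 hv v0 hv (hd.trans_lt (Submodule.finrank_lt_finrank_of_lt
    (lt_of_le_of_ne (le_inf (fun y hy => UX_mul.ge ⟨y, hD hy, h1 y hy⟩) hD) fun e' => hxD (by
      have a : k.1 x ∈ D := e'.ge ⟨UX_mul.ge ⟨x, hx, rfl⟩, hx'⟩
      exact k.1.injective (h1 _ a) ▸ a))))

namespace TK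
variable (h : TK A B t c H)
include h

theorem cj {a j : S.Isom} (v0 : v ≠ 0) (w0 : w ≠ 0) (s0 : s ≠ 0) (ea : ∀ x, a.1 x = x + s • t v (c v x))
    (ek : ∀ x, k.1 x = x + s • umm t c g w x) (e : j * a * j⁻¹ = k) : UX t j v = UX t g w :=
  Submodule.eq_of_le_of_finrank_eq (fun x hx => by
    obtain ⟨y, rfl⟩ := h.mm_surj v0 hx
    have := ek y
    rw [← e, isom_mul_apply, isom_mul_apply, ea, map_add, isom_apply_inv_self, add_right_inj, map_smul,
      (smul_right_injective V s0).eq_iff] at this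
    rw [umm_apply, this]; exact umm_mem y) (by rw [h.rk v0, h.rk w0])

variable (hN : ∀ E, TKL B t c H E → ∃ s : K, ∀ u, E u = s • u)
include hN

theorem hyp1 (hg : g ∈ H) (w0 : w ≠ 0) (hw : B.h w w = 0) (v0 : v ≠ 0) (hv : B.h v v = 0)
    (hD : D ≤ LinearMap.range (t v)) (hD' : D ≤ UX t g w) (hd : finrank F U ≤ finrank F D + 1) :
    ∃ y, UX t g w = LinearMap.range (t y) := by
  obtain ⟨x, hx⟩ : ∃ x, ∀ y ∈ UX t g w, ∃ a : F, y - a • x ∈ D := by
    by_cases e : UX t g w ≤ D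
    · exact ⟨0, fun y hy => ⟨0, by simpa using e hy⟩⟩
    obtain ⟨x, x1, x2⟩ := SetLike.not_le_iff_exists.1 e
    have a1 := Submodule.finrank_lt_finrank_of_lt (show D < D ⊔ F ∙ x from lt_of_le_of_ne le_sup_left
      fun e => x2 (e.ge (Submodule.mem_sup_right (Submodule.mem_span_singleton_self x))))
    refine ⟨x, fun y hy => ?_⟩
    obtain ⟨p, hp, q, hq, rfl⟩ := Submodule.mem_sup.1 ((Submodule.eq_of_le_of_finrank_le
      (sup_le hD' ((Submodule.span_singleton_le_iff_mem _ _).2 x1)) (by rw [h.rk w0]; omega)).ge hy)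
    obtain ⟨a, rfl⟩ := Submodule.mem_span_singleton.1 hq
    exact ⟨a, by simpa⟩
  obtain ⟨v', Hy⟩ := h.ndW.exists_isHyp (us hv) v0
  obtain ⟨z, z', Hz, b1, b2, b3, -⟩ := uframe h.neK h.ndW (by have := h.four; omega) Hy
  obtain ⟨y, y0, y1, y2, y3⟩ : ∃ y, y ≠ 0 ∧ B.h y y = 0 ∧ B.h y v = 0 ∧ A.h (c y x) (c y x) = 0 := by
    let L : F × F →ₗ[F] U := ((LinearMap.id : F →ₗ[F] F).smulRight (c v x)).coprod
      ((LinearMap.id : F →ₗ[F] F).smulRight (c z x))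
    obtain ⟨p, p0, hp⟩ : ∃ p, p ≠ 0 ∧ A.h (L p) (L p) = 0 := by
      by_cases e : Function.Injective L
      · obtain ⟨_, ⟨p, rfl⟩, a, b⟩ := unit_exists_sing h.ne A (LinearMap.range L)
          (by simp [LinearMap.finrank_range_of_inj e])
        exact ⟨p, by rintro rfl; simp at a, b.h_self⟩
      · obtain ⟨p, a, b⟩ : ∃ p, L p = 0 ∧ p ≠ 0 := by simpa [injective_iff_map_eq_zero] using e
        exact ⟨p, b, by simp [a]⟩
    refine ⟨algebraMap F K (σ p.1) • v + algebraMap F K (σ p.2) • z, fun e => p0 (Prod.ext ?_ ?_),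
      by simp [-algebraMap_smul, hv, Hz.h_ee, b1, B.h_swap_zero b1],
      by simp [-algebraMap_smul, hv, B.h_swap_zero b1], by simpa [L, hσ] using hp⟩
    · simpa [-algebraMap_smul, uone Hy.h_ef, b2] using congrArg (B.h v') e
    · simpa [-algebraMap_smul, uone Hz.h_ef, B.h_swap_zero b3] using congrArg (B.h z') e
  obtain ⟨s, s0, hs⟩ := exists_mem_unit_Λ hσ h.ne
  obtain ⟨a, ha, ea⟩ := h.hT y1 hs
  have hk := H.mul_mem (H.inv_mem hg) (H.mul_mem ha hg)
  have c1 : ∀ p ∈ UX t g w, ∃ a : F, c y p = a • c y x := fun p hp => by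
    obtain ⟨a, e⟩ := hx p hp
    obtain ⟨u, hu⟩ := hD e
    exact ⟨a, sub_eq_zero.1 (by simpa [h.ct, y2] using (congrArg (c y) hu).symm)⟩
  obtain ⟨y', e⟩ := h.std hN hk w0 hw w0 hw fun p hp => h.ndU.eq_zero' fun u => by
    obtain ⟨u', rfl⟩ := mem_UX.1 hp
    obtain ⟨α, e1⟩ := c1 _ (UX_self u)
    obtain ⟨β, e2⟩ := c1 _ (UX_self u')
    rw [← h.hh, isom_mul_apply, ← isom_h_left, isom_mul_apply, ea, map_add, isom_h, h.tt, hw, zero_smul,
      map_zero, zero_add, map_smul, S.unit_symm, h.hh, e1, e2]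
    simp [y3]
  obtain ⟨v', a2⟩ := h.lemS hN (H.inv_mem hg) y0 y1 s0 (k := g⁻¹ * (a * g))
    (fun x => by simp [ea, umm_apply]) (h.block hN hk w0 hw e)
  exact h.block hN hg (h.iso_of y0 y1 a2).1 (h.iso_of y0 y1 a2).2 (UX_inv a2) w w0 hw

theorem even (h2 : (2 : F) = 0) (hg : g ∈ H) (w0 : w ≠ 0) (hw : B.h w w = 0) :
    ∃ y, UX t g w = LinearMap.range (t y) := by
  haveI := finite_isom (S := S)
  by_contra hY
  have h5 := h.four
  have h1 : (1 : F) + σ 1 = 0 := by rw [map_one, one_add_one_eq_two, h2]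
  have sq : ∀ {k g : S.Isom} {v : W}, B.h v v = 0 → (∀ x, k.1 x = x + (1 : F) • umm t c g v x) →
      k * k = 1 := fun {k g v} hv e => isom_ext fun x => by
    simp only [isom_mul_apply, e, map_add, one_smul, h.mm0 hv (umm_mem x), isom_one_apply, add_zero]
    rw [add_assoc, ← two_smul F, h2, zero_smul, add_zero]
  obtain ⟨b, hb, eb⟩ := h.hm hg hw h1
  have C : ∀ v, v ≠ 0 → B.h v v = 0 → ∃ j ∈ H, ∃ k ∈ H, (∀ x, j.1 x = x + umm t c k v x) ∧
      UX t j v = UX t g w := fun v v0 hv => by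
    obtain ⟨a, ha, ea⟩ := h.hT hv h1
    have ca : ∀ k : S.Isom, ∀ x, (k * a * k⁻¹).1 x = x + (1 : F) • umm t c k v x := fun k x => by
      simp [ea, umm_apply]
    obtain ⟨k, hk, e⟩ | ⟨d, hd, d1, d2, d3, d4, k, hk, e⟩ := dih2 (sq (g := 1) hv ea) (sq hw eb)
      (fixMod H ⊥ (LinearMap.range (t v) ⊔ UX t g w))
      ⟨ha, by simp, fun x => Submodule.mem_sup_left (by simp [ea])⟩
      ⟨hb, by simp, fun x => Submodule.mem_sup_right (by simpa [eb] using umm_mem x)⟩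
    · exact ⟨_, H.mul_mem (H.mul_mem hk.1 ha) (H.inv_mem hk.1), k, hk.1, by simpa using ca k,
        h.cj v0 w0 one_ne_zero ea eb e⟩
    refine absurd ?_ hY
    obtain ⟨k', w', k1, k2, e⟩ : ∃ k' w', k' ∈ H ∧ (w' ≠ 0 ∧ B.h w' w' = 0) ∧
        ∀ x, (d * a).1 x = x + (1 : F) • umm t c k' w' x := by
      rcases e with e | e
      · exact ⟨k, v, hk.1, ⟨v0, hv⟩, e ▸ ca k⟩
      · exact ⟨k * g, w, H.mul_mem hk.1 hg, ⟨w0, hw⟩, fun x => by simp [e, eb, umm_apply]⟩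
    have a1 : UX t d v = LinearMap.range (t v) := (h.cj (g := 1) v0 v0 one_ne_zero ea ea d3).trans UX_one
    obtain ⟨v', a2⟩ := h.lemS hN k1 k2.1 k2.2 one_ne_zero e (h.block hN (H.mul_mem hd.1 ha) v0 hv
      (h.UX_eq v0 v0 fun u => (a1.le (UX_self u)).imp fun u' e => by simp [ea, h.ct, hv, e]))
    obtain ⟨z, z0, z1, z2, z3⟩ := uex_iso h.neK h.ndW (by omega) v v'
    choose f hf using h.fixC hN z0 z1 hd.1 (h.fix_of fun x => by
      obtain ⟨u, hu⟩ := a2.le (umm_mem (c := c) (a.1 x))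
      have := e (a.1 x)
      rw [← isom_mul_apply, mul_assoc, sq (g := 1) hv ea, mul_one] at this
      rw [this, ← hu]
      simp [ea, h.ct, z2, z3])
    have a3 : ∀ y u, d.1 (t y u) - t y u = t (f y - y) u := fun y u => by simp [hf]
    obtain ⟨y, hy⟩ : ∃ y, f y - y ≠ 0 := by
      by_contra! e
      exact d1 (isom_ext (h.lext (f := d.1) (g := .id) fun y u => sub_eq_zero.1 (by simp [a3, e])))
    by_cases a4 : ∀ y', f y' - y' ∈ K ∙ (f y - y)
    swap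
    · obtain ⟨y', a4⟩ := not_forall.1 a4
      exact h.two_dim hN hg w0 hw (h.rk1 v0).le hy a4 (fun u => a3 y u ▸ hd.2.2 _)
        fun u => a3 y' u ▸ hd.2.2 _
    obtain ⟨u, u', hu⟩ := h.ex_u
    have a5 : B.h (f y - y) (f y - y) = 0 := by
      refine (smul_eq_zero.1 (h.ndU.eq_zero' fun u => ?_ : _ • u' = 0)).resolve_right
        (by rintro rfl; simp at hu)
      rw [← h.tt, ← a3, ← a3]
      simp only [map_sub, LinearMap.sub_apply, isom_h]
      rw [isom_h_left d (t y u), inv_eq_of_mul_eq_one_right d2]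
      linear_combination (S.h (t y u) (t y u') - S.h (t y u) (d.1 (t y u'))) * h2
    refine h.lemS hN hg w0 hw one_ne_zero eb (h.block hN hb hy a5 (h.UX_eq hy hy fun u => ?_))
    have := h.ext ((LinearMap.range (t (f y - y))).comap ((d.1 : V →ₗ[F] V) - .id)).toAddSubgroup
      (fun y' u => by
        obtain ⟨r, hr⟩ := Submodule.mem_span_singleton.1 (a4 y')
        exact ⟨r • u, by rw [← h.tk, hr, ← a3]; rfl⟩) (b.1 (t y u))
    obtain ⟨u', hu'⟩ := this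
    refine ⟨u', ?_⟩
    rw [hu', ← a3, map_sub, ← isom_mul_apply, ← mul_inv_eq_iff_eq_mul.1 d4]; rfl
  obtain ⟨v₂, z', Hy⟩ := h.hyp
  obtain ⟨v₁, z₁, Hz, b1, b2, b3, b4⟩ := uframe h.neK h.ndW (by omega) Hy
  have v1 : v₁ ≠ 0 := by rintro rfl; simpa using Hz.h_ef
  have v2 : v₂ ≠ 0 := by rintro rfl; simpa using Hy.h_ef
  obtain ⟨j, hj, k, hk, ej, e1⟩ := C v₁ v1 Hz.h_ee
  obtain ⟨j', hj', k', hk', ej', e2⟩ := C v₂ v2 Hy.h_ee
  have he := H.mul_mem (H.inv_mem hj) hj'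
  have c1 : UX t (j⁻¹ * j') v₂ = LinearMap.range (t v₁) := by
    rw [UX_mul, e2, ← e1, ← UX_mul, inv_mul_cancel, UX_one]
  have c2 : ∀ x, (j⁻¹ * j').1 x - x ∈ UX t k v₁ ⊔ UX t k' v₂ :=
    ((fixMod H ⊥ (UX t k v₁ ⊔ UX t k' v₂)).mul_mem (Subgroup.inv_mem _
      ⟨hj, by simp, fun x => Submodule.mem_sup_left (by simpa [ej] using umm_mem x)⟩)
      ⟨hj', by simp, fun x => Submodule.mem_sup_right (by simpa [ej'] using umm_mem x)⟩).2.2
  generalize j⁻¹ * j' = e at he c1 c2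
  have hK := h.block hN he v2 Hy.h_ee c1
  have f1 := uone Hz.h_ef
  have f2 := uone Hy.h_ef
  have f3 := B.h_swap_zero b1
  have f4 := B.h_swap_zero b3
  let Z := UX t k v₁ ⊔ UX t k' v₂
  let π := LinearMap.range ((t v₁).coprod (t v₂))
  let γ := c z₁ ∘ₗ (e.1 : V →ₗ[F] V) ∘ₗ t v₂
  let ψ := c z' ∘ₗ (e.1 : V →ₗ[F] V) ∘ₗ t v₁
  have g1 : ∀ u, e.1 (t v₂ u) = t v₁ (γ u) := fun u => by
    obtain ⟨a, ha⟩ := c1.le (UX_self u)
    simp [γ, ← ha, h.ct, f1]
  have d1 : finrank F π = 2 * finrank F U := by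
    rw [LinearMap.finrank_range_of_inj ((injective_iff_map_eq_zero _).2 fun p hp => Prod.ext
      (by simpa [h.ct, f1, f4] using congrArg (c z₁) hp)
      (by simpa [h.ct, f2, b2] using congrArg (c z') hp)), finrank_prod, two_mul]
  have d2 : finrank F U ≤ finrank F (Z ⊓ π : Submodule F V) := by
    rw [← LinearMap.finrank_range_of_inj (f := ((e.1 : V →ₗ[F] V) - .id) ∘ₗ t v₂)
      ((injective_iff_map_eq_zero _).2 fun u hu => by
        simpa [g1, h.ct, f2, b2] using congrArg (c z') hu)]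
    exact Submodule.finrank_mono (by
      rintro _ ⟨u, rfl⟩; exact ⟨c2 _, (γ u, -u), by simp [g1, sub_eq_add_neg]⟩)
  have d3 := Submodule.finrank_sup_add_finrank_inf_eq Z π
  have d4 : finrank F Z ≤ _ := Submodule.finrank_add_le_finrank_add_finrank (UX t k v₁) (UX t k' v₂)
  have d5 := h.nd.finrank_perp (Z ⊔ π)
  rw [h.rk v1, h.rk v2] at d4
  rw [h.dim] at d5
  have fx : ∀ {e : S.Isom} {X : Submodule F V}, X ≤ Z → (∀ x, e.1 x - x ∈ X) →
      ∀ x ∈ S.perp (Z ⊔ π), e.1 x = x := fun {e X} a b x hx => h.nd.ext_right fun y => by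
    obtain ⟨y, rfl⟩ := e.1.surjective y
    have := hx _ (Submodule.mem_sup_left (a (b y)))
    rw [isom_h]
    simp only [map_sub, LinearMap.sub_apply] at this
    linear_combination -this
  have p1 : ∀ x ∈ S.perp (Z ⊔ π), x = t v₁ (c z₁ x) + t v₂ (c z' x) := fun x hx =>
    sub_eq_zero.1 (h.cinj fun y => by
      have a1 : c v₁ x = 0 := h.mem_p.1 fun _ ⟨u, e⟩ => hx _ (Submodule.mem_sup_right ⟨(u, 0), by simpa⟩)
      have a2 : c v₂ x = 0 := h.mem_p.1 fun _ ⟨u, e⟩ => hx _ (Submodule.mem_sup_right ⟨(0, u), by simpa⟩)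
      rw [frame4 h.four Hy Hz b1 b2 b3 b4 y]
      simp [h.ck, h.ct, a1, a2, f1, f2, f3, f4, b1, b2, Hy.h_ee, Hz.h_ee])
  have p2 : ∀ u, t v₁ u + t v₂ (ψ u) ∈ S.perp (Z ⊔ π) := fun u => by
    have i : Function.Injective (c z₁ ∘ₗ (S.perp (Z ⊔ π)).subtype) :=
      (injective_iff_map_eq_zero _).2 fun x hx => by
        have a1 := p1 x x.2
        replace hx : c z₁ x = 0 := hx
        have a2 := fx le_rfl c2 x x.2
        rw [hx, map_zero, zero_add] at a1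
        rw [a1, g1] at a2
        have a3 : c z' x = 0 := by simpa [h.ct, b2, f2] using (congrArg (c z') a2).symm
        exact Subtype.ext (by simp [a1.trans (congrArg _ a3)])
    obtain ⟨x, rfl⟩ := (LinearMap.injective_iff_surjective_of_finrank_eq_finrank (le_antisymm
      (LinearMap.finrank_le_finrank_of_injective i) (by omega))).1 i u
    have a1 := p1 x x.2
    have a2 := congrArg (c z') (fx le_rfl c2 x x.2)
    conv_lhs at a2 => rw [a1, map_add, g1]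
    have : ψ (c z₁ x) = c z' x := by simpa [h.ct, b2, ψ] using a2
    change t v₁ (c z₁ x) + t v₂ (ψ (c z₁ x)) ∈ _
    rw [this, ← a1]; exact x.2
  have g2 : ∀ u, e.1 (t v₁ u) = t v₁ (u - γ (ψ u)) + t v₂ (ψ u) := fun u => by
    have := fx le_rfl c2 _ (p2 u)
    rw [map_add, g1] at this
    rw [map_sub]; linear_combination (norm := module) this
  have i1 : Function.Injective γ := (injective_iff_map_eq_zero _).2 fun u hu =>
    h.inj v2 (e.1.injective (by simp [g1, hu]))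
  have i2 : Function.Injective ψ := (injective_iff_map_eq_zero _).2 fun u hu => by
    obtain ⟨u', hu'⟩ := mem_UX.1 (c1.ge ⟨u, rfl⟩)
    have := e.1.injective (hu'.trans (by simp [g2, hu] : _ = e.1 (t v₁ u)))
    simpa [h.ct, f1, f4] using (congrArg (c z₁) this).symm
  have n0 : ∀ ν : K, v₁ + ν • v₂ ≠ 0 := fun ν e => by simpa [f1, f4] using congrArg (B.h z₁) e
  have n1 : ∀ ν : K, B.h (v₁ + ν • v₂) (v₁ + ν • v₂) = 0 := fun ν => by simp [Hy.h_ee, Hz.h_ee, b1, f3]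
  obtain ⟨l, D, D1, D2⟩ := h.quad ψ γ i2 i1 fun ν => by
    obtain ⟨y, hy⟩ := hK _ (n0 ν) (n1 ν)
    have a1 : ∀ u, ∃ u', u - γ (ψ u) + γ (ν • u) = B.h z₁ y • u' ∧ ψ u = B.h z' y • u' := fun u => by
      obtain ⟨u', hu⟩ := hy.le (UX_self u)
      rw [map_add, LinearMap.add_apply, h.tk, map_add, g1, g2] at hu
      exact ⟨u', by simpa [h.ct, f1, f4] using (congrArg (c z₁) hu).symm,
        by simpa [h.ct, f2, b2] using (congrArg (c z') hu).symm⟩
    refine ⟨B.h z₁ y / B.h z' y, fun u => ?_⟩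
    obtain ⟨u', a2, a3⟩ := a1 u
    rw [a2, a3, smul_smul, div_mul_cancel₀ _ fun e => ?_]
    obtain ⟨p, p', hp⟩ := h.ex_u
    obtain ⟨u', -, a3⟩ := a1 p
    simp [i2 (a3.trans (by simp [e] : _ = ψ 0))] at hp
  obtain ⟨y, c5⟩ := h.hyp1 hN hj (n0 l) (n1 l) (n0 l) (n1 l) (D := D.map (t (v₁ + l • v₂)))
    LinearMap.map_le_range (by
      rintro _ ⟨u, hu, rfl⟩
      refine mem_UX.2 ⟨u, fx le_sup_left (fun x => by simpa [ej] using umm_mem x) _ ?_⟩
      simpa [h.tk, D1 u hu] using p2 u)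
    (by rwa [← (Submodule.equivMapOfInjective _ (h.inj' (n0 l)) D).finrank_eq])
  exact hY (e1 ▸ h.block hN hj (n0 l) (n1 l) c5 v₁ v1 Hz.h_ee)

theorem core (h2 : (2 : F) ≠ 0) (hM : KMx B t H d) (v0 : v ≠ 0) (hv : B.h v v = 0) (hg : g ∈ H)
    (w0 : w ≠ 0) (hw : B.h w w = 0) (hd : d ≤ finrank F ↥(LinearMap.range (t v) ⊓ UX t g w)) :
    ∃ y, UX t g w = LinearMap.range (t y) := by
  by_contra hY
  obtain ⟨s, s0, hs⟩ := exists_mem_unit_Λ hσ h.ne
  obtain ⟨a, ha, ea⟩ := h.hT hv hs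
  obtain ⟨b, hb, eb⟩ := h.hm hg hw hs
  have i1 : ∀ x ∈ LinearMap.range (t v), b.1 x ∈ LinearMap.range (t v) → x ∈ UX t g w :=
    fun x hx e => by_contra fun h' => hY (h.lemS hN hg w0 hw s0 eb (h.block hN hb v0 hv (by
      simpa [UX_one] using hM.nml H.one_mem v0 hv (inf_le_left.trans UX_one.ge) hd hb
        (fun y hy => by simp [eb, h.mm0 hw hy.2]) (UX_one.ge hx) (UX_one.ge e) fun a => h' a.2)))
  have i2 : ∀ x ∈ UX t g w, a.1 x ∈ UX t g w → x ∈ LinearMap.range (t v) := fun x hx e =>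
    by_contra fun h' => by
    have a1 := hM.nml hg w0 hw inf_le_right hd ha (by rintro _ ⟨⟨u, rfl⟩, -⟩; simp [ea, h.ct, hv]) hx e
      fun a => h' a.1
    obtain ⟨v', a2⟩ := h.lemS hN (H.inv_mem hg) v0 hv s0 (k := g⁻¹ * (a * g))
      (fun x => by simp [ea, umm_apply]) (h.block hN (H.mul_mem (H.inv_mem hg) (H.mul_mem ha hg)) w0 hw
        (by rw [UX_mul, a1, ← UX_mul, inv_mul_cancel, UX_one]))
    exact hY (h.block hN hg (h.iso_of v0 hv a2).1 (h.iso_of v0 hv a2).2 (UX_inv a2) w w0 hw)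
  let G := fixMod H (LinearMap.range (t v) ⊓ UX t g w) (LinearMap.range (t v) ⊔ UX t g w)
  have key : ∀ k ∈ G, ∀ x ∈ LinearMap.range (t v), x ∉ UX t g w → k.1 x ∈ LinearMap.range (t v) →
      k.1 x = x := by
    intro k hk x hx h1 h3
    have a1 : UX t k v = LinearMap.range (t v) := by
      simpa [UX_one] using hM.nml H.one_mem v0 hv (inf_le_left.trans UX_one.ge) hd hk.1 hk.2.1
        (UX_one.ge hx) (UX_one.ge h3) fun a => h1 a.2
    obtain ⟨v', Hy⟩ := h.ndW.exists_isHyp (us hv) v0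
    obtain ⟨z, z', Hz, b1, b2, b3, -⟩ := uframe h.neK h.ndW (by have := h.four; omega) Hy
    have z0 : z ≠ 0 := by rintro rfl; simpa using Hz.h_ef
    obtain ⟨y, a2⟩ := h.block hN hk.1 v0 hv a1 z z0 Hz.h_ee
    have a3 : ∀ u, ∃ u', k.1 (t z u) = t z u + t v u' := fun u => by
      obtain ⟨_, ⟨p, rfl⟩, q, hq, e⟩ := Submodule.mem_sup.1 (hk.2.2 (t z u))
      have a4 : c v (k.1 (t z u)) = 0 := h.ndU.eq_zero' fun u' => by
        obtain ⟨u'', hu⟩ := mem_UX.1 (a1.ge ⟨u', rfl⟩)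
        rw [← h.hh, ← hu, isom_h, h.tt, b1, zero_smul, map_zero]
      have a5 := congrArg (c v) e
      simp only [map_add, map_sub, h.ct, hv, a4, b1, zero_smul, zero_add, sub_zero] at a5
      obtain ⟨q, rfl⟩ := i2 q hq (by simpa [ea, a5])
      exact ⟨p + q, by rw [map_add, e, add_sub_cancel]⟩
    choose f hf using h.fixC hN z0 Hz.h_ee hk.1 (z' := z + (B.h v' y / B.h z' y) • v) fun u => by
      obtain ⟨u', e⟩ := a3 u
      obtain ⟨α, hα⟩ := a2.le (UX_self u)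
      have c1 := congrArg (c z') (hα.trans e)
      have c2 := congrArg (c v') (hα.trans e)
      simp only [map_add, h.ct, uone Hz.h_ef, uone Hy.h_ef, b2, B.h_swap_zero b3, zero_smul, one_smul,
        add_zero, zero_add] at c1 c2
      by_cases c3 : B.h z' y = 0
      · simp [← c1, c3]
      rw [e, ← c2, map_add, LinearMap.add_apply, h.tk, ← c1, smul_smul, div_mul_cancel₀ _ c3]
    have a4 : ∀ y, f y - y ∈ K ∙ v := fun y => by_contra fun m => hY (h.two_dim hN hg w0 hw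
      (h.rk1 v0).le v0 m (fun u => Submodule.mem_sup_left ⟨u, rfl⟩) fun u => by
        simpa [hf] using hk.2.2 (t y u))
    obtain ⟨u, rfl⟩ := hx
    refine h.fix_of (h.lext (f := c v ∘ₗ ((k.1 : V →ₗ[F] V) - .id)) (g := 0) fun y u => ?_) u
    obtain ⟨r, hr⟩ := Submodule.mem_span_singleton.1 (a4 y)
    simp [hf, eq_sub_iff_add_eq.1 hr |>.symm, h.ct, hv]
  have j2 : ∀ x ∈ (UX t g w).map (s • t v ∘ₗ c v), x ∈ UX t g w → x = 0 := by
    rintro _ ⟨y, hy, rfl⟩ e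
    obtain ⟨u, rfl⟩ := i2 y hy (by simpa [ea] using add_mem hy e)
    simp [h.ct, hv]
  have j1 : ∀ x ∈ (UX t g w).map (s • t v ∘ₗ c v), x ∈ LinearMap.range (t v) := by
    rintro _ ⟨y, -, rfl⟩; exact ⟨s • c v y, by simp⟩
  obtain ⟨x, hx, k, hk, k1, k2⟩ := udk (H := G) h2 (X := (UX t g w).map (s • t v ∘ₗ c v))
    (n := s • t v ∘ₗ c v) (m := s • umm t c g w) (g := a) (k := b)
    (fun e => hY ⟨v, Submodule.eq_of_le_of_finrank_eq (fun y hy => i2 y hy (by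
      rwa [ea, show s • t v (c v y) = 0 from e.le ⟨y, hy, rfl⟩, add_zero])) (by rw [h.rk w0, h.rk1 v0])⟩)
    (by rintro _ ⟨y, -, rfl⟩; simp [h.ct, hv]) (fun x => by simp [h.mm0 hw (umm_mem x)])
    (fun x _ => ⟨_, Submodule.smul_mem _ s (umm_mem x), rfl⟩)
    (fun x hx e => j2 x hx (i1 x (j1 x hx) (eb x ▸ add_mem (j1 x hx) (i2 _
      (Submodule.smul_mem _ s (umm_mem x)) (by
        rw [ea, show s • t v (c v (s • umm t c g w x)) = 0 from e, add_zero]; exact Submodule.smul_mem _ s (umm_mem x))))))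
    ⟨ha, by rintro _ ⟨⟨u, rfl⟩, -⟩; simp [ea, h.ct, hv],
      fun x => Submodule.mem_sup_left ⟨s • c v x, by simp [ea]⟩⟩
    ⟨hb, fun y hy => by simp [eb, h.mm0 hw hy.2],
      fun x => Submodule.mem_sup_right (by simpa [eb] using Submodule.smul_mem _ s (umm_mem x))⟩ ea eb
  exact k2 (key k hk x (j1 x hx) (fun e => k2 (by simp [j2 x hx e])) (j1 _ k1))

theorem odd (h2 : (2 : F) ≠ 0) (hg : g ∈ H) (w0 : w ≠ 0) (hw : B.h w w = 0) :
    ∃ y, UX t g w = LinearMap.range (t y) := by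
  refine h.core hN h2 (Nat.decreasingInduction' (P := KMx B t H) (fun d _ _ hM => ?_)
    (Nat.zero_le (finrank F V)) fun _ _ _ _ _ _ _ _ _ _ hd => (hd.not_ge (Submodule.finrank_le _)).elim)
    w0 hw hg w0 hw (Nat.zero_le _)
  intro g hg k hk v w v0 hv w0 hw hd
  have e : ∀ z, UX t g z = (UX t (k⁻¹ * g) z).map (k.1 : V →ₗ[F] V) := fun z => by
    rw [← UX_mul, mul_inv_cancel_left]
  rw [e, UX.eq_1 t k, ← Submodule.map_inf _ k.1.injective, LinearEquiv.finrank_map_eq, inf_comm] at hd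
  obtain ⟨y, e1⟩ := h.core hN h2 hM w0 hw (H.mul_mem (H.inv_mem hk) hg) v0 hv hd
  obtain ⟨y0, -⟩ := h.iso_of v0 hv e1
  rw [e1] at hd
  obtain ⟨_, ⟨⟨u, rfl⟩, u', e2⟩, hz⟩ := Submodule.exists_mem_ne_zero_of_ne_bot
    (p := LinearMap.range (t w) ⊓ LinearMap.range (t y)) fun e => by rw [e, finrank_bot] at hd; omega
  obtain ⟨a, rfl⟩ := Submodule.mem_span_singleton.1 (by_contra fun m : y ∉ K ∙ w => by
    obtain ⟨r, r1, r2⟩ := usep h.ndW m
    have := congrArg (c r) e2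
    simp only [h.ct, r2, r1, one_smul, zero_smul] at this
    simp [← e2, this] at hz)
  rw [e, e1, UX.eq_1 t k, Submodule.eq_of_le_of_finrank_eq (S₁ := LinearMap.range (t (a • w)))
    (S₂ := LinearMap.range (t w))
    (by rintro _ ⟨w, rfl⟩; exact ⟨a • w, by simp [h.tk]⟩) (by rw [h.rk1 y0, h.rk1 w0])]

theorem dich (hg : g ∈ H) {M : V →ₗ[F] V} (hM : ∀ w u, ∃ u', M (t w u) = t w u') :
    ∃ μ : U →ₗ[F] U, ∀ w u, g.1 (M (g⁻¹.1 (t w u))) = t w (μ u) :=
  h.pure_all (M := (g.1 : V →ₗ[F] V) ∘ₗ M ∘ₗ (g⁻¹.1 : V →ₗ[F] V)) fun y y0 yy u => by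
    obtain ⟨y', e⟩ : ∃ y', UX t g⁻¹ y = LinearMap.range (t y') := by
      by_cases h2 : (2 : F) = 0
      exacts [h.even hN h2 (H.inv_mem hg) y0 yy, h.odd hN h2 (H.inv_mem hg) y0 yy]
    obtain ⟨a, ha⟩ := e.le (UX_self u)
    obtain ⟨b, hb⟩ := hM y' a
    obtain ⟨u', hu⟩ := mem_UX.1 (e.ge ⟨b, rfl⟩)
    exact ⟨u', by simp only [LinearMap.comp_apply, LinearEquiv.coe_coe, ← ha, hb, ← hu, isom_apply_inv_self]⟩

end TK

end H29
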