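import Cfsg.Agent.H29.TK3
import Cfsg.Agent.H29.ExtU5

/-! Overgroups of `SU(W)` acting on `W ⊗[K] U`, part 4: the tensor product `SU_3 ⊗ SU_4`
(`susu_four`) and the extension field subgroup `GU_4(q ^ 3)` (`su_fld_four`) of `SU_12(q)`. -/

set_option autoImplicit false
set_option linter.unusedSectionVars false

namespace H29

open Module H11 H11.PForm

theorem quad_three {F U : Type*} [Field F] [AddCommGroup U] [Module F U] [FiniteDimensional F U]
    (h3 : finrank F U = 3) (ψ γ : U →ₗ[F] U) (_ : Function.Injective ψ) (hγ : Function.Injective γ)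
    (h : ∀ ν : F, ∃ κ : F, ∀ u, u - γ (ψ u) + γ (ν • u) = κ • ψ u) :
    ∃ (l : F) (D : Submodule F U), (∀ u ∈ D, ψ u = l • u) ∧ finrank F U ≤ finrank F D + 1 := by
  obtain ⟨κ, h0⟩ := h 0
  obtain ⟨κ', h1⟩ := h 1
  have a1 : ∀ u, γ u = (κ' - κ) • ψ u := fun u => by
    have := h0 u
    have := h1 u
    simp only [zero_smul, one_smul, map_zero] at *
    linear_combination (norm := module) h1 u - h0 u
  generalize κ' - κ = f at a1
  obtain ⟨u, u0⟩ := finrank_pos_iff_exists_ne_zero.1 (show 0 < finrank F U by omega)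
  have f0 : f ≠ 0 := fun e => u0 (hγ (by simp [a1, e]))
  have a2 : ∀ u, ψ (ψ u) = f⁻¹ • (u - κ • ψ u) := fun u => by
    have := h0 u
    rw [a1, zero_smul, map_zero, add_zero] at this
    rw [← this]; simp [f0]
  obtain ⟨w, w0, l, hl⟩ : ∃ w, w ≠ 0 ∧ ∃ l : F, l • w = ψ w := by
    by_contra! e
    let P := fun u => Submodule.span F {u, ψ u}
    have p1 : ∀ u, u ∈ P u := fun u => Submodule.subset_span (by simp)
    have p2 : ∀ u, ψ u ∈ P u := fun u => Submodule.subset_span (by simp)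
    have p3 : ∀ u, u ≠ 0 → finrank F (P u) = 2 := fun u u0 => by
      have := Submodule.finrank_lt_finrank_of_lt (show F ∙ u < P u from lt_of_le_of_ne
        ((Submodule.span_singleton_le_iff_mem _ _).2 (p1 u)) fun a =>
          let ⟨l, hl⟩ := Submodule.mem_span_singleton.1 (a.ge (p2 u)); e u u0 l hl)
      have a : finrank F (P u) ≤ 2 := finrank_span_two_le (F := F) u (ψ u)
      rw [finrank_span_singleton u0] at this
      omega
    have p4 : ∀ u, ∀ x ∈ P u, P x ≤ P u := fun u x hx => by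
      obtain ⟨a, b, rfl⟩ := Submodule.mem_span_pair.1 hx
      refine Submodule.span_le.2 (Set.pair_subset hx ?_)
      rw [map_add, map_smul, map_smul, a2]
      exact add_mem (Submodule.smul_mem _ _ (p2 u)) (Submodule.smul_mem _ _ (Submodule.smul_mem _ _
        (sub_mem (p1 u) (Submodule.smul_mem _ _ (p2 u)))))
    obtain ⟨u', hu⟩ := exists_notMem_of_ne_top (W := P u) fun a => by
      have := p3 u u0
      rw [a, finrank_top] at this
      omega
    have u1 : u' ≠ 0 := by rintro rfl; simp at hu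
    obtain ⟨x, hx, x0⟩ := Submodule.exists_mem_ne_zero_of_ne_bot (p := P u ⊓ P u') fun a => by
      have := Submodule.finrank_sup_add_finrank_inf_eq (P u) (P u')
      have := Submodule.finrank_le (P u ⊔ P u')
      rw [a, finrank_bot, p3 u u0, p3 u' u1] at *
      omega
    exact hu (p4 u x hx.1 ((Submodule.eq_of_le_of_finrank_eq (p4 u' x hx.2)
      (by rw [p3 x x0, p3 u' u1])).ge (p1 u')))
  have a3 : l * l = f⁻¹ * (1 - κ * l) := smul_left_injective F w0 (by
    have := a2 w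
    rw [← hl, map_smul, ← hl] at this
    linear_combination (norm := module) this)
  let l' := -f⁻¹ * κ - l
  have a4 := (ψ - l' • LinearMap.id).finrank_range_add_finrank_ker
  have a5 := Submodule.finrank_mono (show LinearMap.range (ψ - l' • .id) ≤
      LinearMap.ker (ψ - l • .id) by
    rintro _ ⟨u, rfl⟩
    simp only [LinearMap.mem_ker, LinearMap.sub_apply, LinearMap.smul_apply, LinearMap.id_apply, map_sub,
      map_smul, a2, l']
    linear_combination (norm := module) -a3 • u)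
  by_cases e : 2 ≤ finrank F (LinearMap.ker (ψ - l • .id))
  · exact ⟨l, LinearMap.ker (ψ - l • .id), fun u hu => by simpa [sub_eq_zero] using hu, by omega⟩
  · exact ⟨l', LinearMap.ker (ψ - l' • .id), fun u hu => by simpa [sub_eq_zero] using hu, by omega⟩

section Fld
variable {F K : Type*} [Field F] [Field K] [Algebra F K]

theorem quad_fld (h3 : finrank F K = 3) (ψ γ : K →ₗ[F] K) (hψ : Function.Injective ψ)
    (hγ : Function.Injective γ) (h : ∀ ν : K, ∃ κ : K, ∀ u, u - γ (ψ u) + γ (ν • u) = κ • ψ u) :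
    ∃ (l : K) (D : Submodule F K), (∀ u ∈ D, ψ u = l • u) ∧ finrank F K ≤ finrank F D + 1 := by
  choose κ h using h
  simp only [smul_eq_mul] at h ⊢
  have a1 : ∀ ν u, γ (ν * u) = (κ ν - κ 0) * ψ u := fun ν u => by
    have := h 0 u
    rw [zero_mul, map_zero] at this
    linear_combination h ν u - this
  have p0 : ψ 1 ≠ 0 := by simpa using hψ.ne one_ne_zero
  have f0 : κ 1 - κ 0 ≠ 0 := fun e => one_ne_zero (hγ (by simpa [e] using a1 1 1 : γ 1 = γ 0))
  obtain ⟨θ, hθ⟩ : ∃ θ : K →ₗ[F] K, ∀ u, ψ u = ψ 1 * θ u := ⟨(ψ 1)⁻¹ • ψ, by simp [p0]⟩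
  have t1 : θ 1 = 1 := mul_left_cancel₀ p0 (by rw [← hθ, mul_one])
  have a2 : ∀ ν u, θ (ν * u) = θ ν * θ u := fun ν u => mul_left_cancel₀ (mul_ne_zero f0 p0) (by
    have b1 := a1 1 (ν * u)
    have b2 := a1 1 ν
    have b3 := a1 ν 1
    rw [one_mul, a1, hθ u, hθ (ν * u)] at b1
    rw [one_mul, hθ ν] at b2
    rw [mul_one] at b3
    linear_combination -b1 + θ u * (b2 - b3))
  suffices ∀ ν, θ ν = ν from ⟨ψ 1, ⊤, fun ν _ => by rw [hθ ν, this], by simp⟩
  intro ν
  by_contra hν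
  obtain ⟨α, β, a3⟩ : ∃ α β, ∀ u, u = α * θ (θ u) + β * θ u := ⟨(κ 1 - κ 0) * ψ 1 * θ (ψ 1),
    κ 0 * ψ 1, fun u => by
      have b1 := h 0 u
      have b2 := a1 1 (ψ u)
      rw [one_mul, hθ (ψ u), hθ u, a2] at b2
      rw [zero_mul, map_zero, hθ u, b2] at b1
      linear_combination b1⟩
  have d0 : ν - θ ν ≠ 0 := sub_ne_zero.2 (Ne.symm hν)
  have a4 : ∀ u, θ (θ u) = u := fun u => mul_left_cancel₀ d0 (by
    have b1 := a3 (ν * u)
    have b2 := a3 ν
    have b3 := a3 1
    simp only [a2, t1] at b1 b3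
    linear_combination -b1 + θ ν * a3 u + θ (θ u) * (b2 - θ ν * b3))
  have a5 : ∀ u, θ u = u → ∃ c : F, algebraMap F K c = u := fun u hu =>
    mem_range_of_mul (h3 ▸ Nat.prime_three) (LinearMap.ker (θ - .id)) (by simp [t1])
      (fun e => hν (by simpa [sub_eq_zero] using Submodule.eq_top_iff'.1 e ν)) fun d hd => by
        have : θ d = d := by simpa [sub_eq_zero] using hd
        simp [a2, hu, this]
  have a6 : Submodule.span F {1, ν} = ⊤ := Submodule.eq_top_iff'.2 fun u => by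
    obtain ⟨c, hc⟩ := a5 ((u - θ u) / (ν - θ ν)) (mul_right_cancel₀ (neg_ne_zero.2 d0) (by
      have := a2 ((u - θ u) / (ν - θ ν)) (ν - θ ν)
      rw [div_mul_cancel₀ _ d0, map_sub, map_sub, a4, a4] at this
      rw [mul_neg ((u - θ u) / _), div_mul_cancel₀ _ d0]
      linear_combination -this))
    rw [eq_div_iff d0] at hc
    obtain ⟨d, hd⟩ := a5 (u - c • ν) (by
      rw [map_sub, map_smul, Algebra.smul_def, Algebra.smul_def]; linear_combination hc)
    exact Submodule.mem_span_pair.2 ⟨d, c, by rw [Algebra.smul_def d, mul_one, hd, sub_add_cancel]⟩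
  have := finrank_span_two_le (F := F) 1 ν
  rw [a6, finrank_top] at this
  omega

theorem kdens (hr : (finrank F K).Prime) {L : (K →ₗ[F] K) → Prop}
    (sub : ∀ {E E'}, L E → L E' → L (E - E')) (lsm : ∀ {E}, L E → ∀ a : K, L (a • E))
    (rsm : ∀ {E E'}, L E → ∀ a : K, (∀ x, E' x = E (a • x)) → L E')
    (mul : ∀ {E E'}, L E → L E' → L (E ∘ₗ E')) (one : L .id) {E : K →ₗ[F] K} (hE : L E)
    (hn : ¬ ∃ s : K, ∀ u, E u = s • u) (θ : Dual F K) (b : K) : L (θ.smulRight b) := by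
  haveI : FiniteDimensional F K := finite_of_finrank_pos hr.pos
  obtain ⟨M, ⟨m1, m2, m3⟩, hM⟩ := exists_maximalFor_of_wellFoundedGT
    (fun E : K →ₗ[F] K => L E ∧ E ≠ 0 ∧ E 1 = 0) LinearMap.ker ⟨E - E 1 • .id, sub hE (lsm one _),
      fun e => hn ⟨E 1, fun u => sub_eq_zero.1 (LinearMap.congr_fun e u)⟩, by simp⟩
  obtain ⟨x, hx⟩ := DFunLike.ne_iff.1 m2
  replace hx : M x ≠ 0 := hx
  have a1 : ∀ y, ∃ c : F, algebraMap F K c = M y / M x := fun y =>
    mem_range_of_mul hr (LinearMap.ker M) m3 (fun e => hx (e.ge trivial : x ∈ LinearMap.ker M))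
      fun d hd => by
      let N := M ∘ₗ ((d / M x) • M)
      have b1 : N x = 0 := by simpa [N, hx] using hd
      have b2 : N = 0 := by_contra fun e => hx (hM ⟨mul m1 (lsm m1 _), e, by simp [N, m3]⟩
        (fun z hz => by simp [N, show M z = 0 from hz]) b1)
      have := LinearMap.congr_fun b2 y
      simp only [N, LinearMap.comp_apply, LinearMap.smul_apply, smul_eq_mul] at this
      rwa [LinearMap.mem_ker, show M y / M x * d = d / M x * M y by ring]
  obtain ⟨η, hη⟩ := ex_one' (F := F) hx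
  obtain ⟨a, ha⟩ := exists_of_dual (φ := η ∘ₗ M) (fun e => by
    simpa [hη] using LinearMap.congr_fun e x) θ
  refine rsm (lsm m1 (b / M x)) a fun y => ?_
  obtain ⟨c, hc⟩ := a1 (y * a)
  rw [eq_div_iff hx, ← Algebra.smul_def] at hc
  simp only [LinearMap.smulRight_apply, ← ha, LinearMap.comp_apply, LinearMap.smul_apply, smul_eq_mul,
    mul_comm a, ← hc, map_smul, hη, mul_one, mul_smul_comm, div_mul_cancel₀ _ hx]

theorem lift_sesq [FiniteDimensional F K] {V : Type*} [AddCommGroup V] [Module F V] [Module K V]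
    [IsScalarTower F K V] {φ : Dual F K} (hφ : φ ≠ 0) {σ : F →+* F} (f : V →ₛₗ[σ] V →ₗ[F] F)
    (τ : K →+* K) (h : ∀ (k : K) x y, f (k • x) y = f x (τ k • y)) :
    ∃ B : V →ₛₗ[τ] V →ₗ[K] K, ∀ x y, φ (B x y) = f x y := by
  choose χ hχ using fun x => exists_lift_dual (K := K) hφ (f x)
  have h1 : ∀ x y k, φ (k * χ x y) = f x (k • y) := fun x y k => by rw [← hχ, map_smul, smul_eq_mul]
  exact ⟨⟨⟨χ, fun x y => LinearMap.ext fun z => eq_of_dual hφ fun k => by simp [mul_add, h1]⟩,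
    fun c x => LinearMap.ext fun z => eq_of_dual hφ fun k => by
      simp only [LinearMap.smul_apply, smul_eq_mul, ← mul_assoc, h1, h, smul_smul]
      rw [mul_comm]⟩, hχ⟩

end Fld

namespace TK
variable {F U W V : Type*} [Field F] [Finite F] {σ : F →+* F} {hσ : ∀ a, σ (σ a) = a}
  [AddCommGroup U] [Module F U] [AddCommGroup W] [Module F W]
  [AddCommGroup V] [Module F V] [FiniteDimensional F U] [FiniteDimensional F W]
  [FiniteDimensional F V] {S : PForm (unitP σ hσ) V} {H : Subgroup S.Isom}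
  {A : PForm (unitP σ hσ) U} {B : PForm (unitP σ hσ) W} {t : W →ₗ[F] U →ₗ[F] V}
  {c : W →ₛₗ[σ] V →ₗ[F] U} {E E' : U →ₗ[F] U} (h : TK A B t c H)
  (hU : ∀ γ ∈ A.E, ∃ g ∈ H, ∀ w u, g.1 (t w u) = t w (γ.1 u))
include h hU

theorem lv_conj (hE : TKL B t c H E) {γ : A.Isom} (hγ : γ ∈ A.E) (e : ∀ x, E' (γ.1 x) = γ.1 (E x)) :
    TKL B t c H E' := by
  intro v z hv h0
  obtain ⟨g, hg, e'⟩ := hU γ hγ
  refine (h.conj (hE v z hv h0) hg (γ := γ.1) (fun x => e' v x) γ.1.surjective).congr fun x _ => ?_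
  have : γ.1 (c z (g⁻¹.1 x)) = c z x := h.ndU.ext_right fun y => by
    obtain ⟨y, rfl⟩ := γ.1.surjective y
    rw [isom_h, h.c_inv (e' z)]
  conv_lhs => rw [LinearMap.comp_apply, ← this]
  exact e _

theorem lv_rank (hq : 3 ≤ finrank F U) (hE : TKL B t c H E) {u : U}
    (hu : A.h u u = 0) (hb : A.h u (E u) ≠ 0) : TKL B t c H ((A.h u).smulRight u) := by
  have D : ∀ s : F, s + σ s = 0 → TKL B t c H (s • ((A.h u ∘ₗ E).smulRight u - (A.h u).smulRight (E u)) -
      (s * s * A.h u (E u)) • (A.h u).smulRight u) := fun s hs =>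
    ((h.lv_conj hU hE (A.eich_mem_E u 0 (-s)) (E' := E + _) fun x => by
      simp [eich_apply (.of_mem (us hu) (neg_mem hs)), hu]; module).sub hE).congr
        fun x => (add_sub_cancel_left _ _).symm
  obtain ⟨s, s0, hs⟩ := exists_mem_unit_Λ hσ h.ne
  have := h.ndU.finrank_perp (F ∙ u)
  have := finrank_span_one_le (F := F) u
  obtain ⟨y, y1, y2⟩ := uex_ns h.ne h.ndU (A.perp (F ∙ u)) (by omega)
  rw [mem_perp_singleton] at y1
  obtain ⟨κ, hκ⟩ : ∃ κ, κ = s * (A.h y (E u) + 2 * A.q y * A.h u (E u) - A.h u (E y) -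
    A.h u (E u) * A.h y y) := ⟨_, rfl⟩
  have M : TKL B t c H ((s * A.h u (E u)) • ((A.h y).smulRight u - (A.h u).smulRight y) +
      κ • (A.h u).smulRight u) :=
    ((h.lv_conj hU (D s hs) (A.eich_mem_E u y (A.q y)) (E' := _ + _) fun x => by
      simp [eich_apply (.of_q (us hu) y1), hu, y1, A.h_swap_zero y1, hκ]; module).sub (D s hs)).congr
        fun x => (add_sub_cancel_left _ _).symm
  refine (h.fsm (h.lv_mul M M) (-(s * A.h u (E u)) ^ 2 * A.h y y)⁻¹).congr fun x => ?_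
  simp only [LinearMap.smulRight_apply, LinearMap.smul_apply, LinearMap.sub_apply, LinearMap.add_apply,
    LinearMap.comp_apply, map_add, map_sub, map_smul, hu, y1, A.h_swap_zero y1]
  match_scalars <;> field_simp <;> ring

theorem lv_flag {u : U} (u0 : u ≠ 0) (uu : A.h u u = 0) (hu : TKL B t c H ((A.h u).smulRight u))
    (a b : U) : TKL B t c H ((A.h a).smulRight b) := by
  have a2 : ∀ u', u' ≠ 0 → A.h u' u' = 0 → TKL B t c H ((A.h u').smulRight u') := fun u' h1 h2 => by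
    obtain ⟨g, hg, r, r0, e⟩ := h.ndU.exists_E_move (unit_rich h.ne A 3) (us uu) u0 (us h2) h1
    refine (h.fsm (h.lv_conj hU hu hg (E' := (A.h (g.1 u)).smulRight (g.1 u)) fun x => by simp)
      (σ r * r)⁻¹).congr fun x => ?_
    have : σ r ≠ 0 := by simpa
    simp only [e, LinearMap.smulRight_apply, LinearMap.smul_apply, map_smulₛₗ, smul_eq_mul]
    match_scalars; field_simp
  refine uspan h.ne h.ndU h.two (subT (fun b => TKL B t c H ((A.h a).smulRight b))
    (TKL.zero.congr fun x => by simp) fun x y a b => (a.sub b).congr fun x => by simp [smul_sub])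
    (fun b hb => uspan h.ne h.ndU h.two (subT (fun a => TKL B t c H ((A.h a).smulRight b))
      (TKL.zero.congr fun x => by simp) fun x y a b => (a.sub b).congr fun x => by simp [sub_smul])
      (fun a ha => ?_) a) b
  obtain rfl | a0 := eq_or_ne a 0
  · exact TKL.zero.congr fun x => by simp
  obtain rfl | b0 := eq_or_ne b 0
  · exact TKL.zero.congr fun x => by simp
  obtain ⟨y, y1, y2, y3⟩ := h.ndU.exists_common (unit_rich h.ne A 3) (us ha) a0 (us hb) b0
  have y4 : A.h b y ≠ 0 := mt A.h_swap_zero y3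
  refine (h.fsm (h.lv_mul (a2 b b0 hb) (h.lv_mul (a2 y (by rintro rfl; simp at y2) y1.h_self)
    (a2 a a0 ha))) (A.h b y * A.h y a)⁻¹).congr fun x => ?_
  simp only [LinearMap.smulRight_apply, LinearMap.smul_apply, LinearMap.comp_apply, map_smul,
    smul_eq_mul]
  match_scalars; field_simp

theorem nl_or (hq : 3 ≤ finrank F U) :
    S.E ≤ H ∨ ∀ E, TKL B t c H E → ∃ s : F, ∀ u, E u = s • u :=
  or_iff_not_imp_left.2 fun hE E h1 => uscal_of h.ne h.ndU h.two fun u hu => by_contra fun hb =>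
    hE (h.E_le (h.lv_flag hU (by rintro rfl; simp at hb) hu (h.lv_rank hU hq h1 hu hb)))

end TK

open Matrix Cfsg.Geo
open scoped Kronecker

theorem susu_four {F : Type*} [Field F] [Fintype F] {n q : ℕ} (hF : Fintype.card F = q ^ 2)
    {a b : ℕ} (ha : a = 3) (hb : b = 4) (e : Fin n ≃ Fin a × Fin b)
    (P : GL (Fin n) F) {f₁ : (Fin a → F) → (Fin a → F) → F} {f₂ : (Fin b → F) → (Fin b → F) → F}
    (hf₁ : IsUnitaryFormPow q f₁) (hf₂ : IsUnitaryFormPow q f₂)
    (hT : IsTensorFormStructure (fun x : F => x ^ q) (Cfsg.hermForm n F q) f₁ f₂ e P) :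
    IsMaximalIn (Cfsg.GU n F q ⊓ specialLinear (Fin n) F)
      (tensorProductSubgroup a b e P ⊓ (Cfsg.GU n F q ⊓ specialLinear (Fin n) F)) := by
  obtain ⟨σ, hq, hσ, hne⟩ := H11.exists_frob hF
  have hc : n = a * b := by simpa using Fintype.card_congr e
  have hn : 10 ≤ n := by rw [hc, ha, hb]; omega
  have ha' : 2 ≤ a := by omega
  haveI : Nonempty (Fin a) := ⟨⟨0, by omega⟩⟩
  haveI : Nonempty (Fin b) := ⟨⟨0, by omega⟩⟩
  have h1 : ¬ Cfsg.GU n F q ⊓ specialLinear (Fin n) F ≤ tensorProductSubgroup a b e P := fun hle =>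
    (big_su (hf_one hσ) hne (by simp; omega) (by simp; omega)).not_kr (T := coordT e P) (by omega)
      (by omega) (by rw [ha, hb]; omega) fun g hg => kr_self e P g (hle (GU_iso hq n ▸ hg))
  rw [su_eq hσ hne hq (by omega)] at h1 ⊢
  have hS := stdUnit_nondeg hσ hne (Fin n)
  obtain ⟨G₁, rfl, g1⟩ := hf_of_unitPow hq hσ hf₁
  obtain ⟨G₂, rfl, g2⟩ := hf_of_unitPow hq hσ hf₂
  obtain ⟨s, s0, hs⟩ := hT
  rw [gram_fm, gram_fm, ← funext hq] at hs
  set S := stdUnit hσ hne (Fin n)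
  set T := coordT e P
  let B := unitS hσ hne _ g2.sesq_symm
  have hB : B.Nondeg := fun x hx => g2.right hx
  let t : (Fin b → F) →ₗ[F] (Fin a → F) →ₗ[F] (Fin n → F) := tp.compr₂ T.toLinearMap
  have ht : ∀ w u, t w u = T (tp w u) := fun _ _ => rfl
  have b0 : ∀ w u w' u', S.h (t w u) (t w' u') = s * (fm σ G₁ u' u * B.h w w') := fun w u w' u' =>
    (stdUnit_h_eq hσ hne hq _ _ _).trans ((hs (tp w' u') (tp w u)).trans
      (congrArg _ (fm_kron _ _ u' u w' w)))
  have hs' : s * 1 = 1 * σ s := by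
    obtain ⟨u, hu⟩ := Nondeg.unit_exists_norm hne (S := unitS hσ hne _ g1.sesq_symm)
      (fun x hx => g1.right hx) (map_one σ)
    obtain ⟨w, hw⟩ := hB.unit_exists_norm hne (map_one σ)
    have := S.unit_h_self_fixed (t w u)
    rw [b0, hw, show fm σ G₁ u u = 1 from hu] at this
    simpa using this.symm
  let A := unitS hσ hne _ (g1.smul s0 hs').sesq_symm
  have hA : A.Nondeg := fun x hx => (g1.smul s0 hs').right hx
  let c : (Fin b → F) →ₛₗ[σ] (Fin n → F) →ₗ[F] (Fin a → F) :=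
    (ct ∘ₛₗ B.h).compl₂ T.symm.toLinearMap
  have b1 : ∀ z w u, c z (t w u) = B.h z w • u := fun z w u => by simp [c, ht]
  have b2 : ∀ M : AddSubgroup (Fin n → F), (∀ w u, t w u ∈ M) → ∀ x, x ∈ M := fun M hM x => by
    obtain ⟨x, rfl⟩ := T.surjective x
    rw [← Finset.univ_sum_single x, map_sum]
    refine sum_mem fun p _ => ?_
    have := hM (Pi.single p.2 1) (x p • Pi.single p.1 1)
    rwa [ht, map_smul, tp_single, ← Pi.single_smul, smul_eq_mul, mul_one] at this
  have b3 : ∀ w u w' u', S.h (t w u) (t w' u') = A.h u u' * B.h w w' := fun w u w' u' => by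
    rw [b0, ← mul_assoc, ← fm_smul]; rfl
  have b4 : ∀ w u x, S.h (t w u) x = A.h u (c w x) := fun w u x => sub_eq_zero.1
    (b2 (S.h (t w u) - A.h u ∘ₗ c w).toAddMonoidHom.ker (fun w' u' => by simp [b1, b3, mul_comm]) x)
  refine isMaximalIn_of_not_le _ h1 fun H hH => ?_
  have key : ∀ γ ∈ A.E, ∀ ρ ∈ B.E, ∃ g ∈ H, ∀ w u, g.1 (t w u) = t (ρ.1 w) (γ.1 u) := by
    intro γ hγ ρ hρ
    let g := glEquiv (ΦU T (kronU (toGL A γ) (toGL B ρ)))
    have a3 : ∀ w u, g (t w u) = t (ρ.1 w) (γ.1 u) := fun w u =>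
      (Φ_mulVec _ _ _).trans (congrArg _ ((kron_mulVec_tp _ _ _ _).trans (by
        rw [toGL_mulVec, toGL_mulVec])))
    let k : S.Isom := ⟨g, unit_isIsom fun x y => sub_eq_zero.1
      (b2 (S.h (g x) ∘ₗ g.toLinearMap - S.h x).toAddMonoidHom.ker (fun w' u' => b2
        (S.h.flip (g (t w' u')) ∘ₛₗ g.toLinearMap - S.h.flip (t w' u')).toAddMonoidHom.ker (fun y x => by
          change S.h (g _) (g _) - S.h _ _ = 0
          rw [a3, a3, b3, b3, isom_h, isom_h, sub_self]) x) y)⟩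
    have ek : toGL S k = ΦU T (kronU (toGL A γ) (toGL B ρ)) :=
      Units.ext (ext_mulVec fun x => toGL_mulVec _ _ _)
    refine ⟨k, hH k ((u_memE hne hS (by simp; omega) k).2 ?_) (mem_tensorProductSubgroup.2
      ⟨_, _, congrArg Units.val ek⟩), a3⟩
    rw [u_memE hne hA (by simpa), ← det_toGL] at hγ
    rw [u_memE hne hB (by simp; omega), ← det_toGL] at hρ
    rw [← det_toGL, ek]
    exact (det_Φ _ _).trans ((det_kronecker _ _).trans (by
      rw [show (toGL A γ).1.det = 1 from hγ, show (toGL B ρ).1.det = 1 from hρ]; simp))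
  have hk : TK A B t c H := ⟨hne, fun _ => rfl, hS, hA, hB, by simp, by simp, b1, b2, b4,
    fun ρ hρ => key 1 (one_mem _) ρ hρ, by simpa, by simp; omega, by simpa, by simp [hc, hb, mul_comm],
    quad_three (by simpa)⟩
  refine (hk.nl_or (fun γ hγ => key γ hγ 1 (one_mem _)) (by simp; omega)).imp_right fun hN => Kr.le ?_
  rintro _ ⟨k, hk', rfl⟩
  obtain ⟨g, eg⟩ := (ΦU T).surjective (toGL S k)
  have c0 : ∀ x, T (g.1 *ᵥ x) = k.1 (T x) := fun x => by rw [← Φ_mulVec, ← coe_ΦU, eg, toGL_mulVec]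
  have c1 : ∀ x, T ((g⁻¹ : GL _ F).1 *ᵥ x) = k⁻¹.1 (T x) := fun x => by
    rw [← Φ_mulVec, ← coe_ΦU, map_inv, eg, ← map_inv, toGL_mulVec]
  obtain ⟨α, β, e⟩ := nml_kron (g := g) fun X => eq_kron_of_pure fun w u => by
    obtain ⟨μ, h3⟩ := hk.dich hN hk'
      (M := T.toLinearMap ∘ₗ (X ⊗ₖ (1 : Matrix _ _ F)).mulVecLin ∘ₗ T.symm.toLinearMap)
      fun w u => ⟨X *ᵥ u, by simp [ht, kron_mulVec_tp]⟩
    refine ⟨μ u, T.injective ?_⟩
    rw [← ht, ← h3, ← mulVec_inv_mulVec g (tp w u), cjA_mulVec, c0, ht, ← c1]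
    simp
  exact ⟨α, β, eg ▸ congrArg _ (Units.ext e)⟩

theorem su_ext4 {F K V : Type*} [Field F] [Finite F] [Field K] [Finite K] [Algebra F K]
    [AddCommGroup V] [Module F V] [Module K V] [IsScalarTower F K V] [FiniteDimensional F V]
    {σ : F →+* F} {hσ : ∀ a, σ (σ a) = a} {S : PForm (unitP σ hσ) V} (hne : σ ≠ RingHom.id F)
    (hS : S.Nondeg) (h3 : finrank F K = 3) (hn : finrank F V = 12)
    (h : ∀ k : K, ∃ k' : K, ∀ x y, S.h (k • x) y = S.h x (k' • y)) {H : Subgroup S.Isom}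
    (hH : ∀ g ∈ S.E, (∀ (k : K) x, g.1 (k • x) = k • g.1 x) → g ∈ H) (hE : ¬ S.E ≤ H) {g : S.Isom}
    (hg : g ∈ H) (k : K) : ∃ l : K, ∀ x, g.1 (k • x) = l • g.1 x := by
  haveI : FiniteDimensional F K := finite_of_finrank_pos (by omega)
  haveI := nontrivial_of_finrank_pos (show 0 < finrank F V by omega)
  obtain ⟨v, hv⟩ := hS.unit_exists_norm hne (map_one σ)
  have v0 : v ≠ 0 := by rintro rfl; simp at hv
  choose t ht using h
  have h2 : ∀ a b : K, (∀ x y, S.h x (a • y) = S.h x (b • y)) → a = b := fun a b h =>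
    smul_left_injective K v0 (hS.ext_right fun x => h x v)
  let τ : K →+* K :=
    { toFun := t
      map_one' := h2 _ _ fun x y => by rw [← ht, one_smul, one_smul]
      map_mul' := fun a b => h2 _ _ fun x y => by rw [← ht, mul_smul, ht, ht, smul_smul, mul_comm]
      map_zero' := h2 _ _ fun x y => by rw [← ht]; simp
      map_add' := fun a b => h2 _ _ fun x y => by rw [← ht]; simp [add_smul, ht] }
  replace ht : ∀ k x y, S.h (k • x) y = S.h x (τ k • y) := ht
  have hτ : ∀ k, τ (τ k) = k := fun k => h2 _ _ fun x y => by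
    rw [← ht, S.unit_symm, ← ht, ← S.unit_symm]
  have ta : ∀ a, τ (algebraMap F K a) = algebraMap F K (σ a) := fun a => h2 _ _ fun x y => by
    rw [← ht]; simp
  have hne' : τ ≠ RingHom.id K := fun e => hne (RingHom.ext fun a => (algebraMap F K).injective (by
    rw [← ta, e]; rfl))
  clear_value τ
  let t : V →ₗ[F] K →ₗ[F] V := LinearMap.mk₂ F (fun w u => u • w)
    (fun _ _ _ => smul_add _ _ _) (fun _ _ _ => smul_comm _ _ _) (fun _ _ _ => add_smul _ _ _)
    fun _ _ _ => smul_assoc _ _ _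
  have et : ∀ w u, t w u = u • w := fun _ _ => rfl
  let φ : Dual F K := S.h v ∘ₗ t v
  have eφ : ∀ k, φ k = S.h v (k • v) := fun _ => rfl
  have hφ : φ ≠ 0 := fun e => by simpa [eφ, hv] using LinearMap.congr_fun e 1
  have sφ : ∀ k, φ (τ k) = σ (φ k) := fun k => by rw [eφ, eφ, ← ht, S.unit_symm]
  obtain ⟨B₀, hB⟩ := lift_sesq hφ S.h τ ht
  have hB' : ∀ k x y, φ (k * B₀ x y) = S.h x (k • y) := fun k x y => by rw [← hB, map_smul, smul_eq_mul]
  let B := unitS hτ hne' B₀ ⟨fun x y => eq_of_dual hφ fun k => by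
    rw [← hτ k, ← map_mul, sφ, hB', hB', hτ, ← S.unit_symm, ht, hτ]⟩
  let A := unitS hσ hne (S.h.compl₂ (t v) ∘ₛₗ t v) ⟨fun x y => (S.unit_symm _ _).symm⟩
  have eA : ∀ a b, A.h a b = φ (τ a * b) := fun a b => by
    rw [eφ, mul_smul, ← ht]; rfl
  let c : V →ₛₗ[σ] V →ₗ[F] K :=
    ⟨⟨fun z => (B₀ z).restrictScalars F, fun _ _ => LinearMap.ext (by simp)⟩, fun a z =>
      LinearMap.ext fun x => by
        rw [← algebraMap_smul K a]
        simp [-algebraMap_smul, ta, Algebra.smul_def]⟩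
  have ec : ∀ z x, c z x = B₀ z x := fun _ _ => rfl
  let ρ : B.Isom →* S.Isom :=
    { toFun := fun g => ⟨g.1.restrictScalars F, unit_isIsom fun x y => by
        rw [← hB, ← hB]; exact congrArg φ (isom_h g x y)⟩
      map_one' := rfl
      map_mul' := fun _ _ => rfl }
  have h4 := Module.finrank_mul_finrank F K V
  rw [h3, hn] at h4
  haveI : FiniteDimensional K V := Module.Finite.of_restrictScalars_finite F K _
  have hB1 : B.Nondeg := fun x hx => hS x fun y => by rw [← hB]; exact (congrArg φ (hx y)).trans (map_zero φ)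
  have hA : A.Nondeg := fun x hx => by
    simpa using eq_zero_of_dual hφ (a := τ x) fun k => by rw [mul_comm, ← eA, hx]
  have hk : TK A B t c H := ⟨hne, ta, hS, hA, hB1, fun a w u => by simp [et, smul_smul, mul_comm],
    fun a z x => by simp [ec], fun z w u => by rw [ec, et, map_smul, smul_eq_mul, mul_comm]; rfl,
    fun T hT x => one_smul K x ▸ hT x 1, fun w u x => by rw [et, eA, ec, hB', ht],
    fun g hg => ⟨ρ g, hH _ ((u_memE hne hS (by omega) _).2 (congrArg Units.val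
      (Abelianization.commutator_subset_ker (S.detHom.comp ρ) (unit_E_le hne' hB1 (by omega) hg))))
      (map_smul g.1), fun w u => map_smul g.1 u w⟩, by omega, by omega, by omega, by omega, quad_fld h3⟩
  obtain ⟨μ, hμ⟩ := hk.dich (fun E h => by_contra fun hn => hE (hk.E_le fun a b =>
    kdens (L := TKL B t c H) (by rw [h3]; exact Nat.prime_three) TKL.sub hk.lsm hk.rsm hk.lv_mul
      hk.lv_id h hn _ b)) hg (M := t.flip k) fun w u => ⟨k * u, by simp [et, mul_smul]⟩
  exact ⟨μ 1, fun x => by simpa [et] using hμ (g.1 x) 1⟩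

theorem su_fld_four {F : Type*} [Field F] [Fintype F] {n q : ℕ} (hF : Fintype.card F = q ^ 2)
    (hn : n = 12) {K : Subalgebra F (Matrix (Fin n) (Fin n) F)} (hK : IsFieldSubalgebra 3 K)
    (hac : IsAdjointClosedFor (Cfsg.hermForm n F q) K) :
    IsMaximalIn (Cfsg.GU n F q ⊓ specialLinear (Fin n) F)
      (subalgebraNormalizer K ⊓ (Cfsg.GU n F q ⊓ specialLinear (Fin n) F)) := by
  obtain ⟨σ, hq, hσ, hne⟩ := H11.exists_frob hF
  have hb := big_su (hf_one hσ (κ := Fin n)) hne (by simp; omega) (by simp; omega)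
  haveI := hb.nonempty
  have h1 := hb.not_field hK (by omega)
  rw [← GU_iso hq n, su_eq hσ hne hq (by omega)] at h1
  rw [su_eq hσ hne hq (by omega)]
  letI := (isField_of hK).toField
  haveI : Finite K := Subtype.finite
  refine isMaximalIn_of_not_le _ h1 fun H hH => or_iff_not_imp_left.2 fun hE => le_nml ?_
  rintro _ ⟨g, hg, rfl⟩
  simp only [toGL_mulVec]
  refine su_ext4 hne (stdUnit_nondeg hσ hne (Fin n)) hK.finrank_eq (by simpa) (fun k => ?_)
    (fun g a b => hH g a (mem_nml_of_comm fun k x => by rw [toGL_mulVec, toGL_mulVec]; exact b k x)) hE hg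
  obtain ⟨k', a, e⟩ := hac k k.2
  refine ⟨⟨k', a⟩, fun x y => ?_⟩
  rw [unit_symm, unit_symm _ (_ • y), stdUnit_h_eq hσ hne hq, stdUnit_h_eq hσ hne hq]
  exact congrArg σ (e x y)

end H29
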