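import Cfsg.Agent.H29.ND

/-! Overgroups of the stabiliser of a decomposition `V = U ⊕ U'` into two totally singular subspaces:
`tsdec_dichotomy`, existence of an element of `E` swapping the two subspaces (`exists_swap_isom`,
`exists_swap_E_*`), `isMaximalIn_tsdec`. -/

set_option autoImplicit false

namespace H29
open H11 H11.PForm Module Matrix
open scoped MatrixGroups

variable {F : Type*} [Field F] {σ : F →+* F} {P : FParam σ} {V : Type*} [AddCommGroup V]
  [Module F V] {S : PForm P V} [FiniteDimensional F V]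

/-- a decomposition into two totally singular subspaces -/
structure TSDec (S : PForm P V) (U U' : Submodule F V) : Prop where
  ts : S.TS U
  ts' : S.TS U'
  compl : IsCompl U U'

namespace TSDec
variable {U U' : Submodule F V}

omit [FiniteDimensional F V] in
theorem symm (h : TSDec S U U') : TSDec S U' U := ⟨h.ts', h.ts, h.compl.symm⟩

theorem finrank_eq (hS : S.Nondeg) (h : TSDec S U U') : 2 * finrank F U = finrank F V := by
  have h1 := h.ts.two_mul_finrank_le hS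
  have h2 := h.ts'.two_mul_finrank_le hS
  have h3 := Submodule.finrank_add_eq_of_isCompl h.compl
  omega

theorem perp_eq (hS : S.Nondeg) (h : TSDec S U U') : S.perp U = U := by
  have h1 := h.finrank_eq hS
  have h2 := hS.finrank_perp U
  exact (Submodule.eq_of_le_of_finrank_eq h.ts.le_perp (by omega)).symm

omit [FiniteDimensional F V] in
theorem decomp (h : TSDec S U U') (x : V) : ∃ a ∈ U, ∃ b ∈ U', x = a + b := by
  have : x ∈ U ⊔ U' := by rw [h.compl.sup_eq_top]; trivial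
  obtain ⟨a, ha, b, hb, h⟩ := Submodule.mem_sup.1 this
  exact ⟨a, ha, b, hb, h.symm⟩

omit [FiniteDimensional F V] in
theorem eq_zero (h : TSDec S U U') {x : V} (h1 : x ∈ U) (h2 : x ∈ U') : x = 0 :=
  Submodule.disjoint_def.1 h.compl.disjoint x h1 h2

/-- prescribed products with vectors of `U` -/
theorem exists_dual (hS : S.Nondeg) (h : TSDec S U U') {A : Submodule F V} (hA : A ≤ U) {u : V}
    (hu : u ∈ U) (huA : u ∉ A) (c : F) : ∃ y ∈ U', (∀ x ∈ A, S.h x y = 0) ∧ S.h u y = c := by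
  obtain ⟨y, hy, huy⟩ := hS.exists_perp_of_notMem' huA c
  obtain ⟨a, ha, b, hb, rfl⟩ := h.decomp y
  refine ⟨b, hb, fun x hx => ?_, ?_⟩
  · simpa [h.ts.h_eq (hA hx) ha] using hy x hx
  · simpa [h.ts.h_eq hu ha] using huy

theorem eich_stab (h : TSDec S U U') {u v : V} (hu : u ∈ U) (hv : v ∈ U') (huv : S.h u v = 0) :
    S.eich u v 0 ∈ S.stab U ⊓ S.stab U' := by
  have hc := econd_zero (h.ts.sing u hu) (h.ts'.sing v hv) huv
  refine ⟨mem_stab_of_le fun x hx => ?_, mem_stab_of_le fun x hx => ?_⟩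
  · rw [eich_apply_of_perp hc (h.ts.h_eq hu hx)]
    exact U.sub_mem hx (U.smul_mem _ hu)
  · rw [eich_apply hc, h.ts'.h_eq hv hx]
    simpa using U'.add_mem hx (U'.smul_mem _ hv)

variable {H : Subgroup S.Isom}

theorem mem_BSet (h : TSDec S U U') (hE : S.stab U ⊓ S.stab U' ⊓ S.E ≤ H) {u v : V} (hu : u ∈ U)
    (hv : v ∈ U') (huv : S.h u v = 0) : v ∈ BSet H (h.ts.sing u hu) :=
  ⟨0, econd_zero (h.ts.sing u hu) (h.ts'.sing v hv) huv,
    hE ⟨h.eich_stab hu hv huv, S.eich_mem_E _ _ _⟩⟩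

theorem full (hS : S.Nondeg) (hL : LMin P) (h : TSDec S U U') (hk : 3 ≤ finrank F U)
    (hE : S.stab U ⊓ S.stab U' ⊓ S.E ≤ H) {u v : V} (hu : u ∈ U)
    (hv : v ∈ BSet H (h.ts.sing u hu)) (hvu : v ∉ U' ⊔ F ∙ u) : Full H u := by
  have hn := h.finrank_eq hS
  have hdec : ∀ v, S.h u v = 0 → ∃ a ∈ U, ∃ b ∈ BSet H (h.ts.sing u hu), v = a + b ∧ b ∈ U' := by
    intro v hv
    obtain ⟨a, ha, b, hb, rfl⟩ := h.decomp v
    exact ⟨a, ha, b, h.mem_BSet hE hu hb (by simpa [h.ts.h_eq hu ha] using hv), rfl, hb⟩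
  obtain ⟨y, hy, b, hb, rfl, hb'⟩ := hdec v (BSet_perp hv)
  have hyB : y ∈ BSet H (h.ts.sing u hu) := by simpa using AddSubgroup.sub_mem _ hv hb
  have hyu : y ∉ F ∙ u := fun hm => hvu (by
    rw [add_comm]; exact Submodule.add_mem_sup hb' hm)
  have key : ∀ w ∈ U, y ∉ Submodule.span F {u, w} → ∀ c : F, c • w ∈ BSet H (h.ts.sing u hu) := by
    intro w hw hyw c
    obtain ⟨z, hz, h1, h2⟩ := h.exists_dual hS (A := Submodule.span F {u, w})
      (Submodule.span_le.2 (by rintro x (rfl | rfl) <;> assumption)) hy hyw (-σ c)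
    have hwz := h1 w (Submodule.subset_span (by simp))
    have huz := h1 u (Submodule.subset_span (by simp))
    have hc := econd_zero (h.ts.sing w hw) (h.ts'.sing z hz) hwz
    have := BSet_map (hu' := h.ts.sing u hu) hyB (hE ⟨h.eich_stab hw hz hwz, S.eich_mem_E _ _ _⟩)
      (eich_apply_of_perp_perp (h.ts.h_eq hw hu) (S.h_swap_zero huz))
    rw [eich_apply_of_perp hc (h.ts.h_eq hw hy), S.symm y z, h2, map_neg, P.σσ, ← mul_assoc, P.εε,
      one_mul, neg_smul, sub_neg_eq_add] at this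
    simpa using AddSubgroup.sub_mem _ this hyB
  have hU : ∀ w ∈ U, ∃ c : F, w + c • u ∈ BSet H (h.ts.sing u hu) := by
    intro w hw
    by_cases hyw : y ∈ Submodule.span F {u, w}
    swap
    · exact ⟨0, by simpa using key w hw hyw 1⟩
    obtain ⟨α, β, hab⟩ := Submodule.mem_span_pair.1 hyw
    have hβ : β ≠ 0 := by
      rintro rfl
      exact hyu (Submodule.mem_span_singleton.2 ⟨α, by simpa using hab⟩)
    have := finrank_span_two_le (F := F) u y
    obtain ⟨w', hw', hw'n, -⟩ := exists_mem_ker_notMem [] U (Submodule.span F {u, y})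
      (by simp; omega)
    have aux : ∀ (c : F), y ∉ Submodule.span F {u, c • y + w'} := by
      intro c hm
      obtain ⟨α', β', hab'⟩ := Submodule.mem_span_pair.1 hm
      have hβ' : β' ≠ 0 := by
        rintro rfl
        exact hyu (Submodule.mem_span_singleton.2 ⟨α', by simpa using hab'⟩)
      apply hw'n
      rw [Submodule.mem_span_pair]
      refine ⟨-(β'⁻¹ * α'), β'⁻¹ - c, ?_⟩
      apply smul_right_injective V hβ'
      have := mul_inv_cancel₀ hβ'
      linear_combination (norm := module) -hab' + this • (y - α' • u)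
    have h1 := key _ (U.add_mem (U.smul_mem β⁻¹ hy) hw') (aux β⁻¹) 1
    have h2 := key _ (U.add_mem (U.smul_mem 0 hy) hw') (aux 0) 1
    refine ⟨β⁻¹ * α, ?_⟩
    have h3 := AddSubgroup.sub_mem _ h1 h2
    convert h3 using 1
    have := inv_mul_cancel₀ hβ
    linear_combination (norm := module) β⁻¹ • hab - this • w
  refine full_of_BSet_mod hS hL (by omega) (h.ts.sing u hu) fun v hv => ?_
  obtain ⟨a, ha, b, hb, rfl, -⟩ := hdec v hv
  obtain ⟨c, hc⟩ := hU a ha
  exact ⟨c, by rw [add_right_comm]; exact AddSubgroup.add_mem _ hc hb⟩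

theorem exists_perp_mem (l : List V) (A : Submodule F V) (hd : finrank F A + l.length < finrank F U) :
    ∃ u ∈ U, u ∉ A ∧ ∀ x ∈ l, S.h x u = 0 := by
  obtain ⟨u, hu, huA, h⟩ := exists_mem_ker_notMem (l.map fun x => S.h x) U A (by simpa using hd)
  exact ⟨u, hu, huA, fun x hx => h _ (List.mem_map_of_mem hx)⟩

theorem stab_of_small (h : TSDec S U U') (hk : 5 ≤ finrank F U)
    (hE : S.stab U ⊓ S.stab U' ⊓ S.E ≤ H)
    (hB : ∀ u (hu : u ∈ U), u ≠ 0 → ∀ v ∈ BSet H (h.ts.sing u hu), v ∈ U' ⊔ F ∙ u) {x y : V} {a : F}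
    (hH : S.eich x y a ∈ H) {z : V} (hz : z ∈ U') : (S.eich x y a).1 z ∈ U' := by
  have key : ∀ u ∈ U, u ≠ 0 → S.h x u = 0 → S.h y u = 0 → S.h z u = 0 →
      ∃ t ∈ U', ∃ c : F, t + c • u = (S.eich x y a).1 z := by
    intro u hu hu0 h1 h2 h3
    have := hB u hu hu0 _ (BSet_map (h.mem_BSet hE hu hz (S.h_swap_zero h3)) hH
      (eich_apply_of_perp_perp h1 h2))
    obtain ⟨t, ht, s, hs, h⟩ := Submodule.mem_sup.1 this
    obtain ⟨c, rfl⟩ := Submodule.mem_span_singleton.1 hs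
    exact ⟨t, ht, c, h⟩
  obtain ⟨u, hu, hu0, hp⟩ := exists_perp_mem (S := S) (U := U) [x, y, z] ⊥ (by simp; omega)
  have := finrank_span_one_le (F := F) u
  obtain ⟨u', hu', hu0', hp'⟩ := exists_perp_mem (S := S) (U := U) [x, y, z] (F ∙ u)
    (by simp; omega)
  simp only [List.mem_cons, List.not_mem_nil, or_false, forall_eq_or_imp, forall_eq,
    Submodule.mem_bot] at hp hp' hu0
  obtain ⟨t, ht, c, e⟩ := key u hu hu0 hp.1 hp.2.1 hp.2.2
  obtain ⟨t', ht', c', e'⟩ := key u' hu' (fun h => hu0' (by simp [h])) hp'.1 hp'.2.1 hp'.2.2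
  have h1 : c' • u' - c • u = 0 := h.eq_zero (U.sub_mem (U.smul_mem _ hu') (U.smul_mem _ hu)) (by
    have : c' • u' - c • u = t - t' := by linear_combination (norm := module) e' - e
    rw [this]; exact U'.sub_mem ht ht')
  rw [← e, (eq_zero_of_indep hu0 hu0' h1).2]
  simpa using ht

theorem side (hS : S.Nondeg) (h : TSDec S U U') (hk : 3 ≤ finrank F U) (g : S.Isom)
    (hg : ∀ u ∈ U, ∀ v ∈ U', S.h u v = 0 →
      S.eich (g.1 u) (g.1 v) 0 ∈ S.stab U ⊓ S.stab U') {u : V} (hu : u ∈ U) :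
    g.1 u ∈ U ∨ g.1 u ∈ U' := by
  have hn := h.finrank_eq hS
  have hn' := h.symm.finrank_eq hS
  obtain ⟨a, ha, a', ha', e⟩ := h.decomp (g.1 u)
  by_cases h0 : a = 0
  · right; rw [e, h0, zero_add]; exact ha'
  by_cases h0' : a' = 0
  · left; rw [e, h0', add_zero]; exact ha
  exfalso
  have aux : ∀ {U U' : Submodule F V}, TSDec S U U' → ∀ {x y a a' b b' : V}, S.ECond x y 0 →
      S.eich x y 0 ∈ S.stab U → a ∈ U → a' ∈ U' → b ∈ U → b' ∈ U' → x = a + a' → y = b + b' →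
      a' ≠ 0 → b' ∈ F ∙ a' := by
    intro U U' h x y a a' b b' hc hs ha ha' hb hb' e1 e2 h0
    obtain ⟨z, hz, -, h1⟩ := h.symm.exists_dual hS (A := ⊥) bot_le ha' (by simpa using h0) 1
    have h2 := (hs z).1 hz
    have h3 : S.h x z = 1 := by simp [e1, h1, h.ts.h_eq ha hz]
    rw [eich_apply hc, h3, one_smul, add_sub_assoc, Submodule.add_mem_iff_right _ hz] at h2
    set κ := P.ε * (S.h y z + 0 * 1)
    have h4 : b' - κ • a' = 0 := h.eq_zero (by
      have : b' - κ • a' = (y - κ • x) - (b - κ • a) := by rw [e1, e2]; module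
      rw [this]
      exact U.sub_mem h2 (U.sub_mem hb (U.smul_mem _ ha))) (U'.sub_mem hb' (U'.smul_mem _ ha'))
    exact Submodule.mem_span_singleton.2 ⟨κ, (sub_eq_zero.1 h4).symm⟩
  have key : ∀ v ∈ U', S.h u v = 0 → g.1 v ∈ Submodule.span F {a, a'} := by
    intro v hv huv
    obtain ⟨b, hb, b', hb', e'⟩ := h.decomp (g.1 v)
    have hc := (econd_zero (h.ts.sing u hu) (h.ts'.sing v hv) huv).map g
    have h1 := aux h hc (hg u hu v hv huv).1 ha ha' hb hb' e e' h0'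
    have h2 := aux h.symm hc (hg u hu v hv huv).2 ha' ha hb' hb (by rw [e, add_comm])
      (by rw [e', add_comm]) h0
    rw [e']
    exact Submodule.add_mem _ (Submodule.span_mono (by simp) h2) (Submodule.span_mono (by simp) h1)
  have h1 := finrank_span_two_le (F := F) a a'
  let A := (Submodule.span F {a, a'}).map ((g⁻¹).1 : V →ₗ[F] V) ⊓ U'
  have hA : finrank F A ≤ 1 := by
    have h2 : finrank F ↥((Submodule.span F {a, a'}).map ((g⁻¹).1 : V →ₗ[F] V)) ≤ 2 := by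
      rwa [LinearEquiv.finrank_map_eq]
    have h3 : A < (Submodule.span F {a, a'}).map ((g⁻¹).1 : V →ₗ[F] V) := by
      refine lt_of_le_of_ne inf_le_left fun he => ?_
      have : u ∈ A := by
        rw [he]
        exact ⟨g.1 u, by
          rw [e]; exact Submodule.add_mem _ (Submodule.subset_span (by simp))
            (Submodule.subset_span (by simp)), by simp⟩
      have h4 := h.eq_zero hu this.2
      rw [h4, map_zero] at e
      exact h0 (h.eq_zero ha (by rw [eq_neg_of_add_eq_zero_left e.symm]; exact U'.neg_mem ha'))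
    have := Submodule.finrank_lt_finrank_of_lt h3
    omega
  obtain ⟨v, hv, hvA, hp⟩ := exists_perp_mem (S := S) (U := U') [u] A (by simp; omega)
  exact hvA ⟨⟨g.1 v, key v hv (hp u (by simp)), by simp⟩, hv⟩

end TSDec

omit [FiniteDimensional F V] in
theorem map_le_or {W A B : Submodule F V} (g : V →ₗ[F] V) (h : ∀ x ∈ W, g x ∈ A ∨ g x ∈ B) :
    (∀ x ∈ W, g x ∈ A) ∨ ∀ x ∈ W, g x ∈ B := by
  by_contra hc
  push Not at hc
  obtain ⟨⟨x, hx, hxA⟩, y, hy, hyB⟩ := hc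
  have h1 := (h x hx).resolve_left hxA
  have h2 := (h y hy).resolve_right hyB
  rcases h (x + y) (W.add_mem hx hy) with h3 | h3 <;> rw [map_add] at h3
  · exact hxA ((A.add_mem_iff_left h2).1 h3)
  · exact hyB ((B.add_mem_iff_right h1).1 h3)

theorem tsdec_dichotomy (hS : S.Nondeg) (hL : LMin P) {U U' : Submodule F V} (h : TSDec S U U')
    (hk : 5 ≤ finrank F U) (H : Subgroup S.Isom) (hE : S.stab U ⊓ S.stab U' ⊓ S.E ≤ H)
    (hs : ∃ s ∈ H, (∀ x ∈ U, s.1 x ∈ U') ∧ ∀ x ∈ U', s.1 x ∈ U) :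
    S.E ≤ H ∨ ∀ g ∈ H, ((∀ x ∈ U, g.1 x ∈ U) ∨ ∀ x ∈ U, g.1 x ∈ U') ∧
      ((∀ x ∈ U', g.1 x ∈ U) ∨ ∀ x ∈ U', g.1 x ∈ U') := by
  have hn := h.finrank_eq hS
  have hn' := h.symm.finrank_eq hS
  have hE' : S.stab U' ⊓ S.stab U ⊓ S.E ≤ H := by rwa [inf_comm (S.stab U')]
  obtain ⟨s, hsH, hs1, hs2⟩ := hs
  have full : ∀ {U U' : Submodule F V}, TSDec S U U' → S.stab U ⊓ S.stab U' ⊓ S.E ≤ H →
      (∀ x ∈ U, s.1 x ∈ U') → 3 ≤ finrank F U' → ∀ u ∈ U, u ≠ 0 → Full H u → S.E ≤ H := by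
    intro U U' h hE hs1 hk u hu hu0 hf
    have hs := h.ts.sing u hu
    have h1 := hf.map hsH
    have h2 := hs1 u hu
    by_cases h3 : S.h u (s.1 u) = 0
    swap
    · exact S.E_le_iff.2 fun x v a _ =>
        full_all_of_pair hS hs (h.ts'.sing _ h2) hf h1 h3 x v a
    obtain ⟨f, hf', -, h4⟩ := h.exists_dual hS (A := ⊥) bot_le hu (by simpa using hu0) 1
    obtain ⟨z, hz, h5, h6⟩ := h.symm.exists_dual hS (A := F ∙ f)
      ((Submodule.span_singleton_le_iff_mem _ _).2 hf') h2 (fun hm => by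
        obtain ⟨c, hc⟩ := Submodule.mem_span_singleton.1 hm
        rw [← hc, map_smul, h4, smul_eq_mul, mul_one] at h3
        rw [h3, zero_smul] at hc
        exact hu0 (by simpa using hc.symm)) 1
    have hfz := h5 f (Submodule.mem_span_singleton_self f)
    have hc := econd_zero (h.ts'.sing f hf') (h.ts.sing z hz) hfz
    have h7 := h1.map (hE ⟨by rw [inf_comm]; exact h.symm.eich_stab hf' hz hfz,
      S.eich_mem_E _ _ _⟩)
    refine S.E_le_iff.2 fun x v a _ => full_all_of_pair hS hs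
      ((isom_sing _ _).2 (h.ts'.sing _ h2)) hf h7 ?_ x v a
    rw [eich_apply_of_perp hc (h.ts'.h_eq hf' h2), S.symm _ z, h6]
    simp [h3, h4, P.ε_ne_zero]
  by_cases hB : ∀ u (hu : u ∈ U), u ≠ 0 → ∀ v ∈ BSet H (h.ts.sing u hu), v ∈ U' ⊔ F ∙ u
  swap
  · push Not at hB
    obtain ⟨u, hu, hu0, v, hv, hvu⟩ := hB
    exact Or.inl (full h hE hs1 (by omega) u hu hu0 (h.full hS hL (by omega) hE hu hv hvu))
  by_cases hB' : ∀ u (hu : u ∈ U'), u ≠ 0 → ∀ v ∈ BSet H (h.symm.ts.sing u hu), v ∈ U ⊔ F ∙ u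
  swap
  · push Not at hB'
    obtain ⟨u, hu, hu0, v, hv, hvu⟩ := hB'
    exact Or.inl (full h.symm hE' hs2 (by omega) u hu hu0
      (h.symm.full hS hL (by omega) hE' hu hv hvu))
  have st : ∀ x y a, S.eich x y a ∈ H → S.eich x y a ∈ S.stab U ⊓ S.stab U' := fun x y a hH =>
    ⟨mem_stab_of_le fun z hz => h.symm.stab_of_small (by omega) hE' hB' hH hz,
      mem_stab_of_le fun z hz => h.stab_of_small hk hE hB hH hz⟩
  refine Or.inr fun g hg => ⟨map_le_or (g.1 : V →ₗ[F] V) fun x hx => ?_,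
    map_le_or (g.1 : V →ₗ[F] V) fun x hx => ?_⟩
  · refine h.side hS (by omega) g (fun u hu v hv huv => st _ _ _ ?_) hx
    rw [← conj_eich]
    exact H.mul_mem (H.mul_mem hg (hE ⟨h.eich_stab hu hv huv, S.eich_mem_E _ _ _⟩)) (H.inv_mem hg)
  · refine (h.symm.side hS (by omega) g (fun u hu v hv huv => ?_) hx).symm
    rw [inf_comm]
    apply st
    rw [← conj_eich]
    exact H.mul_mem (H.mul_mem hg (hE' ⟨h.symm.eich_stab hu hv huv, S.eich_mem_E _ _ _⟩))
      (H.inv_mem hg)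

theorem TSDec.exists_bases (hS : S.Nondeg) {U U' : Submodule F V} (h : TSDec S U U') :
    ∃ e f : Fin (finrank F U) → V, (∀ i, e i ∈ U) ∧ (∀ i, f i ∈ U') ∧
      (∀ i j, S.h (e i) (f j) = if i = j then 1 else 0) ∧
      Submodule.span F (Set.range e) = U ∧ Submodule.span F (Set.range f) = U' := by
  classical
  let b := Module.finBasis F U
  have hli : LinearIndependent F (fun i => (b i : V)) :=
    b.linearIndependent.map' U.subtype (Submodule.ker_subtype U)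
  have hsp : Submodule.span F (Set.range fun i => (b i : V)) = U := by
    have : (Set.range fun i => (b i : V)) = U.subtype '' Set.range b := by
      rw [← Set.range_comp]; rfl
    rw [this, ← Submodule.map_span, b.span_eq, Submodule.map_top, Submodule.range_subtype]
  have : ∀ j, ∃ y ∈ U', ∀ i, S.h (b i) y = if i = j then 1 else 0 := by
    intro j
    obtain ⟨y, hy⟩ := hS.exists_forall_h_eq hli (fun i => if i = j then 1 else 0)
    obtain ⟨a, ha, c, hc, rfl⟩ := h.decomp y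
    exact ⟨c, hc, fun i => by simpa [h.ts.h_eq (b i).2 ha] using hy i⟩
  choose f hf hf' using this
  refine ⟨fun i => b i, f, fun i => (b i).2, hf, fun i j => hf' j i, hsp, le_antisymm
    (Submodule.span_le.2 (by rintro _ ⟨i, rfl⟩; exact hf i)) fun y hy => ?_⟩
  have h1 : y - ∑ j, S.h (b j) y • f j = 0 := by
    refine h.eq_zero ?_ (U'.sub_mem hy (U'.sum_mem fun j _ => U'.smul_mem _ (hf j)))
    apply (h.perp_eq hS).le
    have : y - ∑ j, S.h (b j) y • f j ∈
        S.perp (Submodule.span F (Set.range fun i => (b i : V))) := by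
      rw [mem_perp_span]
      rintro _ ⟨i, rfl⟩
      simp [hf']
    rwa [hsp] at this
  rw [sub_eq_zero.1 h1]
  exact Submodule.sum_mem _ fun j _ => Submodule.smul_mem _ _ (Submodule.subset_span ⟨j, rfl⟩)

theorem TSDec.exists_swap (hS : S.Nondeg) {U U' : Submodule F V} (h : TSDec S U U')
    (t : S.Isom ⧸ S.E) (hw : ∀ e f, S.IsHyp e f → ∃ w : S.Isom, w.1 e ∈ F ∙ f ∧ w.1 f ∈ F ∙ e ∧
      (∀ x, S.h e x = 0 → S.h f x = 0 → w.1 x = x) ∧ QuotientGroup.mk' S.E w = t) :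
    ∃ s : S.Isom, (∀ x ∈ U, s.1 x ∈ U') ∧ (∀ x ∈ U', s.1 x ∈ U) ∧
      QuotientGroup.mk' S.E s = t ^ finrank F U := by
  classical
  obtain ⟨e, f, he, hf, hef, hsp, hsp'⟩ := h.exists_bases hS
  have key : ∀ J : Finset (Fin (finrank F U)), ∃ s : S.Isom,
      (∀ i ∈ J, s.1 (e i) ∈ U' ∧ s.1 (f i) ∈ U) ∧ (∀ i ∉ J, s.1 (e i) = e i ∧ s.1 (f i) = f i) ∧
      QuotientGroup.mk' S.E s = t ^ J.card := by
    intro J
    induction J using Finset.induction_on with
    | empty => exact ⟨1, by simp, by simp, by simp⟩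
    | insert i J hi ih =>
      obtain ⟨s, h1, h2, h3⟩ := ih
      obtain ⟨w, w1, w2, w3, w4⟩ := hw (e i) (f i)
        ⟨h.ts.sing _ (he i), h.ts'.sing _ (hf i), by simp [hef]⟩
      have fix : ∀ j, j ≠ i → w.1 (e j) = e j ∧ w.1 (f j) = f j := fun j hj =>
        ⟨w3 _ (h.ts.h_eq (he i) (he j)) (S.h_swap_zero (by simp [hef, hj])),
          w3 _ (by simp [hef, hj.symm]) (h.ts'.h_eq (hf i) (hf j))⟩
      refine ⟨s * w, fun j hj => ?_, fun j hj => ?_, ?_⟩
      · by_cases hji : j = i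
        · subst hji
          obtain ⟨c, hc⟩ := Submodule.mem_span_singleton.1 w1
          obtain ⟨d, hd⟩ := Submodule.mem_span_singleton.1 w2
          rw [isom_mul_apply, isom_mul_apply, ← hc, ← hd, map_smul, map_smul, (h2 j hi).1,
            (h2 j hi).2]
          exact ⟨U'.smul_mem _ (hf j), U.smul_mem _ (he j)⟩
        · rw [isom_mul_apply, isom_mul_apply, (fix j hji).1, (fix j hji).2]
          exact h1 j ((Finset.mem_insert.1 hj).resolve_left hji)
      · rw [Finset.mem_insert, not_or] at hj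
        rw [isom_mul_apply, isom_mul_apply, (fix j hj.1).1, (fix j hj.1).2]
        exact h2 j hj.2
      · rw [map_mul, h3, w4, Finset.card_insert_of_notMem hi, pow_succ]
  obtain ⟨s, h1, -, h3⟩ := key Finset.univ
  refine ⟨s, ?_, ?_, by simpa using h3⟩
  · have : Submodule.span F (Set.range e) ≤ U'.comap (s.1 : V →ₗ[F] V) :=
      Submodule.span_le.2 (by rintro _ ⟨i, rfl⟩; exact (h1 i (by simp)).1)
    rw [hsp] at this
    exact this
  · have : Submodule.span F (Set.range f) ≤ U.comap (s.1 : V →ₗ[F] V) :=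
      Submodule.span_le.2 (by rintro _ ⟨i, rfl⟩; exact (h1 i (by simp)).2)
    rw [hsp'] at this
    exact this

omit [FiniteDimensional F V] in
theorem exists_weyl (hΛ : P.Λ ≠ ⊥) {e f : V} (H : S.IsHyp e f) :
    ∃ w ∈ S.E, w.1 e ∈ F ∙ f ∧ w.1 f ∈ F ∙ e ∧ ∀ x, S.h e x = 0 → S.h f x = 0 → w.1 x = x := by
  obtain ⟨a, ha, ha0⟩ := (AddSubgroup.bot_or_exists_ne_zero P.Λ).resolve_left hΛ
  have h1 := P.mem_imp a ha
  have h2 := P.εε
  have hb : -(P.ε * a⁻¹) ∈ P.Λ := by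
    have := P.conj_mem a⁻¹ a ha
    convert this using 1
    have h4 : σ a = -(P.ε * a) := by linear_combination P.ε * h1 - σ a * h2
    have := P.ε_ne_zero
    rw [map_inv₀, h4]
    field_simp
    linear_combination -h2
  have h5 := mul_inv_cancel₀ ha0
  refine ⟨S.eich e 0 a * S.eich f 0 (-(P.ε * a⁻¹)) * S.eich e 0 a,
    S.E.mul_mem (S.E.mul_mem (S.eich_mem_E _ _ _) (S.eich_mem_E _ _ _)) (S.eich_mem_E _ _ _),
    Submodule.mem_span_singleton.2 ⟨P.ε * a⁻¹, ?_⟩,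
    Submodule.mem_span_singleton.2 ⟨-(P.ε * a), ?_⟩, fun x h1 h2 => ?_⟩
  · simp only [isom_mul_apply, transv_apply H.sing_e ha, transv_apply H.sing_f hb, H.h_ee, H.h_ef,
      H.h_fe, H.h_ff, map_sub, map_smul, smul_eq_mul]
    linear_combination (norm := module) (-(P.ε * a⁻¹) * h2) • f +
      ((P.ε * P.ε + 1) * (a * a⁻¹) * h2 + h5) • e
  · simp only [isom_mul_apply, transv_apply H.sing_e ha, transv_apply H.sing_f hb, H.h_ee, H.h_ef,
      H.h_fe, H.h_ff, map_sub, map_smul, smul_eq_mul]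
    linear_combination (norm := module) ((P.ε * P.ε + 1) * (a * a⁻¹) * h2 + h5) • f -
      (P.ε * a * ((P.ε * P.ε + 1) * (a * a⁻¹) * h2 + h5)) • e
  · simp [transv_apply H.sing_e ha, transv_apply H.sing_f hb, h1, h2]

theorem TSDec.exists_swap_of_ne (hS : S.Nondeg) (hΛ : P.Λ ≠ ⊥) {U U' : Submodule F V}
    (h : TSDec S U U') : ∃ s ∈ S.E, (∀ x ∈ U, s.1 x ∈ U') ∧ ∀ x ∈ U', s.1 x ∈ U := by
  obtain ⟨s, h1, h2, h3⟩ := h.exists_swap hS 1 (fun e f H => by
    obtain ⟨w, hw, h⟩ := exists_weyl hΛ H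
    exact ⟨w, h.1, h.2.1, h.2.2, (QuotientGroup.eq_one_iff _).2 hw⟩)
  exact ⟨s, (QuotientGroup.eq_one_iff _).1 (by simpa using h3), h1, h2⟩

omit [FiniteDimensional F V] in
theorem orth_swap_refl {S : PForm (orthP F) V} {e f : V} (H : S.IsHyp e f) :
    S.QCond (e - f) (-1) ∧ (S.qrefl (e - f) (-1)).1 e = f ∧ (S.qrefl (e - f) (-1)).1 f = e := by
  have hc : S.QCond (e - f) (-1) := ⟨by simp, by
    simp [orth_q_sub, (orth_sing S _).1 H.sing_e, (orth_sing S _).1 H.sing_f, H.h_ef]⟩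
  refine ⟨hc, ?_, ?_⟩ <;> simp [qrefl_apply hc, H.h_ee, H.h_ef, H.h_fe, H.h_ff]

theorem TSDec.exists_swap_orth {S : PForm (orthP F) V} (hS : S.Nondeg) (h3 : Iso3 S)
    (hn : 5 ≤ finrank F V) {U U' : Submodule F V} (h : TSDec S U U') (hk : Even (finrank F U)) :
    ∃ s ∈ S.E, (∀ x ∈ U, s.1 x ∈ U') ∧ ∀ x ∈ U', s.1 x ∈ U := by
  obtain ⟨e₀, -, f₀, -, H₀⟩ := exists_hyp_mem h3 (W := ⊤) (by
    rw [restrict_nondeg_iff, hS.perp_top]; simp) (by rw [finrank_top]; omega)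
  have ne : ∀ {e f : V}, S.IsHyp e f → e - f ≠ 0 := fun H h0 => by
    have := H.h_ef
    rw [sub_eq_zero.1 h0, H.h_ff] at this
    exact zero_ne_one this
  obtain ⟨s, h1, h2, h4⟩ := h.exists_swap hS (QuotientGroup.mk' S.E (S.qrefl (e₀ - f₀) (-1)))
    (fun e f H => by
      obtain ⟨c, c1, c2⟩ := orth_swap_refl H
      refine ⟨S.qrefl (e - f) (-1), by rw [c1]; exact Submodule.mem_span_singleton_self _,
        by rw [c2]; exact Submodule.mem_span_singleton_self _,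
        fun x h1 h2 => qrefl_apply_of_perp (by simp [h1, h2]), ?_⟩
      obtain ⟨g, hg, h⟩ := exists_qrefl_conj hS h3 hn (ne H₀) (ne H) (by
        have := (orthP F).Λ.sub_mem (orth_swap_refl H₀).1.q c.q
        convert this using 1; ring) (-1)
      have h2 : QuotientGroup.mk' S.E g = 1 := (QuotientGroup.eq_one_iff g).2 hg
      rw [← h, map_mul, map_mul, map_inv, h2]; simp)
  refine ⟨s, (QuotientGroup.eq_one_iff _).1 ?_, h1, h2⟩
  obtain ⟨j, hj⟩ := hk
  have h5 : S.qrefl (e₀ - f₀) (-1) * S.qrefl (e₀ - f₀) (-1) = 1 := by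
    rw [← eq_inv_iff_mul_eq_one, qrefl_inv (orth_swap_refl H₀).1]; simp
  rw [← QuotientGroup.mk'_apply, h4, hj, ← two_mul, pow_mul, pow_two, ← map_mul, h5]; simp

section Mat
variable {ι : Type} [Fintype ι] [DecidableEq ι]

theorem tsdec_of_mdec {S : PForm P (ι → F)} {k : ℕ} {D : Fin 2 → Submodule F (ι → F)}
    (hD : Cfsg.Geo.IsMDecomposition k D) (h0 : S.TS (D 0)) (h1 : S.TS (D 1)) :
    TSDec S (D 0) (D 1) := by
  refine ⟨h0, h1, hD.indep.pairwiseDisjoint (show (0 : Fin 2) ≠ 1 by decide), ?_⟩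
  rw [codisjoint_iff, ← hD.iSup_eq_top]
  exact le_antisymm (sup_le (le_iSup D 0) (le_iSup D 1))
    (iSup_le (Fin.forall_fin_two.2 ⟨le_sup_left, le_sup_right⟩))

theorem mem_decStab_of_forall {S : PForm P (ι → F)} {k t : ℕ} {D : Fin t → Submodule F (ι → F)}
    (hD : Cfsg.Geo.IsMDecomposition k D) (g : S.Isom) (h : ∀ i, ∃ j, ∀ x ∈ D i, g.1 x ∈ D j) :
    toGL S g ∈ Cfsg.Geo.decompositionStabilizer D :=
  (mem_decompositionStabilizer_toGL S D g).2 (exists_perm_of_forall hD.pos hD.finrank_eq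
    (fun _ _ hij => hD.indep.pairwiseDisjoint hij) g.1 h)

theorem forall_of_mem_decStab {S : PForm P (ι → F)} {t : ℕ} {D : Fin t → Submodule F (ι → F)}
    {g : S.Isom} (h : toGL S g ∈ Cfsg.Geo.decompositionStabilizer D) (i : Fin t) :
    ∃ j, ∀ x ∈ D i, g.1 x ∈ D j := by
  obtain ⟨τ, hτ⟩ := (mem_decompositionStabilizer_toGL S D g).1 h
  exact ⟨τ i, fun x hx => by rw [← hτ]; exact ⟨x, hx, rfl⟩⟩

theorem TSDec.exists_E_mix {V : Type*} [AddCommGroup V] [Module F V] [FiniteDimensional F V]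
    {S : PForm P V} (hS : S.Nondeg) {U U' : Submodule F V} (h : TSDec S U U')
    (hk : 2 ≤ finrank F U) : ∃ g ∈ S.E, g ∈ S.stab U ∧ ∃ x ∈ U', g.1 x ∉ U ∧ g.1 x ∉ U' := by
  obtain ⟨u, hu, hu0⟩ := exists_ne_zero_of_finrank U (by omega)
  have := finrank_span_one_le (F := F) u
  obtain ⟨v, hv, hvu, -⟩ := exists_mem_ker_notMem [] U (F ∙ u) (by simp; omega)
  obtain ⟨z, hz, h1, h2⟩ := h.exists_dual hS ((Submodule.span_singleton_le_iff_mem _ _).2 hu) hv
    hvu 1
  have hc := econd_zero (h.ts.sing u hu) (h.ts.sing v hv) (h.ts.h_eq hu hv)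
  have h3 : (S.eich u v 0).1 z = z - P.ε • u := by
    rw [eich_apply_of_perp hc (h1 u (Submodule.mem_span_singleton_self u)), h2, mul_one]
  refine ⟨_, S.eich_mem_E u v 0, eich_mem_stab hu hv 0, z, hz, fun hm => ?_, fun hm => ?_⟩
  · rw [h3, Submodule.sub_mem_iff_left _ (U.smul_mem _ hu)] at hm
    rw [h.eq_zero hm hz] at h2
    simp at h2
  · rw [h3, Submodule.sub_mem_iff_right _ hz, Submodule.smul_mem_iff _ P.ε_ne_zero] at hm
    exact hu0 (h.eq_zero hu hm)

theorem isMaximalIn_tsdec {S : PForm P (ι → F)} (hS : S.Nondeg) (hL : LMin P) {k : ℕ} (hk : 5 ≤ k)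
    {D : Fin 2 → Submodule F (ι → F)} (hD : Cfsg.Geo.IsMDecomposition k D)
    (h : TSDec S (D 0) (D 1))
    (hs : ∃ s ∈ S.E, (∀ x ∈ D 0, s.1 x ∈ D 1) ∧ ∀ x ∈ D 1, s.1 x ∈ D 0) :
    Cfsg.Geo.IsMaximalIn (EGL S) (Cfsg.Geo.decompositionStabilizer D ⊓ EGL S) := by
  have h0 := hD.finrank_eq 0
  apply isMaximalIn_EGL
  · obtain ⟨g, hg, -, x, hx, h1, h2⟩ := h.exists_E_mix hS (by omega)
    refine ⟨g, hg, fun hm => ?_⟩
    obtain ⟨j, hj⟩ := forall_of_mem_decStab hm 1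
    revert j
    exact Fin.forall_fin_two.2 ⟨fun hj => h1 (hj x hx), fun hj => h2 (hj x hx)⟩
  · intro H h1 _
    obtain ⟨s, hs, s1, s2⟩ := hs
    refine (tsdec_dichotomy hS hL h (by omega) H (fun g hg => h1 ⟨mem_decStab_of_forall hD g
      (Fin.forall_fin_two.2 ⟨⟨0, fun x hx => (hg.1.1 x).1 hx⟩, ⟨1, fun x hx => (hg.1.2 x).1 hx⟩⟩),
      hg.2⟩) ⟨s, h1 ⟨mem_decStab_of_forall hD s (Fin.forall_fin_two.2 ⟨⟨1, s1⟩, ⟨0, s2⟩⟩), hs⟩,
        s1, s2⟩).imp id fun h2 g hg => mem_decStab_of_forall hD g (Fin.forall_fin_two.2 ⟨?_, ?_⟩)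
    · exact (h2 g hg).1.elim (fun h => ⟨0, h⟩) (fun h => ⟨1, h⟩)
    · exact (h2 g hg).2.elim (fun h => ⟨0, h⟩) (fun h => ⟨1, h⟩)

end Mat

end H29
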