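import Cfsg.Agent.H29.TK4
import Cfsg.Agent.H29.RatC
import Cfsg.Agent.H29.TSDec
import Cfsg.Agent.H29.ND

/-! Geometric maximal subgroups of `SU_n(q)` with the dimension bounds of the library. -/

set_option autoImplicit false

namespace H29

open H11 H11.PForm Matrix

theorem su_ts_max {F : Type*} [Field F] [Fintype F] {n q : ℕ} (hF : Fintype.card F = q ^ 2) (hn : 5 ≤ n) (W : Submodule F (Fin n → F)) (hW0 : W ≠ ⊥) (hW : Cfsg.Geo.IsTotallySingularFor (Cfsg.hermForm n F q) W) : Cfsg.Geo.IsMaximalIn (Cfsg.GU n F q ⊓ Cfsg.Geo.specialLinear (Fin n) F) (Cfsg.Geo.subspaceStabilizer W ⊓ (Cfsg.GU n F q ⊓ Cfsg.Geo.specialLinear (Fin n) F)) := by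
  obtain ⟨σ, hq, hσ, hne⟩ := H11.exists_frob hF
  rw [H29.su_eq hσ hne hq (by omega)]
  exact H29.isMaximalIn_ts (H11.stdUnit_nondeg hσ hne _) (by simp; omega)
    (H29.unit_ts fun x hx y hy => by rw [H11.stdUnit_h_eq hσ hne hq]; exact hW y hy x hx) hW0
    (Or.inl (H29.unit_Λ_ne hσ hne))

theorem su_nd_max {F : Type*} [Field F] [Fintype F] {n q : ℕ} (hF : Fintype.card F = q ^ 2) (hn : 9 ≤ n) (W : Submodule F (Fin n → F)) (hW0 : W ≠ ⊥) (hW : Cfsg.Geo.IsNondegenerateOn (Cfsg.hermForm n F q) W) (hdim : 2 * Module.finrank F W < n) : Cfsg.Geo.IsMaximalIn (Cfsg.GU n F q ⊓ Cfsg.Geo.specialLinear (Fin n) F) (Cfsg.Geo.subspaceStabilizer W ⊓ (Cfsg.GU n F q ⊓ Cfsg.Geo.specialLinear (Fin n) F)) := by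
  obtain ⟨σ, hq, hσ, hne⟩ := H11.exists_frob hF
  rw [H29.su_eq hσ hne hq (by omega)]
  have hW' : ((stdUnit hσ hne (Fin n)).restrict W).Nondeg := by
    rw [restrict_nondeg_iff']
    intro x hx h'
    by_contra h0
    obtain ⟨y, hy, hxy⟩ := (hW x hx h0).1
    exact hxy (by rw [← stdUnit_h_eq hσ hne hq]; exact h' y hy)
  exact isMaximalIn_nd_small (stdUnit_nondeg hσ hne _) (iso3_unit hne _) (by simp; omega) hW' hW0
    (by simp; omega) (isomIrr_of_ne hW' (unit_Λ_ne hσ hne))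

theorem su_tsdec_max {F : Type*} [Field F] [Fintype F] {n q : ℕ} (hF : Fintype.card F = q ^ 2) (hn : 10 ≤ n) (k : ℕ) (hk : 2 * k = n) (D : Fin 2 → Submodule F (Fin n → F)) (hD : Cfsg.Geo.IsMDecomposition k D) (hts : ∀ i, Cfsg.Geo.IsTotallySingularFor (Cfsg.hermForm n F q) (D i)) : Cfsg.Geo.IsMaximalIn (Cfsg.GU n F q ⊓ Cfsg.Geo.specialLinear (Fin n) F) (Cfsg.Geo.decompositionStabilizer D ⊓ (Cfsg.GU n F q ⊓ Cfsg.Geo.specialLinear (Fin n) F)) := by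
  obtain ⟨σ, hq, hσ, hne⟩ := H11.exists_frob hF
  rw [H29.su_eq hσ hne hq (by omega)]
  have hts' : ∀ i, (stdUnit hσ hne (Fin n)).TS (D i) := fun i =>
    unit_ts fun x hx y hy => by rw [stdUnit_h_eq hσ hne hq]; exact hts i y hy x hx
  have h := tsdec_of_mdec hD (hts' 0) (hts' 1)
  exact isMaximalIn_tsdec (stdUnit_nondeg hσ hne _) (lmin_unit hσ hne) (by omega) hD h
    (h.exists_swap_of_ne (stdUnit_nondeg hσ hne _) (unit_Λ_ne hσ hne))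

theorem su_rat_odd {F : Type*} [Field F] [Fintype F] {n q : ℕ} (hF : Fintype.card F = q ^ 2) (hn : 11 ≤ n) (F₀ : Subfield F) (r : ℕ) (hr : r.Prime) (hro : Odd r) (hcard : Fintype.card F = Nat.card F₀ ^ r) (P : Matrix.GeneralLinearGroup (Fin n) F) (hP : Cfsg.Geo.IsFormRationalStructure (Cfsg.hermForm n F q) F₀ 1 P) : Cfsg.Geo.IsMaximalIn (Cfsg.GU n F q ⊓ Cfsg.Geo.specialLinear (Fin n) F) (Cfsg.Geo.subfieldSubgroup F₀ P ⊓ (Cfsg.GU n F q ⊓ Cfsg.Geo.specialLinear (Fin n) F)) := by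
  have hr' := finrank_of_card (F₀ := F₀) (by rwa [Nat.card_eq_fintype_card])
  obtain ⟨σ, hq, hσ, hne⟩ := H11.exists_frob hF
  rw [H29.su_eq hσ hne hq (by omega)]
  obtain ⟨θ, hθ, hθ'⟩ := exists_σ_ne_of_odd (F₀ := F₀) hσ hne (hr' ▸ hro)
  have hm := F₀.sub_mem hθ (pow_card_mem hq hθ)
  have h0 : θ - σ θ ≠ 0 := sub_ne_zero.2 hθ'.symm
  refine isMaximalIn_rat (stdUnit_nondeg hσ hne _) (by simp; omega)
    (rat_of_h (fun c hc => pow_card_mem hq hc) (fun x hx y hy => ?_) (F₀.div_mem hθ hm) ?_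
      fun a ha => by simpa [mem_unitP_Λ] using ha)
    (hr' ▸ hr) (Or.inr (Or.inr ⟨⟨θ - σ θ, h0, hm, by simp [mem_unitP_Λ, hσ]⟩,
      Or.inr ⟨θ, hθ, hθ'⟩⟩))
  · obtain ⟨u, hu, rfl⟩ := mem_V0_basisOf'.1 hx
    obtain ⟨v, hv, rfl⟩ := mem_V0_basisOf'.1 hy
    rw [stdUnit_h_eq hσ hne hq]
    simpa using hP v u hv hu
  · rw [map_div₀, map_sub, hσ, ← neg_sub θ, div_neg, ← sub_eq_add_neg, ← sub_div, div_self h0]

theorem su_rat_orth {F : Type*} [Field F] [Fintype F] {n q : ℕ} (hF : Fintype.card F = q ^ 2) (hn : 11 ≤ n) (hodd : Odd q) (F₀ : Subfield F) (hcard : Fintype.card F = Nat.card F₀ ^ 2) (P : Matrix.GeneralLinearGroup (Fin n) F) (hP : Cfsg.Geo.IsFormRationalStructure (Cfsg.hermForm n F q) F₀ 1 P) : Cfsg.Geo.IsMaximalIn (Cfsg.GU n F q ⊓ Cfsg.Geo.specialLinear (Fin n) F) (Cfsg.Geo.subfieldSubgroup F₀ P ⊓ (Cfsg.GU n F q ⊓ Cfsg.Geo.specialLinear (Fin n) F)) := by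
  have hr' := finrank_of_card (F₀ := F₀) (by rwa [Nat.card_eq_fintype_card])
  obtain ⟨σ, hq, hσ, hne⟩ := H11.exists_frob hF
  rw [H29.su_eq hσ hne hq (by omega)]
  have h2 : (2 : F) ≠ 0 := two_ne_zero_of_odd (by rw [hF]; exact hodd.pow)
  refine isMaximalIn_rat (stdUnit_nondeg hσ hne _) (by simp; omega)
    (rat_of_h (fun c hc => pow_card_mem hq hc) (fun x hx y hy => ?_) (θ := 2⁻¹)
      (F₀.inv_mem (by exact_mod_cast natCast_mem F₀ 2)) ?_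
      fun a ha => by simpa [mem_unitP_Λ] using ha)
    (hr' ▸ Nat.prime_two) (Or.inl hr')
  · obtain ⟨u, hu, rfl⟩ := mem_V0_basisOf'.1 hx
    obtain ⟨v, hv, rfl⟩ := mem_V0_basisOf'.1 hy
    rw [stdUnit_h_eq hσ hne hq]
    simpa using hP v u hv hu
  · rw [map_inv₀, map_ofNat]; field_simp; norm_num

theorem su_rat_symp {F : Type*} [Field F] [Fintype F] {n q : ℕ} (hF : Fintype.card F = q ^ 2) (hn : 11 ≤ n) (F₀ : Subfield F) (hcard : Fintype.card F = Nat.card F₀ ^ 2) (ζ : F) (hζ0 : ζ ≠ 0) (hζ : ζ + ζ ^ q = 0) (P : Matrix.GeneralLinearGroup (Fin n) F) (hP : Cfsg.Geo.IsFormRationalStructure (Cfsg.hermForm n F q) F₀ ζ P) (halt : ∀ u : Fin n → F, (∀ i, u i ∈ F₀) → Cfsg.hermForm n F q (Matrix.mulVec (P : Matrix (Fin n) (Fin n) F) u) (Matrix.mulVec (P : Matrix (Fin n) (Fin n) F) u) = 0) : Cfsg.Geo.IsMaximalIn (Cfsg.GU n F q ⊓ Cfsg.Geo.specialLinear (Fin n) F) (Cfsg.Geo.subfieldSubgroup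 F₀ P ⊓ (Cfsg.GU n F q ⊓ Cfsg.Geo.specialLinear (Fin n) F)) := by
  have hr' := finrank_of_card (F₀ := F₀) (by rwa [Nat.card_eq_fintype_card])
  obtain ⟨σ, hq, hσ, hne⟩ := H11.exists_frob hF
  have hη : σ ζ = -1 * ζ := by rw [hq]; linear_combination hζ
  rw [H29.su_eq hσ hne hq (by omega), EGL_scale _ hζ0 hη (by simp)]
  refine isMaximalIn_rat (scale_nondeg (stdUnit_nondeg hσ hne _)) (by simp; omega)
    ⟨fun c hc => pow_card_mem hq hc, fun x hx y hy => ?_, fun x hx => ⟨0, F₀.zero_mem, ?_⟩⟩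
    (hr' ▸ Nat.prime_two) (Or.inl hr')
  · obtain ⟨u, hu, rfl⟩ := mem_V0_basisOf'.1 hx
    obtain ⟨v, hv, rfl⟩ := mem_V0_basisOf'.1 hy
    rw [scale_h, stdUnit_h_eq hσ hne hq]
    exact hP v u hv hu
  · obtain ⟨u, hu, rfl⟩ := mem_V0_basisOf'.1 hx
    have := (unit_sing (stdUnit hσ hne (Fin n)) _).2 ((stdUnit_h_eq hσ hne hq n _ _).trans (halt u hu))
    rw [mem_scaleP, scale_q, zero_sub, mul_neg, ← mul_assoc, inv_mul_cancel₀ hζ0, one_mul]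
    exact AddSubgroup.neg_mem _ this

end H29
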