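import Cfsg.Agent.H29.UF
import Cfsg.Agent.H11.Levi

/-! Orthonormal frames of unitary spaces, part 2: overgroups `UH` of the monomial subgroup of
`SU_n(q)`, `n ≥ 10`; `uframe_dich` and the maximality `su_odec_max` of imprimitive subgroups. -/

set_option autoImplicit false
set_option linter.unusedSectionVars false

namespace H29

open Module H11 H11.PForm Finset

universe u
variable {F : Type*} [Field F] [Finite F] {σ : F →+* F} {hσ : ∀ a, σ (σ a) = a} {V : Type u}
  [AddCommGroup V] [Module F V] [FiniteDimensional F V] {S : PForm (unitP σ hσ) V}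
  {H K : Subgroup S.Isom} {ι : Type} [Fintype ι] [DecidableEq ι] {e : ι → V}

theorem dih_alt {G : Type*} [Group G] [Finite G] {a b : G} (ha : a * a = 1) (hb : b * b = 1) :
    ∃ d ∈ Subgroup.zpowers (a * b), d * a * d⁻¹ * a * (d * a * d⁻¹)⁻¹ = b ∨
      d ≠ 1 ∧ d * d = 1 ∧ d * a * d⁻¹ = a ∧ d * b * d⁻¹ = b := by
  have ia : a⁻¹ = a := inv_eq_of_mul_eq_one_right ha
  have ib : b⁻¹ = b := inv_eq_of_mul_eq_one_right hb
  have A : ∀ n : ℕ, a * ((a * b) ^ n)⁻¹ = (a * b) ^ n * a := fun n => by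
    have : a * (a * b)⁻¹ * a⁻¹ = a * b := by rw [mul_inv_rev, ia, ib, mul_assoc, mul_assoc, ha, mul_one]
    rw [← inv_pow, ← this, conj_pow, this, inv_mul_cancel_right]
  have o := pow_orderOf_eq_one (a * b)
  obtain ⟨k, hk | hk⟩ := Nat.even_or_odd' (orderOf (a * b))
  · have k0 : k ≠ 0 := by rintro rfl; exact (orderOf_pos (a * b)).ne' hk
    have d2 : (a * b) ^ k * (a * b) ^ k = 1 := by rw [← pow_add, ← two_mul, ← hk, o]
    have d3 : (a * b) ^ k * a * ((a * b) ^ k)⁻¹ = a := by rw [mul_assoc, A, ← mul_assoc, d2, one_mul]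
    refine ⟨(a * b) ^ k, Subgroup.npow_mem_zpowers .., .inr ⟨pow_ne_one_of_lt_orderOf k0 (by omega), d2,
      d3, ?_⟩⟩
    calc _ = (a * b) ^ k * a * ((a * b) ^ k)⁻¹ * ((a * b) ^ k * (a * b) * ((a * b) ^ k)⁻¹) := by
          rw [conj_mul, ← mul_assoc a, ha, one_mul]
      _ = b := by rw [d3, ← pow_succ, pow_succ', mul_inv_cancel_right, ← mul_assoc, ha, one_mul]
  · refine ⟨(a * b) ^ (k * (k + 1)), Subgroup.npow_mem_zpowers .., .inl ?_⟩
    have d1 : (a * b) ^ (k * (k + 1)) * a * ((a * b) ^ (k * (k + 1)))⁻¹ = (a * b) ^ k * a := by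
      rw [mul_assoc, A, ← mul_assoc, ← pow_add,
        show k * (k + 1) + k * (k + 1) = orderOf (a * b) * k + k by rw [hk]; ring, pow_add, pow_mul, o]
      simp
    rw [d1, mul_assoc _ a a, ha, mul_one, mul_inv_rev, ia, A, ← mul_assoc, ← pow_add]
    refine mul_left_cancel (a := a * b) ?_
    rw [← mul_assoc, ← pow_succ', ← two_mul, ← hk, o, mul_assoc, hb, one_mul, mul_one]

theorem qrefl_line {d : V} {b : F} (h : S.QCond d b) (hS : S.Nondeg) (d0 : d ≠ 0) {g : S.Isom}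
    (hg : g * S.qrefl d b * g⁻¹ = S.qrefl d b) : g.1 d ∈ F ∙ d := by
  obtain ⟨y, hy⟩ := hS.exists_h_eq_one (x := g.1 d) (by simpa)
  have := congrArg (fun z : S.Isom => z.1 y) hg
  simp only [conj_qrefl, qrefl_apply h, qrefl_apply (h.map g), hy, mul_one, sub_right_inj] at this
  rw [← Submodule.smul_mem_iff _ (inv_ne_zero h.ne), this]
  exact Submodule.smul_mem _ _ (Submodule.mem_span_singleton_self d)

theorem UF.supp4 (f : UF S e) {y : S.Isom} (hy : y ∈ UM S e) {φ ψ : V →ₗ[F] F} {u u' x : V}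
    (h : ∀ x, y.1 x - x = φ x • u + ψ x • u') (h1 : φ x ≠ 0) (h2 : ψ x = 0) :
    ∃ J : Finset ι, J.card ≤ 4 ∧ u ∈ UJ S e J := by
  choose π c hc hπ using UM.uv hy
  have m : ∀ a, ∀ J : Finset ι, a ∈ J → π a ∈ J → φ (e a) • u + ψ (e a) • u' ∈ UJ S e J :=
    fun a J h1 h2 l hl => by
      rw [← h, hπ]
      simp [f.hh, show l ≠ a by rintro rfl; exact hl h1, show l ≠ π a by rintro rfl; exact hl h2]
  by_cases h3 : ∀ a, ψ (e a) = 0
  · obtain ⟨a, ha⟩ := not_forall.1 fun a => h1 (f.lin a x)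
    exact ⟨{a, π a}, card_le_two.trans (by omega), by
      simpa [h3, Submodule.smul_mem_iff _ ha] using m a {a, π a} (by simp) (by simp)⟩
  obtain ⟨b, hb⟩ := not_forall.1 h3
  obtain ⟨a, ha⟩ := not_forall.1 fun a => mul_ne_zero hb h1 (by
    simpa [h2] using f.lin (φ := ψ (e b) • φ - φ (e b) • ψ) a x)
  refine ⟨{a, π a, b, π b}, card_le_four, (Submodule.smul_mem_iff _ ha).1 ?_⟩
  convert sub_mem (Submodule.smul_mem _ (ψ (e b)) (m a {a, π a, b, π b} (by simp) (by simp)))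
    (Submodule.smul_mem _ (ψ (e a)) (m b {a, π a, b, π b} (by simp) (by simp))) using 1
  simp only [LinearMap.sub_apply, LinearMap.smul_apply, smul_eq_mul]
  module

/-- `H` contains the monomial elements of `E`, but not `E` -/
structure UH (H : Subgroup S.Isom) (e : ι → V) : Prop where
  f : UF S e
  card : 10 ≤ Fintype.card ι
  det : ∀ g ∈ H, (S.detHom g : F) = 1
  mem : ∀ g ∈ UM S e, (S.detHom g : F) = 1 → g ∈ H
  grow : ∀ I : Finset ι, I.card ≤ 6 → ∀ s (hs : S.Sing s), s ≠ 0 → s ∈ UJ S e I → ∀ y ∈ BSet H hs,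
    y ∈ UJ S e I

namespace UH
variable (h : UH H e)
include h

theorem rr {c : F} (hc : σ c * c = 1) (i j : ι) : ur S (e i) c * ur S (e j) (σ c) ∈ H := by
  have hc' : σ (σ c) * σ c = 1 := by rw [hσ, mul_comm, hc]
  exact h.mem _ (mul_mem (h.f.ur_um hc i) (h.f.ur_um hc' j)) (by
    rw [map_mul, Units.val_mul, ur_det (h.f.h1 i) hc, ur_det (h.f.h1 j) hc', mul_comm, hc])

theorem ctx {J I₀ : Finset ι} (hJ : 6 ≤ J.card) (hI : I₀.card ≤ 2) (dj : ∀ i ∈ J, i ∉ I₀) {u : V}
    (us : S.Sing u) (uI : u ∈ UJ S e I₀) (hr : ∀ c, σ c * c = 1 → ∃ r ∈ UM S e,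
      (∀ x ∈ UJ S e J, r.1 x = x) ∧ (S.detHom r : F) = c ∧ r.1 u ∈ F ∙ u) {g : S.Isom} (hg : g ∈ H)
    (gu : g.1 u ∈ F ∙ u) (gJ : ∀ x ∈ UJ S e J, ∃ y ∈ UJ S e J, g.1 x - y ∈ F ∙ u) {i : ι} (hi : i ∈ J) :
    ∃ v ∈ UV σ e, g.1 (e i) - v ∈ F ∙ u := by
  have f := h.f
  have m : ∀ i ∈ J, e i ∈ UJ S e J := fun i hi j hj => by
    simp [f.hh, show j ≠ i by rintro rfl; exact hj hi]
  have sp : ∀ x ∈ UJ S e J, (∀ i ∈ J, S.h (e i) x = 0) → x = 0 := fun x hx h0 =>
    f.span x fun i => by by_cases a : i ∈ J; exacts [h0 i a, hx i a]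
  have nd : (S.restrict (UJ S e J)).Nondeg := (S.restrict_nondeg_iff' _).2 fun x hx h0 =>
    sp x hx fun i hi => S.h_swap_zero (h0 _ (m i hi))
  have up : ∀ x ∈ UJ S e J, S.h u x = 0 := fun x hx => by
    rw [f.expand x, map_sum]
    refine sum_eq_zero fun l _ => ?_
    by_cases a : l ∈ J
    · simp [S.h_swap_zero (uI l (dj l a))]
    · simp [hx l a]
  have st : ∀ {g : S.Isom}, g.1 u ∈ F ∙ u → ∀ z ∈ F ∙ u, g.1 z ∈ F ∙ u := fun hg z hz => by
    obtain ⟨c, rfl⟩ := Submodule.mem_span_singleton.1 hz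
    simpa using Submodule.smul_mem _ c hg
  let K : Subgroup (S.restrict (UJ S e J)).Isom :=
    { carrier := {k | ∃ g ∈ H, g.1 u ∈ F ∙ u ∧ ∀ x : UJ S e J, g.1 x - k.1 x ∈ F ∙ u}
      mul_mem' := by
        rintro a b ⟨g, g1, g2, g3⟩ ⟨g', g4, g5, g6⟩
        exact ⟨_, mul_mem g1 g4, st g2 _ g5, fun x => by
          simpa using add_mem (st g2 _ (g6 x)) (g3 (b.1 x))⟩
      one_mem' := ⟨1, one_mem _, by simp, by simp⟩
      inv_mem' := by
        rintro a ⟨g, g1, g2, g3⟩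
        have := (inv_mem (mem_stab_of_le (st g2)) :)
        exact ⟨_, inv_mem g1, (this u).1 (by simp), fun x => by
          simpa using (this _).1 (neg_mem (g3 (a⁻¹.1 x)))⟩ }
  have f1 : UF (S.restrict (UJ S e J)) fun i : J => (⟨e i, m i i.2⟩ : UJ S e J) :=
    ⟨f.ne, nd, fun i j => by simp [f.hh, Subtype.val_inj],
      fun x hx => Subtype.ext (sp x x.2 fun i hi => hx ⟨i, hi⟩)⟩
  have Q : ∀ (d : UJ S e J) b, S.qrefl d b ∈ UM S e → (S.restrict _).qrefl d b ∈ K := fun d b hd => by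
    obtain ⟨r, r1, r2, r3, r4⟩ := hr (S.detHom (S.qrefl d b))⁻¹.1
      (inv_mem (f.nd.det_mem_normOne (S.qrefl d b)) :)
    refine ⟨_, h.mem _ (mul_mem r1 hd) (by simp [r3]), by
      simpa [qrefl_apply_of_perp (S.h_swap_zero (up d d.2))], fun x => ?_⟩
    rw [isom_mul_apply, ← ext1_qrefl nd, ext1_left, r2 _ (Subtype.prop _), sub_self]
    exact zero_mem _
  have NR : ¬ URoot K fun i : J => (⟨e i, m i i.2⟩ : UJ S e J) := by
    rintro ⟨s, hs, y, ⟨a, E, x, x1, x2, x3⟩, I, s0, I4, sI, i, iI, yi⟩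
    obtain ⟨i', -, hi'⟩ := exists_mem_notMem_of_card_lt_card (s := insert i I) (t := univ)
      (by have := card_insert_le i I; simp only [card_univ, Fintype.card_coe]; omega)
    rw [mem_insert, not_or] at hi'
    let I' := I.map (Function.Embedding.subtype _) ∪ I₀
    have cI : I'.card ≤ 6 := (card_union_le _ _).trans (by rw [card_map]; omega)
    have nI : ∀ l : J, l ∉ I → l.1 ∉ I' := fun l hl => by simp [I', hl, dj l l.2]
    have sI' : s.1 ∈ UJ S e I' := fun l hl => by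
      by_cases a : l ∈ J
      · exact sI ⟨l, a⟩ fun b => hl (by simp [I', a, b])
      · exact s.2 l a
    have uI' : u ∈ UJ S e I' := fun l hl => uI l fun b => hl (by simp [I', b])
    have X : ∀ l : J, l ∉ I → ∃ c : F, x.1 (e l) = e l + (c • u - S.h y (e l) • s.1) := fun l hl => by
      obtain ⟨c, hc⟩ := Submodule.mem_span_singleton.1 (x3 ⟨_, m l l.2⟩)
      rw [eich_apply_of_perp E (S.h_swap_zero (sI l hl))] at hc
      exact ⟨c, by rw [hc]; simp; abel⟩
    obtain ⟨c1, e1⟩ := X i iI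
    obtain ⟨c2, e2⟩ := X i' hi'.2
    have p : ∀ c d : F, c • u - d • s.1 ∈ UJ S e I' := fun c d =>
      sub_mem (Submodule.smul_mem _ _ uI') (Submodule.smul_mem _ _ sI')
    have p1 := p c1 (S.h y (e i))
    have p2 := p c2 (S.h y (e i'))
    have s1 : c1 • u - S.h y (e i) • s.1 ≠ 0 := fun a => s0 (Subtype.ext (sp _ s.2 fun l hl => by
      simpa [uI l (dj l hl), show S.h y (e i) ≠ 0 from fun b => yi (S.h_swap_zero b)] using
        congrArg (S.h (e l)) a))
    have s2 : S.Sing (c1 • u - S.h y (e i) • s.1) := (S.unit_sing _).2 (by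
      simp [us.h_self, up _ s.2, S.h_swap_zero (up _ s.2), show S.h s s = 0 from hs.h_self])
    generalize c1 • u - S.h y (e i) • s.1 = s₁ at e1 p1 s1 s2
    generalize c2 • u - S.h y (e i') • s.1 = s₂ at e2 p2
    obtain ⟨j, -, hj⟩ := exists_mem_notMem_of_card_lt_card (s := insert i.1 (insert i'.1 I')) (t := univ)
      (by have := card_insert_le i.1 (insert i'.1 I'); have := card_insert_le i'.1 I'
          have := h.card; simp only [card_univ]; omega)
    simp only [mem_insert, not_or] at hj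
    obtain ⟨c, c1, c2⟩ := ex_norm1 hσ f.ne
    have c3 : σ c - 1 ≠ 0 := fun e => c2 (by
      have := congrArg σ (sub_eq_zero.1 e); rw [hσ, map_one] at this; simp [this])
    have c4 : 1 - c ≠ 0 := fun e => c2 (by simp [← sub_eq_zero.1 e])
    have hc' : σ (σ c) * σ c = 1 := by rw [hσ, mul_comm, c1]
    have ii : i.1 ≠ i' := fun a => hi'.1 (Subtype.ext a.symm)
    have z := mul_mem (mul_mem x1 (h.rr c1 i i')) (inv_mem x1)
    have t := h.rr c1 i j
    rw [← conj_mul, conj_ur, conj_ur, e1, e2] at z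
    have v1 : S.h (e i + s₁) (e i + s₁) = 1 := by rw [← e1, isom_h, f.h1]
    have a1 := p1 _ (nI i iI)
    have z' := mul_mem (mul_mem (mul_mem t z) (inv_mem t)) (inv_mem z)
    rw [← conj_mul, conj_ur, conj_ur, isom_mul_apply, isom_mul_apply,
      ur_perp (x := e i' + s₂) _ (by simp [f.hh, hj, p2 j hj.2.2]),
      ur_perp (x := e i' + s₂) _ (by simp [f.hh, ii, p2 _ (nI i iI)]),
      ur_perp (x := e i + s₁) _ (by simp [f.hh, hj, p1 j hj.2.2]), mul_inv_rev, mul_assoc,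
      mul_inv_cancel_left, ← ur_smul (by simpa using v1) c1 hc',
      show σ c • (ur S (e i) c).1 (e i + s₁) = e i + s₁ + (σ c - 1) • s₁ by
        rw [map_add, ur_perp _ a1, f.ur_e c1, if_pos rfl, smul_add, smul_smul, c1]; module] at z'
    have := h.grow I' cI _ (s2.smul _) (smul_ne_zero c3 s1) (Submodule.smul_mem _ _ p1) _
      (ur_root v1 c1 (s2.smul _) (by simp [s2.h_self, S.h_swap_zero a1]) z') _ (nI i iI)
    simp [f.h1, a1, sub_eq_zero] at this
    exact c2 (by simp [this])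
  choose φ φ1 φ2 using gJ
  have A : ∀ x hx l, l ∈ J → S.h (e l) (g.1 x) = S.h (e l) (φ x hx) := fun x hx l hl => by
    obtain ⟨c, hc⟩ := Submodule.mem_span_singleton.1 (φ2 x hx)
    simpa [uI l (dj l hl), sub_eq_zero] using congrArg (S.h (e l)) hc.symm
  let L : V →ₗ[F] V := (∑ l ∈ J, (S.h (e l)).smulRight (e l)) ∘ₗ (g.1 : V →ₗ[F] V)
  have B : ∀ x hx, L x = φ x hx := fun x hx => f.ext fun l => by
    by_cases a : l ∈ J <;> simp [L, f.hh, a, A x hx l, φ1 x hx l]
  let k := mkIsom nd (L.restrict (p := UJ S e J) (q := UJ S e J) fun x hx => B x hx ▸ φ1 x hx)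
    (unit_isIsom fun x y => by
      obtain ⟨c, hc⟩ := Submodule.mem_span_singleton.1 (φ2 x x.2)
      obtain ⟨d, hd⟩ := Submodule.mem_span_singleton.1 (φ2 y y.2)
      have := isom_h g x y
      rw [← eq_sub_iff_add_eq.1 hc, ← eq_sub_iff_add_eq.1 hd] at this
      simpa [B _ x.2, B _ y.2, us.h_self, up _ (φ1 _ _), S.h_swap_zero (up _ (φ1 _ _))] using this)
  have kK : ∀ x : UJ S e J, g.1 x - k.1 x ∈ F ∙ u := fun x => by simpa [k, B _ x.2] using φ2 x x.2
  obtain ⟨j, c, c1, c2⟩ := f1.dich (K := K) (by simp; omega) (fun i c hc => Q _ _ (f.ur_um hc i))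
    (fun i j ij => Q _ _ (f.sw_um fun a => ij (Subtype.ext a))) NR ⟨g, hg, gu, kK⟩ ⟨i, hi⟩
  exact ⟨_, ⟨j, c, c1, rfl⟩, by simpa [c2] using kK ⟨_, m i hi⟩⟩

theorem stab {J : Finset ι} (hJ : 6 ≤ J.card) {l : ι} (hl : l ∉ J) {g : S.Isom} (hg : g ∈ H)
    (hW : ∀ x ∈ UJ S e J, g.1 x ∈ UJ S e J) {i : ι} (hi : i ∈ J) : g.1 (e i) ∈ UV σ e := by
  obtain ⟨v, hv, a⟩ := h.ctx (I₀ := ∅) (u := 0) hJ (by simp) (by simp) S.sing_zero (zero_mem _)
    (fun c hc => ⟨_, h.f.ur_um hc l, fun x hx => ur_perp _ (hx l hl), ur_det (h.f.h1 l) hc, by simp⟩) hg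
    (by simp) (fun x hx => ⟨_, hW x hx, by simp⟩) hi
  simp only [Submodule.span_zero_singleton, Submodule.mem_bot, sub_eq_zero] at a
  rwa [a]

theorem of_fix {g : S.Isom} (hg : g ∈ H) {i : ι} {c : F} (hc : σ c * c = 1) (hi : g.1 (e i) = c • e i) :
    g ∈ UM S e := mem_UM fun j => by
  by_cases a : j = i
  · exact ⟨i, c, hc, a ▸ hi⟩
  refine h.stab (J := {i}ᶜ) (l := i) (by rw [card_compl, card_singleton]; have := h.card; omega)
    (by simp) hg (fun x hx k hk => ?_) (by simpa)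
  obtain rfl : k = i := by simpa using hk
  have := isom_h g (e k) x
  simpa [hx k hk, hi, right_ne_zero_of_mul_eq_one hc] using this

theorem of_uv {g : S.Isom} (hg : g ∈ H) {i : ι} (hi : g.1 (e i) ∈ UV σ e) : g ∈ UM S e := by
  obtain ⟨k, c, hc, hk⟩ := hi
  by_cases a : i = k
  · exact h.of_fix hg hc (a ▸ hk)
  have n1 : σ (-1) * -1 = 1 := by simp
  have m := mul_mem (h.f.sw_um a) (h.f.ur_um n1 i)
  refine ((UM S e).mul_mem_cancel_left m).1 (h.of_fix (mul_mem (h.mem _ m (by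
    simp [h.f.sw_det a, ur_det (h.f.h1 i) n1])) hg) (i := i) hc ?_)
  simp [hk, h.f.ur_e n1, h.f.sw_e a, Ne.symm a]

theorem of_conj {g : S.Isom} (hg : g ∈ H) {J : Finset ι} (hJ : J.card ≤ 4)
    (hm : ∀ m ∈ H, (∀ x ∈ UJ S e J, m.1 x = x) → g⁻¹ * m * g ∈ UM S e) : g ∈ UM S e := by
  have f := h.f
  by_contra hc
  have ex : ∀ I : Finset ι, I.card ≤ 8 → ∃ k, k ∉ I := fun I hI =>
    (exists_mem_notMem_of_card_lt_card (s := I) (t := univ) (by
      have := h.card; rw [card_univ]; omega)).imp fun _ a => a.2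
  obtain ⟨k, hk⟩ := ex J (by omega)
  obtain ⟨c, c1⟩ := not_forall.1 (mt (f.span ((g⁻¹).1 (e k))) fun a => by
    have := isom_h g⁻¹ (e k) (e k)
    rw [a, f.h1] at this; simp at this)
  rw [← isom_h g, isom_apply_inv_self] at c1
  have w1 : S.h (g.1 (e c)) (g.1 (e c)) = 1 := by simp [f.h1]
  have A : ∀ m ∈ H, (∀ x ∈ UJ S e J, m.1 x = x) → S.h (g.1 (e c)) (m.1 (g.1 (e c))) = 0 ∨
      ∃ ν : F, m.1 (g.1 (e c)) = ν • g.1 (e c) := fun m m1 m2 => by
    obtain ⟨j, ν, -, hj⟩ := UM.uv (hm m m1 m2) c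
    have : m.1 (g.1 (e c)) = ν • g.1 (e j) := by simpa [LinearEquiv.symm_apply_eq] using hj
    by_cases a : c = j
    exacts [.inr ⟨ν, a ▸ this⟩, .inl (by simp [this, f.hh, a])]
  have wv : g.1 (e c) ∉ UV σ e := fun a => hc (h.of_uv hg a)
  generalize g.1 (e c) = w at c1 w1 A wv
  replace c1 : S.h (e k) w ≠ 0 := fun a => c1 (S.h_swap_zero a)
  obtain ⟨p, pk, hp⟩ : ∃ p, p ≠ k ∧ S.h (e p) w ≠ 0 := by
    by_contra! a
    exact wv (f.uv w1 a)
  obtain ⟨ζ, z1, z2⟩ := ex_norm1 hσ f.ne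
  have z1' : σ (σ ζ) * σ ζ = 1 := by rw [hσ, mul_comm, z1]
  have z3 : ζ ≠ 1 := fun e => z2 (by simp [e])
  have rf : ∀ a ∉ J, ∀ b ∉ J, ∀ x ∈ UJ S e J, (ur S (e a) ζ * ur S (e b) (σ ζ)).1 x = x :=
    fun a ha b hb x hx => by rw [isom_mul_apply, ur_perp _ (hx b hb), ur_perp _ (hx a ha)]
  have pm : ∀ {m : S.Isom} {a}, S.h (e a) w ≠ 0 → S.h (e a) (m.1 w) = ζ * S.h (e a) w →
      S.h (e p) (m.1 w) = S.h (e p) w → ¬ ∃ ν : F, m.1 w = ν • w := by
    rintro m a h1 h2 h3 ⟨ν, e'⟩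
    simp [e', h1, hp] at h2 h3
    exact z3 (h2 ▸ h3)
  have r2 : ∀ a ∉ J, ∀ b ∉ J, a ≠ b → p ≠ a → p ≠ b → S.h (e a) w ≠ 0 →
      1 - (1 - ζ) * (σ (S.h (e a) w) * S.h (e a) w) - (1 - σ ζ) * (σ (S.h (e b) w) * S.h (e b) w) = 0 :=
    fun a ha b hb ab pa pb h1 => by
      have := (A _ (h.rr z1 a b) (rf a ha b hb)).resolve_right (pm h1 (by simp [f.co z1, f.co z1', ab])
        (by simp [f.co z1, f.co z1', pa, pb]))
      simp [ur_apply (f.h1 _) z1, ur_apply (f.h1 _) z1', f.hh, ab, w1, S.unit_symm (e _) w] at this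
      linear_combination this
  have c2 := card_insert_le p J
  have c3 := card_insert_le k (insert p J)
  obtain ⟨l, hl⟩ := ex (insert k (insert p J)) (by omega)
  have c4 := card_insert_le l (insert k (insert p J))
  obtain ⟨l', hl'⟩ := ex (insert l (insert k (insert p J))) (by omega)
  have c5 := card_insert_le l' (insert l (insert k (insert p J)))
  obtain ⟨l'', hl''⟩ := ex (insert l' (insert l (insert k (insert p J)))) (by omega)
  simp only [mem_insert, not_or] at hl hl' hl''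
  have a1 := r2 k hk l hl.2.2 (Ne.symm hl.1) pk (Ne.symm hl.2.1) c1
  have a2 := r2 k hk l' hl'.2.2.2 (Ne.symm hl'.2.1) pk (Ne.symm hl'.2.2.1) c1
  have a3 : S.h (e l') w ≠ 0 := fun a => by
    have := congrArg σ a2
    simp [a, hσ] at a2 this
    exact mul_ne_zero (sub_ne_zero.2 z2) (mul_ne_zero ((map_ne_zero σ).2 c1) c1)
      (by linear_combination this - a2)
  have a4 := r2 l' hl'.2.2.2 l'' hl''.2.2.2.2 (Ne.symm hl''.1) (Ne.symm hl'.2.2.1) (Ne.symm hl''.2.2.2.1) a3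
  have := (A _ (mul_mem (h.rr z1 k l) (h.rr z1 l' l'')) fun x hx => by
    rw [isom_mul_apply, rf _ hl'.2.2.2 _ hl''.2.2.2.2 x hx, rf _ hk _ hl.2.2 x hx]).resolve_right
    (pm c1 (by simp [f.co z1, f.co z1', *, Ne.symm]) (by simp [f.co z1, f.co z1', *, Ne.symm]))
  simp [ur_apply (f.h1 _) z1, ur_apply (f.h1 _) z1', f.hh, w1, S.unit_symm (e _) w, hl, hl', hl'',
    Ne.symm] at this
  exact one_ne_zero (α := F) (by linear_combination a1 + a4 - this)

theorem of_supp {g : S.Isom} (hg : g ∈ H) {i : ι} {J : Finset ι} (hJ : J.card ≤ 4)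
    (hi : g.1 (e i) ∈ UJ S e J) : g ∈ UM S e :=
  h.of_conj hg hJ fun m hm a => h.of_fix (mul_mem (mul_mem (inv_mem hg) hm) hg) (i := i) (c := 1) (by simp)
    (by simp [a _ hi])

theorem even (h2 : (2 : F) = 0) : H ≤ UM S e := fun g hg => by
  have f := h.f
  haveI := finite_isom (S := S)
  have ng : ∀ x : V, -x = x := fun x => by
    rw [neg_eq_iff_add_eq_zero, ← two_smul F, h2, zero_smul]
  have d0 : ∀ {i j}, i ≠ j → e i - e j ≠ 0 := fun {i j} ij a => by
    simpa [f.hh, ij] using congrArg (S.h (e i)) a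
  have ds : ∀ {i j}, i ≠ j → S.h (e i - e j) (e i - e j) = 0 := fun ij => by
    simp [f.hh, ij, ij.symm]; linear_combination h2
  have C : ∀ x ∈ H, ∀ i j, i ≠ j → x.1 (e i - e j) ∈ F ∙ (e i - e j) → x ∈ UM S e := by
    intro x hx i j ij xu
    have c6 : 6 ≤ ({i, j}ᶜ : Finset ι).card := by
      have := card_le_two (a := i) (b := j); have := h.card; rw [card_compl]; omega
    obtain ⟨m, hm⟩ := card_pos.1 (lt_of_lt_of_le (by norm_num) c6)
    have uI : e i - e j ∈ UJ S e {i, j} := fun l hl => by simp_all [f.hh]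
    obtain ⟨_, ⟨l, c, -, rfl⟩, a⟩ := h.ctx c6 card_le_two (fun _ => mem_compl.1)
      ((S.unit_sing _).2 (ds ij)) uI (fun c hc => by
        obtain ⟨ν, rfl⟩ : ∃ ν, ν * ν = c := by
          haveI : CharP F 2 := CharTwo.of_one_ne_zero_of_two_eq_zero one_ne_zero h2
          simpa [frobenius_def, sq] using surjective_frobenius F 2 c
        have n1 : σ ν * ν = 1 := by
          have : (σ ν * ν - 1) ^ 2 = 0 := by
            rw [map_mul] at hc; linear_combination hc - (σ ν * ν - 1) * h2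
          simpa [sub_eq_zero] using this
        exact ⟨_, mul_mem (f.ur_um n1 i) (f.ur_um n1 j), fun x hx => by
          rw [isom_mul_apply, ur_perp _ (hx j (by simp)), ur_perp _ (hx i (by simp))],
          by simp [ur_det (f.h1 _) n1], Submodule.mem_span_singleton.2 ⟨ν, by
            simp [f.ur_e n1, ij, ij.symm, smul_sub]⟩⟩) hx xu (fun y hy => by
        have a1 := isom_h x (e i - e j) y
        obtain ⟨c, hc⟩ := Submodule.mem_span_singleton.1 xu
        have c0 : c ≠ 0 := by rintro rfl; exact d0 ij (by simpa [-map_sub] using hc.symm)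
        rw [← hc] at a1
        simp [-map_sub, c0, show S.h (e i - e j) y = 0 by simp [hy i, hy j]] at a1
        refine ⟨x.1 y - S.h (e i) (x.1 y) • (e i - e j), fun l hl => ?_, by
          simpa using Submodule.smul_mem _ _ (Submodule.mem_span_singleton_self _)⟩
        simp only [mem_compl, mem_insert, mem_singleton, not_not] at hl
        simp at a1
        rcases hl with rfl | rfl <;> simp [f.hh, ij, ij.symm]
        linear_combination -a1 + S.h (e i) (x.1 y) * h2) hm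
    obtain ⟨d, hd⟩ := Submodule.mem_span_singleton.1 a
    refine h.of_supp hx (i := m) (J := {l, i, j}) (card_le_three.trans (by omega)) fun n hn => ?_
    simp only [mem_insert, mem_singleton, not_or] at hn
    simp [← eq_sub_iff_add_eq.1 hd, f.hh, hn]
  have sH : ∀ {i j}, i ≠ j → usw S e i j ∈ H := fun ij => h.mem _ (f.sw_um ij) (by
    rw [f.sw_det ij]; linear_combination -h2)
  have s2 : ∀ {i j}, i ≠ j → usw S e i j * usw S e i j = 1 := fun ij => f.ext' fun l => by simp [f.sw_e ij]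
  have T : ∀ x ∈ H, ∀ {i j}, i ≠ j → ∀ J : Finset ι, J.card ≤ 4 → x.1 (e i - e j) ∈ UJ S e J → x ∈ UM S e :=
    fun x hx i j ij J hJ a => h.of_conj hx hJ fun m hm b =>
      C _ (mul_mem (mul_mem (inv_mem hx) hm) hx) i j ij (by simp [-map_sub, b _ a])
  have ap : ∀ (x : S.Isom) {i j}, i ≠ j → ∀ y, (x * usw S e i j * x⁻¹).1 y =
      y - S.h (x.1 (e i - e j)) y • x.1 (e i - e j) := fun x i j ij y => by
    rw [usw, conj_qrefl, qrefl_apply ((f.sw_cond ij).map x)]; simp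
  by_contra hc
  obtain ⟨L, hL⟩ : ∃ L : Fin 3 → ι, Function.Injective L :=
    ⟨_, (Function.Embedding.nonempty_of_card_le (α := Fin 3) (β := ι) (by
      have := h.card; simp; omega)).some.injective⟩
  have n : ∀ a b, a ≠ b → L a ≠ L b := fun a b hab => hL.ne hab
  have n1 := n 0 1 (by decide)
  have D : ∀ g ∈ H, g ∉ UM S e → ∃ d ∈ H, (d * usw S e (L 0) (L 1) * d⁻¹)⁻¹ * g ∈ UM S e ∧
      d * usw S e (L 0) (L 1) * d⁻¹ * usw S e (L 0) (L 1) * (d * usw S e (L 0) (L 1) * d⁻¹)⁻¹ =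
        g * usw S e (L 0) (L 1) * g⁻¹ := fun g hg hc => by
    have bH := mul_mem (mul_mem hg (sH n1)) (inv_mem hg)
    obtain ⟨d, d1, d2 | ⟨d2, d3, d4, d5⟩⟩ := dih_alt (s2 n1) (b := g * usw S e (L 0) (L 1) * g⁻¹)
      (by rw [conj_mul, s2 n1]; simp)
    · have dH := Subgroup.zpowers_le_of_mem (mul_mem (sH n1) bH) d1
      refine ⟨d, dH, C _ (mul_mem (inv_mem (mul_mem (mul_mem dH (sH n1)) (inv_mem dH))) hg) _ _ n1
        (qrefl_line (f.sw_cond n1) f.nd (d0 n1) ?_), d2⟩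
      change _ * usw S e (L 0) (L 1) * _ = usw S e (L 0) (L 1)
      generalize d * usw S e (L 0) (L 1) * d⁻¹ = c at d2
      rw [mul_inv_rev, inv_inv, mul_assoc _ g, ← mul_assoc _ g⁻¹, mul_assoc _ _ g⁻¹, ← d2]
      group
    have uw : S.h (e (L 0) - e (L 1)) (g.1 (e (L 0) - e (L 1))) ≠ 0 := fun a => by
      obtain ⟨x, x1⟩ := f.nd.exists_h_eq_one (x := g.1 (e (L 0) - e (L 1))) (by simpa [-map_sub] using d0 n1)
      obtain ⟨J, J1, J2⟩ := f.supp4 (C _ bH _ _ n1 (by rw [ap g n1, S.h_swap_zero a]; simp))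
        (φ := -S.h (g.1 (e (L 0) - e (L 1)))) (ψ := 0) (u := g.1 (e (L 0) - e (L 1))) (u' := 0) (x := x)
        (fun x => by rw [ap g n1]; simp [-map_sub]) (by simp [-map_sub, x1]) rfl
      exact hc (T g hg n1 J J1 J2)
    have k : ∀ w, w ≠ 0 → d.1 w ∈ F ∙ w → d.1 w = w := fun w w0 a => by
      obtain ⟨c, hc⟩ := Submodule.mem_span_singleton.1 a
      have := congrArg (fun z : S.Isom => z.1 w) d3
      simp only [isom_mul_apply, ← hc, map_smul, smul_smul, isom_one_apply] at this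
      have c1 : (c - 1) ^ 2 = 0 := by
        linear_combination smul_left_injective F w0 (this.trans (one_smul F w).symm) - (c - 1) * h2
      rw [← hc, sub_eq_zero.1 (pow_eq_zero_iff two_ne_zero |>.1 c1), one_smul]
    have k1 := k _ (d0 n1) (qrefl_line (f.sw_cond n1) f.nd (d0 n1) d4)
    rw [usw, conj_qrefl] at d5
    have k2 := k _ (by simpa [-map_sub] using d0 n1) (qrefl_line ((f.sw_cond n1).map g) f.nd (by simpa [-map_sub] using d0 n1) d5)
    have k3 := Subgroup.zpowers_le_of_mem (H := S.fix (S.perp (Submodule.span F {e (L 0) - e (L 1),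
      g.1 (e (L 0) - e (L 1))}))) (g := usw S e (L 0) (L 1) * (g * usw S e (L 0) (L 1) * g⁻¹))
      (mul_mem (fun x hx => qrefl_apply_of_perp (S.mem_perp_pair.1 hx).1) fun x hx => by
        rw [ap g n1, (S.mem_perp_pair.1 hx).2]; simp) d1
    have Hy := isHyp_of_ne ((S.unit_sing _).2 (ds n1)) ((isom_sing g _).2 ((S.unit_sing _).2 (ds n1))) uw
    exact absurd (Hy.isom_ext (g' := 1) k1 (by simp [-map_sub, k2]) fun w hw => k3 w (by
      simpa [-map_sub, S.mem_perp_pair, uw] using hw)) d2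
  have n2 := n 0 2 (by decide)
  have n3 := n 1 2 (by decide)
  obtain ⟨d, d1, d2, d3⟩ := D g hg hc
  obtain ⟨d', d4, d5, d6⟩ := D _ (mul_mem hg (sH n3)) fun a => hc (((UM S e).mul_mem_cancel_right
    (f.sw_um n3)).1 a)
  have yM : (d * usw S e (L 0) (L 1) * d⁻¹) * (d' * usw S e (L 0) (L 1) * d'⁻¹) ∈ UM S e := by
    have := mul_mem (mul_mem d2 (f.sw_um n3)) (inv_mem d5)
    rw [inv_eq_of_mul_eq_one_right (show d * usw S e (L 0) (L 1) * d⁻¹ * (d * usw S e (L 0) (L 1) * d⁻¹) = 1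
      by rw [conj_mul, s2 n1]; simp)] at this
    convert this using 1
    group
  have dM : d ∉ UM S e := fun a => hc (by
    simpa only [mul_inv_cancel_left] using mul_mem (mul_mem (mul_mem a (f.sw_um n1)) (inv_mem a)) d2)
  have zz : S.h (d.1 (e (L 0) - e (L 1))) (d.1 (e (L 0) - e (L 1))) = 0 := by rw [isom_h, ds n1]
  have z0 : d.1 (e (L 0) - e (L 1)) ≠ 0 := by simpa [-map_sub] using d0 n1
  have ya := fun x => (isom_mul_apply _ _ x).trans ((ap d n1 _).trans (by rw [ap d' n1]))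
  by_cases hz : d.1 (e (L 0) - e (L 1)) ∈ F ∙ d'.1 (e (L 0) - e (L 1))
  · obtain ⟨κ, hκ⟩ := Submodule.mem_span_singleton.1 hz
    have κ0 : κ ≠ 0 := by rintro rfl; exact z0 (by simpa using hκ.symm)
    have zz' : S.h (d'.1 (e (L 0) - e (L 1))) (d'.1 (e (L 0) - e (L 1))) = 0 := by rw [isom_h, ds n1]
    by_cases h1 : 1 + σ κ * κ = 0
    · have : d * usw S e (L 0) (L 1) * d⁻¹ = d' * usw S e (L 0) (L 1) * d'⁻¹ := isom_ext fun x => by
        rw [ap d n1, ap d' n1, ← hκ, smul_smul]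
        simp only [map_smulₛₗ, LinearMap.smul_apply, smul_eq_mul]
        congr 2
        linear_combination S.h (d'.1 (e (L 0) - e (L 1))) x * (h1 - h2)
      rw [← this, d3, mul_inv_rev, ← mul_assoc, mul_left_inj, mul_assoc g, mul_assoc g, mul_right_inj,
        eq_mul_inv_iff_mul_eq] at d6
      simpa [f.sw_e, n, f.hh, Equiv.swap_apply_def] using congrArg (fun z : S.Isom => S.h (e (L 0)) (z.1 (e (L 1)))) d6
    obtain ⟨x, x1⟩ := f.nd.exists_h_eq_one (x := d'.1 (e (L 0) - e (L 1))) (by simpa [-map_sub] using d0 n1)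
    obtain ⟨J, J1, J2⟩ := f.supp4 yM (φ := -(1 + σ κ * κ) • S.h (d'.1 (e (L 0) - e (L 1)))) (ψ := 0)
      (u := d'.1 (e (L 0) - e (L 1))) (u' := 0) (x := x) (fun x => by
        rw [ya, ← hκ]
        generalize d'.1 (e (L 0) - e (L 1)) = z at zz'
        simp [zz']; module) (by simpa [-map_sub, -neg_add_rev, x1]) rfl
    exact dM (T d d1 n1 J J1 (hκ ▸ Submodule.smul_mem _ _ J2))
  obtain ⟨x, x1, x2⟩ := f.nd.exists_perp_of_notMem' hz 1
  have x1 := S.mem_perp_singleton.1 x1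
  generalize hz' : d'.1 (e (L 0) - e (L 1)) = z' at ya x1
  obtain ⟨J, J1, J2⟩ := f.supp4 yM (φ := S.h (d.1 (e (L 0) - e (L 1))) z' • S.h z' -
      S.h (d.1 (e (L 0) - e (L 1)))) (ψ := -S.h z') (u := d.1 (e (L 0) - e (L 1))) (u' := z') (x := x)
    (fun x => by
      rw [ya]
      generalize d.1 (e (L 0) - e (L 1)) = z
      simp; module) (by simp [-map_sub, x1, x2]) (by simp [x1])
  exact dM (T d d1 n1 J J1 J2)

variable (h2 : (2 : F) ≠ 0)
include h2

theorem of_r2 {g : S.Isom} (hg : g ∈ H) {i j : ι} (ij : i ≠ j)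
    (hm : g * (ur S (e i) (-1) * ur S (e j) (-1)) * g⁻¹ ∈ UM S e) : g ∈ UM S e := by
  have n1 : σ (-1) * -1 = 1 := by simp
  rw [← conj_mul, conj_ur, conj_ur] at hm
  obtain ⟨J, J1, J2⟩ := h.f.supp4 hm (φ := (-2 : F) • S.h (g.1 (e i))) (ψ := (-2 : F) • S.h (g.1 (e j)))
    (u := g.1 (e i)) (u' := g.1 (e j)) (x := g.1 (e i)) (fun x => by
      rw [isom_mul_apply, ur_apply (by simp [h.f.h1]) n1, ur_apply (by simp [h.f.h1]) n1]
      simp [h.f.hh, ij]; module) (by simp [h.f.h1, h2]) (by simp [h.f.hh, ij.symm])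
  exact h.of_supp hg J1 J2

end UH

/-- the diagonal involutions -/
def UA (S : PForm (unitP σ hσ) V) (e : ι → V) : Subgroup S.Isom where
  carrier := {g | ∀ i, g.1 (e i) = e i ∨ g.1 (e i) = -e i}
  mul_mem' {a b} ha hb i := by rcases hb i with c | c <;> rcases ha i with d | d <;> simp [c, d]
  one_mem' _ := Or.inl rfl
  inv_mem' {a} ha i := by
    rcases ha i with c | c
    · exact Or.inl (by conv_lhs => rw [← c, isom_inv_apply_self])
    · exact Or.inr (by conv_lhs => rw [← neg_neg (e i), ← c, map_neg, isom_inv_apply_self])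

theorem UA_le : UA S e ≤ UM S e := fun _ h => mem_UM fun i => by
  rcases h i with a | a <;> rw [a]
  exacts [UV.self i, ⟨i, -1, by simp, by simp⟩]

theorem UA.conj {x g : S.Isom} (hx : x ∈ UA S e) (hg : g ∈ UM S e) : g * x * g⁻¹ ∈ UA S e := fun i => by
  obtain ⟨j, c, -, hj⟩ := UM.uv (inv_mem hg) i
  have := isom_apply_inv_self g (e i)
  rw [isom_mul_apply, isom_mul_apply]
  rw [hj] at this ⊢
  rcases hx j with b | b <;> simp [b, ← this]

namespace UH
variable (h : UH H e) (h2 : (2 : F) ≠ 0)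
include h h2

theorem r_ua (i : ι) : ur S (e i) (-1) ∈ UA S e := fun j => by
  rw [h.f.ur_e (by simp)]; split_ifs <;> simp

theorem r2 (i j : ι) : ur S (e i) (-1) * ur S (e j) (-1) ∈ H := by simpa using h.rr (c := -1) (by simp) i j

theorem ua_comm {x y : S.Isom} (hx : x ∈ UA S e) (hy : y ∈ UA S e) : x * y = y * x :=
  h.f.ext' fun i => by rcases hx i with a | a <;> rcases hy i with b | b <;> simp [a, b]

theorem ev {x : S.Isom} (xH : x ∈ H) {J : Finset ι} (hx : ∀ i, x.1 (e i) = if i ∈ J then -e i else e i) :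
    J.card ≠ 5 := fun c => by
  have n1 : σ (-1) * -1 = 1 := by simp
  have A : ∀ J : Finset ι, ∃ g : S.Isom, (∀ i, g.1 (e i) = if i ∈ J then -e i else e i) ∧
      (S.detHom g : F) = (-1) ^ J.card := fun J => by
    induction J using Finset.induction_on with
    | empty => exact ⟨1, by simp, by simp⟩
    | insert a J ha ih =>
      obtain ⟨g, g1, g2⟩ := ih
      refine ⟨g * ur S (e a) (-1), fun i => ?_, by
        simp [g2, ur_det (h.f.h1 a) n1, card_insert_of_notMem ha, pow_succ]⟩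
      by_cases b : i = a <;> simp [h.f.ur_e n1, g1, b, ha]
  obtain ⟨g, g1, g2⟩ := A J
  rw [h.f.ext' (g := g) (g' := x) fun i => by rw [g1, hx], h.det x xH, c] at g2
  exact h2 (by linear_combination g2)

theorem cent {x g : S.Isom} (xH : x ∈ H) (hx : x ∈ UA S e) (h1 : x ≠ 1) (h3 : ¬ ∀ v, x.1 v = -v) (hg : g ∈ H)
    (hc : g * x = x * g) : g ∈ UM S e := by
  classical
  have k : ∀ ε : F, ε * ε = 1 → (∃ l, x.1 (e l) ≠ ε • e l) →
      6 ≤ (univ.filter fun i => x.1 (e i) = ε • e i).card → g ∈ UM S e := fun ε hε ⟨l, hl⟩ h6 => by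
    obtain ⟨i, hi⟩ := card_pos.1 (lt_of_lt_of_le (by norm_num) h6)
    have k1 : ∀ j v, x.1 (e j) = ε • e j ∧ S.h (e j) (x.1 v) = ε * S.h (e j) v ∨
        x.1 (e j) ≠ ε • e j ∧ S.h (e j) (x.1 v) = -ε * S.h (e j) v := fun j v => by
      have := isom_h x (e j) v
      have ne : e j ≠ -e j := fun a => h2 (by
        have := congrArg (S.h (e j)) a; rw [map_neg, h.f.h1] at this; linear_combination this)
      rcases mul_self_eq_one_iff.1 hε with rfl | rfl <;> rcases hx j with a | a <;>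
        simp [a, neg_eq_iff_eq_neg] at this <;> simp [a, this, ne, ne.symm]
    have k2 : ∀ v, v ∈ UJ S e (univ.filter fun i => x.1 (e i) = ε • e i) ↔ x.1 v = ε • v := fun v => by
      refine ⟨fun hv => h.f.ext fun j => ?_, fun hv j hj => ?_⟩
      · rcases k1 j v with a | a
        · simp [a.2]
        · simp [a.2, hv j (by simpa using a.1)]
      · have := ((k1 j v).resolve_left fun a => hj (by simpa using a.1)).2
        rw [hv, map_smul, smul_eq_mul] at this
        exact (mul_eq_zero.1 (by linear_combination ε * this - 2 * S.h (e j) v * hε)).resolve_left h2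
    exact h.of_uv hg (h.stab h6 (l := l) (by simpa) hg (fun v hv => (k2 _).2 (by
      rw [← isom_mul_apply, ← hc, isom_mul_apply, (k2 v).1 hv, map_smul])) hi)
  by_cases h6 : 6 ≤ (univ.filter fun i => x.1 (e i) = (1 : F) • e i).card
  · exact k 1 (by simp) (not_forall.1 fun a => h1 (h.f.ext' (g' := 1) (by simpa using a))) h6
  refine k (-1) (by simp) (not_forall.1 fun a => h3 fun v => by
    rw [h.f.expand v]; simp [a]) ?_
  have := card_filter_add_card_filter_not (s := univ) fun i => x.1 (e i) = (1 : F) • e i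
  have := h.card
  have := h.ev h2 xH (J := univ.filter fun i => ¬ x.1 (e i) = (1 : F) • e i) fun i => by
    by_cases a : x.1 (e i) = e i
    · simp [a]
    · simpa [a] using (hx i).resolve_left a
  have := card_le_card (show (univ.filter fun i => ¬ x.1 (e i) = (1 : F) • e i) ⊆
    univ.filter fun i => x.1 (e i) = (-1 : F) • e i from fun i hi => by
      simp [(hx i).resolve_left (by simpa using hi)])
  rw [card_univ] at *
  omega

theorem sclosed {x g : S.Isom} (xH : x ∈ H) (hx : x ∈ UA S e) (hg : g ∈ H) (hy : g * x * g⁻¹ ∈ UM S e) :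
    g * x * g⁻¹ ∈ UA S e := by
  by_contra hc
  have n1 : σ (-1) * -1 = 1 := by simp
  obtain ⟨i, hi⟩ := not_forall.1 hc
  obtain ⟨j, c, c1, hj⟩ := UM.uv hy i
  have xx : x * x = 1 := h.f.ext' fun i => by rcases hx i with a | a <;> simp [a]
  have yy : g * x * g⁻¹ * (g * x * g⁻¹) = 1 := by rw [conj_mul, xx, mul_one, mul_inv_cancel]
  have a1 : x ≠ 1 := by rintro rfl; exact hc (by simpa using one_mem _)
  have a2 : ¬ ∀ v, x.1 v = -v := fun a => hc fun i => Or.inr (by simp [a])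
  have a3 : i ≠ j ∧ g * x * g⁻¹ * (ur S (e i) (-1) * ur S (e j) (-1)) * (g * x * g⁻¹)⁻¹ =
      ur S (e i) (-1) * ur S (e j) (-1) := by
    generalize g * x * g⁻¹ = y at yy hj hi
    have := congrArg (fun z : S.Isom => z.1 (e i)) yy
    simp only [isom_mul_apply, hj, map_smul, isom_one_apply] at this
    refine ⟨?_, ?_⟩
    · rintro rfl
      have := congrArg (S.h (e i)) this
      simp only [hj, map_smul, h.f.h1, smul_eq_mul, mul_one, mul_self_eq_one_iff] at this
      exact hi (by rcases this with rfl | rfl <;> simp [hj])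
    · rw [← conj_mul, conj_ur, conj_ur, h.ua_comm h2 (h.r_ua h2 i) (h.r_ua h2 j), hj,
        ur_smul (h.f.h1 j) n1 c1, ← this, ur_smul (by simp [h.f.h1]) n1 c1]
  have a4 := h.cent h2 xH hx a1 a2 (g := g⁻¹ * (ur S (e i) (-1) * ur S (e j) (-1)) * g⁻¹⁻¹)
    (mul_mem (mul_mem (inv_mem hg) (h.r2 h2 i j)) (inv_mem (inv_mem hg))) (by
      have := a3.2
      generalize ur S (e i) (-1) * ur S (e j) (-1) = z at this
      conv_lhs => rw [← this]
      group)
  exact hc (UA.conj hx (by simpa using inv_mem (h.of_r2 h2 (inv_mem hg) a3.1 a4)))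

theorem odd : H ≤ UM S e := by
  have f := h.f
  haveI := finite_isom (S := S)
  have n1 : σ (-1) * -1 = 1 := by simp
  obtain ⟨z, hz, z1, z2⟩ : ∃ z ∈ H, (z = 1 ∨ ∀ v, z.1 v = -v) ∧ ∀ x ∈ H, (∀ v, x.1 v = -v) → x = z := by
    by_cases a : ∃ z ∈ H, ∀ v, z.1 v = -v
    · obtain ⟨z, a, b⟩ := a
      exact ⟨z, a, .inr b, fun x _ c => isom_ext fun v => by rw [b, c]⟩
    · exact ⟨1, one_mem _, .inl rfl, fun x b c => absurd ⟨x, b, c⟩ a⟩
  have cm : ∀ g : S.Isom, g * z = z * g := fun g => isom_ext fun x => by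
    rcases z1 with a | a <;> simp [a]
  have nn : z * z = 1 := isom_ext fun x => by rcases z1 with a | a <;> simp [a]
  have nA : z ∈ UA S e := fun i => by rcases z1 with a | a <;> simp [a]
  have ne : ∀ i, e i ≠ -e i := fun i a => h2 (by
    have := congrArg (S.h (e i)) a; rw [map_neg, h.f.h1] at this; linear_combination this)
  obtain ⟨L, hL⟩ : ∃ L : Fin 7 → ι, Function.Injective L :=
    ⟨_, (Function.Embedding.nonempty_of_card_le (α := Fin 7) (β := ι) (by
      have := h.card; simp; omega)).some.injective⟩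
  have n : ∀ a b, a ≠ b → L a ≠ L b := fun a b hab => hL.ne hab
  have ev := fun {x y : S.Isom} (a : x = y) (i : ι) => congrArg (fun z : S.Isom => z.1 (e i)) a
  have r := h.r_ua h2
  have re := f.ur_e n1
  by_contra hc
  obtain ⟨g, hg⟩ := ti_quot (G := H) (A := (UA S e).subgroupOf H) (M := (UM S e).subgroupOf H)
    (z := ⟨_, hz⟩) (fun g => Subtype.ext (cm g)) nA (Subgroup.subgroupOf_mono _ UA_le)
    (fun a => hc (Subgroup.subgroupOf_eq_top.1 a))
    (fun a ha => Subtype.ext (f.ext' fun i => by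
      rcases ha i with b | b <;> simp only [Subgroup.coe_subtype] at b <;> simp [b]))
    (fun a ha g hg => h.sclosed h2 a.2 ha g.2 hg)
    (fun a ha a1 a2 g hg => h.of_r2 h2 g.2 (n 0 1 (by decide)) (h.cent h2 a.2 ha (fun b => a1 (Subtype.ext b))
      (fun b => a2 (Subtype.ext (z2 _ a.2 b))) (mul_mem (mul_mem g.2 (h.r2 h2 _ _)) (inv_mem g.2)) (by
        have b1 := h.ua_comm h2 ha (mul_mem (r (L 0)) (r (L 1)))
        generalize ur S (e (L 0)) (-1) * ur S (e (L 1)) (-1) = r at b1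
        simp only [Subgroup.coe_subtype] at b1 ⊢
        rcases hg with b | b <;> have b := congrArg Subtype.val b <;>
          simp only [Subgroup.coe_mul, Subgroup.coe_inv] at b
        · conv_lhs => rw [← b]
          conv_rhs => rw [← b]
          rw [conj_mul, conj_mul, b1]
        · have : a.1 = g.1 * (a.1 * z) * g.1⁻¹ := by
            rw [← mul_assoc, mul_assoc _ _ g.1⁻¹, ← cm, ← mul_assoc, b, mul_assoc, nn, mul_one]
          conv_lhs => rw [this]
          conv_rhs => rw [this]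
          rw [conj_mul, conj_mul, ← mul_assoc r, ← b1, mul_assoc a.1, cm, mul_assoc a.1])))
    (fun g hg => h.of_r2 h2 g.2 (n 0 1 (by decide)) (UA_le (hg ⟨_, h.r2 h2 _ _⟩
      (mul_mem (r (L 0)) (r (L 1))))))
    (a := ⟨_, h.r2 h2 (L 0) (L 1)⟩) (b := ⟨_, mul_mem (h.r2 h2 (L 0) (L 1)) (h.r2 h2 (L 2) (L 3))⟩)
    (mul_mem (r _) (r _)) (mul_mem (mul_mem (r _) (r _)) (mul_mem (r _) (r _)))
    (fun a => ne (L 0) (by simpa [re, n] using (ev (congrArg Subtype.val a) (L 0)).symm))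
    (fun a => z1.elim (fun b => ne (L 0) (by simpa [re, n, b] using (ev (congrArg Subtype.val a) (L 0)).symm))
      fun b => ne (L 2) (by simpa [re, n, b] using ev (congrArg Subtype.val a) (L 2)))
    (fun a => ne (L 0) (by simpa [re, n] using (ev (congrArg Subtype.val a) (L 0)).symm))
    (fun a => z1.elim (fun b => ne (L 0) (by simpa [re, n, b] using (ev (congrArg Subtype.val a) (L 0)).symm))
      fun b => ne (L 4) (by simpa [re, n, b] using ev (congrArg Subtype.val a) (L 4)))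
  have hb := mul_mem (mul_mem (r (L 0)) (r (L 1))) (mul_mem (r (L 2)) (r (L 3)))
  have hg' : g.1 * (ur S (e (L 0)) (-1) * ur S (e (L 1)) (-1)) * g.1⁻¹ = _ ∨
    g.1 * (ur S (e (L 0)) (-1) * ur S (e (L 1)) (-1)) * g.1⁻¹ = _ :=
    hg.imp (congrArg Subtype.val) (congrArg Subtype.val)
  have gM := h.of_r2 h2 g.2 (n 0 1 (by decide)) (UA_le (by
    rcases hg' with b | b <;> rw [b]
    exacts [hb, mul_mem hb nA]))
  obtain ⟨i, c, c1, hi⟩ := UM.uv gM (L 0)
  obtain ⟨j, d, d1, hj⟩ := UM.uv gM (L 1)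
  rw [← conj_mul, conj_ur, conj_ur, hi, hj, ur_smul (f.h1 _) n1 c1, ur_smul (f.h1 _) n1 d1] at hg'
  have k : ∀ a b c, a ≠ b → a ≠ c → b ≠ c → ∃ d, (d = a ∨ d = b ∨ d = c) ∧
      (ur S (e i) (-1) * ur S (e j) (-1)).1 (e (L d)) = e (L d) := fun a b c ab ac bc => by
    obtain ⟨d, d1, d2⟩ := exists_mem_notMem_of_card_lt_card (s := {i, j}) (t := {L a, L b, L c})
      (by rw [card_eq_three.2 ⟨_, _, _, n a b ab, n a c ac, n b c bc, rfl⟩]; exact Nat.lt_succ_of_le card_le_two)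
    simp only [mem_insert, mem_singleton, not_or] at d1 d2
    have : (ur S (e i) (-1) * ur S (e j) (-1)).1 (e d) = e d := by simp [re, d2]
    rcases d1 with rfl | rfl | rfl <;> exact ⟨_, by simp, this⟩
  obtain ⟨d, d1, d2⟩ := k 0 1 2 (by decide) (by decide) (by decide)
  obtain ⟨d', d3, d4⟩ := k 4 5 6 (by decide) (by decide) (by decide)
  rcases hg' with b | b <;> rw [b] at d2 d4
  · rcases d1 with rfl | rfl | rfl <;> exact ne _ (by simpa [re, n] using d2.symm)
  rcases z1 with a | a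
  · rcases d1 with rfl | rfl | rfl <;> exact ne _ (by simpa [re, n, a] using d2.symm)
  · rcases d3 with rfl | rfl | rfl <;> exact ne _ (by simpa [re, n, a] using d4.symm)

end UH

theorem uframe_dich (hne : σ ≠ RingHom.id F) (hS : S.Nondeg) {t : ℕ} {D : Fin t → Submodule F V}
    (hD : ODec S 1 D) (ht : 10 ≤ t) (H : Subgroup S.Isom) (hH : ∀ g ∈ S.E, ODec.Perm D g → g ∈ H)
    (hle : H ≤ S.E) :
    S.E ≤ H ∨ ∀ g ∈ H, ODec.Perm D g := by
  have h : UD H 1 D := ⟨hne, hS, hD, one_pos, .inr (by omega), hH⟩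
  choose e he e1 using fun i => unit_exists_norm_mem hne (hD.nondeg i) (by rw [hD.dim]; omega) (map_one σ)
  have e0 : ∀ i, e i ≠ 0 := fun i e' => by simpa [e'] using e1 i
  have hd : ∀ i, D i = F ∙ e i := fun i => (Submodule.eq_of_le_of_finrank_eq
    ((Submodule.span_singleton_le_iff_mem _ _).2 (he i)) (by rw [finrank_span_singleton (e0 i), hD.dim])).symm
  have hp : ∀ i x, x ∈ S.perp (D i) ↔ S.h (e i) x = 0 := fun i x => by rw [hd, mem_perp_singleton]
  have pm : ∀ g ∈ UM S e, ODec.Perm D g := fun g hg i =>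
    (UM.uv hg i).imp fun j ⟨c, _, hj⟩ x hx => by
      rw [hd] at hx ⊢
      obtain ⟨c, rfl⟩ := Submodule.mem_span_singleton.1 hx
      simp [hj, Submodule.smul_mem]
  refine or_iff_not_imp_left.2 fun hE g hg => pm g ?_
  have u : UH H e := ⟨⟨hne, hS, fun i j => by
      split_ifs with a
      exacts [a ▸ e1 i, hD.orth i j a (he j) _ (he i)], fun x hx => hD.eq_zero hS fun i => (hp i x).2 (hx i)⟩,
    by simpa, fun g hg => (u_memE hne hS h.two g).1 (hle hg), fun g g1 g2 => hH g ((u_memE hne hS h.two g).2 g2) (pm g g1), fun I hI s hs s0 sI y hy l hl => by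
      by_contra a
      exact hE (h.grow (.inr (by omega)) hs s0 (fun l hl => (hp l s).2 (sI l hl)) hy hl (by rwa [hp]))⟩
  by_cases h2 : (2 : F) = 0
  exacts [u.even h2 hg, u.odd h2 hg]

theorem su_odec_max {F : Type*} [Field F] [Fintype F] {n q : ℕ} (hF : Fintype.card F = q ^ 2)
    (hn : 10 ≤ n) {t k : ℕ} {D : Fin t → Submodule F (Fin n → F)}
    (hD : Cfsg.Geo.IsNondegenerateMDecomposition (Cfsg.hermForm n F q) k D) (hex : ¬ (k = 2 ∧ q = 2)) :
    Cfsg.Geo.IsMaximalIn (Cfsg.GU n F q ⊓ Cfsg.Geo.specialLinear (Fin n) F)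
      (Cfsg.Geo.decompositionStabilizer D ⊓ (Cfsg.GU n F q ⊓ Cfsg.Geo.specialLinear (Fin n) F)) := by
  obtain ⟨σ, hq, hσ, hne⟩ := H11.exists_frob hF
  rw [su_eq hσ hne hq (by omega)]
  have hS := stdUnit_nondeg hσ hne (Fin n)
  have h : ODec (stdUnit hσ hne (Fin n)) k D := odec_of _ (fun x y => by
    rw [← stdUnit_h_eq hσ hne hq, h_eq_zero_comm]) hD
  generalize stdUnit hσ hne (Fin n) = S at hS h
  have hdim : t * k = n := by
    have h1 := (DirectSum.isInternal_submodule_of_iSupIndep_of_iSup_eq_top hD.decomp.indep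
      hD.decomp.iSup_eq_top)
    simpa [Module.finrank_directSum, h.dim] using
      (LinearEquiv.ofBijective (DirectSum.coeLinearMap D) h1).finrank_eq
  have h0 := h.pos
  have h2 := h.two
  have hF' : Nat.card F = q ^ 2 := by rw [Nat.card_eq_fintype_card, hF]
  obtain rfl | hk := eq_or_ne k 1
  · refine isMaximalIn_odec hS hD.decomp h ?_ fun H => uframe_dich hne hS h (by omega) H
    have u : UD ⊤ 1 D := ⟨hne, hS, h, one_pos, .inr (by omega), fun _ _ _ => trivial⟩
    obtain ⟨s, hs, s0, ss⟩ := unit_exists_sing hne S _ (u.sup (i := ⟨0, by omega⟩) (j := ⟨1, by omega⟩)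
      (by simp)).2
    obtain ⟨y, hy, y1⟩ := unit_exists_norm_mem hne (h.nondeg ⟨2, by omega⟩) (by rw [h.dim]; omega) (map_one σ)
    have sp := sup_le (h.orth ⟨2, by omega⟩ ⟨0, by omega⟩ (by simp)) (h.orth _ ⟨1, by omega⟩ (by simp)) hs
    refine ⟨_, S.eich_mem_E s y (S.q y), fun hp => ?_⟩
    obtain ⟨j, hj⟩ := hp ⟨2, by omega⟩
    have := hj y hy
    rw [eich_apply_of_perp (.of_q ss (S.h_swap_zero (sp y hy))) (S.h_swap_zero (sp y hy)), y1] at this
    obtain rfl | e := eq_or_ne ⟨2, by omega⟩ j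
    · exact s0 (h.eq_zero' (by simpa using sub_mem hy this) sp)
    · simpa [y1, sp y hy] using h.orth _ _ e this y hy
  obtain ⟨e, he, e0, es⟩ := unit_exists_sing hne S (D ⟨0, by omega⟩) (by rw [h.dim]; omega)
  refine isMaximalIn_odec hS hD.decomp h (h.exists_E_not_perm hS he e0 es) fun H hH _ => ?_
  by_cases h5 : 5 ≤ k
  · exact odec_dichotomy hS (iso3_unit hne S) h h5
      (fun i j => unit_eqv hne k (h.nondeg i) (h.nondeg j) (h.dim i) (h.dim j)) H hH
  have := two_le_of_card_sq hF'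
  exact udec_two hne hS h (by omega) (by nlinarith) (fun e => ⟨by nlinarith,
    exists_fixed_ne hσ hne hF' (by omega)⟩) H hH

end H29
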