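import Cfsg.Agent.H29.TU3
import Cfsg.Agent.H29.UF2
import Cfsg.Agent.H20.Tp3
import Cfsg.Agent.H29.NM2

/-! Overgroups of `SU(U) ⊗ SU(W)` in `SU(U ⊗ W)`, part 4: the images of `U ⊗ v` are pure, by an
involution argument in characteristic two (`TU.even`) and by maximal intersections and Dickson's
lemma in odd characteristic (`TU.odd`); `TU.dich`. -/

set_option autoImplicit false
set_option linter.unusedSectionVars false

namespace H29

open Module H11 H11.PForm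
open scoped MatrixGroups Matrix

theorem dih2 {G : Type*} [Group G] [Finite G] {a b : G} (ha : a * a = 1) (hb : b * b = 1)
    (L : Subgroup G) (aL : a ∈ L) (bL : b ∈ L) :
    (∃ g ∈ L, g * a * g⁻¹ * a * (g * a * g⁻¹)⁻¹ = b) ∨ ∃ d ∈ L, d ≠ 1 ∧ d * d = 1 ∧ d * a * d⁻¹ = a ∧
      d * b * d⁻¹ = b ∧ ∃ g ∈ L, d * a = g * a * g⁻¹ ∨ d * a = g * b * g⁻¹ := by
  obtain ⟨d, hd, h⟩ := dih_alt ha hb
  have dL := Subgroup.zpowers_le.2 (L.mul_mem aL bL) hd
  refine h.imp (fun h => ⟨d, dL, h⟩) fun h => ⟨d, dL, h.1, h.2.1, h.2.2.1, h.2.2.2, ?_⟩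
  obtain ⟨n, rfl⟩ := mem_powers_iff_mem_zpowers.2 hd
  have ia : a⁻¹ = a := inv_eq_of_mul_eq_one_right ha
  have ib : b⁻¹ = b := inv_eq_of_mul_eq_one_right hb
  have A : ∀ n : ℕ, a * ((a * b) ^ n)⁻¹ = (a * b) ^ n * a := fun n => by
    have : a * (a * b)⁻¹ * a⁻¹ = a * b := by rw [mul_inv_rev, ia, ib, mul_assoc, mul_assoc, ha, mul_one]
    rw [← inv_pow, ← this, conj_pow, this, inv_mul_cancel_right]
  have m := fun n : ℕ => L.pow_mem (L.mul_mem aL bL) n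
  obtain ⟨k, rfl | rfl⟩ := Nat.even_or_odd' n
  · exact ⟨_, m k, .inl (by rw [mul_assoc, A, ← mul_assoc, ← pow_add, two_mul])⟩
  · refine ⟨_, L.mul_mem (m k) aL, .inr ?_⟩
    rw [mul_inv_rev, ia, A, mul_assoc _ a, ← pow_succ, ← mul_assoc, ← pow_add]
    congr 2; ring

variable {F U W V : Type*} [Field F] [Finite F] {σ : F →+* F} {hσ : ∀ a, σ (σ a) = a}
  [AddCommGroup U] [Module F U] [AddCommGroup W] [Module F W]
  [AddCommGroup V] [Module F V] [FiniteDimensional F U] [FiniteDimensional F W]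
  [FiniteDimensional F V] {S : PForm (unitP σ hσ) V} {H : Subgroup S.Isom}
  {A : PForm (unitP σ hσ) U} {B : PForm (unitP σ hσ) W} {t : W →ₗ[F] U →ₗ[F] V}
  {c : W →ₛₗ[σ] V →ₗ[F] U} {v w y z : W} {g k : S.Isom} {x : V} {s : F} {X Y D : Submodule F V}
  {d : ℕ}

theorem udk (h2 : (2 : F) ≠ 0) {n m : V →ₗ[F] V} (hX : X ≠ ⊥) (hn : ∀ x ∈ X, n x = 0)
    (hm : ∀ x, m (m x) = 0) (hM : ∀ x ∈ X, (n ∘ₗ m) x ∈ X) (hi : ∀ x ∈ X, n (m x) = 0 → x = 0)
    (hg : g ∈ H) (hk : k ∈ H) (eg : ∀ x, g.1 x = x + n x) (ek : ∀ x, k.1 x = x + m x) :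
    ∃ x ∈ X, ∃ g ∈ H, g.1 x ∈ X ∧ g.1 x ≠ x := by
  haveI := Submodule.nontrivial_iff_ne_bot.2 hX
  obtain ⟨f, f1, f2, ι, i1, i2, i3⟩ := H20.Tp.ex_simple ((n ∘ₗ m).restrict hM)
  haveI := Fact.mk f1
  haveI := (AdjoinRoot.powerBasis' f2).finite
  haveI : Finite (AdjoinRoot f) := Module.finite_of_finite F
  generalize AdjoinRoot.root f = θ at i2
  replace i2 : ∀ l, n (m (ι l)) = ι (θ * l) := fun l => congrArg Subtype.val (i2 l)
  replace i3 : ∀ l, ι l = 0 → l = 0 := fun l h => by_contra fun h0 =>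
    i1 (by simpa [h0] using i3 l h l⁻¹)
  have i4 : (ι 1 : V) ≠ 0 := by simpa using i1
  have t0 : θ ≠ 0 := fun h => i4 (hi _ (ι 1).2 (by simp [i2, h]))
  have h2' : (2 : AdjoinRoot f) ≠ 0 := fun h => h2 ((algebraMap F (AdjoinRoot f)).injective
    (by rw [map_ofNat, map_zero]; exact h))
  let L : Subgroup SL(2, AdjoinRoot f) :=
    { carrier := {B | ∃ g ∈ H, ∀ p : Fin 2 → AdjoinRoot f, g.1 (ι (p 0) + m (ι (p 1))) =
        ι ((B.1 *ᵥ p) 0) + m (ι ((B.1 *ᵥ p) 1))}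
      mul_mem' := by
        rintro B C ⟨g, hg, a1⟩ ⟨k, hk, b1⟩
        exact ⟨g * k, H.mul_mem hg hk, fun p => by
          rw [isom_mul_apply, b1, a1, Matrix.mulVec_mulVec, Matrix.SpecialLinearGroup.coe_mul]⟩
      one_mem' := ⟨1, H.one_mem, by simp⟩
      inv_mem' := by
        rintro B ⟨g, hg, a1⟩
        refine ⟨g⁻¹, H.inv_mem hg, fun p => g.1.injective ?_⟩
        rw [isom_apply_inv_self, a1, Matrix.mulVec_mulVec, ← Matrix.SpecialLinearGroup.coe_mul,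
          mul_inv_cancel, Matrix.SpecialLinearGroup.coe_one, Matrix.one_mulVec] }
  have l1 : ∀ B : SL(2, AdjoinRoot f), B.1 = !![1, 0; 1, 1] → B ∈ L := fun B e => ⟨k, hk, fun p => by
    simp [e, ek, hm, Matrix.mulVec, dotProduct]; abel⟩
  have l2 : ∀ B : SL(2, AdjoinRoot f), B.1 = !![1, θ; 0, 1] → B ∈ L := fun B e => ⟨g, hg, fun p => by
    simp [e, eg, hn, i2, Matrix.mulVec, dotProduct]; abel⟩
  suffices ∃ B ∈ L, B.1 0 0 ≠ 1 ∧ B.1 1 0 = 0 by
    obtain ⟨B, ⟨g, hg, e⟩, a1, a2⟩ := this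
    have e1 : g.1 (ι 1) = ι (B.1 0 0) := by simpa [Matrix.mulVec, dotProduct, a2] using e ![1, 0]
    exact ⟨ι 1, (ι 1).2, g, hg, e1 ▸ (ι _).2, fun e2 => a1 (sub_eq_zero.1 (i3 _ (by
      rw [map_sub, sub_eq_zero]; exact Subtype.ext (e1.symm.trans e2))))⟩
  by_cases h3 : θ ^ 2 = -1
  · obtain ⟨a, ea⟩ : ∃ a : SL(2, AdjoinRoot f), a.1 = !![1, 0; 1, 1] :=
      ⟨⟨_, by simp [Matrix.det_fin_two]⟩, rfl⟩
    obtain ⟨b, eb⟩ : ∃ b : SL(2, AdjoinRoot f), b.1 = !![1, θ; 0, 1] :=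
      ⟨⟨_, by simp [Matrix.det_fin_two]⟩, rfl⟩
    refine ⟨a * b⁻¹ * a⁻¹ * b * a, L.mul_mem (L.mul_mem (L.mul_mem (L.mul_mem (l1 a ea) (L.inv_mem
      (l2 b eb))) (L.inv_mem (l1 a ea))) (l2 b eb)) (l1 a ea), (?_ : _ = θ).trans_ne fun e =>
        h2' (by rw [e] at h3; linear_combination h3), ?_⟩ <;>
    · simp [ea, eb, Matrix.adjugate_fin_two]
      linear_combination h3
  let K := Subfield.closure {θ}
  haveI := Fintype.ofFinite K
  let lam : K := ⟨θ, Subfield.subset_closure rfl⟩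
  have top := ((Cfsg.Agent.S0801.result (F := K) (fun h => h2' (congrArg Subtype.val h)) lam
    (fun h => t0 (congrArg Subtype.val h)) (eq_top_iff.2 fun z _ => by
      obtain ⟨y, hy, e⟩ : z.1 ∈ (Subfield.closure {lam}).map K.subtype := by
        rw [RingHom.map_field_closure, Set.image_singleton]; exact z.2
      exact (Subtype.ext e : y = z) ▸ hy)).resolve_right
      fun c => h3 (congrArg Subtype.val c.2.1)).1
  have le : L.comap (Matrix.SpecialLinearGroup.map K.subtype) = ⊤ :=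
    eq_top_iff.2 (top ▸ (Subgroup.closure_le _).2 fun B hB => by
      rcases hB with hB | hB
      · exact l1 _ (by ext i j; fin_cases i <;> fin_cases j <;> simp [hB])
      · exact l2 _ (by ext i j; fin_cases i <;> fin_cases j <;> simp [hB, lam]))
  exact ⟨_, (le.ge trivial : (⟨!![-1, 0; 0, -1], by simp [Matrix.det_fin_two]⟩ : SL(2, K)) ∈ _),
    fun e => h2' (by have : (-1 : AdjoinRoot f) = 1 := e; linear_combination -this), rfl⟩

/-- the elements of `H` fixing `D` pointwise and acting trivially modulo `X` -/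
def fixMod (H : Subgroup S.Isom) (D X : Submodule F V) : Subgroup S.Isom where
  carrier := {k | k ∈ H ∧ (∀ x ∈ D, k.1 x = x) ∧ ∀ x, k.1 x - x ∈ X}
  mul_mem' := fun {k l} a b => ⟨H.mul_mem a.1 b.1, fun x hx => by simp [a.2.1 x hx, b.2.1 x hx],
    fun x => by simpa using add_mem (a.2.2 (l.1 x)) (b.2.2 x)⟩
  one_mem' := ⟨H.one_mem, by simp, by simp⟩
  inv_mem' := fun {k} a => ⟨H.inv_mem a.1, fun x hx => k.1.injective (by simp [a.2.1 x hx]),
    fun x => by simpa using neg_mem (a.2.2 (k⁻¹.1 x))⟩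

/-- distinct images of the subspaces `U ⊗ v` meet in dimension at most `d` -/
def UMx (B : PForm (unitP σ hσ) W) (t : W →ₗ[F] U →ₗ[F] V) (H : Subgroup S.Isom) (d : ℕ) : Prop :=
  ∀ g ∈ H, ∀ k ∈ H, ∀ v w, v ≠ 0 → B.h v v = 0 → w ≠ 0 → B.h w w = 0 →
    d < finrank F (UX t g v ⊓ UX t k w : Submodule F V) → UX t g v = UX t k w

theorem UMx.nml (hM : UMx B t H d) (hg : g ∈ H) (v0 : v ≠ 0) (hv : B.h v v = 0) (hD : D ≤ UX t g v)
    (hd : d ≤ finrank F D) (hk : k ∈ H) (h1 : ∀ y ∈ D, k.1 y = y) (hx : x ∈ UX t g v)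
    (hx' : k.1 x ∈ UX t g v) (hxD : x ∉ D) : UX t (k * g) v = UX t g v :=
  hM _ (H.mul_mem hk hg) _ hg _ _ v0 hv v0 hv (hd.trans_lt (Submodule.finrank_lt_finrank_of_lt
    (lt_of_le_of_ne (le_inf (fun y hy => UX_mul.ge ⟨y, hD hy, h1 y hy⟩) hD) fun e' => hxD (by
      have a : k.1 x ∈ D := e'.ge ⟨UX_mul.ge ⟨x, hx, rfl⟩, hx'⟩
      exact k.1.injective (h1 _ a) ▸ a))))

namespace TU
variable (h : TU A B t c H)
include h

theorem cj {a j : S.Isom} (v0 : v ≠ 0) (w0 : w ≠ 0) (s0 : s ≠ 0) (ea : ∀ x, a.1 x = x + s • t v (c v x))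
    (ek : ∀ x, k.1 x = x + s • umm t c g w x) (e : j * a * j⁻¹ = k) : UX t j v = UX t g w :=
  Submodule.eq_of_le_of_finrank_eq (fun x hx => by
    obtain ⟨y, rfl⟩ := h.mm_surj v0 hx
    have := ek y
    rw [← e, isom_mul_apply, isom_mul_apply, ea, map_add, isom_apply_inv_self, add_right_inj, map_smul,
      (smul_right_injective V s0).eq_iff] at this
    rw [umm_apply, this]; exact umm_mem y) (by rw [h.rk v0, h.rk w0])

variable (hN : ∀ E, TUL B t c H E → ∃ s : F, ∀ u, E u = s • u)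
include hN

theorem even (h2 : (2 : F) = 0) (hg : g ∈ H) (w0 : w ≠ 0) (hw : B.h w w = 0) :
    ∃ y, UX t g w = LinearMap.range (t y) := by
  haveI := finite_isom (S := S)
  by_contra hY
  have h5 := h.five
  have h1 : (1 : F) + σ 1 = 0 := by rw [map_one, one_add_one_eq_two, h2]
  have sq : ∀ {k g : S.Isom} {v : W}, B.h v v = 0 → (∀ x, k.1 x = x + (1 : F) • umm t c g v x) →
      k * k = 1 := fun {k g v} hv e => isom_ext fun x => by
    simp only [isom_mul_apply, e, map_add, one_smul, h.mm0 hv (umm_mem x), isom_one_apply, add_zero]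
    rw [add_assoc, ← two_smul F, h2, zero_smul, add_zero]
  obtain ⟨b, hb, eb⟩ := h.hm hg hw h1
  have C : ∀ v, v ≠ 0 → B.h v v = 0 → ∃ j ∈ H, ∃ k ∈ H, (∀ x, j.1 x = x + umm t c k v x) ∧
      UX t j v = UX t g w := fun v v0 hv => by
    obtain ⟨a, ha, ea⟩ := h.hT hv h1
    have ca : ∀ k : S.Isom, ∀ x, (k * a * k⁻¹).1 x = x + (1 : F) • umm t c k v x := fun k x => by
      simp [ea, umm_apply]
    obtain ⟨k, hk, e⟩ | ⟨d, hd, d1, d2, d3, d4, k, hk, e⟩ := dih2 (sq (g := 1) hv ea) (sq hw eb)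
      (fixMod H ⊥ (LinearMap.range (t v) ⊔ UX t g w))
      ⟨ha, by simp, fun x => Submodule.mem_sup_left (by simp [ea])⟩
      ⟨hb, by simp, fun x => Submodule.mem_sup_right (by simpa [eb] using umm_mem x)⟩
    · exact ⟨_, H.mul_mem (H.mul_mem hk.1 ha) (H.inv_mem hk.1), k, hk.1, by simpa using ca k,
        h.cj v0 w0 one_ne_zero ea eb e⟩
    refine absurd ?_ hY
    obtain ⟨k', w', k1, k2, e⟩ : ∃ k' w', k' ∈ H ∧ (w' ≠ 0 ∧ B.h w' w' = 0) ∧
        ∀ x, (d * a).1 x = x + (1 : F) • umm t c k' w' x := by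
      rcases e with e | e
      · exact ⟨k, v, hk.1, ⟨v0, hv⟩, e ▸ ca k⟩
      · exact ⟨k * g, w, H.mul_mem hk.1 hg, ⟨w0, hw⟩, fun x => by simp [e, eb, umm_apply]⟩
    have a1 : UX t d v = LinearMap.range (t v) := (h.cj (g := 1) v0 v0 one_ne_zero ea ea d3).trans UX_one
    obtain ⟨v', a2⟩ := h.lemS hN k1 k2.1 k2.2 one_ne_zero e (h.block hN (H.mul_mem hd.1 ha) v0 hv
      (h.UX_eq v0 v0 fun u => (a1.le (UX_self u)).imp fun u' e => by simp [ea, h.ct, hv, e]))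
    obtain ⟨z, z0, z1, z2, z3⟩ := uex_iso h.ne h.ndW (by omega) v v'
    choose f hf using h.fixC hN z0 z1 hd.1 (h.fix_of fun x => by
      obtain ⟨u, hu⟩ := a2.le (umm_mem (c := c) (a.1 x))
      have := e (a.1 x)
      rw [← isom_mul_apply, mul_assoc, sq (g := 1) hv ea, mul_one] at this
      rw [this, ← hu]
      simp [ea, h.ct, z2, z3])
    have a3 : ∀ y u, d.1 (t y u) - t y u = t (f y - y) u := fun y u => by simp [hf]
    obtain ⟨y, hy⟩ : ∃ y, f y - y ≠ 0 := by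
      by_contra! e
      exact d1 (isom_ext (h.lext (f := d.1) (g := .id) fun y u => sub_eq_zero.1 (by simp [a3, e])))
    by_cases a4 : ∀ y', f y' - y' ∈ F ∙ (f y - y)
    swap
    · obtain ⟨y', a4⟩ := not_forall.1 a4
      exact h.two_dim hN hg w0 hw (h.rk1 v0).le hy a4 (fun u => a3 y u ▸ hd.2.2 _)
        fun u => a3 y' u ▸ hd.2.2 _
    obtain ⟨u, u', hu⟩ := h.ex_u
    have a5 : B.h (f y - y) (f y - y) = 0 := by
      have := h.tt (f y - y) (f y - y) u u'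
      rw [← a3, ← a3, hu, mul_one] at this
      rw [← this]
      simp only [map_sub, LinearMap.sub_apply, isom_h]
      rw [isom_h_left d (t y u), inv_eq_of_mul_eq_one_right d2]
      linear_combination (S.h (t y u) (t y u') - S.h (t y u) (d.1 (t y u'))) * h2
    refine h.lemS hN hg w0 hw one_ne_zero eb (h.block hN hb hy a5 (h.UX_eq hy hy fun u => ?_))
    have := h.ext ((LinearMap.range (t (f y - y))).comap ((d.1 : V →ₗ[F] V) - .id)).toAddSubgroup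
      (fun y' u => by
        obtain ⟨r, hr⟩ := Submodule.mem_span_singleton.1 (a4 y')
        exact ⟨r • u, by simp [a3, ← hr]⟩) (b.1 (t y u))
    obtain ⟨u', hu'⟩ := this
    refine ⟨u', ?_⟩
    rw [hu', ← a3, map_sub, ← isom_mul_apply, ← mul_inv_eq_iff_eq_mul.1 d4]; rfl
  obtain ⟨v₂, z', Hy⟩ := h.hyp
  obtain ⟨v₁, z₁, Hz, b1, b2, -, -⟩ := uframe h.ne h.ndW (by omega) Hy
  have v1 : v₁ ≠ 0 := by rintro rfl; simpa using Hz.h_ef
  have v2 : v₂ ≠ 0 := by rintro rfl; simpa using Hy.h_ef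
  obtain ⟨j, hj, k, hk, ej, e1⟩ := C v₁ v1 Hz.h_ee
  obtain ⟨j', hj', k', hk', ej', e2⟩ := C v₂ v2 Hy.h_ee
  have he := H.mul_mem (H.inv_mem hj) hj'
  have c1 : UX t (j⁻¹ * j') v₂ = LinearMap.range (t v₁) := by
    rw [UX_mul, e2, ← e1, ← UX_mul, inv_mul_cancel, UX_one]
  have c2 : ∀ x, (j⁻¹ * j').1 x - x ∈ UX t k v₁ ⊔ UX t k' v₂ :=
    ((fixMod H ⊥ (UX t k v₁ ⊔ UX t k' v₂)).mul_mem (Subgroup.inv_mem _
      ⟨hj, by simp, fun x => Submodule.mem_sup_left (by simpa [ej] using umm_mem x)⟩)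
      ⟨hj', by simp, fun x => Submodule.mem_sup_right (by simpa [ej'] using umm_mem x)⟩).2.2
  generalize j⁻¹ * j' = e at he c1 c2
  have hK := h.block hN he v2 Hy.h_ee c1
  let L := ((e.1 : V →ₗ[F] V) - .id) ∘ₗ (t v₂).coprod (t z')
  have c3 : LinearMap.range L = UX t k v₁ ⊔ UX t k' v₂ := Submodule.eq_of_le_of_finrank_le
    (by rintro _ ⟨p, rfl⟩; exact c2 _) (by
      rw [LinearMap.finrank_range_of_inj ((injective_iff_map_eq_zero _).2 fun p hp => ?_), finrank_prod]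
      · simpa [h.rk v1, h.rk v2] using
          Submodule.finrank_add_le_finrank_add_finrank (UX t k v₁) (UX t k' v₂)
      replace hp : e.1 (t v₂ p.1 + t z' p.2) = t v₂ p.1 + t z' p.2 := sub_eq_zero.1 hp
      have p2 : p.2 = 0 := h.ndU.eq_zero' fun u => by
        obtain ⟨u', hu⟩ := c1.le (UX_self u)
        have := isom_h e (t v₂ u) (t v₂ p.1 + t z' p.2)
        rw [hp, ← hu] at this
        simpa [h.tt, Hy.h_ee, Hy.h_ef, B.h_swap_zero b1, B.h_swap_zero b2] using this.symm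
      obtain ⟨u', hu⟩ := c1.le (UX_self p.1)
      simp only [p2, map_zero, add_zero, ← hu] at hp
      exact Prod.ext (by simpa [h.ct, b2, uone Hy.h_ef] using (congrArg (c z') hp).symm) p2)
  obtain ⟨z'', c4⟩ := hK z' (by rintro rfl; simpa using Hy.h_ef) Hy.h_ff
  obtain ⟨r, -, r0, hr⟩ := exists_mem_ker_notMem [B.h v₁, B.h v₂, B.h z', B.h z''] ⊤
    (⊥ : Submodule F W) (by simp; omega)
  simp only [List.mem_cons, List.not_mem_nil, or_false, forall_eq_or_imp, forall_eq] at hr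
  choose f hf using h.fixN hN he hK (z := r) (by simpa using r0) (h.fix_of fun x => by
    obtain ⟨p, hp⟩ := c3.ge (c2 x)
    obtain ⟨a, ha⟩ := c1.le (UX_self p.1)
    obtain ⟨b, hb⟩ := c4.le (UX_self p.2)
    simp [← hp, L, ← ha, ← hb, h.ct, B.h_swap_zero hr.1, B.h_swap_zero hr.2.1,
      B.h_swap_zero hr.2.2.1, B.h_swap_zero hr.2.2.2])
  obtain ⟨y, c5⟩ := h.std2 hN hk v1 Hz.h_ee (y := f v₂ - v₂) (z := f z' - z') (le_sup_left.trans
    (c3.ge.trans (by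
      rintro _ ⟨p, rfl⟩
      exact Submodule.mem_sup.2 ⟨_, ⟨p.1, rfl⟩, _, ⟨p.2, rfl⟩, by simp [L, hf]; abel⟩)))
  obtain ⟨y0, yy⟩ := h.iso_of v1 Hz.h_ee c5
  exact hY (e1 ▸ h.block hN hj y0 yy (h.UX_eq y0 y0 fun u => ⟨u, by
    rw [ej, h.mm0 Hz.h_ee (c5.ge ⟨u, rfl⟩), add_zero]⟩) v₁ v1 Hz.h_ee)

theorem core (h2 : (2 : F) ≠ 0) (hM : UMx B t H d) (v0 : v ≠ 0) (hv : B.h v v = 0) (hg : g ∈ H)
    (w0 : w ≠ 0) (hw : B.h w w = 0) (hd : d ≤ finrank F ↥(LinearMap.range (t v) ⊓ UX t g w)) :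
    ∃ y, UX t g w = LinearMap.range (t y) := by
  by_contra hY
  obtain ⟨s, s0, hs⟩ := exists_mem_unit_Λ hσ h.ne
  obtain ⟨a, ha, ea⟩ := h.hT hv hs
  obtain ⟨b, hb, eb⟩ := h.hm hg hw hs
  have i1 : ∀ x ∈ LinearMap.range (t v), b.1 x ∈ LinearMap.range (t v) → x ∈ UX t g w :=
    fun x hx e => by_contra fun h' => hY (h.lemS hN hg w0 hw s0 eb (h.block hN hb v0 hv (by
      simpa [UX_one] using hM.nml H.one_mem v0 hv (inf_le_left.trans UX_one.ge) hd hb
        (fun y hy => by simp [eb, h.mm0 hw hy.2]) (UX_one.ge hx) (UX_one.ge e) fun a => h' a.2)))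
  have i2 : ∀ x ∈ UX t g w, a.1 x ∈ UX t g w → x ∈ LinearMap.range (t v) := fun x hx e =>
    by_contra fun h' => by
    have a1 := hM.nml hg w0 hw inf_le_right hd ha (by rintro _ ⟨⟨u, rfl⟩, -⟩; simp [ea, h.ct, hv]) hx e
      fun a => h' a.1
    obtain ⟨v', a2⟩ := h.lemS hN (H.inv_mem hg) v0 hv s0 (k := g⁻¹ * (a * g))
      (fun x => by simp [ea, umm_apply]) (h.block hN (H.mul_mem (H.inv_mem hg) (H.mul_mem ha hg)) w0 hw
        (by rw [UX_mul, a1, ← UX_mul, inv_mul_cancel, UX_one]))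
    exact hY (h.block hN hg (h.iso_of v0 hv a2).1 (h.iso_of v0 hv a2).2 (UX_inv a2) w w0 hw)
  let G := fixMod H (LinearMap.range (t v) ⊓ UX t g w) (LinearMap.range (t v) ⊔ UX t g w)
  have key : ∀ k ∈ G, ∀ x ∈ LinearMap.range (t v), x ∉ UX t g w → k.1 x ∈ LinearMap.range (t v) →
      k.1 x = x := by
    intro k hk x hx h1 h3
    have a1 : UX t k v = LinearMap.range (t v) := by
      simpa [UX_one] using hM.nml H.one_mem v0 hv (inf_le_left.trans UX_one.ge) hd hk.1 hk.2.1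
        (UX_one.ge hx) (UX_one.ge h3) fun a => h1 a.2
    obtain ⟨v', Hy⟩ := h.ndW.exists_isHyp (us hv) v0
    obtain ⟨z, z', Hz, b1, b2, b3, -⟩ := uframe h.ne h.ndW (by have := h.five; omega) Hy
    have z0 : z ≠ 0 := by rintro rfl; simpa using Hz.h_ef
    obtain ⟨y, a2⟩ := h.block hN hk.1 v0 hv a1 z z0 Hz.h_ee
    have a3 : ∀ u, ∃ u', k.1 (t z u) = t z u + t v u' := fun u => by
      obtain ⟨_, ⟨p, rfl⟩, q, hq, e⟩ := Submodule.mem_sup.1 (hk.2.2 (t z u))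
      have a4 : c v (k.1 (t z u)) = 0 := h.ndU.eq_zero' fun u' => by
        obtain ⟨u'', hu⟩ := mem_UX.1 (a1.ge ⟨u', rfl⟩)
        rw [← h.hh, ← hu, isom_h, h.tt, b1, zero_mul]
      have a5 := congrArg (c v) e
      simp only [map_add, map_sub, h.ct, hv, a4, b1, zero_smul, zero_add, sub_zero] at a5
      obtain ⟨q, rfl⟩ := i2 q hq (by simpa [ea, a5])
      exact ⟨p + q, by rw [map_add, e, add_sub_cancel]⟩
    choose f hf using h.fixC hN z0 Hz.h_ee hk.1 (z' := z + (B.h v' y / B.h z' y) • v) fun u => by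
      obtain ⟨u', e⟩ := a3 u
      obtain ⟨α, hα⟩ := a2.le (UX_self u)
      have c1 := congrArg (c z') (hα.trans e)
      have c2 := congrArg (c v') (hα.trans e)
      simp only [map_add, h.ct, uone Hz.h_ef, uone Hy.h_ef, b2, B.h_swap_zero b3, zero_smul, one_smul,
        add_zero, zero_add] at c1 c2
      by_cases c3 : B.h z' y = 0
      · simp [← c1, c3]
      rw [e, ← c2, map_add, map_smul t, LinearMap.add_apply, LinearMap.smul_apply, ← map_smul (t v) (_ / _),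
        ← c1, smul_smul, div_mul_cancel₀ _ c3]
    have a4 : ∀ y, f y - y ∈ F ∙ v := fun y => by_contra fun m => hY (h.two_dim hN hg w0 hw
      (h.rk1 v0).le v0 m (fun u => Submodule.mem_sup_left ⟨u, rfl⟩) fun u => by
        simpa [hf] using hk.2.2 (t y u))
    obtain ⟨u, rfl⟩ := hx
    refine h.fix_of (h.lext (f := c v ∘ₗ ((k.1 : V →ₗ[F] V) - .id)) (g := 0) fun y u => ?_) u
    obtain ⟨r, hr⟩ := Submodule.mem_span_singleton.1 (a4 y)
    simp [hf, eq_sub_iff_add_eq.1 hr |>.symm, h.ct, hv]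
  have j2 : ∀ x ∈ (UX t g w).map (s • t v ∘ₗ c v), x ∈ UX t g w → x = 0 := by
    rintro _ ⟨y, hy, rfl⟩ e
    obtain ⟨u, rfl⟩ := i2 y hy (by simpa [ea] using add_mem hy e)
    simp [h.ct, hv]
  have j1 : ∀ x ∈ (UX t g w).map (s • t v ∘ₗ c v), x ∈ LinearMap.range (t v) := by
    rintro _ ⟨y, -, rfl⟩; exact ⟨s • c v y, by simp⟩
  obtain ⟨x, hx, k, hk, k1, k2⟩ := udk (H := G) h2 (X := (UX t g w).map (s • t v ∘ₗ c v))
    (n := s • t v ∘ₗ c v) (m := s • umm t c g w) (g := a) (k := b)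
    (fun e => hY ⟨v, Submodule.eq_of_le_of_finrank_eq (fun y hy => i2 y hy (by
      rwa [ea, show s • t v (c v y) = 0 from e.le ⟨y, hy, rfl⟩, add_zero])) (by rw [h.rk w0, h.rk1 v0])⟩)
    (by rintro _ ⟨y, -, rfl⟩; simp [h.ct, hv]) (fun x => by simp [h.mm0 hw (umm_mem x)])
    (fun x _ => ⟨_, Submodule.smul_mem _ s (umm_mem x), rfl⟩)
    (fun x hx e => j2 x hx (i1 x (j1 x hx) (eb x ▸ add_mem (j1 x hx) (i2 _
      (Submodule.smul_mem _ s (umm_mem x)) (by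
        rw [ea, show s • t v (c v (s • umm t c g w x)) = 0 from e, add_zero]; exact Submodule.smul_mem _ s (umm_mem x))))))
    ⟨ha, by rintro _ ⟨⟨u, rfl⟩, -⟩; simp [ea, h.ct, hv],
      fun x => Submodule.mem_sup_left ⟨s • c v x, by simp [ea]⟩⟩
    ⟨hb, fun y hy => by simp [eb, h.mm0 hw hy.2],
      fun x => Submodule.mem_sup_right (by simpa [eb] using Submodule.smul_mem _ s (umm_mem x))⟩ ea eb
  exact k2 (key k hk x (j1 x hx) (fun e => k2 (by simp [j2 x hx e])) (j1 _ k1))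

theorem odd (h2 : (2 : F) ≠ 0) (hg : g ∈ H) (w0 : w ≠ 0) (hw : B.h w w = 0) :
    ∃ y, UX t g w = LinearMap.range (t y) := by
  refine h.core hN h2 (Nat.decreasingInduction' (P := UMx B t H) (fun d _ _ hM => ?_)
    (Nat.zero_le (finrank F V)) fun _ _ _ _ _ _ _ _ _ _ hd => (hd.not_ge (Submodule.finrank_le _)).elim)
    w0 hw hg w0 hw (Nat.zero_le _)
  intro g hg k hk v w v0 hv w0 hw hd
  have e : ∀ z, UX t g z = (UX t (k⁻¹ * g) z).map (k.1 : V →ₗ[F] V) := fun z => by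
    rw [← UX_mul, mul_inv_cancel_left]
  rw [e, UX.eq_1 t k, ← Submodule.map_inf _ k.1.injective, LinearEquiv.finrank_map_eq, inf_comm] at hd
  obtain ⟨y, e1⟩ := h.core hN h2 hM w0 hw (H.mul_mem (H.inv_mem hk) hg) v0 hv hd
  obtain ⟨y0, -⟩ := h.iso_of v0 hv e1
  rw [e1] at hd
  obtain ⟨_, ⟨⟨u, rfl⟩, u', e2⟩, hz⟩ := Submodule.exists_mem_ne_zero_of_ne_bot
    (p := LinearMap.range (t w) ⊓ LinearMap.range (t y)) fun e => by rw [e, finrank_bot] at hd; omega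
  obtain ⟨a, rfl⟩ := Submodule.mem_span_singleton.1 (by_contra fun m : y ∉ F ∙ w => by
    obtain ⟨r, r1, r2⟩ := usep h.ndW m
    have := congrArg (c r) e2
    simp only [h.ct, r2, r1, one_smul, zero_smul] at this
    simp [← e2, this] at hz)
  rw [e, e1, UX.eq_1 t k, Submodule.eq_of_le_of_finrank_eq (S₁ := LinearMap.range (t (a • w)))
    (S₂ := LinearMap.range (t w))
    (by rintro _ ⟨w, rfl⟩; exact ⟨a • w, by simp⟩) (by rw [h.rk1 y0, h.rk1 w0])]

omit hN in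
theorem dich (hq : (∃ s : F, σ s = s ∧ s ≠ 0 ∧ s ≠ 1) ∨ 3 ≤ finrank F U) :
    S.E ≤ H ∨ ∀ g ∈ H, ∀ M : V →ₗ[F] V, (∀ w u, ∃ u', M (t w u) = t w u') →
      ∀ w u, ∃ u', g.1 (M (g⁻¹.1 (t w u))) = t w u' :=
  (h.nl_or hq).imp_right fun hN g hg M hM w u => by
    obtain ⟨μ, hμ⟩ := h.pure_all (M := (g.1 : V →ₗ[F] V) ∘ₗ M ∘ₗ (g⁻¹.1 : V →ₗ[F] V)) fun y y0 yy u => by
      obtain ⟨y', e⟩ : ∃ y', UX t g⁻¹ y = LinearMap.range (t y') := by
        by_cases h2 : (2 : F) = 0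
        exacts [h.even hN h2 (H.inv_mem hg) y0 yy, h.odd hN h2 (H.inv_mem hg) y0 yy]
      obtain ⟨a, ha⟩ := e.le (UX_self u)
      obtain ⟨b, hb⟩ := hM y' a
      obtain ⟨u', hu⟩ := mem_UX.1 (e.ge ⟨b, rfl⟩)
      exact ⟨u', by simp only [LinearMap.comp_apply, LinearEquiv.coe_coe, ← ha, hb, ← hu, isom_apply_inv_self]⟩
    exact ⟨_, hμ w u⟩

end TU

open Matrix Cfsg.Geo
open scoped Kronecker

theorem susu_max {F : Type*} [Field F] [Fintype F] {n q : ℕ} (hF : Fintype.card F = q ^ 2)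
    {a b : ℕ} (ha : 2 ≤ a) (hab : a < b) (hb : 5 ≤ b) (hex : ¬ (a = 2 ∧ q = 2)) (e : Fin n ≃ Fin a × Fin b)
    (P : GL (Fin n) F) {f₁ : (Fin a → F) → (Fin a → F) → F} {f₂ : (Fin b → F) → (Fin b → F) → F}
    (hf₁ : IsUnitaryFormPow q f₁) (hf₂ : IsUnitaryFormPow q f₂)
    (hT : IsTensorFormStructure (fun x : F => x ^ q) (Cfsg.hermForm n F q) f₁ f₂ e P) :
    IsMaximalIn (Cfsg.GU n F q ⊓ specialLinear (Fin n) F)
      (tensorProductSubgroup a b e P ⊓ (Cfsg.GU n F q ⊓ specialLinear (Fin n) F)) := by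
  obtain ⟨σ, hq, hσ, hne⟩ := H11.exists_frob hF
  have hc : n = a * b := by simpa using Fintype.card_congr e
  have hn : 10 ≤ n := by nlinarith
  haveI : Nonempty (Fin a) := ⟨⟨0, by omega⟩⟩
  haveI : Nonempty (Fin b) := ⟨⟨0, by omega⟩⟩
  have h1 : ¬ Cfsg.GU n F q ⊓ specialLinear (Fin n) F ≤ tensorProductSubgroup a b e P := fun hle =>
    (big_su (hf_one hσ) hne (by simp; omega) (by simp; omega)).not_kr (T := coordT e P) (by omega)
      (by omega) (by nlinarith) fun g hg => kr_self e P g (hle (GU_iso hq n ▸ hg))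
  rw [su_eq hσ hne hq (by omega)] at h1 ⊢
  have hS := stdUnit_nondeg hσ hne (Fin n)
  obtain ⟨G₁, rfl, g1⟩ := hf_of_unitPow hq hσ hf₁
  obtain ⟨G₂, rfl, g2⟩ := hf_of_unitPow hq hσ hf₂
  obtain ⟨s, s0, hs⟩ := hT
  rw [gram_fm, gram_fm, ← funext hq] at hs
  set S := stdUnit hσ hne (Fin n)
  set T := coordT e P
  let B := unitS hσ hne _ g2.sesq_symm
  have hB : B.Nondeg := fun x hx => g2.right hx
  let t : (Fin b → F) →ₗ[F] (Fin a → F) →ₗ[F] (Fin n → F) := tp.compr₂ T.toLinearMap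
  have ht : ∀ w u, t w u = T (tp w u) := fun _ _ => rfl
  have b0 : ∀ w u w' u', S.h (t w u) (t w' u') = s * (fm σ G₁ u' u * B.h w w') := fun w u w' u' =>
    (stdUnit_h_eq hσ hne hq _ _ _).trans ((hs (tp w' u') (tp w u)).trans
      (congrArg _ (fm_kron _ _ u' u w' w)))
  have hs' : s * 1 = 1 * σ s := by
    obtain ⟨u, hu⟩ := Nondeg.unit_exists_norm hne (S := unitS hσ hne _ g1.sesq_symm)
      (fun x hx => g1.right hx) (map_one σ)
    obtain ⟨w, hw⟩ := hB.unit_exists_norm hne (map_one σ)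
    have := S.unit_h_self_fixed (t w u)
    rw [b0, hw, show fm σ G₁ u u = 1 from hu] at this
    simpa using this.symm
  let A := unitS hσ hne _ (g1.smul s0 hs').sesq_symm
  have hA : A.Nondeg := fun x hx => (g1.smul s0 hs').right hx
  let c : (Fin b → F) →ₛₗ[σ] (Fin n → F) →ₗ[F] (Fin a → F) :=
    (ct ∘ₛₗ B.h).compl₂ T.symm.toLinearMap
  have b1 : ∀ z w u, c z (t w u) = B.h z w • u := fun z w u => by simp [c, ht]
  have b2 : ∀ M : AddSubgroup (Fin n → F), (∀ w u, t w u ∈ M) → ∀ x, x ∈ M := fun M hM x => by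
    obtain ⟨x, rfl⟩ := T.surjective x
    rw [← Finset.univ_sum_single x, map_sum]
    refine sum_mem fun p _ => ?_
    have := hM (Pi.single p.2 1) (x p • Pi.single p.1 1)
    rwa [ht, map_smul, tp_single, ← Pi.single_smul, smul_eq_mul, mul_one] at this
  have b3 : ∀ w u w' u', S.h (t w u) (t w' u') = A.h u u' * B.h w w' := fun w u w' u' => by
    rw [b0, ← mul_assoc, ← fm_smul]; rfl
  have b4 : ∀ w u x, S.h (t w u) x = A.h u (c w x) := fun w u x => sub_eq_zero.1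
    (b2 (S.h (t w u) - A.h u ∘ₗ c w).toAddMonoidHom.ker (fun w' u' => by simp [b1, b3, mul_comm]) x)
  refine isMaximalIn_of_not_le _ h1 fun H hH => ?_
  have key : ∀ γ ∈ A.E, ∀ ρ ∈ B.E, ∃ g ∈ H, ∀ w u, g.1 (t w u) = t (ρ.1 w) (γ.1 u) := by
    intro γ hγ ρ hρ
    let g := glEquiv (ΦU T (kronU (toGL A γ) (toGL B ρ)))
    have a3 : ∀ w u, g (t w u) = t (ρ.1 w) (γ.1 u) := fun w u =>
      (Φ_mulVec _ _ _).trans (congrArg _ ((kron_mulVec_tp _ _ _ _).trans (by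
        rw [toGL_mulVec, toGL_mulVec])))
    let k : S.Isom := ⟨g, unit_isIsom fun x y => sub_eq_zero.1
      (b2 (S.h (g x) ∘ₗ g.toLinearMap - S.h x).toAddMonoidHom.ker (fun w' u' => b2
        (S.h.flip (g (t w' u')) ∘ₛₗ g.toLinearMap - S.h.flip (t w' u')).toAddMonoidHom.ker (fun y x => by
          change S.h (g _) (g _) - S.h _ _ = 0
          rw [a3, a3, b3, b3, isom_h, isom_h, sub_self]) x) y)⟩
    have ek : toGL S k = ΦU T (kronU (toGL A γ) (toGL B ρ)) :=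
      Units.ext (ext_mulVec fun x => toGL_mulVec _ _ _)
    refine ⟨k, hH k ((u_memE hne hS (by simp; omega) k).2 ?_) (mem_tensorProductSubgroup.2
      ⟨_, _, congrArg Units.val ek⟩), a3⟩
    rw [u_memE hne hA (by simpa), ← det_toGL] at hγ
    rw [u_memE hne hB (by simp; omega), ← det_toGL] at hρ
    rw [← det_toGL, ek]
    exact (det_Φ _ _).trans ((det_kronecker _ _).trans (by
      rw [show (toGL A γ).1.det = 1 from hγ, show (toGL B ρ).1.det = 1 from hρ]; simp))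
  refine (TU.dich (A := A) (B := B) (t := t) (c := c) ⟨hne, hS, hA, hB, b1, b2, b4,
    fun ρ hρ => key 1 (one_mem _) ρ hρ, fun γ hγ => key γ hγ 1 (one_mem _), by simpa, by simpa,
    by simpa⟩ ?_).imp_right fun h => Kr.le ?_
  · by_cases h : a = 2
    · have hF' : Nat.card F = q ^ 2 := by rw [Nat.card_eq_fintype_card, hF]
      exact .inl (exists_fixed_ne hσ hne hF' (by have := two_le_of_card_sq hF'; omega))
    · exact .inr (by simp; omega)
  rintro _ ⟨k, hk, rfl⟩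
  obtain ⟨g, eg⟩ := (ΦU T).surjective (toGL S k)
  have c0 : ∀ x, T (g.1 *ᵥ x) = k.1 (T x) := fun x => by rw [← Φ_mulVec, ← coe_ΦU, eg, toGL_mulVec]
  have c1 : ∀ x, T ((g⁻¹ : GL _ F).1 *ᵥ x) = k⁻¹.1 (T x) := fun x => by
    rw [← Φ_mulVec, ← coe_ΦU, map_inv, eg, ← map_inv, toGL_mulVec]
  obtain ⟨α, β, e⟩ := nml_kron (g := g) fun X => eq_kron_of_pure fun w u => by
    obtain ⟨u', h3⟩ := h k hk (T.toLinearMap ∘ₗ (X ⊗ₖ (1 : Matrix _ _ F)).mulVecLin ∘ₗ T.symm.toLinearMap)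
      (fun w u => ⟨X *ᵥ u, by simp [ht, kron_mulVec_tp]⟩) w u
    refine ⟨u', T.injective ?_⟩
    rw [← ht, ← h3, ← mulVec_inv_mulVec g (tp w u), cjA_mulVec, c0, ht, ← c1]
    simp
  exact ⟨α, β, eg ▸ congrArg _ (Units.ext e)⟩

end H29
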