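import Cfsg.Agent.H29.UG
import Cfsg.Agent.H29.TI

/-! Orthonormal frames of unitary spaces, part 1: the monomial group `UM`, and overgroups of the
full monomial group (`UF.dich`: monomial, or an Eichler map of small support `URoot`). -/

set_option autoImplicit false
set_option linter.unusedSectionVars false

namespace H29

open Module H11 H11.PForm Finset

universe u
variable {F : Type*} [Field F] [Finite F] {σ : F →+* F} {hσ : ∀ a, σ (σ a) = a} {V : Type u}
  [AddCommGroup V] [Module F V] [FiniteDimensional F V] {S : PForm (unitP σ hσ) V}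
  {H K : Subgroup S.Isom} {ι : Type} [Fintype ι] [DecidableEq ι] {e : ι → V}

/-- an orthonormal frame -/
structure UF (S : PForm (unitP σ hσ) V) (e : ι → V) : Prop where
  ne : σ ≠ RingHom.id F
  nd : S.Nondeg
  hh : ∀ i j, S.h (e i) (e j) = if i = j then 1 else 0
  span : ∀ x, (∀ i, S.h (e i) x = 0) → x = 0

/-- unit vectors on the frame lines -/
def UV (σ : F →+* F) (e : ι → V) : Set V := {v | ∃ i, ∃ c : F, σ c * c = 1 ∧ v = c • e i}

theorem UV.smul {v : V} (h : v ∈ UV σ e) {c : F} (hc : σ c * c = 1) : c • v ∈ UV σ e := by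
  obtain ⟨i, d, hd, rfl⟩ := h
  exact ⟨i, c * d, by rw [map_mul]; linear_combination σ c * c * hd + hc, smul_smul ..⟩

theorem UV.self (i : ι) : e i ∈ UV σ e := ⟨i, 1, by simp, by simp⟩

/-- the monomial group -/
def UM (S : PForm (unitP σ hσ) V) (e : ι → V) : Subgroup S.Isom where
  carrier := {g | ∀ v, v ∈ UV σ e ↔ g.1 v ∈ UV σ e}
  mul_mem' {a b} ha hb x := (hb x).trans (ha _)
  one_mem' _ := Iff.rfl
  inv_mem' {a} ha x := by simpa using (ha ((a⁻¹).1 x)).symm

theorem mem_UM {g : S.Isom} (h : ∀ i, g.1 (e i) ∈ UV σ e) : g ∈ UM S e := by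
  haveI := Module.finite_of_finite F (M := V)
  have h1 : Set.MapsTo g.1 (UV σ e) (UV σ e) := by
    rintro _ ⟨i, c, hc, rfl⟩
    simpa using UV.smul (h i) hc
  have h2 := (Set.Finite.injOn_iff_bijOn_of_mapsTo (Set.toFinite _) h1).1 g.1.injective.injOn
  refine fun v => ⟨fun a => h1 a, fun a => ?_⟩
  obtain ⟨w, hw, e'⟩ := h2.surjOn a
  rwa [← g.1.injective e']

theorem UM.uv {g : S.Isom} (h : g ∈ UM S e) (i : ι) : ∃ j, ∃ c : F, σ c * c = 1 ∧ g.1 (e i) = c • e j :=
  (h _).1 (UV.self i)

/-- coordinate subspaces -/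
def UJ (S : PForm (unitP σ hσ) V) (e : ι → V) (J : Finset ι) : Submodule F V where
  carrier := {x | ∀ i ∉ J, S.h (e i) x = 0}
  add_mem' ha hb j hj := by simp [ha j hj, hb j hj]
  zero_mem' _ _ := by simp
  smul_mem' c x hx j hj := by simp [hx j hj]

variable (S) in
/-- the transposition of two frame vectors -/
noncomputable def usw (e : ι → V) (i j : ι) : S.Isom := S.qrefl (e i - e j) 1

/-- an Eichler map with a centre of small support -/
def URoot (K : Subgroup S.Isom) (e : ι → V) : Prop :=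
  ∃ s, ∃ hs : S.Sing s, ∃ y ∈ BSet K hs, ∃ I : Finset ι, s ≠ 0 ∧ I.card ≤ 4 ∧ s ∈ UJ S e I ∧
    ∃ i ∉ I, S.h (e i) y ≠ 0

/-- unit vectors whose quasi-reflections lie in `K` -/
def URC (K : Subgroup S.Isom) (v : V) : Prop := S.h v v = 1 ∧ ∀ c, σ c * c = 1 → ur S v c ∈ K

theorem URC.map {v : V} (h : URC K v) {g : S.Isom} (hg : g ∈ K) : URC K (g.1 v) :=
  ⟨by simpa using h.1, fun c hc => conj_ur g v c ▸ mul_mem (mul_mem hg (h.2 c hc)) (inv_mem hg)⟩

namespace UF
variable (f : UF S e)
include f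

theorem h1 (i : ι) : S.h (e i) (e i) = 1 := by simp [f.hh]

theorem ext {x y : V} (h : ∀ i, S.h (e i) x = S.h (e i) y) : x = y :=
  sub_eq_zero.1 (f.span _ fun i => by simp [h])

theorem expand (x : V) : x = ∑ i, S.h (e i) x • e i := f.ext fun j => by simp [f.hh]

theorem ext' {g g' : S.Isom} (hg : ∀ i, g.1 (e i) = g'.1 (e i)) : g = g' := isom_ext fun x => by
  rw [f.expand x]; simp [hg]

theorem lin {φ : V →ₗ[F] F} (h : ∀ i, φ (e i) = 0) (x : V) : φ x = 0 := by
  rw [f.expand x]; simp [h]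

theorem co {c : F} (hc : σ c * c = 1) (i l : ι) (x : V) :
    S.h (e l) ((ur S (e i) c).1 x) = if l = i then c * S.h (e l) x else S.h (e l) x := by
  rw [ur_apply (f.h1 i) hc]
  split_ifs with a <;> simp [f.hh, a]
  ring

theorem ur_e {c : F} (hc : σ c * c = 1) (i l : ι) :
    (ur S (e i) c).1 (e l) = if l = i then c • e l else e l := by
  rw [ur_apply (f.h1 i) hc]
  split_ifs with a
  · simp [a, f.h1, sub_smul]
  · simp [f.hh, Ne.symm a]

theorem ur_um {c : F} (hc : σ c * c = 1) (i : ι) : ur S (e i) c ∈ UM S e := mem_UM fun l => by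
  rw [f.ur_e hc]; split_ifs; exacts [UV.smul (UV.self l) hc, UV.self l]

theorem sw_cond {i j : ι} (ij : i ≠ j) : S.QCond (e i - e j) 1 :=
  ⟨one_ne_zero, (S.unit_congr_iff _ _).2 (by simp [f.hh, ij, ij.symm])⟩

theorem sw_apply {i j : ι} (ij : i ≠ j) (x : V) :
    (usw S e i j).1 x = x - (S.h (e i) x - S.h (e j) x) • (e i - e j) := by
  simp [usw, qrefl_apply (f.sw_cond ij)]

theorem sw_e {i j : ι} (ij : i ≠ j) (l : ι) : (usw S e i j).1 (e l) = e (Equiv.swap i j l) := by
  rw [f.sw_apply ij, Equiv.swap_apply_def]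
  split_ifs <;> simp_all [f.hh, eq_comm]

theorem sw_um {i j : ι} (ij : i ≠ j) : usw S e i j ∈ UM S e := mem_UM fun l => f.sw_e ij l ▸ UV.self _

theorem sw_det {i j : ι} (ij : i ≠ j) : (S.detHom (usw S e i j) : F) = -1 := by
  simp [usw, det_qrefl (f.sw_cond ij)]

theorem uv {v : V} (hv : S.h v v = 1) {k : ι} (h : ∀ l, l ≠ k → S.h (e l) v = 0) : v ∈ UV σ e := by
  have e1 : v = S.h (e k) v • e k := f.ext fun l => by
    by_cases a : l = k <;> simp [f.hh, a, h]
  refine ⟨k, _, ?_, e1⟩
  rw [e1] at hv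
  simpa [f.h1, mul_comm] using hv

theorem root_of {v s : V} (h1 : URC K v) (h2 : URC K (v + s)) (vs : S.h v s = 0) (s0 : s ≠ 0)
    {I : Finset ι} (hI : I.card ≤ 4) (sI : s ∈ UJ S e I) {i : ι} (hi : i ∉ I) (vi : S.h (e i) v ≠ 0) :
    URoot K e := by
  obtain ⟨c, c1, c2⟩ := ex_norm1 hσ f.ne
  have ss : S.Sing s := (S.unit_sing s).2 (by simpa [h1.1, vs, S.h_swap_zero vs] using h2.1)
  exact ⟨s, ss, _, ur_root h1.1 c1 ss (S.h_swap_zero vs) (mul_mem (h2.2 c c1) (inv_mem (h1.2 c c1))),
    I, s0, hI, sI, i, hi, by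
      simpa [vi, sub_eq_zero] using fun e => c2 (by simp [e])⟩

theorem dich (h5 : 5 ≤ Fintype.card ι) (hr : ∀ i c, σ c * c = 1 → ur S (e i) c ∈ K)
    (hs : ∀ i j, i ≠ j → usw S e i j ∈ K) (hn : ¬ URoot K e) {g : S.Isom} (hg : g ∈ K) (i : ι) :
    g.1 (e i) ∈ UV σ e := by
  classical
  have R : ∀ i, URC K (e i) := fun i => ⟨f.h1 i, hr i⟩
  let sp : V → Finset ι := fun v => univ.filter fun i => S.h (e i) v ≠ 0
  have A : ∀ d v, URC K v → 2 ≤ (sp v).card → 5 ≤ (sp v).card + d → False := by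
    intro d
    induction d with
    | zero =>
      intro v hv _ h5
      obtain ⟨L, hL⟩ : ∃ L : Fin 5 → sp v, Function.Injective L :=
        ⟨_, (Function.Embedding.nonempty_of_card_le (α := Fin 5) (β := sp v) (by simpa)).some.injective⟩
      have n : ∀ a b, a ≠ b → (L a : ι) ≠ L b := fun a b hab e' => hab (hL (Subtype.ext e'))
      have p : ∀ a, S.h (e (L a)) v ≠ 0 := fun a => (mem_filter.1 (L a).2).2
      obtain ⟨x, x1, x2, x3⟩ := circ4 hσ f.ne
        (a := fun i => σ (S.h (e (L i.castSucc)) v) * S.h (e (L i.castSucc)) v)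
        (fun i => by simp [p]) (fun i => by simp [hσ, mul_comm])
        (∑ i : Fin 4, σ (S.h (e (L i.castSucc)) v) * S.h (e (L i.castSucc)) v)
        (σ (S.h (e (L 0)) v) * S.h (e (L 0)) v + σ (S.h (e (L 1)) v) * S.h (e (L 1)) v)
      have m := (((hv.map (hr (L 3) _ (x1 3))).map (hr (L 2) _ (x1 2))).map (hr (L 1) _ (x1 1))).map
        (hr (L 0) _ (x1 0))
      generalize hw : (ur S _ _).1 _ = w at m
      have c : ∀ l, S.h (e l) w = _ := fun l => by
        rw [← hw, f.co (x1 0), f.co (x1 1), f.co (x1 2), f.co (x1 3)]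
      refine hn (f.root_of hv (s := w - v) (by simpa) ?_ (fun e' => x3 ?_) (I := {(L 0 : ι), ↑(L 1),
        ↑(L 2), ↑(L 3)}) card_le_four (fun l hl => ?_) (by simp [n]) (p 4))
      · simp [Fin.sum_univ_four] at x2
        simp [← hw, ur_apply (f.h1 _) (x1 _), f.hh, n, S.unit_symm (e _) v]
        linear_combination x2
      · have a0 := c (L 0)
        have a1 := c (L 1)
        simp [n, sub_eq_zero.1 e', p] at a0 a1
        simp [a0, a1]
      · simp only [mem_insert, mem_singleton, not_or] at hl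
        simp [c, hl]
    | succ d ih =>
      intro v hv h2 h5'
      by_cases h6 : 5 ≤ (sp v).card + d
      · exact ih v hv h2 h6
      obtain ⟨j, hj, k, hk, jk⟩ := one_lt_card.1 h2
      have vj := (mem_filter.1 hj).2
      by_cases a : σ (S.h (e j) v) * S.h (e j) v = 1
      · refine hn (f.root_of (v := S.h (e j) v • e j) (s := v - S.h (e j) v • e j)
          ⟨by simpa [f.h1, mul_comm] using a, fun c hc => by rw [ur_smul (f.h1 j) hc a]; exact hr j c hc⟩
          (by simpa) (by simp [f.h1]) (fun e' => (mem_filter.1 hk).2 (by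
            rw [sub_eq_zero.1 e']; simp [f.hh, jk.symm])) (I := (sp v).erase j)
          (card_erase_le.trans (by omega)) (fun l hl => ?_) (notMem_erase _ _) (by simpa [f.h1]))
        by_cases b : l = j
        · simp [b, f.h1]
        · simpa [f.hh, b, sp] using hl
      obtain ⟨l, -, hl⟩ := exists_mem_notMem_of_card_lt_card (s := sp v) (t := univ)
        (by rw [card_univ]; omega)
      have vl : S.h (e l) v = 0 := by simpa [sp] using hl
      have jl : j ≠ l := by rintro rfl; exact vj vl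
      obtain ⟨c, c1, c2⟩ := ex_norm1 hσ f.ne
      have c3 : 1 - c ≠ 0 := fun e => c2 (by simp [← sub_eq_zero.1 e])
      have a' : 1 - σ (S.h (e j) v) * S.h (e j) v ≠ 0 := sub_ne_zero.2 (Ne.symm a)
      have c4 : 1 - (1 - c) * (1 - σ (S.h (e j) v) * S.h (e j) v) ≠ 0 := fun e => c2 (by
        have := congrArg σ e
        simp only [map_sub, map_mul, map_one, hσ, map_zero] at this
        exact mul_left_cancel₀ a' (by linear_combination this - e))
      have m := (hv.map (hs j l jl)).map (hv.2 c c1)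
      have := card_le_card (show insert l (sp v) ⊆ sp ((ur S v c).1 ((usw S e j l).1 v)) from
        fun n hn => by
          simp only [sp, mem_filter, mem_univ, true_and, mem_insert] at hn ⊢
          have e1 : S.h v ((usw S e j l).1 v) = 1 - σ (S.h (e j) v) * S.h (e j) v := by
            simp [f.sw_apply jl, vl, hv.1, S.unit_symm (e _) v, mul_comm]
          rw [ur_apply hv.1 c1, e1, f.sw_apply jl]
          rcases hn with rfl | hn
          · simp [f.hh, jl.symm, vl, vj]
          have nl : n ≠ l := by rintro rfl; exact hn vl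
          by_cases b : n = j
          · simp [b, f.hh, jl, vl, vj, c3, a']
          · simpa [f.hh, b, nl, ← one_sub_mul] using ⟨c4, hn⟩)
      rw [card_insert_of_notMem hl] at this
      exact ih _ m (by omega) (by omega)
  have hv := (R i).map hg
  obtain ⟨k, hk⟩ := not_forall.1 (mt (f.span (g.1 (e i))) fun a => by simpa [a] using hv.1)
  refine f.uv hv.1 (k := k) fun l hl => by_contra fun a => A 5 _ hv (one_lt_card.2 ⟨l, by simpa [sp], k,
    by simpa [sp], hl⟩) (by omega)

end UF

end H29
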